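import Cfsg.Agent.Lib.BG.Max

/-!
# Local analysis relative to a union `DD G` of odd components of the prime graph (project S3823)

The namespace `Cfsg.Lib.BG.Z` shadows the vocabulary of `Cfsg.Lib.BG` and of the Prelude.  See `docs/ZB.md`.
`Loc H` replaces `H ≠ ⊤`, `Mx M` replaces `IsCoatom M`, `Sz G` replaces `MinOdd G`.
-/

set_option autoImplicit false
set_option linter.unusedSectionVars false
set_option linter.unusedVariables false
set_option linter.style.haveILetI false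

namespace Cfsg.Lib.BG.Z

open Subgroup
open scoped Cfsg.Lib.Transfer

/-- Adjacency in the prime graph. -/
def Adj (G : Type*) [Group G] (p q : ℕ) : Prop :=
  p.Prime ∧ q.Prime ∧ p ≠ q ∧ ∃ x y : G, orderOf x = p ∧ orderOf y = q ∧ Commute x y

/-- The primes dividing `|G|` in whose component of the prime graph there is neither `2` nor a prime `q` such that
an involution normalizes a nontrivial `q`-subgroup. -/
def DD (G : Type*) [Group G] : Set ℕ :=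
  {p | p.Prime ∧ p ∣ Nat.card G ∧ ∀ q : ℕ, Relation.ReflTransGen (Adj G) p q → q ≠ 2 ∧
    ∀ (Q : Subgroup G) (t : G), IsPGroup q Q → Q ≠ ⊥ → t ∈ 𝐍(Q) → orderOf t ≠ 2}

variable {G : Type*} [Group G]

/-- `H` normalizes a nontrivial `DD G`-subgroup (replaces `H ≠ ⊤`). -/
def Loc (H : Subgroup G) : Prop := ∃ X : Subgroup G, X ≠ ⊥ ∧ PiGrp (DD G) X ∧ H ≤ 𝐍(X)

/-- `M` is maximal among the subgroups satisfying `Loc` (replaces `IsCoatom M`). -/
def Mx (M : Subgroup G) : Prop := Loc M ∧ ∀ L : Subgroup G, M < L → ¬ Loc L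

/-- The standing hypothesis. -/
class Sz (G : Type*) [Group G] : Prop where
  fin : Finite G
  simple : IsSimpleGroup G
  nonab : ¬ IsMulCommutative G
  ft : ∀ H : Subgroup G, Odd (Nat.card H) → Group.IsSolvable H

def sigma (M : Subgroup G) : Set ℕ :=
  {p | p.Prime ∧ p ∣ Nat.card M ∧
    ∃ P : Sylow p M, Subgroup.normalizer (((P : Subgroup M).map M.subtype : Subgroup G) : Set G) ≤ M ∧ p ∈ DD G}

def sigmaCore (M : Subgroup G) : Subgroup G := (piCore (sigma M) M).map M.subtype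

def kappa (M : Subgroup G) : Set ℕ :=
  {p | p.Prime ∧ p ∣ Nat.card M ∧ p ∉ sigma M ∧
    ∀ P : Sylow p M, IsCyclic P ∧
      ∃ x : M, x ∈ (P : Subgroup M) ∧ x ≠ 1 ∧ ∃ y ∈ sigmaCore M, y ≠ 1 ∧ (x : G) * y = y * x}

structure IsSigmaDecomposition (M K U : Subgroup G) : Prop where
  cyclic : IsCyclic K
  hall : IsPiHallOf (kappa M) K M
  compl : IsComplIn U (K ⊔ sigmaCore M) M
  normal : K ≤ Subgroup.normalizer (U : Set G)

def sigmaHat (M : Subgroup G) : Set G := {a | a ∈ M ∧ ∃ y ∈ sigmaCore M, y ≠ 1 ∧ a * y = y * a}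

def sigmaA (M U : Subgroup G) : Set G := sigmaHat M ∩ (↑(U ⊔ sigmaCore M) : Set G)

def sigmaA0 (M K : Subgroup G) : Set G := sigmaHat M \ {a | ∃ k ∈ K, k ≠ 1 ∧ ∃ m ∈ M, a = m * k * m⁻¹}

def IsOfTypeII (M : Subgroup G) : Prop :=
  ∃ W₁ U W₂ : Subgroup G, IsTypePWith M W₁ U W₂ ∧ U ≠ ⊥ ∧ (Nat.card W₁).Prime ∧
    IsTISubset (fittingOf M : Set G) ∧ IsMulCommutative U ∧
    ¬ (Subgroup.normalizer (U : Set G) ≤ M ∧ PiGrp (DD G) U) ∧
    IsOfTypeF ↥⁅M, M⁆ ∧ fittingHallOf ⁅M, M⁆ = fittingHallOf M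

def IsOfTypeIII (M : Subgroup G) : Prop :=
  ∃ W₁ U W₂ : Subgroup G, IsTypePWith M W₁ U W₂ ∧ U ≠ ⊥ ∧ (Nat.card W₁).Prime ∧
    IsTISubset (fittingOf M : Set G) ∧ IsMulCommutative U ∧ Subgroup.normalizer (U : Set G) ≤ M ∧ PiGrp (DD G) U

def IsOfTypeIV (M : Subgroup G) : Prop :=
  ∃ W₁ U W₂ : Subgroup G, IsTypePWith M W₁ U W₂ ∧ U ≠ ⊥ ∧ (Nat.card W₁).Prime ∧
    IsTISubset (fittingOf M : Set G) ∧ ¬ IsMulCommutative U ∧ Subgroup.normalizer (U : Set G) ≤ M ∧ PiGrp (DD G) U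

open scoped Classical in
noncomputable def typeCore (M : Subgroup G) : Subgroup G :=
  if IsOfTypeIII M ∨ IsOfTypeIV M then ⁅M, M⁆ else fittingHallOf M

noncomputable def typeA1 (M : Subgroup G) : Set G := (↑(typeCore M) : Set G) \ {1}

open scoped Classical in
noncomputable def supportR (M : Subgroup G) (x : G) : Subgroup G :=
  if h : ¬ Subgroup.centralizer ({x} : Set G) ≤ M ∧
      ∃! L : Subgroup G, Mx L ∧ Subgroup.centralizer ({x} : Set G) ≤ L then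
    fittingHallOf (Classical.choose h.2.exists) ⊓ Subgroup.centralizer ({x} : Set G)
  else ⊥

noncomputable def tildeOf (M : Subgroup G) (A : Set G) : Set G :=
  {g | ∃ a ∈ A, ∃ r ∈ supportR M a, ∃ y : G, g = y * (a * r) * y⁻¹}

def IsIdealPrime (p : ℕ) (G : Type*) [Group G] : Prop :=
  p.Prime ∧ ¬ PRankLE p 2 G ∧
    (∀ (P : Sylow p G) (A : Subgroup G), A ≤ (P : Subgroup G) → IsElementaryAbelian p A → Nat.card A = p ^ 2 →
      ∃ B : Subgroup G, B ≤ (P : Subgroup G) ∧ IsElementaryAbelian p B ∧ A < B) ∧ p ∈ DD G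

def beta (M : Subgroup G) : Set ℕ := {p | p ∈ alpha M ∧ IsIdealPrime p G}

def tau1 (M : Subgroup G) : Set ℕ :=
  {p | p.Prime ∧ p ∉ sigma M ∧ p ∣ Nat.card M ∧ ¬ p ∣ Nat.card ↥⁅M, M⁆ ∧ PRankLE p 1 M}

def tau2 (M : Subgroup G) : Set ℕ := {p | p.Prime ∧ p ∉ sigma M ∧ PRankLE p 2 M ∧ ¬ PRankLE p 1 M}

def tau3 (M : Subgroup G) : Set ℕ := {p | p.Prime ∧ p ∉ sigma M ∧ p ∣ Nat.card ↥⁅M, M⁆ ∧ PRankLE p 1 M}

/-- `A ∈ SCN_n(p)`, for `p ∈ DD G`. -/
def SCNp (n p : ℕ) (A : Subgroup G) : Prop := ∃ P : Subgroup G, Syl p P ⊤ ∧ IsSCN P A ∧ n ≤ rk p A ∧ p ∈ DD G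

structure UniqMax (H M : Subgroup G) : Prop where
  max : Mx M
  le : H ≤ M
  uniq : ∀ L : Subgroup G, Mx L → H ≤ L → L = M

def Uniq (H : Subgroup G) : Prop := ∃ M : Subgroup G, UniqMax H M

def betaCore (M : Subgroup G) : Subgroup G := 𝐎(beta M, M)

structure SigmaCompl (M E E₁ E₂ E₃ : Subgroup G) : Prop where
  hallE : Hall (sigma M)ᶜ E M
  hall₁ : Hall (tau1 M) E₁ E
  hall₂ : Hall (tau2 M) E₂ E
  hall₃ : Hall (tau3 M) E₃ E
  norm₁₂ : E₁ ≤ 𝐍(E₂)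

structure Exceptional (p : ℕ) (M A₀ A : Subgroup G) : Prop where
  max : Mx M
  not_sigma : p ∉ sigma M
  elemA : Elem p 2 A M
  elemA₀ : Elem p 1 A₀ A
  norm : 𝐍(A₀) ≤ M

def TypeF (M : Subgroup G) : Prop := Mx M ∧ kappa M = ∅

def TypeP (M : Subgroup G) : Prop := Mx M ∧ (kappa M).Nonempty

def TypeP1 (M : Subgroup G) : Prop :=
  TypeP M ∧ ∀ p : ℕ, p.Prime → p ∣ Nat.card M → p ∉ sigma M → p ∈ kappa M

def TypeP2 (M : Subgroup G) : Prop := TypeP M ∧ ¬ TypeP1 M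

structure KappaCompl (M U K : Subgroup G) : Prop where
  hallK : Hall (kappa M) K M
  hallU : Hall (sigma M ∪ kappa M)ᶜ U M
  norm : K ≤ 𝐍(U)

def SigMax (x : G) (M : Subgroup G) : Prop := Mx M ∧ x ∈ sigmaCore M

def Ell1 (x : G) : Prop := x ≠ 1 ∧ ∃ M : Subgroup G, SigMax x M

def SigMany (x : G) : Prop := ∃ M L : Subgroup G, M ≠ L ∧ SigMax x M ∧ SigMax x L

open scoped Classical in
noncomputable def sigBase (x : G) : Subgroup G :=
  if h : SigMany x ∧ ∃ N : Subgroup G, Mx N ∧ 𝐂[x] ≤ N then Classical.choose h.2 else ⊥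

noncomputable def sigR (x : G) : Subgroup G := sigmaCore (sigBase x) ⊓ 𝐂[x]

def sigCover (M : Subgroup G) : Set G := {g | ∃ x ∈ sigmaCore M, x ≠ 1 ∧ ∃ r ∈ sigR x, g = x * r}

/-! ### The set `DD G` -/

variable {π : Set ℕ} {p q : ℕ} {A B H K L M N P Q X Y : Subgroup G} {x y g : G}

theorem D_prime (h : p ∈ DD G) : p.Prime := h.1
theorem D_dvd (h : p ∈ DD G) : p ∣ Nat.card G := h.2.1
theorem D_ne_two (h : p ∈ DD G) : p ≠ 2 := (h.2.2 p .refl).1
theorem D_odd (h : PiGrp (DD G) X) : Odd (Nat.card X) :=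
  Nat.not_even_iff_odd.1 fun e => D_ne_two (h.mem Nat.prime_two (even_iff_two_dvd.1 e)) rfl
theorem D_of_adj (h : p ∈ DD G) (hq : Adj G p q) : q ∈ DD G := by
  obtain ⟨-, h2, -, x, y, -, hy, -⟩ := id hq
  exact ⟨h2, hy ▸ orderOf_dvd_natCard y, fun r hr => h.2.2 r (.head hq hr)⟩
theorem D_of_commute (h : p ∈ DD G) (hq : q.Prime) (hx : orderOf x = p) (hy : orderOf y = q) (hc : x * y = y * x) :
    q ∈ DD G := by
  by_cases e : p = q
  · exact e ▸ h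
  · exact D_of_adj h ⟨h.1, hq, e, x, y, hx, hy, hc⟩

theorem Loc.mono (hM : Loc M) (h : H ≤ M) : Loc H := let ⟨X, h1, h2, h3⟩ := hM; ⟨X, h1, h2, h.trans h3⟩
theorem Mx.loc (hM : Mx M) : Loc M := hM.1
theorem Mx.sub (hM : Mx M) (h : H ≤ M) : Loc H := hM.1.mono h
theorem Loc.conj (h : Loc H) (g : G) : Loc (g ⋆ H) :=
  let ⟨X, h1, h2, h3⟩ := h
  ⟨g ⋆ X, Transfer.conj_eq_bot_iff.not.2 h1, h2.conj g, map_norm _ h3⟩
theorem loc_conj_iff (g : G) : Loc (g ⋆ H) ↔ Loc H :=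
  ⟨fun h => by simpa only [Transfer.inv_conj_conj] using h.conj g⁻¹, fun h => h.conj g⟩
theorem loc_norm (h1 : X ≠ ⊥) (h : PiGrp (DD G) X) : Loc 𝐍(X) := ⟨X, h1, h, le_rfl⟩
theorem loc_of_norm (h1 : X ≠ ⊥) (h : PiGrp (DD G) X) (hn : H ≤ 𝐍(X)) : Loc H := ⟨X, h1, h, hn⟩
theorem loc_cent (h1 : X ≠ ⊥) (h : PiGrp (DD G) X) : Loc 𝐂(X) := ⟨X, h1, h, cent_le_norm X⟩
theorem loc_self (h1 : X ≠ ⊥) (h : PiGrp (DD G) X) : Loc X := ⟨X, h1, h, le_norm X⟩
theorem loc_cent1 (h1 : x ≠ 1) (h : PiElt (DD G) x) : Loc 𝐂[x] := by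
  rw [← cent_zpowers]; exact loc_cent (zpowers_ne_bot.2 h1) h.zpowers
theorem Loc.inf_left (h : Loc H) (K : Subgroup G) : Loc (H ⊓ K) := h.mono inf_le_left
theorem Loc.inf_right (h : Loc K) (H : Subgroup G) : Loc (H ⊓ K) := h.mono inf_le_right

variable [Finite G]

theorem loc_norm_of_pcore (h : 𝐎(DD G, X) ≠ ⊥) : Loc 𝐍(X) := ⟨_, h, pcore_pi _ _, norm_pcore le_rfl _⟩
theorem exists_orderOf_prime (hp : p.Prime) (hd : p ∣ Nat.card H) : ∃ x ∈ H, orderOf x = p := by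
  haveI := Fact.mk hp
  obtain ⟨x, hx⟩ := exists_prime_orderOf_dvd_card' (G := H) p hd
  exact ⟨x, x.2, by rw [orderOf_coe, hx]⟩
/-- The centralizer of an element whose order is divisible by a prime of `DD G` is a `DD G`-group. -/
theorem cent1_D_of_dvd (hp : p ∈ DD G) (hd : p ∣ orderOf x) : PiGrp (DD G) 𝐂[x] := fun q hq hqd => by
  obtain ⟨y, hy, hyq⟩ := exists_orderOf_prime hq hqd
  obtain ⟨z, hz, hzp⟩ := exists_orderOf_prime (H := zpowers x) hp.1 (by rwa [Nat.card_zpowers])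
  rw [← cent_zpowers] at hy
  exact D_of_commute hp hq hzp hyq (mem_cent.1 hy z hz)
theorem cent1_D (h1 : x ≠ 1) (h : PiElt (DD G) x) : PiGrp (DD G) 𝐂[x] :=
  let ⟨p, hp, hd⟩ := Nat.exists_prime_and_dvd (orderOf_eq_one_iff.not.2 h1)
  cent1_D_of_dvd (h p hp hd) hd
theorem cent_D_of_dvd (hp : p ∈ DD G) (hd : p ∣ Nat.card X) : PiGrp (DD G) 𝐂(X) :=
  let ⟨_, hx, ho⟩ := exists_orderOf_prime hp.1 hd
  (cent1_D_of_dvd hp ho.symm.dvd).of_le (cent_le_cent1 hx)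
theorem cent_D (h1 : X ≠ ⊥) (h : PiGrp (DD G) X) : PiGrp (DD G) 𝐂(X) :=
  let ⟨p, hp, hd⟩ := Nat.exists_prime_and_dvd (card_ne_one h1)
  cent_D_of_dvd (h p hp hd) hd
theorem D_of_le_cent (h1 : X ≠ ⊥) (h : PiGrp (DD G) X) (hc : Y ≤ 𝐂(X)) : PiGrp (DD G) Y := (cent_D h1 h).of_le hc
theorem D_of_cent_le (h1 : X ≠ ⊥) (h : PiGrp (DD G) X) (hc : X ≤ 𝐂(Y)) : PiGrp (DD G) Y :=
  D_of_le_cent h1 h (cent_symm hc)
/-- A subgroup with a nontrivial fixed point on a `DD G`-group is a `DD G`-group. -/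
theorem D_of_inf_cent (h : PiGrp (DD G) X) (h1 : X ⊓ 𝐂(Y) ≠ ⊥) : PiGrp (DD G) Y :=
  D_of_cent_le h1 (h.of_le inf_le_left) inf_le_right
theorem eltD_of_inf_cent1 (h : PiGrp (DD G) X) (h1 : X ⊓ 𝐂[x] ≠ ⊥) : PiElt (DD G) x :=
  PiElt.zpowers_iff.1 (D_of_inf_cent h (by rwa [cent_zpowers]))
theorem eltD_of_commute (h1 : x ≠ 1) (h : PiElt (DD G) x) (hc : y * x = x * y) : PiElt (DD G) y :=
  (cent1_D h1 h).elt (mem_cent1.2 hc)
/-- An element is a `DD G`-element or a `(DD G)'`-element. -/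
theorem eltD_of_dvd (hp : p ∈ DD G) (hd : p ∣ orderOf x) : PiElt (DD G) x :=
  (cent1_D_of_dvd hp hd).elt (self_mem_cent1 x)
theorem eltD_or (x : G) : PiElt (DD G) x ∨ PiElt (DD G)ᶜ x := by
  by_cases h : PiElt (DD G)ᶜ x
  · exact .inr h
  · obtain ⟨p, hp⟩ := not_forall.1 h
    push Not at hp
    exact .inl (eltD_of_dvd (not_not.1 hp.2.2) hp.2.1)
/-- `(DD G)'`-groups act regularly on `DD G`-groups. -/
theorem D'_cent_eq_bot (h : PiGrp (DD G) X) (hY : PiGrp (DD G)ᶜ Y) (h1 : Y ≠ ⊥) : X ⊓ 𝐂(Y) = ⊥ := by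
  by_contra e; exact h1 ((D_of_inf_cent h e).eq_bot hY)
theorem D'_cent1_eq_bot (h : PiGrp (DD G) X) (hx : PiElt (DD G)ᶜ x) (h1 : x ≠ 1) : X ⊓ 𝐂[x] = ⊥ := by
  by_contra e; exact h1 ((eltD_of_inf_cent1 h e).eq_one hx)
theorem not_D_cent_eq_bot [Fact p.Prime] (h : PiGrp (DD G) X) (hp : p ∉ DD G) (hd : p ∣ Nat.card Y) :
    X ⊓ 𝐂(Y) = ⊥ := by
  by_contra e; exact hp ((D_of_inf_cent h e).mem Fact.out hd)
theorem semiReg_of_D' (h : PiGrp (DD G) X) (hY : PiGrp (DD G)ᶜ Y) : SemiReg X Y :=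
  fun _ hx h1 => D'_cent1_eq_bot h (hY.elt hx) h1
theorem pgroup_D (hP : IsPGroup p P) (hp : p ∈ DD G) : PiGrp (DD G) P :=
  haveI := Fact.mk hp.1; PiGrp.of_pgroup hP hp
theorem elem_D {n : ℕ} (hA : Elem p n A H) (hp : p ∈ DD G) : PiGrp (DD G) A :=
  haveI := Fact.mk hp.1; pgroup_D hA.pgroup hp
theorem syl_D (hP : Syl p P H) (hp : p ∈ DD G) : PiGrp (DD G) P := hP.pi.mono fun _ h => h ▸ hp
theorem p_D (hP : PiGrp {p} P) (hp : p ∈ DD G) : PiGrp (DD G) P := hP.mono fun _ h => h ▸ hp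
theorem pcore_D (hp : p ∈ DD G) (H : Subgroup G) : PiGrp (DD G) 𝐎({p}, H) := p_D (pcore_pi _ _) hp
theorem card_D (h : Nat.card X = p) (hp : p ∈ DD G) : PiGrp (DD G) X := PiGrp.of_card_prime (h ▸ hp.1) (h ▸ hp)
theorem orderOf_D (h : orderOf x = p) (hp : p ∈ DD G) : PiElt (DD G) x := eltD_of_dvd hp h.symm.dvd
theorem mem_D_of_dvd (h : PiGrp (DD G) X) [hp : Fact p.Prime] (hd : p ∣ Nat.card X) : p ∈ DD G := h.mem hp.out hd
theorem mem_D_of_pgroup [Fact p.Prime] (h : PiGrp (DD G) X) (hX : IsPGroup p X) (h1 : X ≠ ⊥) : p ∈ DD G :=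
  h.mem_of_pgroup hX h1
/-- A nilpotent group containing a nontrivial `DD G`-subgroup is a `DD G`-group. -/
theorem nil_D_of_dvd (hn : Group.IsNilpotent N) (hp : p ∈ DD G) (hd : p ∣ Nat.card N) : PiGrp (DD G) N :=
  D_of_inf_cent (pcore_D hp N) (nil_meet_center hn (pcore_le _ _) (pcore_nml _ N).norm
    ((nil_pcore_Hall hn {p}).ne_bot hp.1 hd rfl))
theorem nil_D (hn : Group.IsNilpotent N) (hX : X ≤ N) (h1 : X ≠ ⊥) (h : PiGrp (DD G) X) : PiGrp (DD G) N :=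
  let ⟨p, hp, hd⟩ := Nat.exists_prime_and_dvd (card_ne_one h1)
  nil_D_of_dvd hn (h p hp hd) (hd.trans (card_dvd hX))
theorem nil_D_or (hn : Group.IsNilpotent N) : PiGrp (DD G) N ∨ PiGrp (DD G)ᶜ N := by
  by_cases h : PiGrp (DD G)ᶜ N
  · exact .inr h
  · obtain ⟨p, hp⟩ := not_forall.1 h
    push Not at hp
    exact .inl (nil_D_of_dvd hn (not_not.1 hp.2.2) hp.2.1)
theorem loc_cent_of_dvd (hp : p ∈ DD G) (hd : p ∣ Nat.card X) : Loc 𝐂(X) :=
  let ⟨x, hx, ho⟩ := exists_orderOf_prime hp.1 hd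
  (loc_cent1 (fun e => hp.1.one_lt.ne (by rw [← ho, e, orderOf_one])) (orderOf_D ho hp)).mono (cent_le_cent1 hx)
theorem loc_cent1_of_dvd (hp : p ∈ DD G) (hd : p ∣ orderOf x) : Loc 𝐂[x] := by
  rw [← cent_zpowers]; exact loc_cent_of_dvd hp (by rwa [Nat.card_zpowers])
theorem loc_bot (hp : p ∈ DD G) : Loc (⊥ : Subgroup G) :=
  (loc_cent_of_dvd (X := ⊤) hp (by rw [card_top]; exact hp.2.1)).mono bot_le
theorem loc_pgroup (hP : IsPGroup p P) (hp : p ∈ DD G) : Loc P := by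
  by_cases h1 : P = ⊥
  · exact h1 ▸ loc_bot hp
  · exact loc_self h1 (pgroup_D hP hp)
theorem Loc.of_D (hL : Loc L) (h : PiGrp (DD G) X) : Loc X := by
  by_cases h1 : X = ⊥
  · exact h1 ▸ hL.mono bot_le
  · exact loc_self h1 h
theorem Loc.odd (h : Loc H) : Odd (Nat.card H) := by
  obtain ⟨X, h1, hX, hn⟩ := h
  refine Nat.not_even_iff_odd.1 fun e => ?_
  obtain ⟨t, ht, ho⟩ := exists_orderOf_prime Nat.prime_two (even_iff_two_dvd.1 e)
  obtain ⟨q, hq, hd⟩ := Nat.exists_prime_and_dvd (card_ne_one h1)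
  haveI := Fact.mk hq
  obtain ⟨Q, hQ, hnQ⟩ := Syl.exists_inv q (A := zpowers t) (K := X) ((zpowers_le.2 ht).trans hn)
    (by rw [Nat.card_zpowers, ho]; exact (D_odd hX).coprime_two_left)
    (.inl (abelian_sol inferInstance))
  exact ((hX.mem hq hd).2.2 q .refl).2 Q t hQ.pgroup (hQ.ne_bot' hd) (hnQ (mem_zpowers t)) ho
theorem Loc.ne_two (h : Loc H) (hd : p ∣ Nat.card H) : p ≠ 2 := fun e =>
  (Nat.not_even_iff_odd.2 h.odd) (even_iff_two_dvd.2 (e ▸ hd))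
/-- A noncyclic abelian subgroup `A` of a local subgroup is a `DD G`-group. -/
theorem Loc.D_of_elem [hp : Fact p.Prime] {n : ℕ} (h : Loc H) (hA : Elem p n A H) (hn : 2 ≤ n) : p ∈ DD G := by
  by_contra hD
  obtain ⟨X, h1, hX, hN⟩ := h
  obtain ⟨a, ha, ha1, hne⟩ := coprime_abelian_exists_cent1 hA.abelian (hA.not_cyclic hn) (hA.le.trans hN)
    ((hX.p'_of_not_mem hD).coprime_pgroup hA.pgroup).symm h1
  exact hD ((eltD_of_inf_cent1 hX hne).zpowers.mem_of_pgroup (pgroup_of_le hA.pgroup (zpowers_le.2 ha))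
    (zpowers_ne_bot.2 ha1))
theorem Loc.D_of_elem2 [Fact p.Prime] (h : Loc H) (hA : Elem p 2 A H) : p ∈ DD G := h.D_of_elem hA le_rfl
theorem Loc.D_of_rk [Fact p.Prime] (h : Loc H) (h2 : 2 ≤ rk p H) : p ∈ DD G :=
  let ⟨_, hA⟩ := exists_elem_of_le_rk h2; h.D_of_elem hA le_rfl
theorem Loc.D_of_rk3 [Fact p.Prime] (h : Loc H) (h2 : 3 ≤ rk p H) : p ∈ DD G := h.D_of_rk (by omega)
theorem Loc.D_of_not_cyclic [Fact p.Prime] (h : Loc P) (hP : IsPGroup p P) (hc : ¬ IsCyclic P) : p ∈ DD G := by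
  have h1 : P ≠ ⊥ := by rintro rfl; exact hc inferInstance
  refine h.D_of_rk ?_
  rw [cyclic_iff_rk_le_one (h.ne_two (pgroup_dvd_card hP h1)) hP] at hc
  omega
theorem Loc.rk_le_one [Fact p.Prime] (h : Loc H) (hp : p ∉ DD G) : rk p H ≤ 1 := by
  by_contra e; exact hp (h.D_of_rk (by omega))
theorem Loc.cyclic [Fact p.Prime] (h : Loc P) (hP : IsPGroup p P) (hp : p ∉ DD G) : IsCyclic P := by
  by_contra e; exact hp (h.D_of_not_cyclic hP e)
theorem sigma_D (h : p ∈ sigma M) : p ∈ DD G := let ⟨_, h⟩ := h.2.2; h.2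
theorem ideal_D (h : IsIdealPrime p G) : p ∈ DD G := h.2.2.2
theorem beta_D (h : p ∈ beta M) : p ∈ DD G := ideal_D h.2
theorem Loc.alpha_D (hM : Loc M) (h : p ∈ alpha M) : p ∈ DD G :=
  haveI := Fact.mk h.1; hM.D_of_rk3 (mem_alpha_iff.1 h)
theorem Loc.tau2_D (hM : Loc M) (h : p ∈ tau2 M) : p ∈ DD G :=
  haveI := Fact.mk h.1; hM.D_of_rk (lt_rk_iff.2 h.2.2.2)
theorem sigma_piD (h : PiGrp (sigma M) X) : PiGrp (DD G) X := h.mono fun _ => sigma_D
theorem sigma_eltD (h : PiElt (sigma M) x) : PiElt (DD G) x := h.mono fun _ => sigma_D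
theorem beta_piD (h : PiGrp (beta M) X) : PiGrp (DD G) X := h.mono fun _ => beta_D
theorem Msigma_D (M : Subgroup G) : PiGrp (DD G) (sigmaCore M) := sigma_piD (pcore_pi _ M)
theorem Msigma_eltD (h : x ∈ sigmaCore M) : PiElt (DD G) x := (Msigma_D M).elt h
theorem Mbeta_D (M : Subgroup G) : PiGrp (DD G) (betaCore M) := beta_piD (pcore_pi _ M)
theorem Loc.Malpha_D (hM : Loc M) : PiGrp (DD G) (alphaCore M) := (Malpha_pi M).mono fun _ => hM.alpha_D
theorem kappa_D (h : p ∈ kappa M) : p ∈ DD G := by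
  haveI := Fact.mk h.1
  obtain ⟨S⟩ : Nonempty (Sylow p M) := inferInstance
  obtain ⟨-, x, hx, hx1, y, hy, hy1, hc⟩ := h.2.2.2 S
  have h1 : PiElt (DD G) (x : G) := eltD_of_commute hy1 (Msigma_eltD hy) hc
  refine h1.zpowers.mem_of_pgroup (pgroup_of_le (S.2.map M.subtype) (zpowers_le.2 (mem_map_of_mem _ hx))) ?_
  exact zpowers_ne_bot.2 fun e => hx1 (Subtype.ext e)
theorem kappa_piD (h : PiGrp (kappa M) X) : PiGrp (DD G) X := h.mono fun _ => kappa_D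
theorem exists_Mx (h : Loc H) : ∃ M : Subgroup G, Mx M ∧ H ≤ M := by
  obtain ⟨M, hle, hM⟩ := Finite.exists_le_maximal (p := fun L : Subgroup G => Loc L) h
  exact ⟨M, ⟨hM.1, fun L hL hl => hL.not_ge (hM.2 hl hL.le)⟩, hle⟩
omit [Finite G] in
theorem Mx.eq_of_le (hM : Mx M) (hL : Loc L) (h : M ≤ L) : L = M := by
  by_contra e; exact hM.2 L (h.lt_of_ne' e) hL

section Sz
variable [hG : Sz G]
omit [Finite G] in
theorem Loc.sol (h : Loc H) : Group.IsSolvable H := haveI := hG.fin; hG.ft H h.odd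
omit [Finite G] in
theorem top_not_sol : ¬ Group.IsSolvable (⊤ : Subgroup G) := by
  intro h
  haveI := hG.simple
  haveI : Group.IsSolvable G :=
    Group.isSolvable_of_surjective (f := (⊤ : Subgroup G).subtype) fun x => ⟨⟨x, trivial⟩, rfl⟩
  exact hG.nonab ⟨⟨IsSimpleGroup.comm_iff_isSolvable.mpr inferInstance⟩⟩
omit [Finite G] in
theorem not_loc_top : ¬ Loc (⊤ : Subgroup G) := fun h => top_not_sol h.sol
omit [Finite G] in
theorem Loc.ne_top (h : Loc H) : H ≠ ⊤ := fun e => not_loc_top (e ▸ h)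
omit [Finite G] in
theorem Loc.not_top_le (h : Loc H) : ¬ ⊤ ≤ H := fun e => not_loc_top (h.mono e)
omit [Finite G] in
theorem D_sol (h : PiGrp (DD G) X) : Group.IsSolvable X := hG.ft X (D_odd h)
omit [Finite G] in
theorem Mx.Fitting_D (hM : Mx M) : PiGrp (DD G) 𝐅(M) := by
  haveI := hG.fin
  obtain ⟨X, h1, hX, hn⟩ := hM.1
  have e := hM.eq_of_le (loc_norm h1 hX) hn
  have hXM : Nml X M := ⟨(le_norm X).trans e.le, hn⟩
  exact nil_D (Fitting_nil M) hXM.Fitting_le (Fitting_ne_bot (D_sol hX) h1) (hX.of_le (Fitting_le X))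
omit [Finite G] in
theorem Mx.nil_D (hM : Mx M) (h : Nml X M) (hn : Group.IsNilpotent X) : PiGrp (DD G) X :=
  hM.Fitting_D.of_le (Fitting_max hn h)
omit [Finite G] in
theorem Mx.loc_norm (hM : Mx M) (h : Nml X M) (h1 : X ≠ ⊥) : Loc 𝐍(X) :=
  haveI := hG.fin
  loc_of_norm (Fitting_ne_bot (hM.sub h.le).sol h1) (hM.Fitting_D.of_le h.Fitting_le) (norm_Fitting le_rfl)
omit [Finite G] in
theorem Mx.norm_eq (hM : Mx M) (h : Nml X M) (h1 : X ≠ ⊥) : 𝐍(X) = M := hM.eq_of_le (hM.loc_norm h h1) h.norm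
omit [Finite G] in
theorem Mx.ne_bot (hM : Mx M) : M ≠ ⊥ := by
  obtain ⟨X, h1, hX, hn⟩ := hM.1
  exact ne_bot_mono h1 ((le_norm X).trans (hM.eq_of_le (Z.loc_norm h1 hX) hn).le)
/-- A normal `p`-subgroup of a maximal local subgroup: `p ∈ DD G`. -/
theorem Mx.D_of_nml [Fact p.Prime] (hM : Mx M) (h : Nml P M) (hP : IsPGroup p P) (h1 : P ≠ ⊥) : p ∈ DD G :=
  (hM.nil_D h (pgroup_nil hP)).mem_of_pgroup hP h1
theorem Mx.D_of_dvd_Fitting [hp : Fact p.Prime] (hM : Mx M) (h : p ∣ Nat.card 𝐅(M)) : p ∈ DD G :=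
  hM.Fitting_D.mem hp.out h
/-- Centralizers of nontrivial normal subgroups of `M` are `DD G`-groups. -/
theorem Mx.cent_nml_D (hM : Mx M) (h : Nml X M) (h1 : X ≠ ⊥) : PiGrp (DD G) 𝐂(X) :=
  (cent_D (Fitting_ne_bot (hM.sub h.le).sol h1) (hM.Fitting_D.of_le h.Fitting_le)).of_le (cent_anti (Fitting_le X))
end Sz

omit [Finite G] in
theorem TypeF.mx (h : TypeF M) : Mx M := h.1
omit [Finite G] in
theorem TypeP.mx (h : TypeP M) : Mx M := h.1
omit [Finite G] in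
theorem TypeP1.mx (h : TypeP1 M) : Mx M := h.1.1
omit [Finite G] in
theorem TypeP2.mx (h : TypeP2 M) : Mx M := h.1.1
omit [Finite G] in
theorem SigMax.mx (h : SigMax x M) : Mx M := h.1
omit [Finite G] in
theorem Uniq.loc (h : Uniq H) : Loc H := let ⟨_, h⟩ := h; h.max.sub h.le
section Tac
omit [Finite G]
theorem le_of_le_inf_left (h : H ≤ K ⊓ L) : H ≤ K := h.trans inf_le_left
theorem le_of_le_inf_right (h : H ≤ K ⊓ L) : H ≤ L := h.trans inf_le_right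
theorem le_of_sup_le_left (h : H ⊔ K ≤ L) : H ≤ L := le_sup_left.trans h
theorem le_of_sup_le_right (h : H ⊔ K ≤ L) : K ≤ L := le_sup_right.trans h
theorem mem_of_mem_inf_left (h : x ∈ K ⊓ L) : x ∈ K := h.1
theorem mem_of_mem_inf_right (h : x ∈ K ⊓ L) : x ∈ L := h.2
theorem le_of_le_der (h : H ≤ ⁅M, M⁆) : H ≤ M := h.trans (der_le M)
theorem le_of_le_pcore (h : H ≤ 𝐎(π, M)) : H ≤ M := h.trans (pcore_le π M)
theorem le_of_le_Fitting (h : H ≤ 𝐅(M)) : H ≤ M := h.trans (Fitting_le M)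
theorem le_of_le_MF (h : H ≤ fittingHallOf M) : H ≤ M := h.trans (map_subtype_le _)
theorem le_of_le_Msigma (h : H ≤ sigmaCore M) : H ≤ M := h.trans (pcore_le _ M)
theorem le_of_le_Malpha (h : H ≤ alphaCore M) : H ≤ M := h.trans (pcore_le _ M)
theorem le_of_le_Mbeta (h : H ≤ betaCore M) : H ≤ M := h.trans (pcore_le _ M)
theorem le_of_lt' (h : H < M) : H ≤ M := h.le
theorem SD_left (h : SD K H M) : K ≤ M := h.sup ▸ le_sup_left
theorem SD_right (h : SD K H M) : H ≤ M := h.sup ▸ le_sup_right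
theorem DP_left (h : DP K H M) : K ≤ M := h.sup ▸ le_sup_left
theorem DP_right (h : DP K H M) : H ≤ M := h.sup ▸ le_sup_right
theorem loc_of_cent (h1 : X ≠ ⊥) (h : PiGrp (DD G) X) (hn : H ≤ 𝐂(X)) : Loc H := (loc_cent h1 h).mono hn
theorem loc_of_cent1 (h1 : x ≠ 1) (h : PiElt (DD G) x) (hn : H ≤ 𝐂[x]) : Loc H := (loc_cent1 h1 h).mono hn
theorem Loc.of_le_conj (h : Loc M) (hn : H ≤ g ⋆ M) : Loc H := (h.conj g).mono hn
theorem Loc.of_conj_le (h : Loc M) (hn : g ⋆ H ≤ M) : Loc H := (loc_conj_iff g).1 (h.mono hn)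
theorem Loc.der (h : Loc M) : Loc ⁅M, M⁆ := h.mono (der_le M)
theorem Loc.pcore (h : Loc M) : Loc 𝐎(π, M) := h.mono (pcore_le π M)
theorem Loc.Fitting (h : Loc M) : Loc 𝐅(M) := h.mono (Fitting_le M)
theorem Loc.MF (h : Loc M) : Loc (fittingHallOf M) := h.mono (map_subtype_le _)
theorem Loc.Msigma (h : Loc M) : Loc (sigmaCore M) := h.mono (pcore_le _ M)
theorem Loc.Malpha (h : Loc M) : Loc (alphaCore M) := h.mono (pcore_le _ M)
theorem Loc.Mbeta (h : Loc M) : Loc (betaCore M) := h.mono (pcore_le _ M)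
theorem Loc.Ohm1 (h : Loc M) : Loc (omegaOne p M) := h.mono (Ohm1_le p M)
theorem Loc.zpowers (h : Loc M) (hx : x ∈ M) : Loc (zpowers x) := h.mono (zpowers_le.2 hx)
theorem Loc.sup (h : Loc M) (h₁ : H ≤ M) (h₂ : K ≤ M) : Loc (H ⊔ K) := h.mono (sup_le h₁ h₂)
theorem Loc.comm (h : Loc M) (h₁ : H ≤ M) (h₂ : K ≤ M) : Loc ⁅H, K⁆ := h.mono (comm_le_of_le h₁ h₂)
theorem piD_of_le (h : PiGrp (DD G) K) (hle : H ≤ K) : PiGrp (DD G) H := h.of_le hle
theorem piD_elt (h : PiGrp (DD G) K) (hx : x ∈ K) : PiElt (DD G) x := h.elt hx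
theorem piD_inf_left (h : PiGrp (DD G) H) : PiGrp (DD G) (H ⊓ K) := h.of_le inf_le_left
theorem piD_inf_right (h : PiGrp (DD G) K) : PiGrp (DD G) (H ⊓ K) := h.of_le inf_le_right
theorem piD_pcore (h : PiGrp (DD G) H) : PiGrp (DD G) 𝐎(π, H) := h.of_le (pcore_le _ _)
theorem piD_Fitting (h : PiGrp (DD G) H) : PiGrp (DD G) 𝐅(H) := h.of_le (Fitting_le _)
theorem piD_der (h : PiGrp (DD G) H) : PiGrp (DD G) ⁅H, H⁆ := h.of_le (der_le _)
theorem piD_Ohm1 (h : PiGrp (DD G) H) : PiGrp (DD G) (omegaOne p H) := h.of_le (Ohm1_le _ _)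
theorem piD_conj (h : PiGrp (DD G) H) : PiGrp (DD G) (g ⋆ H) := h.conj g
theorem piD_zpowers (h : PiElt (DD G) x) : PiGrp (DD G) (zpowers x) := h.zpowers
theorem eltD_conj (h : PiElt (DD G) x) : PiElt (DD G) (g * x * g⁻¹) := h.conj g
theorem piD_dvd [hp : Fact p.Prime] (h : PiGrp (DD G) H) (hd : p ∣ Nat.card H) : p ∈ DD G := h.mem hp.out hd
theorem piD_dvd' (hp : p.Prime) (h : PiGrp (DD G) H) (hd : p ∣ Nat.card H) : p ∈ DD G := h.mem hp hd
theorem elem_ne_bot1 [Fact p.Prime] (h : Elem p 1 A H) : A ≠ ⊥ := h.ne_bot one_ne_zero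
theorem elem_ne_bot2 [Fact p.Prime] (h : Elem p 2 A H) : A ≠ ⊥ := h.ne_bot two_ne_zero
end Tac
theorem piD_of_le_Msigma (h : H ≤ sigmaCore M) : PiGrp (DD G) H := (Msigma_D M).of_le h
theorem piD_of_le_Mbeta (h : H ≤ betaCore M) : PiGrp (DD G) H := (Mbeta_D M).of_le h
theorem piD_of_le_Fitting [Sz G] (hM : Mx M) (h : H ≤ 𝐅(M)) : PiGrp (DD G) H := hM.Fitting_D.of_le h
theorem eltD_of_mem_Fitting [Sz G] (hM : Mx M) (h : x ∈ 𝐅(M)) : PiElt (DD G) x := hM.Fitting_D.elt h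
theorem maxElem_D (hA : MaxElem p A H) (hp : p ∈ DD G) : PiGrp (DD G) A :=
  haveI := Fact.mk hp.1; pgroup_D hA.pgroup hp
theorem maxInv_D (hA : Q ∈ maxInvSubgroups H A {p}) (hp : p ∈ DD G) : PiGrp (DD G) Q := p_D (maxInv_pi hA) hp
theorem hall_sigma_D (h : Hall (sigma M) X H) : PiGrp (DD G) X := sigma_piD h.pi
theorem hall_kappa_D (h : Hall (kappa M) X H) : PiGrp (DD G) X := kappa_piD h.pi
theorem Loc.hall_tau2_D (hM : Loc M) (h : Hall (tau2 M) X H) : PiGrp (DD G) X := h.pi.mono fun _ => hM.tau2_D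
theorem Loc.rk_eq_two_D [Fact p.Prime] (h : Loc H) (h2 : rk p H = 2) : p ∈ DD G := h.D_of_rk h2.ge
theorem Loc.D_of_elem3 [Fact p.Prime] (h : Loc H) (hA : Elem p 3 A H) : p ∈ DD G := h.D_of_elem hA (by omega)
theorem elem_self_D [Fact p.Prime] (h : PiGrp (DD G) A) (hA : Elem p 1 A H) : p ∈ DD G :=
  h.mem_of_pgroup hA.pgroup (elem_ne_bot1 hA)
theorem sigma_dvd_D [hp : Fact p.Prime] (hd : p ∣ Nat.card (sigmaCore M)) : p ∈ DD G := (Msigma_D M).mem hp.out hd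

theorem Loc.D_of_elem2' [Fact p.Prime] (h : Loc A) (hA : Elem p 2 A H) : p ∈ DD G := h.D_of_elem2 hA.self
theorem Loc.D_of_elem3' [Fact p.Prime] (h : Loc A) (hA : Elem p 3 A H) : p ∈ DD G := h.D_of_elem3 hA.self
theorem Loc.D_of_lt1 [Fact p.Prime] (h : Loc H) (h2 : 1 < rk p H) : p ∈ DD G := h.D_of_rk h2
theorem Loc.D_of_lt2 [Fact p.Prime] (h : Loc H) (h2 : 2 < rk p H) : p ∈ DD G := h.D_of_rk h2.le
theorem loc_of_D (hp : p ∈ DD G) (h : PiGrp (DD G) X) : Loc X := (loc_bot hp).of_D h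
omit [Finite G] in
theorem Mx.loc_Fitting (h : Mx M) : Loc 𝐅(M) := h.1.Fitting
omit [Finite G] in
theorem Mx.loc_der (h : Mx M) : Loc ⁅M, M⁆ := h.1.der
omit [Finite G] in
theorem Mx.loc_Msigma (h : Mx M) : Loc (sigmaCore M) := h.1.Msigma
theorem Mx.piD_Msigma (h : Mx M) : PiGrp (DD G) (sigmaCore M) := Msigma_D M
theorem Mx.MF_D [Sz G] (h : Mx M) : PiGrp (DD G) (fittingHallOf M) :=
  h.Fitting_D.of_le (map_mono (sSup_le fun _ hN => le_sSup ⟨hN.1, hN.2.1⟩))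
omit [Finite G] in
theorem le_of_le_Ohm1 (h : H ≤ omegaOne p M) : H ≤ M := h.trans (Ohm1_le p M)
omit [Finite G] in
theorem mem_of_mem_Ohm1 (h : x ∈ omegaOne p M) : x ∈ M := Ohm1_le p M h
omit [Finite G] in
theorem le_of_norm_le (h : 𝐍(X) ≤ M) : X ≤ M := (le_norm X).trans h
omit [Finite G] in
theorem le_of_cent_le (hab : IsMulCommutative X) (h : 𝐂(X) ≤ M) : X ≤ M := (abelian_cent hab).trans h
omit [Finite G] in
theorem elem_abelian {n : ℕ} (h : Elem p n A H) : IsMulCommutative A := h.elem.1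
omit [Finite G] in
theorem eltD_pow {k : ℕ} (h : PiElt (DD G) x) : PiElt (DD G) (x ^ k) := h.pow k
omit [Finite G] in
theorem eltD_inv (h : PiElt (DD G) x) : PiElt (DD G) x⁻¹ := h.inv
omit [Finite G] in
theorem eltD_of_zpowers (h : PiGrp (DD G) (zpowers x)) : PiElt (DD G) x := PiElt.zpowers_iff.1 h
theorem piD_of_cent1 (h1 : x ≠ 1) (h : PiElt (DD G) x) (hn : H ≤ 𝐂[x]) : PiGrp (DD G) H := (cent1_D h1 h).of_le hn
theorem eltD_of_mem_cent1 (h1 : x ≠ 1) (h : PiElt (DD G) x) (hn : y ∈ 𝐂[x]) : PiElt (DD G) y := (cent1_D h1 h).elt hn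
theorem eltD_of_mem_cent (h1 : X ≠ ⊥) (h : PiGrp (DD G) X) (hn : y ∈ 𝐂(X)) : PiElt (DD G) y := (cent_D h1 h).elt hn
theorem piD_of_Msigma_cent (h1 : sigmaCore M ⊓ 𝐂(X) ≠ ⊥) : PiGrp (DD G) X := D_of_inf_cent (Msigma_D M) h1
theorem eltD_of_Msigma_cent1 (h1 : sigmaCore M ⊓ 𝐂[x] ≠ ⊥) : PiElt (DD G) x := eltD_of_inf_cent1 (Msigma_D M) h1
theorem card_prime_D (h : (Nat.card X).Prime) (hD : Nat.card X ∈ DD G) : PiGrp (DD G) X := card_D rfl hD
theorem D_of_card_prime (h : (Nat.card X).Prime) (hD : PiGrp (DD G) X) : Nat.card X ∈ DD G := hD.mem h dvd_rfl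
theorem D_of_card_eq [hp : Fact p.Prime] (h : Nat.card X = p) (hD : PiGrp (DD G) X) : p ∈ DD G :=
  hD.mem hp.out h.symm.dvd
theorem syl_pgroup' [Fact p.Prime] (h : Syl p P H) : IsPGroup p P := h.pgroup

/-- Forward closure of the context under the rules about `Loc` and `DD G`. -/
syntax "dd_fwd" : tactic
macro_rules
  | `(tactic| dd_fwd) => `(tactic| saturate 10 [Mx.loc, TypeF.mx, TypeP.mx, TypeP1.mx, TypeP2.mx, SigMax.mx,
      UniqMax.max, UniqMax.le, Exceptional.max, Exceptional.elemA, Exceptional.elemA₀, Uniq.loc,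
      Hall.le, Elem.le, MaxElem.le, Nml.le, SCN_le, Frob.sd, SD_left, SD_right, DP_left, DP_right,
      SigmaCompl.hallE, SigmaCompl.hall₁, SigmaCompl.hall₂, SigmaCompl.hall₃, KappaCompl.hallK, KappaCompl.hallU,
      le_of_le_inf_left, le_of_le_inf_right, le_of_sup_le_left, le_of_sup_le_right,
      mem_of_mem_inf_left, mem_of_mem_inf_right, le_of_le_der,
      le_of_le_pcore, le_of_le_Fitting, le_of_le_MF, le_of_le_Msigma, le_of_le_Malpha, le_of_le_Mbeta, le_of_lt',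
      Loc.mono, loc_of_norm, loc_of_cent, loc_of_cent1, Loc.of_le_conj, Loc.of_conj_le, loc_pgroup, loc_self,
      sigma_D, kappa_D, beta_D, ideal_D, Loc.tau2_D, Loc.alpha_D, Loc.D_of_elem2, Loc.D_of_elem3, Loc.D_of_rk,
      Loc.D_of_rk3, Loc.rk_eq_two_D, Loc.D_of_not_cyclic, Mx.D_of_dvd_Fitting, sigma_dvd_D, piD_dvd, piD_dvd',
      mem_D_of_pgroup, elem_self_D, elem_ne_bot1, elem_ne_bot2,
      pgroup_D, elem_D, syl_D, p_D, card_D, maxElem_D, maxInv_D, hall_sigma_D, hall_kappa_D, Loc.hall_tau2_D,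
      sigma_piD, beta_piD, kappa_piD, piD_of_le, piD_of_le_Msigma, piD_of_le_Mbeta, piD_of_le_Fitting,
      Loc.D_of_elem2', Loc.D_of_elem3', Loc.D_of_lt1, Loc.D_of_lt2, loc_of_D, Mx.loc_Fitting, Mx.loc_der,
      Mx.loc_Msigma, Mx.piD_Msigma, Mx.MF_D, Mx.Fitting_D, le_of_le_Ohm1, mem_of_mem_Ohm1, le_of_norm_le,
      le_of_cent_le, elem_abelian, SCN_abelian, elab_pgroup, eltD_of_zpowers, piD_of_cent1, eltD_of_mem_cent1,
      eltD_of_mem_cent, D_of_le_cent, D_of_cent_le, D_of_inf_cent, eltD_of_inf_cent1, piD_of_Msigma_cent,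
      eltD_of_Msigma_cent1, D_of_card_prime, D_of_card_eq, card_prime_D, syl_pgroup',
      piD_elt, Msigma_eltD, sigma_eltD, orderOf_D, eltD_of_mem_Fitting])

/-- Structural step for goals about `Loc` and `DD G`. -/
syntax "dd_bwd" : tactic
macro_rules
  | `(tactic| dd_bwd) => `(tactic| first
    | with_reducible assumption
    | with_reducible exact Msigma_D _
    | with_reducible exact Mbeta_D _
    | (with_reducible apply Loc.inf_left; dd_bwd)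
    | (with_reducible apply Loc.inf_right; dd_bwd)
    | (with_reducible apply Loc.conj; dd_bwd)
    | (with_reducible apply Loc.der; dd_bwd)
    | (with_reducible apply Loc.pcore; dd_bwd)
    | (with_reducible apply Loc.Fitting; dd_bwd)
    | (with_reducible apply Loc.MF; dd_bwd)
    | (with_reducible apply Loc.Msigma; dd_bwd)
    | (with_reducible apply Loc.Malpha; dd_bwd)
    | (with_reducible apply Loc.Mbeta; dd_bwd)
    | (with_reducible apply Loc.Ohm1; dd_bwd)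
    | (with_reducible apply loc_norm <;> dd_bwd)
    | (with_reducible apply loc_cent <;> dd_bwd)
    | (with_reducible apply loc_cent1 <;> dd_bwd)
    | (with_reducible apply pcore_D; dd_bwd)
    | (with_reducible apply piD_inf_left; dd_bwd)
    | (with_reducible apply piD_inf_right; dd_bwd)
    | (with_reducible apply piD_pcore; dd_bwd)
    | (with_reducible apply Mx.Fitting_D; dd_bwd)
    | (with_reducible apply piD_Fitting; dd_bwd)
    | (with_reducible apply piD_der; dd_bwd)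
    | (with_reducible apply piD_Ohm1; dd_bwd)
    | (with_reducible apply piD_conj; dd_bwd)
    | (with_reducible apply piD_zpowers; dd_bwd)
    | (with_reducible apply eltD_conj; dd_bwd)
    | (with_reducible apply eltD_pow; dd_bwd)
    | (with_reducible apply eltD_inv; dd_bwd)
    | (with_reducible apply Mx.MF_D; dd_bwd)
    | (with_reducible apply cent_D <;> dd_bwd)
    | (with_reducible apply cent1_D <;> dd_bwd)
    | (with_reducible apply Loc.Malpha_D; dd_bwd)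
    | solve_by_elim (maxDepth := 6) (transparency := .reducible) -constructor -symm -exfalso -intro only
        [*, Loc.sup, Loc.comm, Loc.zpowers])

/-- Proves goals `p ∈ DD G`, `PiGrp (DD G) X`, `PiElt (DD G) x`, `Loc H` from the context. -/
syntax "dd" : tactic
macro_rules
  | `(tactic| dd) => `(tactic| first
    | with_reducible assumption
    | with_reducible exact Mx.loc (by with_reducible assumption)
    | with_reducible exact sigma_D (by with_reducible assumption)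
    | (dd_fwd; dd_bwd))

example [Sz G] (hM : Mx M) (hP : Syl p P M) (hQ : Q ≤ P) : Loc Q := by dd
example [Sz G] [Fact p.Prime] (hM : Mx M) (hP : Elem p 2 P M) (hQ : IsPGroup p Q) : PiGrp (DD G) Q := by dd
example [Sz G] (hM : Mx M) (hL : Mx L) (hP : Hall π P M) (hQ : Q ≤ P) : Loc (Q ⊓ K) := by dd
example [Sz G] (hM : TypeP M) (hL : Mx L) (hP : Hall π P M) (hQ : Q ≤ P) : Loc Q := by dd
example [Sz G] (hM : TypeP M) (hL : Mx L) (hP : Hall π P M) (hQ : Q ≤ P) (h : x ∈ sigmaCore L) (h1 : x ≠ 1) :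
  Loc 𝐂[x] := by dd

end Cfsg.Lib.BG.Z
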