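import Cfsg.Agent.Lib.BG.Rank
import Cfsg.Agent.Lib.ZB.T14_Api

/-!
# Basic API, part 5: the minimal counterexample, maximal subgroups, `𝒰`, `σ, α, β, τ, κ`, `И*`.
-/

set_option autoImplicit false
set_option linter.unusedVariables false
set_option linter.unusedSectionVars false
set_option linter.style.haveILetI false

namespace Cfsg.Lib.BG.Z

open Subgroup
open scoped Cfsg.Lib.Transfer

variable {G : Type*} [Group G] {π ρ : Set ℕ} {p : ℕ}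
variable {A B H K L M N P Q X Y : Subgroup G} {x g : G}

/-! ### Maximal subgroups of an arbitrary group -/

theorem ne_top_of_le (hM : Loc M) (h : H ≤ M) : Loc H := A10.ne_top_of_le hM h
theorem mmax_proper (hM : Mx M) : Loc M := hM.1
theorem sub_mmax_proper (hM : Mx M) (h : H ≤ M) : Loc H := ne_top_of_le hM.1 h
theorem mmax_exists [Finite G] (h : Loc H) : ∃ M : Subgroup G, Mx M ∧ H ≤ M := S14.exists_mmax h
/-- A proper subgroup containing a maximal subgroup equals it. -/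
theorem mmax_max (hM : Mx M) (hL : Loc L) (h : M ≤ L) : L = M := S14.mmax_eq hM hL h
theorem mmax_eq_of_le (hM : Mx M) (hL : Mx L) (h : M ≤ L) : M = L := (mmax_max hM hL.1 h).symm
theorem mmax_conj (hM : Mx M) (g : G) : Mx (g ⋆ M) := A10.coatom_conj hM g
theorem mmax_conj_iff (g : G) : Mx (g ⋆ M) ↔ Mx M := S14.coatom_conj_iff
theorem _root_.Cfsg.Lib.BG.Cj.mmaxZ (h : Cj M L) (hM : Mx M) : Mx L := let ⟨g, e⟩ := h; e ▸ mmax_conj hM g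
theorem conj_ne_top (h : Loc H) (g : G) : Loc (g ⋆ H) := h.conj g

namespace UniqMax
theorem uniq' (h : UniqMax H M) : Uniq H := ⟨M, h⟩
theorem ne_top (h : UniqMax H M) : Loc H := sub_mmax_proper h.max h.le
theorem eq (h : UniqMax H M) (hL : Mx L) (hle : H ≤ L) : L = M := h.uniq L hL hle
theorem eq_of_uniqMax (h : UniqMax H M) (h' : UniqMax H L) : L = M := h.uniq L h'.max h'.le
theorem conj (h : UniqMax H M) (g : G) : UniqMax (g ⋆ H) (g ⋆ M) := A10.uniqMax_conj h g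
theorem conj_iff (g : G) : UniqMax (g ⋆ H) (g ⋆ M) ↔ UniqMax H M :=
  ⟨fun h => by simpa only [Transfer.inv_conj_conj] using h.conj g⁻¹, fun h => h.conj g⟩
theorem mono (h : UniqMax H M) (h₁ : H ≤ K) (h₂ : K ≤ M) : UniqMax K M := ⟨h.max, h₂, fun L hL hK => h.uniq L hL (h₁.trans hK)⟩
theorem self (hM : Mx M) : UniqMax M M := ⟨hM, le_rfl, fun _ hL h => (mmax_eq_of_le hM hL h).symm⟩
variable [Finite G]
/-- Coq `sub_uniq_mmax`: every proper overgroup of `H` lies in `M`. -/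
theorem ge (h : UniqMax H M) (h₁ : H ≤ K) (h₂ : Loc K) : K ≤ M :=
  let ⟨_, hL, hK⟩ := mmax_exists h₂; h.eq hL (h₁.trans hK) ▸ hK
theorem mono' (h : UniqMax H M) (h₁ : H ≤ K) (h₂ : Loc K) : UniqMax K M := h.mono h₁ (h.ge h₁ h₂)
theorem of_forall (hM : Mx M) (hle : H ≤ M) (h : ∀ L : Subgroup G, Mx L → H ≤ L → L ≤ M) : UniqMax H M :=
  ⟨hM, hle, fun L hL hH => mmax_eq_of_le hL hM (h L hL hH)⟩
end UniqMax

namespace Uniq
theorem ne_top (h : Uniq H) : Loc H := let ⟨_, h⟩ := h; h.ne_top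
/-- Coq `def_uniq_mmax`. -/
theorem uniqMax (h : Uniq H) (hM : Mx M) (hle : H ≤ M) : UniqMax H M := A10.uniqMax_of_uniq h hM hle
theorem eq (h : Uniq H) (hM : Mx M) (hL : Mx L) (h₁ : H ≤ M) (h₂ : H ≤ L) : L = M :=
  (h.uniqMax hM h₁).eq hL h₂
theorem conj (h : Uniq H) (g : G) : Uniq (g ⋆ H) := let ⟨_, h⟩ := h; ⟨_, h.conj g⟩
theorem conj_iff (g : G) : Uniq (g ⋆ H) ↔ Uniq H :=
  ⟨fun h => by simpa only [Transfer.inv_conj_conj] using h.conj g⁻¹, fun h => h.conj g⟩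
/-- Coq `uniq_mmaxS`. -/
theorem mono [Finite G] (h : Uniq H) (h₁ : H ≤ K) (h₂ : Loc K) : Uniq K := let ⟨_, h⟩ := h; ⟨_, h.mono' h₁ h₂⟩
theorem ge [Finite G] (h : Uniq H) (hM : Mx M) (hle : H ≤ M) (h₁ : H ≤ K) (h₂ : Loc K) : K ≤ M :=
  (h.uniqMax hM hle).ge h₁ h₂
end Uniq

theorem exists_mmax_ne_of_not_uniq (h : ¬ Uniq H) (hM : Mx M) (hle : H ≤ M) :
    ∃ L : Subgroup G, Mx L ∧ H ≤ L ∧ L ≠ M := by
  by_contra hne
  push Not at hne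
  exact h ⟨M, hM, hle, hne⟩
theorem exists_mmax_ne_of_not_uniqMax (h : ¬ UniqMax H M) (hM : Mx M) (hle : H ≤ M) :
    ∃ L : Subgroup G, Mx L ∧ H ≤ L ∧ L ≠ M :=
  exists_mmax_ne_of_not_uniq (fun h' => h (h'.uniqMax hM hle)) hM hle

/-! ### The sets of primes attached to a subgroup -/

theorem sigmaCore_eq (M : Subgroup G) : sigmaCore M = 𝐎(sigma M, M) := rfl
theorem alphaCore_eq (M : Subgroup G) : alphaCore M = 𝐎(alpha M, M) := rfl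
theorem betaCore_eq (M : Subgroup G) : betaCore M = 𝐎(beta M, M) := rfl
theorem Msigma_le (M : Subgroup G) : sigmaCore M ≤ M := pcore_le _ M
theorem Malpha_le (M : Subgroup G) : alphaCore M ≤ M := pcore_le _ M
theorem Mbeta_le (M : Subgroup G) : betaCore M ≤ M := pcore_le _ M
theorem Msigma_nml (M : Subgroup G) : Nml (sigmaCore M) M := pcore_nml _ M
theorem Malpha_nml (M : Subgroup G) : Nml (alphaCore M) M := pcore_nml _ M
theorem Mbeta_nml (M : Subgroup G) : Nml (betaCore M) M := pcore_nml _ M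
theorem norm_Msigma (h : H ≤ M) : H ≤ 𝐍(sigmaCore M) := h.trans (Msigma_nml M).norm
theorem norm_Malpha (h : H ≤ M) : H ≤ 𝐍(alphaCore M) := h.trans (Malpha_nml M).norm
theorem norm_Mbeta (h : H ≤ M) : H ≤ 𝐍(betaCore M) := h.trans (Mbeta_nml M).norm
theorem Msigma_pi [Finite G] (M : Subgroup G) : PiGrp (sigma M) (sigmaCore M) := pcore_pi _ M
theorem Malpha_pi [Finite G] (M : Subgroup G) : PiGrp (alpha M) (alphaCore M) := pcore_pi _ M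
theorem Mbeta_pi [Finite G] (M : Subgroup G) : PiGrp (beta M) (betaCore M) := pcore_pi _ M
theorem sigma_prime (h : p ∈ sigma M) : p.Prime := h.1
theorem alpha_prime (h : p ∈ alpha M) : p.Prime := h.1
theorem beta_prime (h : p ∈ beta M) : p.Prime := h.1.1
theorem kappa_prime (h : p ∈ kappa M) : p.Prime := h.1
theorem tau1_prime (h : p ∈ tau1 M) : p.Prime := h.1
theorem tau2_prime (h : p ∈ tau2 M) : p.Prime := h.1
theorem tau3_prime (h : p ∈ tau3 M) : p.Prime := h.1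
theorem sigma_dvd (h : p ∈ sigma M) : p ∣ Nat.card M := h.2.1
theorem kappa_dvd (h : p ∈ kappa M) : p ∣ Nat.card M := h.2.1
theorem tau1_dvd (h : p ∈ tau1 M) : p ∣ Nat.card M := h.2.2.1
theorem tau3_dvd_der (h : p ∈ tau3 M) : p ∣ Nat.card ↥⁅M, M⁆ := h.2.2.1
theorem tau3_dvd (h : p ∈ tau3 M) : p ∣ Nat.card M := h.2.2.1.trans (card_dvd (der_le M))
theorem tau1_not_dvd_der (h : p ∈ tau1 M) : ¬ p ∣ Nat.card ↥⁅M, M⁆ := h.2.2.2.1
theorem tau1_sigma' (h : p ∈ tau1 M) : p ∉ sigma M := h.2.1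
theorem tau2_sigma' (h : p ∈ tau2 M) : p ∉ sigma M := h.2.1
theorem tau3_sigma' (h : p ∈ tau3 M) : p ∉ sigma M := h.2.1
theorem kappa_sigma' (h : p ∈ kappa M) : p ∉ sigma M := h.2.2.1
theorem tau1_tau2' (h : p ∈ tau1 M) : p ∉ tau2 M := fun h' => h'.2.2.2 h.2.2.2.2
theorem tau1_tau3' (h : p ∈ tau1 M) : p ∉ tau3 M := fun h' => h.2.2.2.1 h'.2.2.1
theorem tau3_tau2' (h : p ∈ tau3 M) : p ∉ tau2 M := fun h' => h'.2.2.2 h.2.2.2
theorem beta_sub_alpha (M : Subgroup G) : beta M ⊆ alpha M := fun _ h => h.1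
theorem beta_ideal (h : p ∈ beta M) : IsIdealPrime p G := h.2
theorem mem_beta_iff : p ∈ beta M ↔ p ∈ alpha M ∧ IsIdealPrime p G := Iff.rfl
theorem Mbeta_sub_Malpha (M : Subgroup G) : betaCore M ≤ alphaCore M := pcore_mono (beta_sub_alpha M) M
theorem alpha_mono (h : H ≤ M) : alpha H ⊆ alpha M := fun _ hp => ⟨hp.1, fun h' => hp.2 (PGroup.pRankLE_of_le h h')⟩
theorem beta_mono (h : H ≤ M) : beta H ⊆ beta M := fun _ hp => ⟨alpha_mono h hp.1, hp.2⟩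

section
variable [Finite G]
theorem sigma_conj (g : G) (M : Subgroup G) : sigma (g ⋆ M) = sigma M := S14.sigma_conj g M
theorem alpha_conj (g : G) (M : Subgroup G) : alpha (g ⋆ M) = alpha M := S14.alpha_conj g M
theorem beta_conj (g : G) (M : Subgroup G) : beta (g ⋆ M) = beta M := S14.beta_conj g M
theorem tau1_conj (g : G) (M : Subgroup G) : tau1 (g ⋆ M) = tau1 M := S14.tau1_conj g M
theorem tau2_conj (g : G) (M : Subgroup G) : tau2 (g ⋆ M) = tau2 M := S14.tau2_conj g M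
theorem tau3_conj (g : G) (M : Subgroup G) : tau3 (g ⋆ M) = tau3 M := S14.tau3_conj g M
theorem Msigma_conj (g : G) (M : Subgroup G) : sigmaCore (g ⋆ M) = g ⋆ sigmaCore M := S14.Ms_conj g M
theorem Malpha_conj (g : G) (M : Subgroup G) : alphaCore (g ⋆ M) = g ⋆ alphaCore M := by
  rw [alphaCore_eq, alphaCore_eq, conj_pcore, alpha_conj]
theorem Mbeta_conj (g : G) (M : Subgroup G) : betaCore (g ⋆ M) = g ⋆ betaCore M := by
  rw [betaCore_eq, betaCore_eq, conj_pcore, beta_conj]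
theorem _root_.Cfsg.Lib.BG.Cj.sigma_eqZ (h : Cj M L) : sigma L = sigma M := let ⟨g, e⟩ := h; e ▸ sigma_conj g M
theorem _root_.Cfsg.Lib.BG.Cj.beta_eqZ (h : Cj M L) : beta L = beta M := let ⟨g, e⟩ := h; e ▸ beta_conj g M
theorem not_Cj_of_sigma (h₁ : p ∈ sigma M) (h₂ : p ∉ sigma L) : ¬ Cj M L := fun h => h₂ (h.sigma_eqZ ▸ h₁)
theorem not_Cj_of_sigma' (h₁ : p ∉ sigma M) (h₂ : p ∈ sigma L) : ¬ Cj M L := fun h => h₁ (h.sigma_eqZ ▸ h₂)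

variable [hp : Fact p.Prime]
theorem mem_alpha_iff : p ∈ alpha M ↔ 3 ≤ rk p M := A10.mem_alpha_iff
theorem not_mem_alpha_iff : p ∉ alpha M ↔ rk p M ≤ 2 := by rw [mem_alpha_iff]; omega
theorem alpha_dvd (h : p ∈ alpha M) : p ∣ Nat.card M := rk_pos_iff.1 (by have := mem_alpha_iff.1 h; omega)
theorem mem_sigma_iff : p ∈ sigma M ↔ p ∣ Nat.card M ∧ ∃ P, Syl p P M ∧ 𝐍(P) ≤ M ∧ p ∈ DD G := A10.mem_sigma_iff
theorem mem_sigma_of_norm_le (hP : Syl p P M) (h1 : P ≠ ⊥) (h : 𝐍(P) ≤ M) (hD : p ∈ DD G := by dd) :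
    p ∈ sigma M :=
  mem_sigma_iff.2 ⟨hP.dvd_card' h1, P, hP, h, hD⟩
theorem norm_sigma_Sylow (h : p ∈ sigma M) (hP : Syl p P M) : 𝐍(P) ≤ M := A10.norm_sigma_Sylow h hP
theorem sigma_Sylow_G (h : p ∈ sigma M) (hP : Syl p P M) : Syl p P ⊤ := A10.sigma_Sylow_G h hP
theorem sigma_Sylow_ne_bot (h : p ∈ sigma M) (hP : Syl p P M) : P ≠ ⊥ := hP.ne_bot' (sigma_dvd h)
theorem not_norm_le_of_sigma' (h : p ∉ sigma M) (hP : Syl p P M) (h1 : P ≠ ⊥) (hD : p ∈ DD G := by dd) :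
    ¬ 𝐍(P) ≤ M :=
  fun hn => h (mem_sigma_of_norm_le hP h1 hn hD)
/-- B&G Theorem 10.1(d). -/
theorem sigma_Sylow_trans (h : p ∈ sigma M) (hX : Syl p X M) (hg : g ⋆ X ≤ M) : g ∈ M := A10.sigma_Sylow_trans h hX hg
theorem rk_sigma_eq (h : p ∈ sigma M) : rk p M = rk p (⊤ : Subgroup G) := by
  obtain ⟨P, hP⟩ := Syl.exists p M
  rw [← hP.rk_eq, (sigma_Sylow_G h hP).rk_eq]
theorem mem_tau1_iff : p ∈ tau1 M ↔ p ∉ sigma M ∧ rk p M = 1 ∧ ¬ p ∣ Nat.card ↥⁅M, M⁆ :=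
  ⟨fun h => ⟨h.2.1, le_antisymm (rk_le_iff.2 h.2.2.2.2) (rk_pos_iff.2 h.2.2.1), h.2.2.2.1⟩,
    fun h => ⟨hp.out, h.1, rk_pos_iff.1 (by omega), h.2.2, rk_le_iff.1 h.2.1.le⟩⟩
theorem mem_tau2_iff : p ∈ tau2 M ↔ p ∉ sigma M ∧ rk p M = 2 :=
  ⟨fun h => ⟨h.2.1, le_antisymm (rk_le_iff.2 h.2.2.1) (lt_rk_iff.2 h.2.2.2)⟩,
    fun h => ⟨hp.out, h.1, rk_le_iff.1 h.2.le, lt_rk_iff.1 (by omega)⟩⟩
theorem mem_tau3_iff : p ∈ tau3 M ↔ p ∉ sigma M ∧ rk p M = 1 ∧ p ∣ Nat.card ↥⁅M, M⁆ :=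
  ⟨fun h => ⟨h.2.1, le_antisymm (rk_le_iff.2 h.2.2.2) (rk_pos_iff.2 (tau3_dvd h)), h.2.2.1⟩,
    fun h => ⟨hp.out, h.1, h.2.2, rk_le_iff.1 h.2.1.le⟩⟩
theorem tau1_rk (h : p ∈ tau1 M) : rk p M = 1 := (mem_tau1_iff.1 h).2.1
theorem tau2_rk (h : p ∈ tau2 M) : rk p M = 2 := (mem_tau2_iff.1 h).2
theorem tau3_rk (h : p ∈ tau3 M) : rk p M = 1 := (mem_tau3_iff.1 h).2.1
theorem tau2_dvd (h : p ∈ tau2 M) : p ∣ Nat.card M := rk_pos_iff.1 (by rw [tau2_rk h]; omega)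
theorem mem_tau13_iff : (p ∈ tau1 M ∨ p ∈ tau3 M) ↔ p ∉ sigma M ∧ rk p M = 1 := by
  rw [mem_tau1_iff, mem_tau3_iff]; tauto
theorem ideal_iff : IsIdealPrime p G ↔
    3 ≤ rk p (⊤ : Subgroup G) ∧ (∀ P A : Subgroup G, Syl p P ⊤ → Elem p 2 A P → ¬ MaxElem p A P) ∧ p ∈ DD G := by
  refine ⟨fun h => ⟨by have := rk_top_le_iff.not.2 h.2.1; omega, fun P A hP hA hm => ?_, h.2.2.2⟩,
    fun h => ⟨hp.out, rk_top_le_iff.not.1 (by omega), fun P A h1 h2 h3 => ?_, h.2.2⟩⟩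
  · obtain ⟨S, rfl⟩ := Syl.top_iff_sylow.1 hP
    obtain ⟨B, h1, h2, h3⟩ := h.2.2.1 S A hA.le hA.elem hA.card
    exact h3.ne' (hm.max B h1 h2 h3.le)
  · have hA : Elem p 2 A P := ⟨h1, h2, h3⟩
    obtain ⟨B, hB, hAB⟩ := MaxElem.of_not hA (h.2.1 P A (Syl.of_sylow_top P) hA)
    exact ⟨B, hB.le, hB.elem, hA.lt_of_rank_lt hB hAB (by omega)⟩
theorem ideal_iff_not_narrow (hP : Syl p P ⊤) (hD : p ∈ DD G := by dd) : IsIdealPrime p G ↔ ¬ Narrow p P := by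
  rw [ideal_iff, and_iff_left hD, Narrow, hP.rk_eq]
  push Not
  refine and_congr (by omega) ⟨fun h E hE => h P E hP hE, fun h Q E hQ hE hm => ?_⟩
  obtain ⟨g, -, rfl⟩ := hQ.exists_conj_eq hP
  exact h _ (hE.conj g) (hm.conj g)
/-- `κ(M)` without any hypothesis on `M`. -/
theorem mem_kappa_iff' : p ∈ kappa M ↔ p ∣ Nat.card M ∧ p ∉ sigma M ∧ ∀ P : Subgroup G, Syl p P M →
    IsCyclic P ∧ ∃ x ∈ P, x ≠ 1 ∧ sigmaCore M ⊓ 𝐂[x] ≠ ⊥ := by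
  have key : ∀ S : Sylow p M, (IsCyclic S ∧ ∃ x : M, x ∈ (S : Subgroup M) ∧ x ≠ 1 ∧ ∃ y ∈ sigmaCore M, y ≠ 1 ∧
      (x : G) * y = y * x) ↔ (IsCyclic ((S : Subgroup M).map M.subtype) ∧
        ∃ x ∈ (S : Subgroup M).map M.subtype, x ≠ 1 ∧ sigmaCore M ⊓ 𝐂[x] ≠ ⊥) := fun S => by
    refine and_congr ((S : Subgroup M).equivMapOfInjective _ M.subtype_injective).isCyclic ⟨?_, ?_⟩
    · rintro ⟨x, h1, h2, y, h3, h4, h5⟩
      exact ⟨x, mem_map_of_mem _ h1, fun e => h2 (Subtype.ext e), ne_bot_of_mem ⟨h3, mem_cent1.2 h5.symm⟩ h4⟩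
    · rintro ⟨_, ⟨x, h1, rfl⟩, h2, h3⟩
      obtain ⟨y, h4, h5⟩ := exists_ne_one h3
      exact ⟨x, h1, fun e => h2 (by rw [e, map_one]), y, h4.1, h5, (mem_cent1.1 h4.2).symm⟩
  refine ⟨fun h => ⟨h.2.1, h.2.2.1, fun P hP => ?_⟩, fun h => ⟨hp.out, h.1, h.2.1, fun S => ?_⟩⟩
  · obtain ⟨S, rfl⟩ := Syl.iff_sylow.1 hP
    exact (key S).1 (h.2.2.2 S)
  · exact (key S).2 (h.2.2 _ (Syl.of_sylow S))
omit hp in
theorem kappa_conj_of_mem (h : p ∈ kappa M) (g : G) : p ∈ kappa (g ⋆ M) := by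
  haveI := Fact.mk h.1
  rw [mem_kappa_iff'] at h ⊢
  refine ⟨by rw [Transfer.card_conj]; exact h.1, by rw [sigma_conj]; exact h.2.1, fun P hP => ?_⟩
  obtain ⟨h1, x, h2, h3, h4⟩ := h.2.2 (g⁻¹ ⋆ P) (by simpa only [Transfer.inv_conj_conj] using hP.conj g⁻¹)
  refine ⟨(cyclic_conj _).1 h1, g * x * g⁻¹, by simpa only [inv_inv] using Transfer.mem_conj.1 h2, S14.conj_ne_one h3 g, ?_⟩
  rwa [Msigma_conj, ← conj_cent1, ← Transfer.conj_inf, ne_eq, Transfer.conj_eq_bot_iff]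
omit hp in
theorem kappa_conj (g : G) (M : Subgroup G) : kappa (g ⋆ M) = kappa M :=
  Set.ext fun _ => ⟨fun h => by simpa only [Transfer.inv_conj_conj] using kappa_conj_of_mem h g⁻¹,
    fun h => kappa_conj_of_mem h g⟩
end

/-! ### `И_H(A; π)` and `И*_H(A; π)` -/

theorem mem_inv_iff : Y ∈ invSubgroups H A π ↔ Y ≤ H ∧ PiGrp π Y ∧ A ≤ 𝐍(Y) := Iff.rfl
theorem mem_maxInv_iff : Q ∈ maxInvSubgroups H A π ↔ (Q ≤ H ∧ PiGrp π Q ∧ A ≤ 𝐍(Q)) ∧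
    ∀ R : Subgroup G, R ≤ H → PiGrp π R → A ≤ 𝐍(R) → Q ≤ R → R = Q :=
  ⟨fun h => ⟨h.1, fun R h1 h2 h3 => h.2 R ⟨h1, h2, h3⟩⟩, fun h => ⟨h.1, fun R hR => h.2 R hR.1 hR.2.1 hR.2.2⟩⟩
theorem maxInv_le (h : Q ∈ maxInvSubgroups H A π) : Q ≤ H := h.1.1
theorem maxInv_pi (h : Q ∈ maxInvSubgroups H A π) : PiGrp π Q := h.1.2.1
theorem maxInv_norm (h : Q ∈ maxInvSubgroups H A π) : A ≤ 𝐍(Q) := h.1.2.2
theorem maxInv_max (h : Q ∈ maxInvSubgroups H A π) {R : Subgroup G} (h1 : R ≤ H) (h2 : PiGrp π R) (h3 : A ≤ 𝐍(R))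
    (h4 : Q ≤ R) : R = Q := h.2 R ⟨h1, h2, h3⟩ h4
theorem maxInv_mk (h1 : Q ≤ H) (h2 : PiGrp π Q) (h3 : A ≤ 𝐍(Q))
    (h : ∀ R : Subgroup G, R ≤ H → PiGrp π R → A ≤ 𝐍(R) → Q ≤ R → R ≤ Q) : Q ∈ maxInvSubgroups H A π :=
  mem_maxInv_iff.2 ⟨⟨h1, h2, h3⟩, fun R a b c d => le_antisymm (h R a b c d) d⟩
theorem maxInv_exists [Finite G] (h1 : Y ≤ H) (h2 : PiGrp π Y) (h3 : A ≤ 𝐍(Y)) :
    ∃ Q ∈ maxInvSubgroups H A π, Y ≤ Q := by
  obtain ⟨Q, hYQ, hQ⟩ := Finite.exists_le_maximal (p := fun Q : Subgroup G => Q ∈ invSubgroups H A π) ⟨h1, h2, h3⟩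
  exact ⟨Q, ⟨hQ.1, fun R hR h => le_antisymm (hQ.2 hR h) h⟩, hYQ⟩
theorem maxInv_conj (h : Q ∈ maxInvSubgroups H A π) (g : G) : g ⋆ Q ∈ maxInvSubgroups (g ⋆ H) (g ⋆ A) π :=
  maxInv_mk (Transfer.conj_mono g (maxInv_le h)) ((maxInv_pi h).conj g) (map_norm _ (maxInv_norm h))
    fun R h1 h2 h3 h4 => by
      rw [Transfer.le_conj_iff_inv_conj_le]
      refine (maxInv_max h (Transfer.le_conj_iff_inv_conj_le.1 h1) (h2.conj _) ?_
        (Transfer.conj_le_iff_le_inv_conj.1 h4)).le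
      simpa only [Transfer.inv_conj_conj] using map_norm (MulAut.conj g⁻¹).toMonoidHom h3
theorem maxInv_conj_of_norm (h : Q ∈ maxInvSubgroups H A π) (hH : g ∈ 𝐍(H)) (hA : g ∈ 𝐍(A)) :
    g ⋆ Q ∈ maxInvSubgroups H A π := by
  simpa only [conj_eq_of_norm hH, conj_eq_of_norm hA] using maxInv_conj h g
theorem maxInv_top_conj (h : Q ∈ maxInvSubgroups ⊤ A π) (hA : g ∈ 𝐍(A)) : g ⋆ Q ∈ maxInvSubgroups ⊤ A π :=
  maxInv_conj_of_norm h (by rw [norm_top]; trivial) hA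
/-- A member of `И*_H(A; π)` normalized by `B ≥ A` is a member of `И*_H(B; π)`. -/
theorem maxInv_of_le (h : Q ∈ maxInvSubgroups H A π) (hAB : A ≤ B) (hB : B ≤ 𝐍(Q)) : Q ∈ maxInvSubgroups H B π :=
  maxInv_mk (maxInv_le h) (maxInv_pi h) hB fun _ h1 h2 h3 h4 => (maxInv_max h h1 h2 (hAB.trans h3) h4).le
/-- A member `Q` of `И*_H(A; π)` contains every `A`-invariant `π`-subgroup of `H` normalizing it. -/
theorem maxInv_ge_of_norm (h : Q ∈ maxInvSubgroups H A π) (h1 : Y ≤ H) (h2 : PiGrp π Y) (h3 : A ≤ 𝐍(Y))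
    (h4 : Y ≤ 𝐍(Q)) : Y ≤ Q :=
  le_sup_right.trans (maxInv_max h (sup_le (maxInv_le h) h1) ((maxInv_pi h).sup h2 h4)
    (norm_sup (maxInv_norm h) h3) le_sup_left).le

/-! ### The minimal counterexample -/

section Sz
variable [hG : Sz G]
theorem mFT_simple : IsSimpleGroup G := hG.simple
theorem mFT_nonabelian : ¬ IsMulCommutative G := hG.nonab
theorem mFT_odd (H : Subgroup G) (h : Loc H := by dd) : Odd (Nat.card H) := haveI := hG.fin; h.odd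
theorem mFT_sol (h : Loc H) : Group.IsSolvable H := h.sol
theorem mmax_sol (hM : Mx M) : Group.IsSolvable M := mFT_sol hM.1
theorem sub_mmax_sol (hM : Mx M) (h : H ≤ M) : Group.IsSolvable H := mFT_sol (sub_mmax_proper hM h)
theorem mFT_ne_two (h : p ∣ Nat.card H) (hH : Loc H := by dd) : p ≠ 2 := haveI := hG.fin; hH.ne_two h
theorem mFT_top_not_sol : ¬ Group.IsSolvable (⊤ : Subgroup G) := top_not_sol
/-- Here the conclusion is the genuine `H ≠ ⊤`. -/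
theorem mFT_sol_ne_top (h : Group.IsSolvable H) : H ≠ ⊤ := fun e => top_not_sol (e ▸ h)
theorem mFT_abelian_proper (h : IsMulCommutative H) (hH : Loc H := by dd) : Loc H := hH
theorem mFT_norm_proper (h1 : H ≠ ⊥) (h2 : Loc H) (hD : PiGrp (DD G) H := by dd) : Loc 𝐍(H) := loc_norm h1 hD
theorem mFT_cent_proper (h1 : H ≠ ⊥) (hD : PiGrp (DD G) H := by dd) : Loc 𝐂(H) := loc_cent h1 hD
theorem mFT_cent1_proper (h1 : x ≠ 1) (hD : PiElt (DD G) x := by dd) : Loc 𝐂[x] := loc_cent1 h1 hD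
theorem mFT_norm_sol (h1 : H ≠ ⊥) (h2 : Loc H) (hD : PiGrp (DD G) H := by dd) : Group.IsSolvable 𝐍(H) :=
  mFT_sol (loc_norm h1 hD)
theorem mFT_cent_sol (h1 : H ≠ ⊥) (hD : PiGrp (DD G) H := by dd) : Group.IsSolvable 𝐂(H) := mFT_sol (loc_cent h1 hD)
theorem mFT_cent1_sol (h1 : x ≠ 1) (hD : PiElt (DD G) x := by dd) : Group.IsSolvable 𝐂[x] := mFT_sol (loc_cent1 h1 hD)
theorem mFT_der_top : ⁅(⊤ : Subgroup G), (⊤ : Subgroup G)⁆ = ⊤ := A10.mFT_der_top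
/-- A proper nontrivial subgroup is not normal (genuine `≠ ⊤`). -/
theorem mFT_norm_ne_top (h1 : H ≠ ⊥) (h2 : H ≠ ⊤) : 𝐍(H) ≠ ⊤ := fun e => by
  haveI := hG.simple
  exact (IsSimpleGroup.eq_bot_or_eq_top_of_normal H (normalizer_eq_top_iff.mp e)).elim h1 h2
theorem mmax_ne_bot (hM : Mx M) : M ≠ ⊥ := A10.mmax_ne_bot hM
theorem mmax_norm (hM : Mx M) (h1 : X ≠ ⊥) (h2 : Loc X) (hn : M ≤ 𝐍(X)) (hD : PiGrp (DD G) X := by dd) : 𝐍(X) = M :=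
  mmax_max hM (loc_norm h1 hD) hn
theorem mmax_normal (hM : Mx M) (h : Nml X M) (h1 : X ≠ ⊥) : 𝐍(X) = M := hM.norm_eq h h1
theorem mmax_cent_le (hM : Mx M) (h : Nml X M) (h1 : X ≠ ⊥) : 𝐂(X) ≤ M :=
  (cent_le_norm X).trans (mmax_normal hM h h1).le
theorem norm_mmax (hM : Mx M) : 𝐍(M) = M := A10.norm_mmax hM
theorem mem_of_conj_mmax_eq (hM : Mx M) (h : g ⋆ M = M) : g ∈ M := norm_mmax hM ▸ norm_of_conj_eq h
theorem conj_mmax_eq_iff (hM : Mx M) : g ⋆ M = M ↔ g ∈ M := ⟨mem_of_conj_mmax_eq hM, conj_eq_of_mem⟩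
/-- A nontrivial subgroup normalized by two maximal subgroups forces them to coincide. -/
theorem mmax_eq_of_norm (hM : Mx M) (hL : Mx L) (h1 : X ≠ ⊥) (h2 : Loc X) (hn : M ≤ 𝐍(X))
    (hn' : L ≤ 𝐍(X)) (hD : PiGrp (DD G) X := by dd) : L = M :=
  (mmax_norm hL h1 h2 hn' hD).symm.trans (mmax_norm hM h1 h2 hn hD)
theorem UniqMax.mem_of_conj_le (h : UniqMax H M) (hg : g ⋆ H ≤ M) : g ∈ M := by
  have := h.eq (mmax_conj h.max g⁻¹) (Transfer.conj_le_iff_le_inv_conj.1 hg)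
  simpa using mem_of_conj_mmax_eq h.max this
theorem UniqMax.mem_of_le_conj (h : UniqMax H M) (hg : H ≤ g ⋆ M) : g ∈ M :=
  mem_of_conj_mmax_eq h.max (h.eq (mmax_conj h.max g) hg)
/-- Coq `uniq_mmax_norm_sub`. -/
theorem UniqMax.norm_le (h : UniqMax H M) : 𝐍(H) ≤ M := fun _ hg =>
  h.mem_of_conj_le (by rw [conj_eq_of_norm hg]; exact h.le)
theorem UniqMax.cent_le (h : UniqMax H M) : 𝐂(H) ≤ M := (cent_le_norm H).trans h.norm_le
theorem UniqMax.ne_bot (h : UniqMax H M) : H ≠ ⊥ := fun e => h.max.1.ne_top (by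
  have := h.norm_le; rwa [e, norm_bot, top_le_iff] at this)
theorem Uniq.ne_bot (h : Uniq H) : H ≠ ⊥ := let ⟨_, h⟩ := h; h.ne_bot
variable [Finite G]
/-- If `𝓜(H) = {M}` and `H` normalizes `X ≠ 1` then `N(X) ≤ M`. -/
theorem UniqMax.norm_le_of_norm (h : UniqMax H M) (h1 : X ≠ ⊥) (h2 : Loc X) (hn : H ≤ 𝐍(X))
    (hD : PiGrp (DD G) X := by dd) : 𝐍(X) ≤ M := h.ge hn (loc_norm h1 hD)
theorem UniqMax.cent_le_of_cent (h : UniqMax H M) (h1 : X ≠ ⊥) (hn : H ≤ 𝐂(X)) (hD : PiGrp (DD G) X := by dd) :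
    𝐂(X) ≤ M := h.ge hn (loc_cent h1 hD)
theorem UniqMax.cent1_le (h : UniqMax H M) (h1 : x ≠ 1) (hn : H ≤ 𝐂[x]) (hD : PiElt (DD G) x := by dd) : 𝐂[x] ≤ M :=
  h.ge hn (loc_cent1 h1 hD)
theorem mmax_Fitting_ne_bot (hM : Mx M) : 𝐅(M) ≠ ⊥ := Fitting_ne_bot (mmax_sol hM) (mmax_ne_bot hM)
theorem mmax_cent_Fitting_le (hM : Mx M) : 𝐂(𝐅(M)) ≤ 𝐅(M) :=
  (le_inf (mmax_cent_le hM (Fitting_nml M) (mmax_Fitting_ne_bot hM)) le_rfl).trans (cent_sub_Fitting (mmax_sol hM))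
theorem mFT_nil_cyclic (h : Group.IsNilpotent H) (hr : rank H ≤ 1) (hH : Loc H := by dd) : IsCyclic H :=
  nil_cyclic_of_rank_le_one h hH.odd hr
variable [hp : Fact p.Prime]
theorem mFT_pgroup_proper (h : IsPGroup p P) (hP : Loc P := by dd) : Loc P := hP
theorem mFT_pgroup_ne_two (h : IsPGroup p P) (h1 : P ≠ ⊥) (hP : Loc P := by dd) : p ≠ 2 :=
  hP.ne_two (pgroup_dvd_card h h1)
theorem mFT_rk_ne_two (h : 0 < rk p H) (hH : Loc H := by dd) : p ≠ 2 := hH.ne_two (rk_pos_iff.1 h)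
theorem _root_.Cfsg.Lib.BG.Elem.ne_twoZ {n : ℕ} (h : Elem p n A H) (hn : n ≠ 0) (hA : Loc A := by dd) : p ≠ 2 :=
  hA.ne_two (h.dvd_card_self hn)
theorem mFT_three_le (h : p ∣ Nat.card H) (hH : Loc H := by dd) : 3 ≤ p := by
  have := hH.ne_two h; have := hp.out.two_le; omega
theorem mFT_pgroup_norm_proper (h : IsPGroup p P) (h1 : P ≠ ⊥) (hD : p ∈ DD G := by dd) : Loc 𝐍(P) :=
  loc_norm h1 (pgroup_D h hD)
theorem mFT_pgroup_norm_mmax (h : IsPGroup p P) (h1 : P ≠ ⊥) (hD : p ∈ DD G := by dd) :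
    ∃ M : Subgroup G, Mx M ∧ 𝐍(P) ≤ M :=
  mmax_exists (mFT_pgroup_norm_proper h h1 hD)
theorem mFT_cyclic_iff_rk (h : IsPGroup p P) (hP : Loc P := by dd) : IsCyclic P ↔ rk p P ≤ 1 := by
  by_cases h1 : P = ⊥
  · subst h1
    exact ⟨rk_le_one_of_cyclic, fun _ => inferInstance⟩
  · exact cyclic_iff_rk_le_one (mFT_pgroup_ne_two h h1) h
theorem mFT_cyclic_of_rk (h : IsPGroup p P) (hle : P ≤ H) (hr : rk p H ≤ 1) (hP : Loc P := by dd) : IsCyclic P :=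
  (mFT_cyclic_iff_rk h).2 ((rk_mono hle p).trans hr)
theorem mFT_two_le_rk (h : IsPGroup p P) (hc : ¬ IsCyclic P) (hP : Loc P := by dd) : 2 ≤ rk p P := by
  rw [mFT_cyclic_iff_rk h] at hc; omega
theorem mFT_exists_elem_two (h : IsPGroup p P) (hc : ¬ IsCyclic P) (hP : Loc P := by dd) :
    ∃ A : Subgroup G, Elem p 2 A P :=
  exists_elem_of_le_rk (mFT_two_le_rk h hc)
/-- Coq `mmax_sigma_Sylow`: a maximal subgroup containing the normalizer of a Sylow subgroup. -/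
theorem sigma_of_norm_Sylow (hP : Syl p P ⊤) (h1 : P ≠ ⊥) (h : 𝐍(P) ≤ M) (hD : p ∈ DD G := by dd) : p ∈ sigma M :=
  mem_sigma_of_norm_le (hP.of_le ((le_norm P).trans h) le_top) h1 h
theorem sigma_mmax_exists (h : p ∣ Nat.card H) (hD : p ∈ DD G := by dd) : ∃ M : Subgroup G, Mx M ∧ p ∈ sigma M := by
  obtain ⟨P, hP⟩ := Syl.exists p (⊤ : Subgroup G)
  have h1 := hP.ne_bot' (h.trans (card_dvd le_top))
  obtain ⟨M, hM, hn⟩ := mFT_pgroup_norm_mmax hP.pgroup h1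
  exact ⟨M, hM, sigma_of_norm_Sylow hP h1 hn⟩
omit hG in
/-- If `p ∈ σ(M)`, every `p`-subgroup of `G` is conjugate into `M`. -/
theorem sigma_pgroup_conj_le (h : p ∈ sigma M) (hX : IsPGroup p X) : ∃ g : G, g ⋆ X ≤ M := by
  obtain ⟨P, hP⟩ := Syl.exists p M
  obtain ⟨g, -, hg⟩ := (sigma_Sylow_G h hP).exists_conj_le hX le_top
  exact ⟨g, hg.trans hP.le⟩
theorem mmax_pcore_norm (hM : Mx M) (h1 : 𝐎(π, M) ≠ ⊥) : 𝐍(𝐎(π, M)) = M := mmax_normal hM (pcore_nml π M) h1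
/-- A normal nontrivial Sylow subgroup of a maximal subgroup belongs to `σ(M)`. -/
theorem sigma_of_nml_Sylow (hM : Mx M) (hP : Syl p P M) (h1 : P ≠ ⊥) (hn : M ≤ 𝐍(P)) : p ∈ sigma M :=
  mem_sigma_of_norm_le hP h1 (mmax_normal hM ⟨hP.le, hn⟩ h1).le (hM.D_of_nml ⟨hP.le, hn⟩ hP.pgroup h1)
end Sz

end Cfsg.Lib.BG.Z
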