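import Cfsg.Agent.Lib.ZB.Max
import Cfsg.Agent.Lib.BG.Quo
import Cfsg.Agent.Lib.BG.T06_3
import Cfsg.Agent.Lib.BG.T06_7
import Cfsg.Agent.Lib.Core.Subnormal

/-!
# B&G section 7: the transitivity theorems 7.1 - 7.5
-/

set_option autoImplicit false
set_option linter.unusedVariables false
set_option linter.unusedSectionVars false
set_option linter.style.haveILetI false

namespace Cfsg.Lib.BG.Z

open Subgroup
open scoped Cfsg.Lib.Transfer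

variable {G : Type*} [Group G] {π : Set ℕ} {p q : ℕ} {A B H K L P Q X Y : Subgroup G}

/-- B&G Hypothesis 7.1 (for any set of primes `π ⊇ π(A)`). -/
structure NormedConstrained (π : Set ℕ) (A : Subgroup G) : Prop where
  pi : PiGrp π A
  ne_bot : A ≠ ⊥
  ne_top : Loc A
  le : ∀ X Y : Subgroup G, Loc X → A ≤ X → Y ≤ X → PiGrp πᶜ Y → A ≤ 𝐍(Y) → Y ≤ 𝐎(πᶜ, X)
  sub : ∀ r : ℕ, r.Prime → r ∈ π → r ∈ DD G

theorem NormedConstrained.piD (h : NormedConstrained π A) (hX : PiGrp π X) : PiGrp (DD G) X :=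
  hX.mono' fun r hr _ => h.sub r hr

theorem piGrp_primesNotDvd_iff {n : ℕ} : PiGrp (primesNotDvd n) Y ↔ PiGrp {r | r ∣ n}ᶜ Y :=
  ⟨fun h => h.mono fun _ hr => hr.2, fun h => h.mono' fun _ hr _ h' => ⟨hr, h'⟩⟩

variable [Finite G]

/-- Glauberman's lemma for subgroups: existence of a fixed point. -/
theorem glauberman_exists {S : Set (Subgroup G)} (hs : Group.IsSolvable ↥(K ⊔ P)) (hP : P ≤ 𝐍(K))
    (hπ : PiGrp π P) (hK : PiGrp πᶜ K) (hS : ∀ g ∈ K ⊔ P, ∀ Q ∈ S, g ⋆ Q ∈ S) (ht : TransOn K S) (hQ : Q ∈ S) :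
    ∃ Q ∈ S, P ≤ 𝐍(Q) := by
  have hfr : K ⊔ ((K ⊔ P) ⊓ 𝐍(Q)) = K ⊔ P := by
    refine le_antisymm (sup_le le_sup_left inf_le_left) fun g hg => ?_
    obtain ⟨k, hk, e⟩ := ht Q hQ _ (hS g hg Q hQ)
    have : k⁻¹ * g ∈ 𝐍(Q) := norm_of_conj_eq (by rw [← Transfer.conj_conj, e, Transfer.inv_conj_conj])
    simpa using mul_mem_sup hk (show k⁻¹ * g ∈ (K ⊔ P) ⊓ 𝐍(Q) from ⟨mul_mem (mem_sup_left (inv_mem hk)) hg, this⟩)
  obtain ⟨H, hH⟩ := Hall.exists π (sol_of_le hs (inf_le_left : (K ⊔ P) ⊓ 𝐍(Q) ≤ _))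
  have hi : PiNat πᶜ (((K ⊔ P) ⊓ 𝐍(Q)).relIndex (K ⊔ P)) := by
    have hn : (K ⊔ P) ⊓ 𝐍(Q) ≤ 𝐍(K) := inf_le_left.trans (sup_le_norm_left hP)
    have h1 := PGroup.card_sup_mul_card_inf hn
    rw [hfr, ← card_mul_relIndex (inf_le_left : (K ⊔ P) ⊓ 𝐍(Q) ≤ _), mul_comm (Nat.card K), mul_assoc] at h1
    exact PiNat.of_dvd hK ⟨_, (Nat.eq_of_mul_eq_mul_left Nat.card_pos h1).symm⟩
  obtain ⟨g, hg, hle⟩ := (hH.trans_idx inf_le_left hi).exists_le_conj hs le_sup_right hπ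
  exact ⟨_, hS g hg Q hQ, hle.trans (map_norm _ (hH.le.trans inf_le_right))⟩

/-- Glauberman's lemma for subgroups: conjugacy of fixed points. -/
theorem glauberman_trans {k : G} (hs : Group.IsSolvable ↥(K ⊔ P)) (hP : P ≤ 𝐍(K)) (hπ : PiGrp π P)
    (hK : PiGrp πᶜ K) (hk : k ∈ K) (h₁ : P ≤ 𝐍(Q)) (h₂ : P ≤ 𝐍(k ⋆ Q)) : ∃ c ∈ K ⊓ 𝐂(P), k ⋆ Q = c ⋆ Q := by
  have hPL : Hall π P (K ⊔ P) := (Hall.of_sd (SD.of_coprime hP (hπ.coprime hK).symm) (π := πᶜ) hK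
    (by rwa [compl_compl])).2.congr (by simp)
  have h3 : k⁻¹ ⋆ P ≤ (K ⊔ P) ⊓ 𝐍(Q) := le_inf (conj_le_of_mem le_sup_right (mem_sup_left (inv_mem hk))) (by
    simpa only [Transfer.inv_conj_conj] using map_norm (MulAut.conj k⁻¹).toMonoidHom h₂)
  obtain ⟨y, hy, e⟩ := (hPL.of_le (le_inf le_sup_right h₁) inf_le_left).exists_conj_eq
    ((hPL.conj_of_mem (mem_sup_left (inv_mem hk))).of_le h3 inf_le_left) (sol_of_le hs inf_le_left)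
  have h4 : k * y ∈ 𝐍(P) := norm_of_conj_eq (by rw [← Transfer.conj_conj, ← e, Transfer.conj_inv_conj])
  obtain ⟨c, hc, x, hx, hcx⟩ := (mem_sup_left_norm hP).1 (mul_mem (mem_sup_left hk) hy.1)
  have h5 : c ∈ 𝐍(P) := by
    rw [show c = k * y * x⁻¹ by rw [← hcx]; group]; exact mul_mem h4 (le_norm P (inv_mem hx))
  refine ⟨c, coprime_norm_cent hP (hπ.coprime hK) ▸ ⟨hc, h5⟩, ?_⟩
  rw [← conj_eq_of_norm hy.2, Transfer.conj_conj, ← hcx, ← Transfer.conj_conj, conj_eq_of_norm (h₁ hx),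
    conj_eq_of_norm hy.2]

variable [Sz G]

namespace NormedConstrained

/-- The observation following Hypothesis 7.1: `K = O_{π'}(C(A))` contains every `π'`-subgroup of `C(A)`. -/
theorem le_pcore_cent (h : NormedConstrained π A) (hY : Y ≤ 𝐂(A)) (hπ : PiGrp πᶜ Y) : Y ≤ 𝐎(πᶜ, 𝐂(A)) :=
  (le_inf (h.le 𝐍(A) Y (loc_norm h.ne_bot (h.piD h.pi)) (le_norm A) (hY.trans (cent_le_norm A)) hπ
    (norm_of_cent (cent_symm hY))) hY).trans (pcore_inf_le (cent_le_norm A))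

theorem pcore_cent_inf (h : NormedConstrained π A) (hAB : A ≤ B) : 𝐎(πᶜ, 𝐂(A)) ⊓ 𝐂(B) = 𝐎(πᶜ, 𝐂(B)) :=
  le_antisymm (pcore_inf_le (cent_anti hAB))
    (le_inf (h.le_pcore_cent ((pcore_le _ _).trans (cent_anti hAB)) (pcore_pi _ _)) (pcore_le _ _))

variable [hq : Fact q.Prime]

/-- B&G Lemma 7.1. -/
theorem meet_trans (h : NormedConstrained π A) (hqπ : q ∉ π) {Q₁ Q₂ : Subgroup G}
    (h₁ : Q₁ ∈ maxInvSubgroups ⊤ A {q}) (h₂ : Q₂ ∈ maxInvSubgroups ⊤ A {q}) (hH : Loc H) (hAH : A ≤ H)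
    (hH₁ : Q₁ ⊓ H ≠ ⊥) (hH₂ : Q₂ ⊓ H ≠ ⊥)
    (hqD : q ∈ DD G := by dd) : ∃ k ∈ 𝐎(πᶜ, 𝐂(A)), Q₂ = k ⋆ Q₁ := by
  induction hm : Nat.card G - Nat.card ↥(Q₁ ⊓ Q₂) using Nat.strong_induction_on generalizing Q₁ Q₂ H with
  | _ m ih =>
  by_cases e : Q₁ = Q₂
  · exact ⟨1, one_mem _, by rw [Transfer.conj_one, e]⟩
  have hq' : ({q} : Set ℕ) ⊆ πᶜ := fun r hr => hr ▸ hqπ
  -- the main step, for a subgroup `H` in which `Q₁ ∩ Q₂` grows on both sides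
  have key : ∀ H : Subgroup G, Loc H → A ≤ H → Q₁ ⊓ Q₂ < Q₁ ⊓ H → Q₁ ⊓ Q₂ < Q₂ ⊓ H →
      ∃ k ∈ 𝐎(πᶜ, 𝐂(A)), Q₂ = k ⋆ Q₁ := by
    intro H hH hAH l₁ l₂
    have nL : A ≤ 𝐍(𝐎(πᶜ, H)) := norm_pcore (le_norm_of_le hAH) _
    have cL := h.pi.coprime (pcore_pi πᶜ H)
    have sL : Group.IsSolvable A ∨ Group.IsSolvable 𝐎(πᶜ, H) := Or.inl (mFT_sol h.ne_top)
    have syl : ∀ Q ∈ maxInvSubgroups ⊤ A {q}, ∃ R, Syl q R 𝐎(πᶜ, H) ∧ Q ⊓ H ≤ R ∧ A ≤ 𝐍(R) := fun Q hQ => by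
      have hn := norm_inf (maxInv_norm hQ) (le_norm_of_le hAH)
      have hp : PiGrp {q} (Q ⊓ H) := (maxInv_pi hQ).of_le inf_le_left
      exact Syl.exists_inv_ge nL cL sL hp.pgroup (h.le H _ hH hAH inf_le_right (hp.mono hq') hn) hn
    obtain ⟨R₁, s₁, le₁, n₁⟩ := syl Q₁ h₁
    obtain ⟨R₂, s₂, le₂, n₂⟩ := syl Q₂ h₂
    obtain ⟨c, hc, rfl⟩ := s₁.inv_trans s₂ nL cL sL n₁ n₂
    have hcK : c ∈ 𝐎(πᶜ, 𝐂(A)) := h.le_pcore_cent ((zpowers_le).2 hc.2)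
      ((pcore_pi πᶜ H).of_le ((zpowers_le).2 hc.1)) (mem_zpowers c)
    have hcH : c ∈ H := pcore_le _ _ hc.1
    obtain ⟨Q₃, h₃, le₃⟩ := maxInv_exists le_top s₂.pi n₂
    have h₁' := maxInv_top_conj h₁ (cent_le_norm A hc.2)
    have lt : ∀ {U V : Subgroup G}, Nat.card ↥(Q₁ ⊓ Q₂) < Nat.card U → U ≤ V → Nat.card G - Nat.card V < m := by
      intro U V h1 h2
      have := card_le_of_le h2
      have := card_le_card_group V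
      omega
    have l₁' : c ⋆ (Q₁ ⊓ H) ≤ (c ⋆ Q₁) ⊓ Q₃ :=
      le_inf (Transfer.conj_mono c inf_le_left) ((Transfer.conj_mono c le₁).trans le₃)
    have n₃ : Q₃ ⊓ H ≠ ⊥ := ne_bot_mono (ne_bot_of_gt l₂) (le_inf (le₂.trans le₃) inf_le_right)
    obtain ⟨k₃, hk₃, e₃⟩ := ih _ (lt (by rw [Transfer.card_conj]; exact Core.card_lt_card_of_lt l₁) l₁') h₁' h₃ hH hAH
      (ne_bot_mono (Transfer.conj_eq_bot_iff.not.2 (ne_bot_of_gt l₁))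
        (le_inf (Transfer.conj_mono c inf_le_left) (conj_le_of_mem inf_le_right hcH))) n₃ rfl
    obtain ⟨k₂, hk₂, e₂⟩ := ih _ (lt (Core.card_lt_card_of_lt l₂) (le_inf (le₂.trans le₃) inf_le_left)) h₃ h₂ hH hAH
      n₃ (ne_bot_of_gt l₂) rfl
    exact ⟨k₂ * k₃ * c, mul_mem (mul_mem hk₂ hk₃) hcK, by rw [e₂, e₃, Transfer.conj_conj, Transfer.conj_conj]⟩
  by_cases h0 : Q₁ ⊓ Q₂ = ⊥
  · exact key H hH hAH (h0 ▸ bot_lt_iff_ne_bot.2 hH₁) (h0 ▸ bot_lt_iff_ne_bot.2 hH₂)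
  · have p₁ := (maxInv_pi h₁).pgroup
    have p₂ := (maxInv_pi h₂).pgroup
    refine key _ (mFT_pgroup_norm_proper (pgroup_of_le p₁ inf_le_left) h0) (norm_inf (maxInv_norm h₁) (maxInv_norm h₂))
      (nil_norm_grow (pgroup_nil p₁) (inf_le_left.lt_of_ne fun e' => e ?_))
      (nil_norm_grow (pgroup_nil p₂) (inf_le_right.lt_of_ne fun e' => e ?_))
    · exact (maxInv_max h₁ le_top (maxInv_pi h₂) (maxInv_norm h₂) (inf_eq_left.1 e')).symm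
    · exact maxInv_max h₂ le_top (maxInv_pi h₁) (maxInv_norm h₁) (inf_eq_right.1 e')

omit [Sz G] hq in
private theorem trans_of_ne_bot {K : Subgroup G}
    (h : ∀ Q₁ ∈ maxInvSubgroups ⊤ A {q}, ∀ Q₂ ∈ maxInvSubgroups ⊤ A {q}, Q₁ ≠ ⊥ → Q₂ ≠ ⊥ → ∃ k ∈ K, Q₂ = k ⋆ Q₁) :
    TransOn K (maxInvSubgroups ⊤ A {q}) := fun Q₁ h₁ Q₂ h₂ => by
  by_cases e₁ : Q₁ = ⊥
  · exact ⟨1, one_mem _, by
      rw [Transfer.conj_one]; exact maxInv_max h₁ le_top (maxInv_pi h₂) (maxInv_norm h₂) (e₁ ▸ bot_le)⟩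
  by_cases e₂ : Q₂ = ⊥
  · exact ⟨1, one_mem _, by
      rw [Transfer.conj_one]; exact (maxInv_max h₂ le_top (maxInv_pi h₁) (maxInv_norm h₁) (e₂ ▸ bot_le)).symm⟩
  exact h Q₁ h₁ Q₂ h₂ e₁ e₂

/-- B&G Theorem 7.2. -/
theorem rank3_trans (h : NormedConstrained π A) (hqπ : q ∉ π) (h3 : 3 ≤ rank 𝐙(A)) :
    TransOn 𝐎(πᶜ, 𝐂(A)) (maxInvSubgroups ⊤ A {q}) := by
  refine trans_of_ne_bot fun Q₁ h₁ Q₂ h₂ n₁ n₂ => ?_
  obtain ⟨p, hp, B, hB⟩ := exists_elem_of_le_rank h3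
  haveI := Fact.mk hp
  have hBA : B ≤ A := hB.le.trans inf_le_left
  have cop : ∀ Q ∈ maxInvSubgroups ⊤ A {q}, (Nat.card B).Coprime (Nat.card Q) := fun Q hQ =>
    (h.pi.of_le hBA).coprime ((maxInv_pi hQ).mono fun r hr => hr ▸ hqπ)
  obtain ⟨C, hC, hi, hne⟩ : ∃ C : Subgroup G, C ≤ B ∧ C.relIndex B ∣ p ∧ Q₁ ⊓ 𝐂(C) ≠ ⊥ := by
    by_contra hne
    push Not at hne
    exact n₁ (le_bot_iff.1 (Coprime.le_of_forall_hyperplane hB.elem (hBA.trans (maxInv_norm h₁)) (cop _ h₁)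
      fun C h1 h2 => (hne C h1 h2).le))
  obtain ⟨m, hm, hle⟩ := hB.inf_rank (k := 1) hC le_rfl (by simpa using hi) (abelian_norm hB.abelian hC)
  rw [inf_eq_right.2 hC] at hm
  obtain ⟨z, hz, hz1, hne'⟩ := coprime_abelian_exists_cent1 hm.abelian (hm.not_cyclic (by omega))
    (hC.trans (hBA.trans (maxInv_norm h₂))) (coprime_mono (cop _ h₂) hC le_rfl) n₂
  have zD : PiElt (DD G) z := (h.piD h.pi).elt (hBA (hC hz))
  exact h.meet_trans hqπ h₁ h₂ (loc_cent1 hz1 zD) (le_cent1_iff.2 (hB.le (hC hz)).2)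
    (ne_bot_mono hne (inf_le_inf_left _ (cent_le_cent1 hz))) hne' (((cent1_D hz1 zD).of_le inf_le_right).mem_of_pgroup
      (pgroup_of_le (maxInv_pi h₂).pgroup inf_le_left) hne')

/-- B&G Theorem 7.3. -/
theorem rank2_trans (h : NormedConstrained π A) (hqπ : q ∉ π) (hqC : q ∣ Nat.card 𝐂(A)) (h2 : 2 ≤ rank 𝐙(A)) :
    TransOn 𝐎(πᶜ, 𝐂(A)) (maxInvSubgroups ⊤ A {q}) := by
  obtain ⟨p, hp, B, hB⟩ := exists_elem_of_le_rank h2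
  haveI := Fact.mk hp
  have hBA : B ≤ A := hB.le.trans inf_le_left
  have hqD : q ∈ DD G := (cent_D h.ne_bot (h.piD h.pi)).mem hq.out hqC
  obtain ⟨R, hR⟩ := Elem.exists_one hqC
  obtain ⟨Q, hQ, hRQ⟩ := maxInv_exists (π := {q}) le_top (hR.pi rfl) (norm_of_cent (cent_symm hR.le))
  have key : ∀ Q₁ ∈ maxInvSubgroups ⊤ A {q}, Q₁ ≠ ⊥ → ∃ k ∈ 𝐎(πᶜ, 𝐂(A)), Q₁ = k ⋆ Q := fun Q₁ h₁ n₁ => by
    obtain ⟨z, hz, hz1, hne⟩ := coprime_abelian_exists_cent1 hB.abelian (hB.not_cyclic le_rfl)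
      (hBA.trans (maxInv_norm h₁)) ((h.pi.of_le hBA).coprime ((maxInv_pi h₁).mono fun r hr => hr ▸ hqπ)) n₁
    exact h.meet_trans hqπ hQ h₁ (loc_cent1 hz1 ((h.piD h.pi).elt (hBA hz))) (le_cent1_iff.2 (hB.le hz).2)
      (ne_bot_mono (hR.ne_bot one_ne_zero) (le_inf hRQ (hR.le.trans (cent_le_cent1 (hBA hz))))) hne
  refine trans_of_ne_bot fun Q₁ h₁ Q₂ h₂ n₁ n₂ => ?_
  obtain ⟨k₁, hk₁, rfl⟩ := key Q₁ h₁ n₁
  obtain ⟨k₂, hk₂, rfl⟩ := key Q₂ h₂ n₂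
  exact ⟨k₂ * k₁⁻¹, mul_mem hk₂ (inv_mem hk₁), by rw [Transfer.conj_conj, inv_mul_cancel_right]⟩

/-- A nontrivial member of `И*(P; q)` lies in `И*(B; q)` whenever `A ≤ B ≤ P` and `P` is a `π`-group. -/
theorem maxInv_of_ge (h : NormedConstrained π A) (hqπ : q ∉ π) (hP : Loc P) (hπ : PiGrp π P) (hAB : A ≤ B)
    (hBP : B ≤ P) (hQ : Q ∈ maxInvSubgroups ⊤ P {q}) (h1 : Q ≠ ⊥)
    (hqD : q ∈ DD G := by dd) : Q ∈ maxInvSubgroups ⊤ B {q} := by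
  have hq' : ({q} : Set ℕ) ⊆ πᶜ := fun r hr => hr ▸ hqπ
  have pQ := maxInv_pi hQ
  have nQ := maxInv_norm hQ
  have hN := mFT_pgroup_norm_proper pQ.pgroup h1
  have hAN : A ≤ 𝐍(Q) := hAB.trans (hBP.trans nQ)
  obtain ⟨R, sR, hQR, nR⟩ := Syl.exists_inv_ge (norm_pcore (le_norm_of_le nQ) πᶜ) (hπ.coprime (pcore_pi _ _))
    (Or.inl (mFT_sol hP)) pQ.pgroup (h.le _ Q hN hAN (le_norm Q) (pQ.mono hq') hAN) nQ
  rw [maxInv_max hQ le_top sR.pi nR hQR] at sR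
  refine maxInv_mk le_top pQ (hBP.trans nQ) fun T _ pT nT hQT => ?_
  by_contra hne
  have hlt := nil_norm_grow (pgroup_nil pT.pgroup) (hQT.lt_of_not_ge hne)
  have pT' : PiGrp {q} (T ⊓ 𝐍(Q)) := pT.of_le inf_le_left
  exact hlt.ne (sR.eq_of_le hlt.le (h.le _ _ hN hAN inf_le_right (pT'.mono hq')
    (norm_inf (hAB.trans nT) (le_norm_of_le hAN))) pT')

/-- B&G Theorem 7.4(b, c). -/
theorem trans_superset_bc (h : NormedConstrained π A) (hqπ : q ∉ π) (hP : Loc P) (hπ : PiGrp π P)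
    (hsn : Core.SubnormalIn A P) (ht : TransOn 𝐎(πᶜ, 𝐂(A)) (maxInvSubgroups ⊤ A {q}))
    (hqD : q ∈ DD G := by dd) :
    TransOn 𝐎(πᶜ, 𝐂(P)) (maxInvSubgroups ⊤ P {q}) ∧ maxInvSubgroups ⊤ P {q} ⊆ maxInvSubgroups ⊤ A {q} := by
  refine hsn.tail_induction (P := fun P => TransOn 𝐎(πᶜ, 𝐂(P)) (maxInvSubgroups ⊤ P {q}) ∧
    maxInvSubgroups ⊤ P {q} ⊆ maxInvSubgroups ⊤ A {q}) ⟨ht, subset_rfl⟩ ?_
  intro B C hAB hBC hCP hn ⟨tB, sB⟩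
  have hC := ne_top_of_le hP hCP
  have πC := hπ.of_le hCP
  have nK : C ≤ 𝐍(𝐎(πᶜ, 𝐂(B))) := norm_pcore (norm_cent hn) _
  have hL : 𝐎(πᶜ, 𝐂(B)) ⊔ C ≤ 𝐍(B) := sup_le ((pcore_le _ _).trans (cent_le_norm B)) hn
  have sL := sol_of_le (loc_norm (ne_bot_mono h.ne_bot hAB.le) (h.piD (πC.of_le hBC))).sol hL
  have sub : maxInvSubgroups ⊤ C {q} ⊆ maxInvSubgroups ⊤ B {q} := fun Q hQ => by
    by_cases h1 : Q = ⊥
    · obtain ⟨Q₀, h₀, -⟩ := maxInv_exists (H := ⊤) (A := B) (π := {q}) le_top PiGrp.bot (by rw [norm_bot]; exact le_top)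
      obtain ⟨Q₁, h₁, n₁⟩ := glauberman_exists sL nK πC (pcore_pi _ _) (fun g hg Q hQ => maxInv_top_conj hQ (hL hg)) tB h₀
      rwa [← maxInv_max hQ le_top (maxInv_pi h₁) n₁ (h1 ▸ bot_le)]
    · exact h.maxInv_of_ge hqπ hC πC hAB.le hBC hQ h1
  refine ⟨fun Q₁ h₁ Q₂ h₂ => ?_, sub.trans sB⟩
  obtain ⟨k, hk, rfl⟩ := tB Q₁ (sub h₁) Q₂ (sub h₂)
  obtain ⟨c, hc, e⟩ := glauberman_trans sL nK πC (pcore_pi _ _) hk (maxInv_norm h₁) (maxInv_norm h₂)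
  exact ⟨c, pcore_inf_le (cent_anti hBC) hc, e⟩

omit [Sz G] hq in
/-- The Frattini argument in B&G Theorem 7.4(d). -/
theorem _root_.Cfsg.Lib.BG.Z.trans_norm_frattini (ht : TransOn 𝐎(πᶜ, 𝐂(P)) (maxInvSubgroups ⊤ P {q}))
    (hQ : Q ∈ maxInvSubgroups ⊤ P {q}) : 𝐎(πᶜ, 𝐂(P)) ⊔ (𝐍(P) ⊓ 𝐍(Q)) = 𝐍(P) := by
  refine le_antisymm (sup_le ((pcore_le _ _).trans (cent_le_norm P)) inf_le_left) fun g hg => ?_
  obtain ⟨k, hk, e⟩ := ht Q hQ _ (maxInv_top_conj hQ hg)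
  have : k⁻¹ * g ∈ 𝐍(Q) := norm_of_conj_eq (by rw [← Transfer.conj_conj, e, Transfer.inv_conj_conj])
  simpa using mul_mem_sup hk (show k⁻¹ * g ∈ 𝐍(P) ⊓ 𝐍(Q) from
    ⟨𝐍(P).mul_mem (𝐍(P).inv_mem (cent_le_norm P (pcore_le _ _ hk))) hg, this⟩)

omit [Sz G] hq in
/-- B&G Theorem 7.4(d), focal part. -/
theorem _root_.Cfsg.Lib.BG.Z.trans_norm_focal (hπ : PiGrp π P) (ht : TransOn 𝐎(πᶜ, 𝐂(P)) (maxInvSubgroups ⊤ P {q}))
    (hQ : Q ∈ maxInvSubgroups ⊤ P {q}) : P ⊓ ⁅𝐍(P), 𝐍(P)⁆ ≤ ⁅𝐍(Q), 𝐍(Q)⁆ := by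
  rw [pprod_focal_coprime ((Nml.cent_norm P).pcore πᶜ) (trans_norm_frattini ht hQ) (le_inf (le_norm P) (maxInv_norm hQ))
    (hπ.coprime (pcore_pi _ _)).symm]
  exact inf_le_right.trans (der_mono inf_le_right)

end NormedConstrained

/-- B&G Proposition 7.5 (both parts, through the Thompson-Bender theorem). -/
theorem abelian_normed_constrained [Fact p.Prime] (hA : IsPGroup p A) (hab : IsMulCommutative A) (h1 : A ≠ ⊥)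
    (hΩ : ∀ x ∈ 𝐂(A), x ^ p = 1 → x ∈ A)
    (hD : p ∈ DD G := by dd) : NormedConstrained {p} A :=
  ⟨PiGrp.p_iff.2 hA, h1, loc_pgroup hA hD, fun _ _ hX hAX hY hπ hn =>
    Thompson_Bender (D_ne_two hD) (mFT_sol hX) hAX hA hab (fun x hx => hΩ x hx.2) hY hπ hn, fun _ _ h => h ▸ hD⟩

/-- B&G Proposition 7.5(a). -/
theorem plength_1_normed_constrained [Fact p.Prime] (hA : MaxElem p A ⊤) (h1 : A ≠ ⊥)
    (hD : p ∈ DD G := by dd) : NormedConstrained {p} A :=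
  abelian_normed_constrained hA.pgroup hA.abelian h1 (fun _ hx => hA.mem trivial hx) hD

omit [Sz G] in
/-- Every `p`-subgroup of the centralizer of a member of `SCN(P)`, `P` Sylow, lies in it. -/
theorem SCN_Sylow_cent_pgroup_le [Fact p.Prime] {M : Subgroup G} (hP : Syl p P M) (hA : IsSCN P A) (hY : IsPGroup p Y)
    (hle : Y ≤ M ⊓ 𝐂(A)) : Y ≤ A := by
  have h1 : Syl p (P ⊓ (M ⊓ 𝐂(A))) (M ⊓ 𝐂(A)) :=
    (hP.of_le (le_inf hP.le hA.2.1) inf_le_left).inf (inf_le_inf_left _ (cent_le_norm A))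
      (norm_inf (le_norm_of_le hP.le) (norm_cent hA.2.1))
  rw [← inf_assoc, inf_eq_left.2 hP.le, SCN_cent hA] at h1
  exact h1.ge_of_norm_p' hle hY (norm_of_cent (hle.trans inf_le_right))

/-- B&G Proposition 7.5(b). -/
theorem SCN_normed_constrained [Fact p.Prime] (hP : Syl p P ⊤) (hA : IsSCN P A) (h1 : A ≠ ⊥)
    (hD : p ∈ DD G := by dd) : NormedConstrained {p} A :=
  abelian_normed_constrained (pgroup_of_le hP.pgroup hA.1) (SCN_abelian hA) h1 (fun x hx hxp =>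
    SCN_Sylow_cent_pgroup_le hP hA (elab_pgroup (PGroup.elemAb_zpowers hxp)) ((zpowers_le).2 ⟨trivial, hx⟩)
      (mem_zpowers x)) hD

end Cfsg.Lib.BG.Z
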