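import Cfsg.Agent.Lib.ZB.T07_1

set_option autoImplicit false
set_option linter.unusedVariables false

namespace Cfsg.Lib.BG.Z

open Subgroup
open scoped Cfsg.Lib.Transfer

variable {G : Type*} [Group G] [Finite G] [Sz G]

/-- B&G Theorem 7.6 (Thompson Transitivity Theorem). -/
theorem Thompson_transitivity {p q : ℕ} [Fact p.Prime] [Fact q.Prime] {A : Subgroup G} (hA : SCNp 3 p A)
    (hq : q ≠ p) : TransOn 𝐎({p}ᶜ, 𝐂(A)) (maxInvSubgroups ⊤ A {q}) := by
  obtain ⟨P, hP, hA, h3, hD⟩ := hA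
  have h1 : A ≠ ⊥ := ne_bot_of_dvd (Fact.out : p.Prime) (rk_pos_iff.1 (by omega))
  refine (SCN_normed_constrained hP hA h1).rank3_trans hq ?_
  rw [inf_eq_left.2 (abelian_cent (SCN_abelian hA))]
  exact h3.trans (rk_le_rank p A)

end Cfsg.Lib.BG.Z
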