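import Cfsg.Agent.Lib.ZB.T07_1
import Cfsg.Agent.Lib.BG.T01_Coprime

/-!
# Bender's lemmas on subgroups of the Fitting subgroup of a maximal (local) subgroup: the core of B&G Theorem 8.1
-/

set_option autoImplicit false
set_option linter.unusedVariables false
set_option linter.unusedSectionVars false
set_option linter.style.haveILetI false

namespace Cfsg.Lib.BG.Z

open Subgroup
open scoped Cfsg.Lib.Transfer

variable {G : Type*} [Group G] [Finite G] {π : Set ℕ} {p q r : ℕ} {A B H K L M P Q R X Y : Subgroup G}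

/-- `O_{π'}(X)` is the intersection of the `O_{q'}(X)`, `q ∈ π`. -/
theorem le_pcore_of_forall (hY : Y ≤ X) (h : ∀ q : ℕ, q.Prime → q ∈ π → Y ≤ 𝐎({q}ᶜ, X)) : Y ≤ 𝐎(πᶜ, X) := by
  refine (Core.le_iSup_conj Y X).trans (pcore_max (fun q hq hd hπ => ?_)
    ⟨Core.iSup_conj_le hY (le_norm X), Core.le_normalizer_iSup_conj Y X⟩)
  exact ((pcore_pi {q}ᶜ X).of_le (Core.iSup_conj_le (h q hq hπ) (pcore_nml _ X).norm)).mem hq hd rfl

theorem Fitting_pcore (π : Set ℕ) (H : Subgroup G) : 𝐅(𝐎(π, H)) = 𝐎(π, 𝐅(H)) := by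
  rw [(pcore_nml π H).Fitting_eq, (Fitting_nml H).pcore_eq, inf_comm]

/-- "Balance" in solvable groups (from B&G Proposition 1.15(b)). -/
theorem le_p'core_of_cent_le [Fact q.Prime] (hs : Group.IsSolvable X) (hR : IsPGroup q R) (hRX : R ≤ X)
    (hC : X ⊓ 𝐂(R) ≤ H) (hB : B ≤ 𝐎({q}ᶜ, H)) (hBX : B ≤ X) (hBR : B ≤ 𝐂(R)) : B ≤ 𝐎({q}ᶜ, X) :=
  ((le_inf hB (le_inf hBX hBR)).trans (pcore_inf_le hC)).trans (p'core_cent_pgroup hs hRX hR)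

theorem nil_pcore_center_ne_bot [hq : Fact q.Prime] (h : Group.IsNilpotent K) (hd : q ∣ Nat.card K) :
    𝐎({q}, 𝐙(K)) ≠ ⊥ := by
  have h1 := nil_meet_center h (pcore_le {q} K) (pcore_nml _ K).norm ((nil_pcore_Hall h {q}).ne_bot hq.out hd rfl)
  exact ne_bot_mono h1 (nil_le_pcore (abelian_nil (abelian_center K)) (inf_le_inf_right _ (pcore_le _ _))
    ((pcore_pi _ K).of_le inf_le_left))

/-- A `p'`-group normalized by a noncyclic... : every nontrivial `A`-invariant coprime group contains a nontrivial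
`A`-invariant subgroup of prime power order. -/
theorem exists_inv_pgroup (hA : A ≤ 𝐍(Y)) (hc : (Nat.card A).Coprime (Nat.card Y))
    (hs : Group.IsSolvable A ∨ Group.IsSolvable Y) (h1 : Y ≠ ⊥) :
    ∃ q : ℕ, q.Prime ∧ q ∣ Nat.card Y ∧ ∃ Q : Subgroup G, Syl q Q Y ∧ Q ≠ ⊥ ∧ A ≤ 𝐍(Q) := by
  obtain ⟨X, hX, hq⟩ := exists_prime_le h1
  haveI := Fact.mk hq
  obtain ⟨Q, hQ, hn⟩ := Syl.exists_inv (Nat.card X) hA hc hs
  exact ⟨_, hq, card_dvd hX, Q, hQ, hQ.ne_bot' (card_dvd hX), hn⟩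

/-- The setting of Bender's lemmas: `Z(F(H)) ≤ A ≤ F(H)`, `F(H)` is not of prime power order, and the centralizers
of the Sylow subgroups of `Z(F(H))` lie in `H`. -/
structure BenderHyp (H A : Subgroup G) : Prop where
  le : A ≤ 𝐅(H)
  center : 𝐙(𝐅(H)) ≤ A
  two : ∀ q : ℕ, ∃ r : ℕ, r.Prime ∧ r ∣ Nat.card 𝐅(H) ∧ r ≠ q
  cent : ∀ q : ℕ, q.Prime → q ∣ Nat.card 𝐅(H) → 𝐂(𝐎({q}, 𝐙(𝐅(H)))) ≤ H

namespace BenderHyp
variable (h : BenderHyp H A)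
include h

theorem nil : Group.IsNilpotent A := nil_of_le (Fitting_nil H) h.le
theorem leH : A ≤ H := h.le.trans (Fitting_le H)
theorem self : BenderHyp H 𝐅(H) := ⟨le_rfl, inf_le_left, h.two, h.cent⟩
theorem Z_le (q : ℕ) : 𝐎({q}, 𝐙(𝐅(H))) ≤ 𝐎({q}, A) := nil_le_pcore h.nil ((pcore_le _ _).trans h.center) (pcore_pi _ _)
theorem cent_pcore (hq : q.Prime) (hd : q ∣ Nat.card 𝐅(H)) : 𝐂(𝐎({q}, A)) ≤ H := (cent_anti (h.Z_le q)).trans (h.cent q hq hd)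
theorem cent_le : 𝐂(A) ≤ H := let ⟨_, hr, hd, _⟩ := h.two 0; (cent_anti (pcore_le _ A)).trans (h.cent_pcore hr hd)
theorem pcore_ne_bot [Fact q.Prime] (hd : q ∣ Nat.card 𝐅(H)) : 𝐎({q}, A) ≠ ⊥ :=
  ne_bot_mono (nil_pcore_center_ne_bot (Fitting_nil H) hd) (h.Z_le q)
theorem dvd_card [Fact q.Prime] (hd : q ∣ Nat.card 𝐅(H)) : q ∣ Nat.card A :=
  (pgroup_dvd_card (pcore_pgroup q A) (h.pcore_ne_bot hd)).trans (card_dvd (pcore_le _ A))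
theorem pcore_le_pcore (π : Set ℕ) : 𝐎(π, A) ≤ 𝐎(π, H) :=
  (nil_le_pcore (Fitting_nil H) ((pcore_le _ _).trans h.le) (pcore_pi _ _)).trans ((Fitting_nml H).pcore_le π)

theorem p'core_inf_le [hq : Fact q.Prime] (hd : q ∣ Nat.card 𝐅(H)) (hs : Group.IsSolvable X) (hAX : A ≤ X) :
    𝐎({q}ᶜ, H) ⊓ X ≤ 𝐎({q}ᶜ, X) :=
  le_p'core_of_cent_le hs (pcore_pgroup q _) ((pcore_le _ _).trans (h.center.trans hAX))
    (inf_le_right.trans (h.cent q hq.out hd)) inf_le_left inf_le_right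
    (cent_mono (pcore_cent (π := {q}ᶜ) (ρ := {q}) (fun _ h => h) H) inf_le_left ((h.Z_le q).trans (h.pcore_le_pcore _)))

theorem p'core_le [Fact q.Prime] (hd : q ∣ Nat.card 𝐅(H)) (hs : Group.IsSolvable X) (hAX : A ≤ X) :
    𝐎({q}ᶜ, A) ≤ 𝐎({q}ᶜ, X) :=
  (le_inf (h.pcore_le_pcore _) ((pcore_le _ _).trans hAX)).trans (h.p'core_inf_le hd hs hAX)

theorem inf_cent_le (hq : q.Prime) (hd : q ∣ Nat.card 𝐅(H)) (hY : PiGrp {r | r ∣ Nat.card 𝐅(H)}ᶜ Y) (hn : A ≤ 𝐍(Y)) :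
    Y ⊓ 𝐂(𝐎({q}, A)) ≤ 𝐂(A) := by
  have h1 : Y ⊓ 𝐂(𝐎({q}, A)) ≤ H := inf_le_right.trans (h.cent_pcore hq hd)
  rw [← comm_eq_bot_iff, eq_bot_iff, ← (PiGrp.self 𝐅(H)).inf_eq_bot hY]
  exact le_inf ((commutator_mono le_rfl h.le).trans (comm_le_right (h1.trans (Fitting_nml H).norm)))
    ((comm_le_left (norm_inf hn (norm_cent (pcore_nml _ A).norm))).trans inf_le_left)

theorem inv_le_pcore (hs : Group.IsSolvable X) (hAX : A ≤ X) (hYX : Y ≤ X) (hY : PiGrp {r | r ∣ Nat.card 𝐅(H)}ᶜ Y)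
    (hn : A ≤ 𝐍(Y)) (hC : Y ⊓ 𝐂(A) = ⊥) : Y ≤ 𝐎({r | r ∣ Nat.card 𝐅(H)}ᶜ, X) := by
  refine le_pcore_of_forall hYX fun q hq hd => ?_
  haveI := Fact.mk hq
  obtain ⟨r, hr, hrd, hrq⟩ := h.two q
  have hAr : 𝐎({r}, A) ≤ A := pcore_le _ _
  have h1 := coprime_comm_eq_of_cent_bot (hAr.trans hn) (((pcore_pi {r} A).mono fun s hs => hs ▸ hrd).coprime hY)
    (Or.inr (sol_of_le hs hYX)) (eq_bot_mono hC (le_inf inf_le_left (h.inf_cent_le hr hrd hY hn)))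
  rw [← h1]
  exact (pcore_nml _ X).comm_le' hYX |>.trans' (commutator_mono le_rfl
    ((pcore_mono (fun s hs => hs ▸ hrq) A).trans (h.p'core_le hd hs hAX)))

theorem le_cent_Fitting (hC : 𝐅(H) ⊓ 𝐂(A) ≤ A) (hY : PiGrp {r | r ∣ Nat.card 𝐅(H)}ᶜ Y) (hYA : Y ≤ 𝐂(A)) :
    Y ≤ H ⊓ 𝐂(𝐅(H)) :=
  le_inf (hYA.trans h.cent_le) (coprime_nil_cent_stab (Fitting_nil H) ((hYA.trans h.cent_le).trans (Fitting_nml H).norm)
    ((PiGrp.self 𝐅(H)).coprime hY).symm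
    ((inf_le_inf_left _ (cent_anti (le_inf h.le (cent_symm hYA)))).trans (hC.trans (cent_symm hYA))))

end BenderHyp

theorem exists_prime_ne_of_not_pgroup [hp : Fact p.Prime] (h : ¬ IsPGroup p K) (hd : p ∣ Nat.card K) (q : ℕ) :
    ∃ r : ℕ, r.Prime ∧ r ∣ Nat.card K ∧ r ≠ q := by
  by_cases e : p = q
  · by_contra hne
    push Not at hne
    exact h (PiGrp.pgroup fun r hr hrd => (hne r hr hrd).trans e.symm)
  · exact ⟨p, hp.out, hd, e⟩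

theorem exists_prime_ne_of_two_le {n : ℕ} (h : 2 ≤ n.primeFactors.card) (q : ℕ) : ∃ r : ℕ, r.Prime ∧ r ∣ n ∧ r ≠ q := by
  obtain ⟨r, hr, hne⟩ := Finset.exists_mem_ne (show 1 < n.primeFactors.card from h) q
  exact ⟨r, Nat.prime_of_mem_primeFactors hr, Nat.dvd_of_mem_primeFactors hr, hne⟩

variable [Sz G]

theorem BenderHyp.of_mmax (hM : Mx M) (h₁ : A ≤ 𝐅(M)) (h₂ : 𝐙(𝐅(M)) ≤ A)
    (h₃ : ∀ q : ℕ, ∃ r : ℕ, r.Prime ∧ r ∣ Nat.card 𝐅(M) ∧ r ≠ q) : BenderHyp M A :=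
  ⟨h₁, h₂, h₃, fun _ hq hd => haveI := Fact.mk hq
    mmax_cent_le hM (((Fitting_nml M).center).pcore _) (nil_pcore_center_ne_bot (Fitting_nil M) hd)⟩

/-- One half of the symmetric final step. -/
private theorem p'core_le_p'core [hq : Fact q.Prime] (hH : Mx H) (hL : Mx L) (h : BenderHyp H 𝐅(H))
    (hd : q ∣ Nat.card 𝐅(H)) (hd' : q ∣ Nat.card 𝐅(L)) (hFL : 𝐅(H) ≤ L) (hDH : 𝐅(L) ≤ H) :
    𝐎({q}ᶜ, H) ≤ 𝐎({q}ᶜ, L) := by
  refine (le_inf le_rfl ?_).trans (h.p'core_inf_le hd (mmax_sol hL) hFL)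
  have n1 : 𝐎({q}, L) ≠ ⊥ := pcore_Fitting q L ▸ (nil_pcore_Hall (Fitting_nil L) {q}).ne_bot hq.out hd' rfl
  refine (cent_symm (coprime_cent_Fitting (((pcore_sub_Fitting q L).trans hDH).trans (pcore_nml _ H).norm)
    ((pcore_pi {q} L).coprime (pcore_pi _ H)) (sol_of_le (mmax_sol hH) (pcore_le _ _)) ?_)).trans
    (mmax_cent_le hL (pcore_nml _ L) n1)
  rw [Fitting_pcore]
  exact cent_mono (pcore_cent (π := {q}) (ρ := {q}ᶜ) (fun _ h h' => h' h) L) le_rfl (h.p'core_le hd (mmax_sol hL) hFL)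

/-- Bender's uniqueness lemma (S1482). -/
theorem BenderHyp.uniqMax (hH : Mx H) (h : BenderHyp H A)
    (hinv : ∀ Y : Subgroup G, PiGrp {r | r ∣ Nat.card 𝐅(H)}ᶜ Y → A ≤ 𝐍(Y) → Y = ⊥) : UniqMax A H := by
  refine ⟨hH, h.leH, fun L hL hAL => ?_⟩
  have sL := mmax_sol hL
  have nilD := Fitting_nil L
  have h1 : ∀ q : ℕ, q.Prime → q ∣ Nat.card 𝐅(L) → q ∣ Nat.card 𝐅(H) := fun q hq hd => by
    by_contra hn
    exact (nil_pcore_Hall nilD {q}).ne_bot hq hd rfl (hinv _ ((pcore_pi _ _).mono fun r hr => hr ▸ hn)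
      (norm_pcore (norm_Fitting (le_norm_of_le hAL)) _))
  have h2 : ∀ q : ℕ, q.Prime → q ∣ Nat.card 𝐅(H) → q ∣ Nat.card 𝐅(L) := fun q hq hd => by
    by_contra hn
    haveI := Fact.mk hq
    have e : 𝐎({r | r ∣ Nat.card 𝐅(L)}ᶜ, L) = ⊥ := by
      by_contra e
      refine Fitting_ne_bot (sol_of_le sL (pcore_le _ _)) e ?_
      rw [Fitting_pcore, pcore_eq_bot (by rw [compl_compl]; exact PiGrp.self _)]
    refine h.pcore_ne_bot hd (eq_bot_mono e (le_pcore_of_forall ((pcore_le _ _).trans hAL) fun r hr hrd => ?_))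
    haveI := Fact.mk hr
    exact (pcore_mono (fun s (hs : s = q) (e : s = r) => hn (hs ▸ e ▸ hrd)) A).trans (h.p'core_le (h1 r hr hrd) sL hAL)
  have hDH : 𝐅(L) ≤ H := nil_le_of_pcore_le nilD fun q hq hd => by
    haveI := Fact.mk hq
    obtain ⟨r, hr, hrd, hrq⟩ := h.two q
    refine le_trans ?_ (h.cent_pcore hr hrd)
    rw [pcore_Fitting]
    exact cent_mono (pcore_cent (π := {q}) (ρ := {q}ᶜ) (fun _ h h' => h' h) L) le_rfl
      ((pcore_mono (fun s hs => hs ▸ hrq) A).trans (h.p'core_le (h1 q hq hd) sL hAL))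
  have hL' : BenderHyp L 𝐅(L) := .of_mmax hL le_rfl inf_le_left fun q =>
    let ⟨r, hr, hd, hne⟩ := h.two q; ⟨r, hr, h2 r hr hd, hne⟩
  have hFL : 𝐅(H) ≤ L := nil_le_of_pcore_le (Fitting_nil H) fun q hq hd => by
    haveI := Fact.mk hq
    obtain ⟨r, hr, hrd, hrq⟩ := hL'.two q
    refine le_trans ?_ (hL'.cent_pcore hr hrd)
    rw [pcore_Fitting]
    exact cent_mono (pcore_cent (π := {q}) (ρ := {q}ᶜ) (fun _ h h' => h' h) H) le_rfl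
      ((pcore_mono (fun s hs => hs ▸ hrq) _).trans (hL'.p'core_le (h2 q hq hd) (mmax_sol hH) hDH))
  obtain ⟨q, hq, hd, -⟩ := h.two 0
  haveI := Fact.mk hq
  obtain ⟨r, hr, hrd, hrq⟩ := h.two q
  haveI := Fact.mk hr
  have e : 𝐎({q}ᶜ, H) = 𝐎({q}ᶜ, L) := le_antisymm (p'core_le_p'core hH hL h.self hd (h2 q hq hd) hFL hDH)
    (p'core_le_p'core hL hH hL' (h2 q hq hd) hd hDH hFL)
  have n1 : 𝐎({q}ᶜ, H) ≠ ⊥ := ne_bot_mono (h.pcore_ne_bot hrd)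
    ((pcore_mono (fun s hs => hs ▸ hrq) A).trans (h.pcore_le_pcore _))
  rw [← mmax_pcore_norm hH n1, e, mmax_pcore_norm hL (e ▸ n1)]

/-- If `K = 1` in Theorem 7.2 for a subgroup `A` of `F(M)`, no nontrivial `π'`-group is normalized by `A`. -/
theorem NormedConstrained.inv_eq_bot (h : NormedConstrained π A) (hM : Mx M) (hA : A ≤ 𝐅(M))
    (hπ : PiGrp π 𝐅(M)) (h3 : 3 ≤ rank 𝐙(A)) (hK : 𝐎(πᶜ, 𝐂(A)) = ⊥) (hY : PiGrp πᶜ Y) (hn : A ≤ 𝐍(Y)) : Y = ⊥ := by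
  by_contra h1
  obtain ⟨q, hq, hd, Q, hQ, hQ1, hQn⟩ := exists_inv_pgroup hn (h.pi.coprime hY) (Or.inl (mFT_sol h.ne_top)) h1
  haveI := Fact.mk hq
  have hqπ : q ∉ π := hY.mem hq hd
  have hqD : q ∈ DD G := by
    obtain ⟨p, hp, B, hB⟩ := exists_elem_of_le_rank h3
    haveI := Fact.mk hp
    exact by_contra fun hD => by
      obtain ⟨a, ha, ha1, hne⟩ := coprime_abelian_exists_cent1 hB.abelian (hB.not_cyclic (by omega))
        ((hB.le.trans inf_le_left).trans hQn)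
        ((h.pi.of_le (hB.le.trans inf_le_left)).coprime (hY.of_le hQ.le)) hQ1
      exact hD (((cent1_D ha1 ((h.piD h.pi).elt (hB.le ha).1)).of_le inf_le_right).mem_of_pgroup
        (pgroup_of_le hQ.pgroup inf_le_left) hne)
  have ht := h.rank3_trans hqπ h3
  have hsub := (h.trans_superset_bc hqπ (sub_mmax_proper hM (Fitting_le M)) hπ
    (Core.SubnormalIn.of_isNilpotent (Fitting_nil M) hA) ht).2
  have uniq : ∀ Q₁ ∈ maxInvSubgroups ⊤ A {q}, ∀ Q₂ ∈ maxInvSubgroups ⊤ A {q}, Q₂ = Q₁ := fun Q₁ h₁ Q₂ h₂ => by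
    obtain ⟨k, hk, e⟩ := ht Q₁ h₁ Q₂ h₂
    rw [hK, mem_bot] at hk
    rw [e, hk, Transfer.conj_one]
  obtain ⟨Q₁, h₁, hle⟩ := maxInv_exists le_top hQ.pi hQn
  obtain ⟨Q₂, h₂, -⟩ := maxInv_exists (H := ⊤) (A := 𝐅(M)) (π := {q}) le_top PiGrp.bot (by rw [norm_bot]; exact le_top)
  have hn₂ : M ≤ 𝐍(Q₂) := le_norm_of_conj fun g hg =>
    uniq _ (hsub h₂) _ (hsub (maxInv_top_conj h₂ ((Fitting_nml M).norm hg)))
  have n₂ : Q₂ ≠ ⊥ := uniq _ h₁ _ (hsub h₂) ▸ ne_bot_mono hQ1 hle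
  have p₂ := (maxInv_pi h₂).pgroup
  have hle₂ : Q₂ ≤ M := (le_norm Q₂).trans (mmax_norm hM n₂ (mFT_pgroup_proper p₂) hn₂).le
  exact hqπ ((hπ.of_le (Fitting_max (pgroup_nil p₂) ⟨hle₂, hn₂⟩)).mem_of_pgroup p₂ n₂)

end Cfsg.Lib.BG.Z
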