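import Cfsg.Agent.Lib.ZB.T08_1a
import Cfsg.Agent.Lib.ZB.T08_1b
import Cfsg.Agent.Lib.BG.T04_PGroup

set_option autoImplicit false
set_option linter.unusedVariables false
set_option linter.style.haveILetI false

namespace Cfsg.Lib.BG.Z

open Subgroup
open scoped Cfsg.Lib.Transfer

variable {G : Type*} [Group G] [Finite G] [Sz G]

/-- Summary of the two branches of B&G Theorem 8.1. -/
theorem Fitting_Uniqueness {M : Subgroup G} (hM : Mx M) (h3 : 3 ≤ rank 𝐅(M)) : Uniq 𝐅(M) := by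
  obtain ⟨p, hp, h3⟩ := le_rank_iff.1 h3
  haveI := Fact.mk hp
  have hF := sub_mmax_proper hM (Fitting_le M)
  by_cases h : IsPGroup p 𝐅(M)
  · obtain ⟨P, hP, hle⟩ := Syl.exists_ge h (Fitting_le M)
    obtain ⟨A, hA, hA3⟩ := rank3_SCN3 (mFT_rk_ne_two (H := 𝐅(M)) (by omega)) hP.pgroup (h3.trans (rk_mono hle p))
    obtain ⟨-, h1, h2⟩ := SCN_Fitting_Uniqueness hM h hP h3 hA hA3
    exact h2.mono h1 hF
  · obtain ⟨E, hE⟩ := exists_elem_of_le_rk h3
    obtain ⟨A₀, hA₀, hle⟩ := MaxElem.exists_ge hE.elem hE.le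
    exact (non_pcore_Fitting_Uniqueness hM h hA₀ (hE.of_le hle).le_rk).mono inf_le_left hF

end Cfsg.Lib.BG.Z
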