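import Cfsg.Agent.Lib.ZB.T08_0

set_option autoImplicit false
set_option linter.unusedVariables false
set_option linter.style.haveILetI false

namespace Cfsg.Lib.BG.Z

open Subgroup
open scoped Cfsg.Lib.Transfer

variable {G : Type*} [Group G] [Finite G] [Sz G]

/-- B&G Theorem 8.1(a). -/
theorem non_pcore_Fitting_Uniqueness {p : ℕ} [Fact p.Prime] {M A₀ : Subgroup G} (hM : Mx M)
    (hF : ¬ IsPGroup p 𝐅(M)) (hA₀ : MaxElem p A₀ 𝐅(M)) (h3 : 3 ≤ rk p A₀) : Uniq (𝐅(M) ⊓ 𝐂(A₀)) := by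
  have hd : p ∣ Nat.card 𝐅(M) := (rk_pos_iff.1 (by omega)).trans (card_dvd hA₀.le)
  have h : BenderHyp M (𝐅(M) ⊓ 𝐂(A₀)) := .of_mmax hM inf_le_left (inf_le_inf_left _ (cent_anti hA₀.le))
    (exists_prime_ne_of_not_pgroup hF hd)
  have hA : A₀ ≤ 𝐅(M) ⊓ 𝐂(A₀) := le_inf hA₀.le (abelian_cent hA₀.abelian)
  have hC : ∀ Y : Subgroup G, PiGrp {r | r ∣ Nat.card 𝐅(M)}ᶜ Y → Y ≤ 𝐂(𝐅(M) ⊓ 𝐂(A₀)) → Y = ⊥ := fun Y hY hYA =>
    ((PiGrp.self 𝐅(M)).of_le ((h.le_cent_Fitting (inf_le_inf_left _ (cent_anti hA)) hY hYA).trans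
      (cent_sub_Fitting (mmax_sol hM)))).eq_bot hY
  have hc : NormedConstrained {r | r ∣ Nat.card 𝐅(M)} (𝐅(M) ⊓ 𝐂(A₀)) :=
    ⟨(PiGrp.self _).of_le inf_le_left, ne_bot_mono (A10.ne_bot_of_rk_pos (p := p) (by omega)) hA,
      sub_mmax_proper hM h.leH, fun X Y hX hAX hYX hY hn =>
        h.inv_le_pcore (mFT_sol hX) hAX hYX hY hn (hC _ (hY.of_le inf_le_left) inf_le_right),
      fun r hr hd => hM.Fitting_D.mem hr hd⟩
  refine (h.uniqMax hM fun Y hY hn => hc.inv_eq_bot hM inf_le_left (PiGrp.self _) ?_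
    (hC _ (pcore_pi _ _) (pcore_le _ _)) hY hn).uniq'
  exact h3.trans ((rk_mono (le_inf hA (cent_symm inf_le_right)) p).trans (rk_le_rank p _))

end Cfsg.Lib.BG.Z
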