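import Cfsg.Agent.Lib.ZB.T09_1
import Cfsg.Agent.Lib.ZB.T08_1a
import Cfsg.Agent.Lib.BG.T02_6

set_option autoImplicit false
set_option linter.unusedVariables false

namespace Cfsg.Lib.BG.Z

open Subgroup
open scoped Cfsg.Lib.Transfer

variable {G : Type*} [Group G] [Finite G]

/-- A `p`-group normalizing an `E_{p^2}` induces a group of order at most `p` on it. -/
theorem A9.cent_elem2_relIndex {p : ℕ} [hp : Fact p.Prime] {D P H : Subgroup G} (hD : Elem p 2 D H)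
    (hP : IsPGroup p P) (hn : P ≤ 𝐍(D)) : (P ⊓ 𝐂(D)).relIndex P ∣ p ^ 1 := by
  rw [inf_relIndex_left]
  have h1 := index_cent_p2Elem_dvd hD.top hn
  obtain ⟨k, hk⟩ : ∃ k, 𝐂(D).relIndex P = p ^ k :=
    (PiNat.p_iff (p := p) (index_ne_zero_of_finite (H := 𝐂(D).subgroupOf P))).mp ((PiGrp.p_iff.mpr hP).relIndex _)
  rw [hk, mul_assoc] at h1
  rw [hk, pow_one]
  refine Nat.Coprime.dvd_of_dvd_mul_right (Nat.Coprime.pow_left k ?_) h1
  refine Nat.Coprime.mul_right (Nat.Coprime.pow_right 2 ?_) (by simp)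
  exact (Nat.coprime_self_sub_right hp.out.one_le).mpr (by simp)

variable [Sz G]

/-- B&G Corollary 9.2. -/
theorem cent_uniq_Uniqueness {K L : Subgroup G} (hL : Uniq L) (hK : K ≤ 𝐂(L)) (h2 : 2 ≤ rank K) : Uniq K := by
  have hL1 := hL.ne_bot
  obtain ⟨H, hH⟩ := hL
  obtain ⟨p, hp, B, hB⟩ := exists_elem_of_le_rank h2
  haveI := Fact.mk hp
  have hKH : K ≤ H := hK.trans hH.cent_le
  refine (noncyclic_cent1_sub_Uniqueness hH.max (hB.le.trans (hK.trans hH.cent_le)) hB.elem (hB.not_cyclic le_rfl)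
    fun b hb hb1 => hH.cent1_le hb1 (le_cent1_iff.mpr (hK (hB.le hb)))).mono hB.le
    (hH.max.sub hKH)

/-- B&G Corollary 9.3. -/
theorem any_cent_rank3_Uniqueness {p : ℕ} [Fact p.Prime] {A B : Subgroup G} (hAc : IsMulCommutative A)
    (hAp : IsPGroup p A) (hA3 : 3 ≤ rk p A) (hA : Uniq A) (hBp : IsPGroup p B) (hB : ¬ IsCyclic B)
    (h3 : 3 ≤ rk p 𝐂(B)) : Uniq B := by
  obtain ⟨E, hE⟩ := exists_elem_of_le_rk h3
  obtain ⟨P, hP, hEP⟩ := Syl.exists_ge hE.pgroup le_top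
  obtain ⟨g, -, hg⟩ := hP.exists_conj_le hAp le_top
  obtain ⟨D, hD, hPD⟩ := exists_nml_elem_two (hE.ne_twoZ three_ne_zero) hP.pgroup (Nml.refl P)
    fun h => hE.not_cyclic (by norm_num) (cyclic_of_le h hEP)
  have key : ∀ X : Subgroup G, X ≤ P → 3 ≤ rk p X → 2 ≤ rank (X ⊓ 𝐂(D)) := fun X hX h => by
    have := rk_le_add_of_relIndex (Nml.cent (hX.trans hPD))
      (A9.cent_elem2_relIndex hD (pgroup_of_le hP.pgroup hX) (hX.trans hPD))
    exact le_trans (by omega) (rk_le_rank p _)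
  have h1 : Uniq ((g ⋆ A) ⊓ 𝐂(D)) := cent_uniq_Uniqueness (hA.conj g)
    (inf_le_left.trans (abelian_cent ((abelian_conj g).mpr hAc))) (key _ hg (by rwa [rk_conj]))
  have h2 : Uniq D := cent_uniq_Uniqueness h1 (cent_symm inf_le_right) hD.self.le_rank
  have h4 : Uniq (E ⊓ 𝐂(D)) := cent_uniq_Uniqueness h2 inf_le_right (key _ hEP hE.rk_eq.ge)
  exact cent_uniq_Uniqueness h4 (cent_symm (inf_le_left.trans hE.le)) ((mFT_two_le_rk hBp hB).trans (rk_le_rank p B))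

/-- If one abelian `p`-group of rank at least three is a uniqueness subgroup, all `p`-groups of rank at least three are. -/
theorem A9.rank3_uniq_of_abelian {p : ℕ} [Fact p.Prime] {A P : Subgroup G} (hAc : IsMulCommutative A)
    (hAp : IsPGroup p A) (hA3 : 3 ≤ rk p A) (hA : Uniq A) (hP : Loc P) (h3 : 3 ≤ rk p P) : Uniq P := by
  obtain ⟨E, hE⟩ := exists_elem_of_le_rk h3
  exact (any_cent_rank3_Uniqueness hAc hAp hA3 hA hE.pgroup (hE.not_cyclic (by norm_num))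
    (hE.of_le hE.cent).le_rk).mono hE.le hP

theorem A9.rank3_Fitting_uniq {p : ℕ} [Fact p.Prime] {M P : Subgroup G} (hM : Mx M)
    (hF : 3 ≤ rk p 𝐅(M)) (hP : Loc P) (h3 : 3 ≤ rk p P) : Uniq P := by
  by_cases hp : IsPGroup p 𝐅(M)
  · obtain ⟨S, hS⟩ := Syl.exists p M
    obtain ⟨A, hA, hA3⟩ := rank3_SCN3 (mFT_rk_ne_two (H := P) (by omega)) hS.pgroup
      (hF.trans ((rk_mono (Fitting_le M) p).trans hS.rk_eq.ge))
    exact A9.rank3_uniq_of_abelian (SCN_abelian hA) (pgroup_of_le hS.pgroup (SCN_le hA)) hA3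
      (SCN_Fitting_Uniqueness hM hp hS hF hA hA3).2.2 hP h3
  · obtain ⟨A, hA⟩ := exists_elem_rk p 𝐅(M)
    have hA3 : 3 ≤ rk p A := hA.rk_eq ▸ hF
    exact A9.rank3_uniq_of_abelian hA.abelian hA.pgroup hA3 (cent_uniq_Uniqueness
      (non_pcore_Fitting_Uniqueness hM hp (hA.maxElem_of_rk le_rfl) hA3) (cent_symm inf_le_right)
      (le_trans (by omega) (rk_le_rank p A))) hP h3

/-- B&G Lemma 9.4 (for arbitrary `p`-groups of rank at least three). -/
theorem any_rank3_Fitting_Uniqueness {p : ℕ} [Fact p.Prime] {M P : Subgroup G} (hM : Mx M)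
    (hF : 3 ≤ rk p 𝐅(M)) (hP : IsPGroup p P) (h3 : 3 ≤ rk p P) : Uniq P :=
  A9.rank3_Fitting_uniq hM hF (mFT_pgroup_proper hP) h3

end Cfsg.Lib.BG.Z
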