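import Cfsg.Agent.Lib.ZB.T09_2
import Cfsg.Agent.Lib.BG.T01_Chief
import Cfsg.Agent.Lib.BG.T01_Cyclic

set_option autoImplicit false
set_option linter.unusedVariables false

namespace Cfsg.Lib.BG.Z

open Subgroup
open scoped Cfsg.Lib.Transfer

variable {G : Type*} [Group G] [Finite G] [Sz G]

/-- A Sylow subgroup of the minimal counterexample is not central in its normalizer (Burnside). -/
theorem A9.comm_norm_Sylow_ne_bot {p : ℕ} [Fact p.Prime] {P : Subgroup G} (hP : Syl p P ⊤) (h1 : P ≠ ⊥) :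
    ⁅P, 𝐍(P)⁆ ≠ ⊥ := fun h => by
  have hsd := Burnside_normal_complement hP (inf_le_right.trans (comm_eq_bot_iff'.mp h))
  refine mFT_norm_ne_top (H := 𝐎({p}ᶜ, (⊤ : Subgroup G))) (fun e => ?_) (fun e => ?_) (eq_top_iff.mpr hsd.nml.norm)
  · exact mFT_sol_ne_top (pgroup_sol hP.pgroup) (by rw [← hsd.sup, e, bot_sup_eq])
  · exact h1 (by rw [← hsd.inf, e, top_inf_eq])

section
variable {p : ℕ} [Fact p.Prime] {A P M : Subgroup G} (hP : Syl p P ⊤) (hA : IsSCN P A) (h3 : 3 ≤ rk p A)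
  (hu : ¬ Uniq A) (hM : Mx M) (hC : 𝐂(A) ≤ M)
include hP hA h3 hu hM hC

omit hC in
theorem A9.scn_rk_Fitting : rk p 𝐅(M) ≤ 2 := by
  by_contra h
  exact hu (any_rank3_Fitting_Uniqueness hM (by omega) (pgroup_of_le hP.pgroup (SCN_le hA)) h3)

theorem A9.scn_norm_le : 𝐍(P) ≤ M := by
  have hAM : A ≤ M := (abelian_cent (SCN_abelian hA)).trans hC
  have hF := A9.scn_rk_Fitting hP hA h3 hu hM
  obtain ⟨q, hq, hqp, hqD, hN⟩ : ∃ q : ℕ, q.Prime ∧ q ≠ p ∧ q ∈ DD G ∧ ∀ Q : Subgroup G, PiGrp {q} Q → 𝐎({q}, M) ≤ Q → 𝐍(Q) ≤ M := by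
    by_cases h2 : rank 𝐅(M) ≤ 2
    · obtain ⟨q, hq, hd, hQ⟩ := A9.exists_pcore_Sylow (mmax_sol hM) (mFT_odd M) (mmax_ne_bot hM) h2
      haveI := Fact.mk hq
      have e := mmax_normal hM (pcore_nml _ M) (hQ.ne_bot' hd)
      refine ⟨q, hq, ?_, hM.D_of_nml (pcore_nml _ M) hQ.pgroup (hQ.ne_bot' hd), fun Q hQq hle => ?_⟩
      · rintro rfl
        have := (rk_mono hAM q).trans (hQ.rk_eq.ge.trans (rk_Fitting q M).ge)
        omega
      · rw [← (hQ.of_norm_le le_top (inf_le_right.trans e.le)).eq_of_le hle le_top hQq]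
        exact e.le
    · obtain ⟨q, hq, h⟩ := lt_rank_iff_exists.mp (not_le.mp h2)
      haveI := Fact.mk hq
      have h' : 3 ≤ rk q 𝐎({q}, M) := rk_Fitting q M ▸ h
      refine ⟨q, hq, by rintro rfl; omega, by dd, fun Q hQq hle => ?_⟩
      exact (((any_rank3_Fitting_Uniqueness hM h (pcore_pgroup q M) h').uniqMax hM (pcore_le _ M)).mono' hle
        (mFT_pgroup_proper hQq.pgroup)).norm_le
  haveI := Fact.mk hq
  have hA1 : A ≠ ⊥ := ne_bot_of_dvd Fact.out (rk_pos_iff.mp (show 0 < rk p A by omega))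
  have key : ∀ R : Subgroup G, IsPGroup p R → A ≤ R → R ≤ M → 𝐍(R) ≤ M := fun R hR hAR hRM => by
    obtain ⟨Q, hQ, hle⟩ := maxInv_exists (H := ⊤) le_top (pcore_pi {q} M) (hRM.trans (pcore_nml _ M).norm)
    have ht := ((SCN_normed_constrained hP hA hA1).trans_superset_bc hqp (mFT_pgroup_proper hR)
      (PiGrp.p_iff.mpr hR) (Core.SubnormalIn.of_isNilpotent (pgroup_nil hR) hAR)
      (Thompson_transitivity ⟨P, hP, hA, h3, by dd⟩ hqp)).1
    rw [← trans_norm_frattini ht hQ]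
    exact sup_le ((pcore_le _ _).trans ((cent_anti hAR).trans hC)) (inf_le_right.trans (hN Q (maxInv_pi hQ) hle))
  exact key P hP.pgroup (SCN_le hA)
    ((SCN_nml hA).norm.trans (key A (pgroup_of_le hP.pgroup (SCN_le hA)) le_rfl hAM))

theorem A9.scn_cent_p'core : 𝐎({p}ᶜ, 𝐅(M)) ≤ 𝐂(⁅P, 𝐍(P)⁆) := by
  have hab := SCN_abelian hA
  have hAM : A ≤ M := (abelian_cent hab).trans hC
  have hD : Nml 𝐎({p}ᶜ, 𝐅(M)) M := (Fitting_nml M).pcore _
  have hE := elab_Ohm1 (p := p) hab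
  refine Coprime.le_of_forall_hyperplane hE ((Ohm1_le p A).trans (hAM.trans hD.norm))
    ((pcore_pi _ _).coprime_pgroup (elab_pgroup hE)).symm fun B hB hi => ?_
  have hBA : B ≤ A := hB.trans (Ohm1_le p A)
  have hB2 : 2 ≤ rk p B := by
    have := rk_le_add_of_relIndex (p := p) (k := 1) (Nml.of_abelian hE.1 hB) (by rwa [pow_one])
    rw [rk_Ohm1] at this
    omega
  obtain ⟨y, hy, hy1, hyM⟩ : ∃ y ∈ B, y ≠ 1 ∧ ¬ 𝐂[y] ≤ M := by
    by_contra! h
    exact hu (cent_uniq_Uniqueness (noncyclic_cent1_sub_Uniqueness hM (hBA.trans hAM) (elab_of_le hE hB)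
      (not_cyclic_of_rank (hB2.trans (rk_le_rank p B))) h) (abelian_cent' hab le_rfl hBA)
      (le_trans (by omega) (rk_le_rank p A)))
  obtain ⟨L, hL, hyL⟩ := mmax_exists (mFT_cent1_proper hy1)
  have hNL := A9.scn_norm_le hP hA h3 hu hL ((cent_le_cent1 (hBA hy)).trans hyL)
  have hN : 𝐍(P) ≤ M ⊓ L := le_inf (A9.scn_norm_le hP hA h3 hu hM hC) hNL
  have hK : Nml (𝐎({p}ᶜ, 𝐅(M)) ⊓ L) (M ⊓ L) :=
    ⟨inf_le_inf_right _ hD.le, norm_inf (inf_le_left.trans hD.norm) (le_norm_of_le inf_le_right)⟩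
  refine le_trans (inf_le_inf_left _ ((cent_le_cent1 hy).trans hyL)) (cent_symm (cent_of_stab_chief hK
    (((pcore_pi _ _).of_le inf_le_left).coprime_pgroup (pgroup_of_le hP.pgroup (comm_le_left le_rfl))).symm
    fun V U hc hU => ?_))
  obtain ⟨q, hq, -, -, k, -, hk⟩ := hc.elem (sub_mmax_sol hM (hc.nmlU.le.trans inf_le_left))
  haveI := Fact.mk hq
  refine (commutator_mono le_rfl (comm_le_der ((le_norm P).trans hN) hN)).trans
    (rank2_cent_chief (p := q) (sub_mmax_sol hM inf_le_left) (mFT_odd _) hK ?_ hc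
      (hk ▸ PiNat.prime_pow hq (Set.mem_singleton q) k) hU)
  by_contra h
  refine hyM (hyL.trans ((A9.rank3_Fitting_uniq (p := q) hM ?_ (sub_mmax_proper hL inf_le_right) (by omega)).eq hM hL
    (inf_le_left.trans hD.le) inf_le_right).le)
  exact le_trans (by omega) (rk_mono (inf_le_left.trans (pcore_le _ _) : 𝐎({p}ᶜ, 𝐅(M)) ⊓ L ≤ 𝐅(M)) q)

theorem A9.scn_uniqMax : UniqMax 𝐍(⁅P, 𝐍(P)⁆) M := by
  have hP1 : P ≠ ⊥ := ne_bot_mono (ne_bot_of_dvd Fact.out (rk_pos_iff.mp (show 0 < rk p A by omega))) (SCN_le hA)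
  have h0 := A9.comm_norm_Sylow_ne_bot hP hP1
  have h0p : IsPGroup p ↥⁅P, 𝐍(P)⁆ := pgroup_of_le hP.pgroup (comm_le_left le_rfl)
  have hN := A9.scn_norm_le hP hA h3 hu hM hC
  by_cases h2 : rank 𝐅(M) ≤ 2
  · have hd := rank2_der1_sub_Fitting (mmax_sol hM) (mFT_odd M) h2
    have hle : ⁅P, 𝐍(P)⁆ ≤ 𝐎({p}, M) :=
      le_pcore_of_le_Fitting ((comm_le_der ((le_norm P).trans hN) hN).trans hd) h0p
    rw [mmax_norm hM h0 (mFT_pgroup_proper h0p) ((A9.der_Fitting_frattini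
      (hP.of_le ((le_norm P).trans hN) le_top) hd).ge.trans (sup_le (norm_of_cent
        ((pcore_cent (π := {p}ᶜ) (fun _ h h' => h h') M).trans (cent_anti hle))) (inf_le_right.trans (right_norm_comm _ _))))]
    exact UniqMax.self hM
  · obtain ⟨q, hq, h⟩ := lt_rank_iff_exists.mp (not_le.mp h2)
    haveI := Fact.mk hq
    have hqp : q ≠ p := by
      rintro rfl
      exact h.not_ge (A9.scn_rk_Fitting hP hA h3 hu hM)
    have hD : 𝐎({p}ᶜ, 𝐅(M)) ≤ M := (pcore_le _ _).trans (Fitting_le M)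
    exact ((A9.rank3_Fitting_uniq hM h (sub_mmax_proper hM hD)
      ((nil_rk_pcore (Fitting_nil M) hqp).ge.trans' h)).uniqMax hM hD).mono'
      (norm_of_cent (A9.scn_cent_p'core hP hA h3 hu hM hC)) (mFT_pgroup_norm_proper h0p h0)

end

/-- B&G Lemma 9.5. -/
theorem SCN_3_Uniqueness {p : ℕ} [Fact p.Prime] {A : Subgroup G} (hA : SCNp 3 p A) : Uniq A := by
  obtain ⟨P, hP, hA, h3, hD⟩ := hA
  by_contra hu
  have hab := SCN_abelian hA
  obtain ⟨M, hM, hC⟩ := mmax_exists (mFT_cent_proper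
    (ne_bot_of_dvd Fact.out (rk_pos_iff.mp (show 0 < rk p A by omega))))
  refine hu ((noncyclic_cent1_sub_Uniqueness hM ((Ohm1_le p A).trans ((abelian_cent hab).trans hC)) (elab_Ohm1 hab)
    (not_cyclic_of_rank (lt_of_lt_of_le (by rw [rk_Ohm1]; omega) (rk_le_rank p _))) fun x hx hx1 => ?_).mono
    (Ohm1_le p A) (mFT_abelian_proper hab))
  obtain ⟨L, hL, hxL⟩ := mmax_exists (mFT_cent1_proper hx1)
  exact hxL.trans ((A9.scn_uniqMax hP hA h3 hu hM hC).eq_of_uniqMax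
    (A9.scn_uniqMax hP hA h3 hu hL ((cent_le_cent1 (Ohm1_le p A hx)).trans hxL))).le

end Cfsg.Lib.BG.Z
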