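import Cfsg.Agent.Lib.ZB.T09_5

set_option autoImplicit false
set_option linter.unusedVariables false

namespace Cfsg.Lib.BG.Z

open Subgroup
open scoped Cfsg.Lib.Transfer

variable {G : Type*} [Group G] [Finite G] [Sz G]

/-- B&G Theorem 9.6 (Uniqueness Theorem), first assertion. -/
theorem rank3_Uniqueness {K : Subgroup G} (hK : Loc K) (h3 : 3 ≤ rank K) : Uniq K := by
  obtain ⟨p, hp, h⟩ := le_rank_iff.mp h3
  haveI := Fact.mk hp
  obtain ⟨P, hP⟩ := Syl.exists p (⊤ : Subgroup G)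
  obtain ⟨A, hA, hA3⟩ := rank3_SCN3 (mFT_rk_ne_two (H := K) (by omega)) hP.pgroup
    (h.trans ((rk_mono le_top p).trans hP.rk_eq.ge))
  exact A9.rank3_uniq_of_abelian (SCN_abelian hA) (pgroup_of_le hP.pgroup (SCN_le hA)) hA3
    (SCN_3_Uniqueness ⟨P, hP, hA, hA3, by dd⟩) hK h

/-- B&G Theorem 9.6, second assertion. -/
theorem cent_rank3_Uniqueness {K : Subgroup G} (h2 : 2 ≤ rank K) (hK : Loc K) (h3 : 3 ≤ rank 𝐂(K)) : Uniq K := by
  obtain ⟨p, hp, B, hB⟩ := exists_elem_of_le_rank h2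
  haveI := Fact.mk hp
  exact cent_uniq_Uniqueness (rank3_Uniqueness (loc_cent_of_dvd (hK.D_of_elem2 hB) (hB.dvd_card two_ne_zero)) h3)
    (cent_symm le_rfl) h2

/-- B&G Theorem 9.6, final remark. -/
theorem nonmaxElem2_Uniqueness {p : ℕ} [Fact p.Prime] {A : Subgroup G} (hA : Elem p 2 A ⊤)
    (hm : ¬ MaxElem p A ⊤)
    (hD : p ∈ DD G := by dd) : Uniq A := by
  obtain ⟨B, hB, hAB⟩ := MaxElem.of_not hA hm
  exact cent_rank3_Uniqueness hA.self.le_rank (mFT_pgroup_proper hA.pgroup)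
    (hB.of_le (abelian_cent' hB.abelian le_rfl hAB)).le_rank

end Cfsg.Lib.BG.Z
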