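import Cfsg.Agent.Lib.ZB.T10_0Aux
import Cfsg.Agent.Lib.ZB.T09_6

set_option autoImplicit false
set_option linter.unusedVariables false

namespace Cfsg.Lib.BG.Z

open Subgroup
open scoped Cfsg.Lib.Transfer

variable {G : Type*} [Group G] [Finite G] [Sz G]

/-- Preliminary remark of B&G section 10: Sylow `p`-subgroups for `p ∈ α(M)` are uniqueness subgroups. -/
theorem alpha_Sylow_uniq {p : ℕ} {M P : Subgroup G} (hM : Mx M) (hp : p ∈ alpha M) (hP : Syl p P M) :
    UniqMax P M := by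
  haveI := Fact.mk hp.1
  refine A10.uniqMax_of_uniq (rank3_Uniqueness (A10.ne_top_of_le hM.1 hP.1) ?_) hM hP.1
  exact ((A10.mem_alpha_iff.mp hp).trans (A10.rk_syl hP).ge).trans (A10.rk_le_rank P)

/-- Preliminary remark of B&G section 10. -/
theorem alpha_sub_sigma {M : Subgroup G} (hM : Mx M) : alpha M ⊆ sigma M := by
  intro p hp
  haveI := Fact.mk hp.1
  obtain ⟨P, hP⟩ := A10.exists_syl p M
  have hd : p ∣ Nat.card M := A10.dvd_card_of_rk_pos (lt_of_lt_of_le (by norm_num) (A10.mem_alpha_iff.mp hp))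
  exact A10.mem_sigma_iff.mpr ⟨hd, P, hP, A10.uniqMax_norm_le (alpha_Sylow_uniq hM hp hP) (A10.syl_ne_bot hP hd), by dd⟩

theorem beta_sub_sigma {M : Subgroup G} (hM : Mx M) : beta M ⊆ sigma M :=
  fun _ hp => alpha_sub_sigma hM hp.1

theorem Malpha_sub_Msigma {M : Subgroup G} (hM : Mx M) : alphaCore M ≤ sigmaCore M :=
  pcore_mono (alpha_sub_sigma hM) M

theorem Mbeta_sub_Msigma {M : Subgroup G} (hM : Mx M) : betaCore M ≤ sigmaCore M :=
  pcore_mono (beta_sub_sigma hM) M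

end Cfsg.Lib.BG.Z
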