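import Cfsg.Agent.Lib.ZB.Defs
import Cfsg.Agent.Lib.BG.Prod
import Cfsg.Agent.Lib.Hall.Solvable
import Cfsg.Agent.Lib.PGroup.Omega

/-!
# Auxiliary API for B&G section 10 (Sylow/Hall wrappers, ranks, maximal subgroups of the minimal counterexample)
-/

set_option autoImplicit false
set_option linter.unusedVariables false

namespace Cfsg.Lib.BG.Z.A10

open Subgroup
open scoped Cfsg.Lib.Transfer

variable {G : Type*} [Group G] {G' : Type*} [Group G'] {π : Set ℕ} {p : ℕ}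
variable {A B H K L M N P Q X : Subgroup G} {x g : G}

/-! ### Sylow subgroups -/

section Sylow
variable [Finite G] [hp : Fact p.Prime]

theorem syl_iff : Syl p P M ↔ P ≤ M ∧ IsPGroup p P ∧ ¬ p ∣ P.relIndex M :=
  Hall.isPiHallOf_singleton_iff hp.out

theorem syl_pgroup (h : Syl p P M) : IsPGroup p P := (syl_iff.mp h).2.1

theorem exists_syl_ge (hQ : IsPGroup p Q) (h : Q ≤ M) : ∃ P, Syl p P M ∧ Q ≤ P := by
  obtain ⟨T, h1, h2, h3, h4⟩ := Transfer.exists_sylowIn_ge hQ h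
  exact ⟨T, syl_iff.mpr ⟨h2, h3, h4⟩, h1⟩

variable (p) in
theorem exists_syl (M : Subgroup G) : ∃ P, Syl p P M := by
  obtain ⟨P, h, -⟩ := exists_syl_ge (IsPGroup.of_bot (p := p) (G := G)) (bot_le (a := M))
  exact ⟨P, h⟩

theorem syl_conj_le (h : Syl p P M) (hQ : IsPGroup p Q) (hQM : Q ≤ M) : ∃ m ∈ M, m ⋆ Q ≤ P :=
  Transfer.exists_conj_le_of_not_dvd_relIndex' (syl_iff.mp h).2.2 hQ hQM

theorem syl_conj_eq (h : Syl p P M) (hQ : Syl p Q M) : ∃ m ∈ M, m ⋆ Q = P :=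
  Transfer.exists_conj_eq_of_sylowIn h.1 (syl_pgroup h) (syl_iff.mp h).2.2 hQ.1 (syl_pgroup hQ)
    (syl_iff.mp hQ).2.2

theorem syl_eq_of_le (h : Syl p P M) (hQ : IsPGroup p Q) (hQM : Q ≤ M) (hPQ : P ≤ Q) : P = Q :=
  Transfer.eq_of_not_dvd_relIndex_of_le (syl_iff.mp h).2.2 hQ hQM hPQ

theorem syl_of_max (hPM : P ≤ M) (hP : IsPGroup p P)
    (h : ∀ Q : Subgroup G, IsPGroup p Q → P ≤ Q → Q ≤ M → Q ≤ P) : Syl p P M :=
  syl_iff.mpr ⟨hPM, hP, Transfer.not_dvd_relIndex_of_maximal hPM hP h⟩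

/-- A Sylow subgroup of `M` whose normalizer in `L` lies in `M` is a Sylow subgroup of `L`. -/
theorem syl_of_norm_le (h : Syl p P M) (hML : M ≤ L) (hn : L ⊓ 𝐍(P) ≤ M) : Syl p P L := by
  refine syl_of_max (h.1.trans hML) (syl_pgroup h) fun Q hQ hPQ hQL => ?_
  by_contra hne
  have hlt : P < Q := lt_of_le_of_ne hPQ fun e => hne e.ge
  have h1 := Transfer.lt_inf_normalizer_of_lt hQ hlt
  exact h1.ne (syl_eq_of_le h (pgroup_of_le hQ inf_le_left)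
    ((inf_le_inf_right _ hQL).trans hn) h1.le)

theorem syl_ne_bot (h : Syl p P M) (hd : p ∣ Nat.card M) : P ≠ ⊥ := by
  rintro rfl
  exact (syl_iff.mp h).2.2 (by rwa [relIndex_bot_left])

theorem syl_of_hall (h : Syl p P H) (hH : Hall π H M) (hπ : p ∈ π) : Syl p P M :=
  Hall.isPiHallOf_trans h hH.1 fun q hq hqp => hH.2.2 q hq (by rw [Set.mem_singleton_iff.mp hqp]; exact hπ)

theorem syl_iff_sylow : Syl p P M ↔ ∃ S : Sylow p M, (S : Subgroup M).map M.subtype = P :=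
  syl_iff.trans Transfer.exists_sylow_map_eq_iff.symm

theorem syl_top_iff_sylow : Syl p P ⊤ ↔ ∃ S : Sylow p G, (S : Subgroup G) = P := by
  rw [syl_iff, Transfer.exists_sylow_eq_iff, relIndex_top_right]
  simp

/-- Frattini argument. -/
theorem syl_frattini (h : Syl p P N) (hNK : N ≤ K) (hK : K ≤ 𝐍(N)) : N ⊔ (K ⊓ 𝐍(P)) = K := by
  refine le_antisymm (sup_le hNK inf_le_left) fun k hk => ?_
  obtain ⟨n, hn, h1⟩ := Transfer.frattini_argument h.1 (syl_pgroup h) (syl_iff.mp h).2.2 hK hk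
  have : k = n⁻¹ * (n * k) := by group
  rw [this]
  exact mul_mem (mem_sup_left (inv_mem hn)) (mem_sup_right ⟨mul_mem (hNK hn) hk, h1⟩)

end Sylow

theorem hall_conj (h : Hall π H M) (g : G) : Hall π (g ⋆ H) (g ⋆ M) :=
  (Hall.isPiHallOf_map_of_injective (MulAut.conj g).injective).mpr h

theorem hall_pi (h : Hall π H M) : PiGrp π H := h.2.1

theorem hall_index (h : Hall π H M) : PiNat πᶜ (H.relIndex M) := PiNat.compl_iff.mpr h.2.2

theorem hall_mk (h : H ≤ M) (h1 : PiGrp π H) (h2 : PiNat πᶜ (H.relIndex M)) : Hall π H M :=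
  ⟨h, h1, PiNat.compl_iff.mp h2⟩

/-- A `π`-subgroup lies in a normal Hall `π`-subgroup. -/
theorem le_pcore_of_hall [Finite G] (h : Hall π 𝐎(π, M) M) (hX : PiGrp π X) (hXM : X ≤ M) : X ≤ 𝐎(π, M) :=
  Hall.le_of_isPiHallOf_of_normalizes h hXM hX (hXM.trans (Core.le_normalizer_piCoreOf π M))

theorem hall_pcore_of_nml [Finite G] (h : Hall π H M) (hn : M ≤ 𝐍(H)) : Hall π 𝐎(π, M) M := by
  rw [Core.piCoreOf_eq_of_isPiHallOf h hn]
  exact h

/-- A normal `π`-complement passes to subgroups. -/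
theorem hall_pcore_of_le [Finite G] (h : Hall π 𝐎(π, M) M) (hH : H ≤ M) : Hall π 𝐎(π, H) H := by
  refine hall_pcore_of_nml (H := 𝐎(π, M) ⊓ H) (hall_mk inf_le_right ((pcore_pi π M).of_le inf_le_left) ?_)
    (norm_inf (hH.trans (pcore_nml π M).norm) (le_norm H))
  rw [inf_relIndex_right]
  exact (hall_index h).of_dvd (relIndex_dvd_of_norm hH (pcore_nml π M).norm)

/-- If `M` has a normal `p`-complement for every prime `p ∉ π`, then `O_π(M)` is a Hall subgroup. -/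
theorem hall_pcore_of_forall [Finite G] (hs : Group.IsSolvable M)
    (h : ∀ p : ℕ, p.Prime → p ∉ π → Hall {p}ᶜ 𝐎({p}ᶜ, M) M) : Hall π 𝐎(π, M) M := by
  obtain ⟨H, hH⟩ := Hall.exists_isPiHallOf π hs
  obtain ⟨N, hNdef⟩ : ∃ N : Subgroup G, N = M ⊓ ⨅ q : {q : ℕ // q.Prime ∧ q ∉ π}, 𝐎({q.1}ᶜ, M) := ⟨_, rfl⟩
  have hmem : ∀ y, y ∈ N ↔ y ∈ M ∧ ∀ q : ℕ, q.Prime → q ∉ π → y ∈ 𝐎({q}ᶜ, M) := fun y => by
    rw [hNdef, mem_inf, mem_iInf]
    exact and_congr Iff.rfl ⟨fun h q h1 h2 => h ⟨q, h1, h2⟩, fun h q => h q.1 q.2.1 q.2.2⟩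
  have hHN : H ≤ N := fun y hy => (hmem y).mpr ⟨hH.1 hy, fun q h1 h2 =>
    le_pcore_of_hall (h q h1 h2) ((hall_pi hH).p'_of_not_mem h2) hH.1 hy⟩
  have hN : PiGrp π N := fun q hq hd => by
    by_contra hqπ
    have h1 : N ≤ 𝐎({q}ᶜ, M) := fun y hy => ((hmem y).mp hy).2 q hq hqπ
    exact pcore_pi {q}ᶜ M q hq (hd.trans (card_dvd h1)) rfl
  have hn : M ≤ 𝐍(N) := le_norm_iff.mpr fun a ha y hy => (hmem _).mpr
    ⟨mul_mem (mul_mem ha ((hmem y).mp hy).1) (inv_mem ha), fun q h1 h2 =>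
      conj_mem_of_norm ((pcore_nml _ M).norm ha) (((hmem y).mp hy).2 q h1 h2)⟩
  have e : H = N := Hall.eq_of_isPiHallOf_of_le hH hHN (fun y hy => ((hmem y).mp hy).1) hN
  exact hall_pcore_of_nml hH (by rw [e]; exact hn)

/-- A group with a normal `p`-complement for every prime `p` is nilpotent. -/
theorem nil_of_forall_p_complement [Finite G] (hs : Group.IsSolvable M)
    (h : ∀ p : ℕ, p.Prime → p ∣ Nat.card M → Hall {p}ᶜ 𝐎({p}ᶜ, M) M) : Group.IsNilpotent M := by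
  rw [Core.isNilpotent_iff_sylow_normal]
  intro q hq P
  have h1 : Hall {q} 𝐎({q}, M) M := hall_pcore_of_forall hs fun p hp _ => by
    by_cases hd : p ∣ Nat.card M
    · exact h p hp hd
    · haveI := Fact.mk hp
      exact hall_pcore_of_nml (Hall.isPiHallOf_self (PiGrp.p'_iff.mpr hd)) (le_norm M)
  have h2 : Syl q ((P : Subgroup M).map M.subtype) M := syl_iff_sylow.mpr ⟨P, rfl⟩
  have h3 := Hall.eq_of_isPiHallOf_of_le h2 (le_pcore_of_hall h1 (hall_pi h2) h2.1) h1.1 (hall_pi h1)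
  rw [Core.normal_iff_le_normalizer_map_subtype, h3]
  exact (pcore_nml _ M).norm

/-! ### Ranks -/

section Rank
variable [Finite G]

theorem rk_le_iff [hp : Fact p.Prime] {k : ℕ} : rk p H ≤ k ↔ PRankLE p k H := by
  have hb : ∀ n ∈ {k : ℕ | PRankAtLeast p k H}, n ≤ Nat.card H := by
    rintro n ⟨A, -, -, h⟩
    exact ((Nat.lt_pow_self hp.out.one_lt).le.trans h).trans (card_le_card_group A)
  have h0 : 0 ∈ {k : ℕ | PRankAtLeast p k H} :=
    ⟨⊥, inferInstance, fun a ha => by rw [mem_bot.mp ha, one_pow], by simp⟩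
  constructor
  · intro h A hA hAp
    obtain ⟨n, hn⟩ := IsPGroup.iff_card.mp (PGroup.elemAb_isPGroup (p := p) ⟨hA, hAp⟩)
    rw [hn]
    exact Nat.pow_le_pow_right hp.out.pos ((le_csSup ⟨_, hb⟩ ⟨A, hA, hAp, hn.ge⟩).trans h)
  · intro h
    refine csSup_le ⟨0, h0⟩ ?_
    rintro n ⟨A, hA, hAp, hn⟩
    exact (Nat.pow_le_pow_iff_right hp.out.one_lt).mp (hn.trans (h A hA hAp))

theorem lt_rk_iff [Fact p.Prime] {k : ℕ} : k < rk p H ↔ ∃ A, Elem p (k + 1) A H := by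
  rw [← not_le, rk_le_iff, PGroup.not_pRankLE_subgroup_iff]
  exact ⟨fun ⟨A, h1, h2, h3⟩ => ⟨A, h1, h2, h3⟩, fun ⟨A, h⟩ => ⟨A, h.1, h.2, h.3⟩⟩

theorem rk_mono [Fact p.Prime] (h : H ≤ K) : rk p H ≤ rk p K :=
  rk_le_iff.mpr (PGroup.pRankLE_of_le h (rk_le_iff.mp le_rfl))

theorem elem_le_rk [Fact p.Prime] {n : ℕ} (h : Elem p n A H) : n ≤ rk p H := by
  cases n with
  | zero => exact Nat.zero_le _
  | succ n => exact lt_rk_iff.mpr ⟨A, h⟩

theorem rk_conj [Fact p.Prime] (g : G) (H : Subgroup G) : rk p (g ⋆ H) = rk p H :=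
  eq_of_forall_ge_iff fun k => by
    rw [rk_le_iff, rk_le_iff]
    exact PGroup.pRankLE_map_iff_of_injective (MulAut.conj g).injective

theorem rk_syl [Fact p.Prime] (h : Syl p P M) : rk p P = rk p M := by
  refine le_antisymm (rk_mono h.1) (le_of_forall_lt fun k hk => ?_)
  obtain ⟨A, hA⟩ := lt_rk_iff.mp hk
  obtain ⟨m, -, hm⟩ := syl_conj_le h (PGroup.elemAb_isPGroup hA.elem) hA.le
  exact (elem_le_rk (⟨le_rfl, hA.elem, hA.card⟩ : Elem p (k + 1) A A)).trans ((rk_conj m A).ge.trans (rk_mono hm))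

theorem dvd_card_of_rk_pos [Fact p.Prime] (h : 0 < rk p H) : p ∣ Nat.card H := by
  obtain ⟨A, hA⟩ := lt_rk_iff.mp h
  exact (hA.card ▸ dvd_pow_self p (Nat.succ_ne_zero 0) : p ∣ Nat.card A).trans (card_dvd hA.le)

theorem ne_bot_of_rk_pos [hp : Fact p.Prime] (h : 0 < rk p H) : H ≠ ⊥ :=
  ne_bot_of_dvd hp.out (dvd_card_of_rk_pos h)

theorem rank_le_iff {k : ℕ} : rank H ≤ k ↔ ∀ p : ℕ, p.Prime → rk p H ≤ k := by
  have hb : ∀ n ∈ {k | ∃ p : ℕ, p.Prime ∧ k = rk p H}, n ≤ Nat.card H := by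
    rintro n ⟨q, hq, rfl⟩
    haveI := Fact.mk hq
    exact rk_le_iff.mpr (PGroup.pRankLE_of_card_le (Nat.lt_pow_self hq.one_lt).le)
  constructor
  · intro h q hq
    exact (le_csSup ⟨_, hb⟩ ⟨q, hq, rfl⟩).trans h
  · intro h
    refine csSup_le ⟨_, 2, Nat.prime_two, rfl⟩ ?_
    rintro n ⟨q, hq, rfl⟩
    exact h q hq

theorem rk_le_rank [hp : Fact p.Prime] (H : Subgroup G) : rk p H ≤ rank H := rank_le_iff.mp le_rfl p hp.out

theorem lt_rank_iff {k : ℕ} : k < rank H ↔ ∃ p : ℕ, p.Prime ∧ k < rk p H := by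
  rw [← not_le, rank_le_iff]
  simp

theorem rank_mono (h : H ≤ K) : rank H ≤ rank K :=
  rank_le_iff.mpr fun q hq => haveI := Fact.mk hq; (rk_mono h).trans (rk_le_rank K)

/-- The `p`-rank does not increase in an image modulo a `p'`-kernel. -/
theorem rk_map_le [Finite G'] [hp : Fact p.Prime] (f : G →* G') (hk : PiGrp {p}ᶜ (H ⊓ f.ker)) :
    rk p (H.map f) ≤ rk p H := by
  obtain ⟨P, hP⟩ := exists_syl p H
  have h1 : Syl p (P.map f) (H.map f) := Hall.isPiHallOf_map f hP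
  rw [← rk_syl h1, ← rk_syl hP, rk_le_iff]
  have h2 : P ⊓ f.ker = ⊥ := eq_bot_iff.mpr <| (le_inf inf_le_left (inf_le_inf_right _ hP.1)).trans
    ((hall_pi hP).inf_eq_bot hk).le
  have hinj : Function.Injective (f.subgroupMap P) := by
    rw [injective_iff_map_eq_one]
    intro a ha
    have : (a : G) ∈ P ⊓ f.ker := ⟨a.2, congrArg Subtype.val ha⟩
    rw [h2] at this
    exact Subtype.ext this
  exact (PGroup.pRankLE_congr (MulEquiv.ofBijective _ ⟨hinj, f.subgroupMap_surjective P⟩)).mp (rk_le_iff.mp le_rfl)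

theorem mem_alpha_iff [hp : Fact p.Prime] : p ∈ alpha M ↔ 3 ≤ rk p M := by
  rw [Nat.succ_le_iff, ← not_le, rk_le_iff]
  exact ⟨fun h => h.2, fun h => ⟨hp.out, h⟩⟩

theorem mem_sigma_iff [hp : Fact p.Prime] :
    p ∈ sigma M ↔ p ∣ Nat.card M ∧ ∃ P, Syl p P M ∧ 𝐍(P) ≤ M ∧ p ∈ DD G :=
  ⟨fun ⟨_, h, P, hP⟩ => ⟨h, _, syl_iff_sylow.mpr ⟨P, rfl⟩, hP⟩, fun ⟨h, _, hP, hn⟩ => by
    obtain ⟨S, rfl⟩ := syl_iff_sylow.mp hP
    exact ⟨hp.out, h, S, hn⟩⟩

theorem norm_sigma_Sylow [Fact p.Prime] (h : p ∈ sigma M) (hP : Syl p P M) : 𝐍(P) ≤ M := by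
  obtain ⟨-, Q, hQ, hn, -⟩ := mem_sigma_iff.mp h
  obtain ⟨m, hm, rfl⟩ := syl_conj_eq hP hQ
  rw [← Transfer.conj_normalizer]
  exact conj_le_of_mem hn hm

theorem sigma_Sylow_G [Fact p.Prime] (h : p ∈ sigma M) (hP : Syl p P M) : Syl p P ⊤ :=
  syl_of_norm_le hP le_top (inf_le_right.trans (norm_sigma_Sylow h hP))

theorem sigma_conj (h : p ∈ sigma M) (g : G) : p ∈ sigma (g ⋆ M) := by
  haveI := Fact.mk h.1
  obtain ⟨hd, P, hP, hn, hD⟩ := mem_sigma_iff.mp h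
  refine mem_sigma_iff.mpr ⟨by rwa [Transfer.card_conj], g ⋆ P, hall_conj hP g, ?_, hD⟩
  rw [← Transfer.conj_normalizer]
  exact Transfer.conj_mono g hn

/-- B&G Theorem 10.1(d). -/
theorem sigma_Sylow_trans [Fact p.Prime] (h : p ∈ sigma M) (hX : Syl p X M) (hg : g ⋆ X ≤ M) : g ∈ M := by
  obtain ⟨m, hm, h1⟩ := syl_conj_le hX ((pgroup_conj g).mpr (syl_pgroup hX)) hg
  rw [Transfer.conj_conj] at h1
  have h2 := norm_sigma_Sylow h hX (Transfer.mem_normalizer_of_conj_le h1)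
  simpa using mul_mem (inv_mem hm) h2

end Rank

theorem coatom_conj (hM : Mx M) (g : G) : Mx (g ⋆ M) := by
  refine ⟨hM.1.conj g, fun L hL hl => hM.2 (g⁻¹ ⋆ L) ?_ (hl.conj _)⟩
  rw [← Transfer.conj_lt_conj_iff (g := g), Transfer.conj_inv_conj]
  exact hL

theorem uniqMax_conj (h : UniqMax H M) (g : G) : UniqMax (g ⋆ H) (g ⋆ M) :=
  ⟨coatom_conj h.max g, Transfer.conj_mono g h.le, fun L hL hle => by
    rw [← h.uniq _ (coatom_conj hL g⁻¹) (Transfer.conj_le_iff_le_inv_conj.mp hle), Transfer.conj_inv_conj]⟩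

theorem uniqMax_of_uniq (h : Uniq H) (hM : Mx M) (hHM : H ≤ M) : UniqMax H M := by
  obtain ⟨L, hL⟩ := h
  rw [hL.uniq M hM hHM]
  exact hL

theorem uniqMax_ge [Finite G] (h : UniqMax H M) (hHK : H ≤ K) (hK : Loc K) : UniqMax K M := by
  obtain ⟨L, hL, hKL⟩ := exists_Mx hK
  obtain rfl := h.uniq L hL (hHK.trans hKL)
  exact ⟨hL, hKL, fun L' hL' h' => h.uniq L' hL' (hHK.trans h')⟩

theorem uniq_ge [Finite G] (h : Uniq H) (hHK : H ≤ K) (hK : Loc K) : Uniq K :=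
  h.imp fun _ h => uniqMax_ge h hHK hK

theorem ne_top_of_le (hM : Loc M) (h : H ≤ M) : Loc H := hM.mono h

/-! ### The minimal counterexample -/

section Sz
variable [Finite G] [hG : Sz G]

theorem mFT_odd (H : Subgroup G) (h : Loc H := by dd) : Odd (Nat.card H) := h.odd

theorem mFT_sol (h : Loc H) : Group.IsSolvable H := h.sol

theorem mFT_ne_two [hp : Fact p.Prime] (h : p ∣ Nat.card H) (hH : Loc H := by dd) : p ≠ 2 := hH.ne_two h

omit [Finite G] in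
theorem mFT_top_not_sol : ¬ Group.IsSolvable (⊤ : Subgroup G) := top_not_sol

theorem mFT_pgroup_proper [Fact p.Prime] (h : IsPGroup p P) (hP : Loc P := by dd) : Loc P := hP

omit [Finite G] in
theorem mFT_norm_proper (h1 : H ≠ ⊥) (h2 : Loc H) (hD : PiGrp (DD G) H := by dd) : Loc 𝐍(H) := loc_norm h1 hD

omit [Finite G] in
theorem mFT_cent_proper (h1 : H ≠ ⊥) (hD : PiGrp (DD G) H := by dd) : Loc 𝐂(H) := loc_cent h1 hD

omit [Finite G] in
theorem mFT_der_top : ⁅(⊤ : Subgroup G), (⊤ : Subgroup G)⁆ = ⊤ := by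
  haveI := hG.simple
  refine (IsSimpleGroup.eq_bot_or_eq_top_of_normal _ inferInstance).resolve_left fun e => ?_
  exact mFT_top_not_sol (abelian_sol (abelian_iff_der.mpr e))

omit [Finite G] in
theorem mmax_ne_bot (hM : Mx M) : M ≠ ⊥ := hM.ne_bot

omit [Finite G] in
theorem mmax_norm_eq (hM : Mx M) (h1 : X ≠ ⊥) (hXM : X ≤ M) (hn : M ≤ 𝐍(X)) : 𝐍(X) = M := hM.norm_eq ⟨hXM, hn⟩ h1

omit [Finite G] in
theorem norm_mmax (hM : Mx M) : 𝐍(M) = M := mmax_norm_eq hM (mmax_ne_bot hM) le_rfl (le_norm M)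

theorem uniqMax_norm_le (h : UniqMax H M) (h1 : H ≠ ⊥) : 𝐍(H) ≤ M := fun g hg => by
  rw [← norm_mmax h.max]
  exact norm_of_conj_eq (h.uniq _ (coatom_conj h.max g) ((conj_eq_of_norm hg).ge.trans (Transfer.conj_mono g h.le)))

end Sz

end Cfsg.Lib.BG.Z.A10
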