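import Cfsg.Agent.Lib.ZB.T10_9
import Cfsg.Agent.Lib.ZB.Max
import Cfsg.Agent.Lib.Core.Subnormal

set_option autoImplicit false
set_option linter.unusedVariables false

namespace Cfsg.Lib.BG.Z

open Subgroup
open scoped Cfsg.Lib.Transfer

variable {G : Type*} [Group G] [Finite G]

theorem A10.pcore_primesNotDvd_pgroup {p : ℕ} [hp : Fact p.Prime] {A : Subgroup G} (hA : IsPGroup p A) (h1 : A ≠ ⊥)
    (H : Subgroup G) : 𝐎(primesNotDvd (Nat.card A), H) = 𝐎({p}ᶜ, H) :=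
  pcore_congr fun q hq _ => ⟨fun h e => h.2 (Set.mem_singleton_iff.mp e ▸ pgroup_dvd_card hA h1),
    fun h => ⟨hq, fun hd => h (pgroup_eq_of_dvd hA hq hd)⟩⟩

variable [hG : Sz G]

/-- B&G Proposition 10.10. -/
theorem max_normed_2Elem_signaliser {p q : ℕ} [Fact p.Prime] [Fact q.Prime] {A Q : Subgroup G} (hpq : p ≠ q)
    (hA : Elem p 2 A ⊤) (hAm : MaxElem p A ⊤) (hQ : Q ∈ maxInvSubgroups ⊤ A {q}) (hq : q ∣ Nat.card 𝐂(A))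
    (hD : p ∈ DD G := by dd) :
    ∃ P : Subgroup G, Syl p P ⊤ ∧ A ≤ P ∧ 𝐎({p}ᶜ, 𝐂(P)) ⊔ (𝐍(P) ⊓ 𝐍(Q)) = 𝐍(P) ∧ P ≤ ⁅𝐍(Q), 𝐍(Q)⁆ ∧
      (Narrow q Q → P ≤ 𝐂(Q)) := by
  have h1 : A ≠ ⊥ := hA.ne_bot two_ne_zero
  have hT := plength_1_normed_constrained hAm h1
  have hqD : q ∈ DD G := (cent_D h1 (elem_D hA hD)).mem Fact.out hq
  have htr := hT.rank2_trans (q := q) (Ne.symm hpq) hq (hA.of_le (le_inf le_rfl hA.cent)).le_rank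
  have key : ∀ P : Subgroup G, Syl p P ⊤ → A ≤ P → _ := fun P hP hAP =>
    hT.trans_superset_bc (q := q) (Ne.symm hpq) (loc_pgroup hP.pgroup hD) hP.pi
      (Core.SubnormalIn.of_isNilpotent hP.nil hAP) htr
  obtain ⟨P₀, hP₀, hAP₀⟩ := Syl.exists_ge hA.pgroup le_top
  obtain ⟨Q₀, hQ₀, -⟩ := maxInv_exists (H := ⊤) (A := P₀) (π := {q}) bot_le PiGrp.bot (norm_bot.ge.trans' le_top)
  obtain ⟨k, hk, rfl⟩ := htr Q₀ ((key P₀ hP₀ hAP₀).2 hQ₀) Q hQ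
  have hP : Syl p (k ⋆ P₀) ⊤ := hP₀.conj_top k
  have hAP : A ≤ k ⋆ P₀ := (conj_eq_of_cent (pcore_le _ _ hk)).ge.trans (Transfer.conj_mono k hAP₀)
  have hQ' := maxInv_conj hQ₀ k
  rw [Transfer.conj_top] at hQ'
  have h2 := trans_norm_focal hP.pi (key _ hP hAP).1 hQ'
  have h3 := (trans_norm_frattini (key _ hP hAP).1 hQ').symm
  rw [inf_eq_left.mpr (mFT_Sylow_der1 hP)] at h2
  refine ⟨_, hP, hAP, h3.symm, h2, fun hn => ?_⟩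
  by_cases hQ1 : k ⋆ Q₀ = ⊥
  · rw [hQ1, cent_bot]
    exact le_top
  have hQp := (maxInv_pi hQ).pgroup
  refine (p'_of_pgroup hP.pgroup hpq).le_of_relIndex h2 ((der_le _).trans (norm_cent le_rfl)) ?_
  rw [compl_compl]
  exact (Aut_narrow_a (mFT_pgroup_ne_two hQp hQ1) hQp hn le_rfl (mFT_norm_sol hQ1 (mFT_pgroup_proper hQp))
    (mFT_odd _)).1

end Cfsg.Lib.BG.Z
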