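import Cfsg.Agent.Lib.ZB.T10_10
import Cfsg.Agent.Lib.BG.T03_7
import Cfsg.Agent.Lib.BG.T01_Coprime

set_option autoImplicit false
set_option linter.unusedVariables false

namespace Cfsg.Lib.BG.Z

open Subgroup
open scoped Cfsg.Lib.Transfer

variable {G : Type*} [Group G] [Finite G]

/-- Fixed points of a coprime action on a product. -/
theorem A10.coprime_cent_sup {A N K : Subgroup G} (hK : K ≤ 𝐍(N)) (hAN : A ≤ 𝐍(N)) (hAK : A ≤ 𝐍(K))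
    (hc : (Nat.card A).Coprime (Nat.card N)) (hs : Group.IsSolvable A ∨ Group.IsSolvable N) :
    (N ⊔ K) ⊓ 𝐂(A) ≤ (N ⊓ 𝐂(A)) ⊔ (K ⊓ 𝐂(A)) := by
  rintro z ⟨hz, hzc⟩
  obtain ⟨x, hx, y, hy, rfl⟩ := (mem_sup_left_norm hK).mp hz
  obtain ⟨x', hx', y', hy', e⟩ := Coprime.exists_centralizer_mul_centralizer hc hs le_rfl hAN hAK hx hy hzc
  rw [e]
  exact mul_mem (mem_sup_left hx') (mem_sup_right hy')

variable [Sz G]

theorem A10.sigma'_rank2 {M K : Subgroup G} (hM : Mx M) (hKM : K ≤ M) (hK : PiGrp (sigma M)ᶜ K) :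
    rank K ≤ 2 :=
  rank_le_iff_forall.mpr fun p hp => by
    haveI := Fact.mk hp
    by_contra h
    exact mem_pi_of_rk_pos (p := p) hK (by omega)
      (alpha_sub_sigma hM (mem_alpha_iff.mpr (le_trans (by omega) (A10.rk_mono (p := p) hKM))))

/-- B&G Proposition 10.11(a). -/
theorem sigma'_not_uniq {M K : Subgroup G} (hM : Mx M) (hKM : K ≤ M) (hK : PiGrp (sigma M)ᶜ K)
    (hD : PiGrp (DD G) K := by dd) :
    ¬ Uniq K := by
  intro hu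
  obtain ⟨E, hE, hKE⟩ := Hall.exists_ge (mmax_sol hM) hKM (hK.inter hD)
  have hED : PiGrp (DD G) E := hE.pi.mono Set.inter_subset_right
  have hne : (Nat.card E).primeFactors.Nonempty :=
    Nat.nonempty_primeFactors.mpr (E.one_lt_card_iff_ne_bot.mpr (ne_bot_mono hu.ne_bot hKE))
  obtain ⟨hq, hd, -⟩ := Nat.mem_primeFactors.mp ((Nat.card E).primeFactors.max'_mem hne)
  haveI := Fact.mk hq
  have hS := rank2_max_pcore_Sylow (sub_mmax_sol hM hE.le) (mFT_odd E)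
    ((rank_mono (Fitting_le E)).trans (A10.sigma'_rank2 hM hE.le (hE.pi.mono Set.inter_subset_left)))
    (p := (Nat.card E).primeFactors.max' hne) fun q hq hd =>
      Finset.le_max' _ q (Nat.mem_primeFactors.mpr ⟨hq, hd, Nat.card_pos.ne'⟩)
  have hσ := hE.pi.mem hq hd
  exact hσ.1 (mem_sigma_of_norm_le (hS.of_Hall hE hσ) (hS.ne_bot' hd) ((hu.uniqMax hM hKM).norm_le_of_norm
    (hS.ne_bot' hd) (loc_pgroup hS.pgroup hσ.2) (hKE.trans (pcore_nml _ E).norm) (hED.of_le hS.le)) hσ.2)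

/-- B&G Proposition 10.11(b). -/
theorem sub'cent_sigma_rank1 {M K : Subgroup G} (hM : Mx M) (hKM : K ≤ M) (hK : PiGrp (sigma M)ᶜ K) :
    rank (K ⊓ 𝐂(sigmaCore M)) ≤ 1 := by
  by_contra h
  obtain ⟨p, hp, A, hA⟩ := exists_elem_of_le_rank (show 2 ≤ rank (K ⊓ 𝐂(sigmaCore M)) by omega)
  haveI := Fact.mk hp
  have hAK : A ≤ K := hA.le.trans inf_le_left
  have hc : sigmaCore M ≤ 𝐂(A) := cent_symm (hA.le.trans inf_le_right)
  have hu := sigma'_not_uniq hM (hAK.trans hKM) (hK.of_le hAK)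
  have hσ : p ∉ sigma M := (hA.of_le hAK).mem_pi two_ne_zero hK
  have hmax : MaxElem p A ⊤ := by
    by_contra hm
    exact hu (nonmaxElem2_Uniqueness hA.top hm)
  have hα : ∀ r, r ∉ alpha M := fun r hr => by
    haveI := Fact.mk hr.1
    exact hu (cent_rank3_Uniqueness hA.self.le_rank (mFT_pgroup_proper hA.pgroup) ((mem_alpha_iff.mp hr).trans
      (((Msigma_Hall hM).rk_eq (alpha_sub_sigma hM hr)).ge.trans ((rk_mono hc r).trans (rk_le_rank r _)))))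
  obtain ⟨q, hq, hd⟩ := Nat.exists_prime_and_dvd (card_ne_one (Msigma_ne_bot hM))
  haveI := Fact.mk hq
  have hqσ := (Msigma_pi M).mem hq hd
  obtain ⟨Q, hQ⟩ := Syl.exists q (sigmaCore M)
  have hQM := hQ.of_Hall (Msigma_Hall hM) hqσ
  obtain ⟨P, hP, hAP, -, hP', -⟩ := max_normed_2Elem_signaliser (Q := Q) (fun e : p = q => hσ (e ▸ hqσ)) hA.top hmax
    (maxInv_mk le_top hQ.pi (norm_of_cent (cent_symm (hQ.le.trans hc))) fun R _ hR _ hQR =>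
      ((sigma_Sylow_G hqσ hQM).eq_of_le hQR le_top hR).ge) (hd.trans (card_dvd hc))
  have hPM' : P ≤ ⁅M, M⁆ := hP'.trans (der_mono (norm_sigma_Sylow hqσ hQM))
  have hnil : Group.IsNilpotent ↥⁅M, M⁆ := alpha'_der1_nil hM (fun r _ _ => hα r) le_rfl
  refine hσ (sigma_of_nml_Sylow hM (hP.of_le (hPM'.trans (der_le M)) le_top)
    (ne_bot_mono (hA.ne_bot two_ne_zero) hAP) ?_)
  rw [(hP.of_le hPM' le_top).eq_of_nil hnil]
  exact ((Nml.der_self M).pcore _).norm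

/-- B&G Proposition 10.11(c). -/
theorem sub'cent_sigma_cyclic {M K : Subgroup G} (hM : Mx M) (hKM : K ≤ M) (hK : PiGrp (sigma M)ᶜ K) :
    IsCyclic ↥(K ⊓ 𝐂(sigmaCore M) ⊓ ⁅M, M⁆) ∧ Nml (K ⊓ 𝐂(sigmaCore M) ⊓ ⁅M, M⁆) M := by
  have hZ : Nml 𝐎((sigma M)ᶜ, 𝐅(M)) M := (Fitting_nml M).pcore _
  have hZc : 𝐎((sigma M)ᶜ, 𝐅(M)) ≤ 𝐂(sigmaCore M) :=
    hZ.cent_of_disjoint (Msigma_nml M) (by rw [inf_comm]; exact (Msigma_pi M).inf_eq_bot (pcore_pi _ _))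
  have hcyc : IsCyclic 𝐎((sigma M)ᶜ, 𝐅(M)) := mFT_nil_cyclic (nil_of_le (Fitting_nil M) (pcore_le _ _))
    ((rank_mono (le_inf le_rfl hZc)).trans (sub'cent_sigma_rank1 hM hZ.le (pcore_pi _ _)))
  have hF : K ⊓ 𝐂(sigmaCore M) ⊓ ⁅M, M⁆ ≤ 𝐅(M) := by
    refine le_trans ?_ (mmax_cent_Fitting_le hM)
    rw [← (nil_pcore_dprod (Fitting_nil M) (sigma M)).sup]
    exact le_cent_sup (inf_le_left.trans (inf_le_right.trans (cent_anti ((Fitting_nml M).pcore_le _))))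
      (inf_le_right.trans (der1_cent_cyclic hcyc hZ.norm))
  have hY := nil_le_pcore (Fitting_nil M) hF (hK.of_le (inf_le_left.trans inf_le_left))
  exact ⟨cyclic_of_le hcyc hY, hZ.of_le_cyclic hcyc hY⟩

/-- B&G Proposition 10.11(d). -/
theorem commG_sigma'_1Elem_cyclic {p : ℕ} [Fact p.Prime] {M K P : Subgroup G} (hM : Mx M) (hKM : K ≤ M)
    (hK : PiGrp (sigma M)ᶜ K) (hp : p ∉ sigma M) (hP : Elem p 1 P (M ⊓ 𝐍(K))) (hC : sigmaCore M ⊓ 𝐂(P) = ⊥)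
    (hKp : PiGrp {p}ᶜ K) (hab : IsMulCommutative K) :
    ⁅K, P⁆ ≤ 𝐂(sigmaCore M) ∧ IsCyclic ↥⁅K, P⁆ ∧ Nml ⁅K, P⁆ M := by
  have hPM : P ≤ M := hP.le.trans inf_le_left
  have hPK : P ≤ 𝐍(K) := hP.le.trans inf_le_right
  have h0 : ⁅K, P⁆ ≤ K := comm_le_left hPK
  have h1 : ⁅K, P⁆ ⊓ 𝐂(P) = ⊥ := eq_bot_mono
    (coprime_abelian_cent_dprod hPK (hKp.coprime_pgroup hP.pgroup).symm hab).inf
    (le_inf inf_le_left (inf_le_inf_right _ h0))
  have hnil : Group.IsNilpotent ↥(sigmaCore M ⊔ ⁅K, P⁆) := by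
    refine prime_Frobenius_sol_kernel_nil (norm_sup (norm_Msigma hPM) (right_norm_comm K P)) hP.prime
      (eq_bot_iff.mpr ((A10.coprime_cent_sup (norm_Msigma (h0.trans hKM)) (norm_Msigma hPM) (right_norm_comm K P)
        (((Msigma_pi M).p'_of_not_mem hp).coprime_pgroup hP.pgroup).symm (Or.inl (pgroup_sol hP.pgroup))).trans ?_))
    rw [hC, h1, bot_sup_eq]
  have hc : ⁅K, P⁆ ≤ 𝐂(sigmaCore M) :=
    nil_cent_of_coprime hnil le_sup_right le_sup_left ((Msigma_pi M).coprime (hK.of_le h0)).symm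
  obtain ⟨h2, h3⟩ := sub'cent_sigma_cyclic hM hKM hK
  have h4 : ⁅K, P⁆ ≤ K ⊓ 𝐂(sigmaCore M) ⊓ ⁅M, M⁆ := le_inf (le_inf h0 hc) (comm_le_der hKM hPM)
  exact ⟨hc, cyclic_of_le h2 h4, h3.of_le_cyclic h2 h4⟩

end Cfsg.Lib.BG.Z
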