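import Cfsg.Agent.Lib.ZB.T10_2
import Cfsg.Agent.Lib.ZB.Max

set_option autoImplicit false
set_option linter.unusedVariables false

namespace Cfsg.Lib.BG.Z

open Subgroup
open scoped Cfsg.Lib.Transfer

variable {G : Type*} [Group G] [Finite G] [Sz G]

/-- B&G Proposition 10.14(a). -/
theorem beta_not_narrow {p : ℕ} (hp : IsIdealPrime p G) :
    (∀ A : Subgroup G, Elem p 2 A ⊤ → ¬ MaxElem p A ⊤) ∧
    ∀ P A : Subgroup G, Syl p P ⊤ → Elem p 2 A P → ¬ MaxElem p A P := by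
  haveI := Fact.mk hp.1
  refine ⟨fun A hA hm => ?_, (ideal_iff.mp hp).2.1⟩
  obtain ⟨P, hP, hAP⟩ := Syl.exists_ge hA.pgroup le_top
  exact (ideal_iff.mp hp).2.1 P A hP (hA.of_le hAP) (hm.of_le hAP le_top)

/-- B&G Proposition 10.14(b). -/
theorem beta_noncyclic_uniq {p : ℕ} {R : Subgroup G} (hp : IsIdealPrime p G) (hR : IsPGroup p R)
    (h2 : 2 ≤ rk p R) : Uniq R := by
  haveI := Fact.mk hp.1
  obtain ⟨A, hA⟩ := exists_elem_of_le_rk h2
  exact (nonmaxElem2_Uniqueness hA.top ((beta_not_narrow hp).1 A hA.top)).mono hA.le (mFT_pgroup_proper hR)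

/-- B&G Proposition 10.14(c). -/
theorem beta_subnorm_uniq {p : ℕ} {P X : Subgroup G} (hp : IsIdealPrime p G) (hP : Syl p P ⊤) (hX : X ≤ P) :
    Uniq (P ⊓ 𝐍(X)) := by
  haveI := Fact.mk hp.1
  have hQ : IsPGroup p ↥(P ⊓ 𝐍(X)) := pgroup_of_le hP.pgroup inf_le_left
  refine beta_noncyclic_uniq hp hQ (mFT_two_le_rk hQ fun hc => ?_)
  have h3 : 3 ≤ rk p P := hP.rk_eq ▸ (ideal_iff.mp hp).1
  rcases (inf_le_left : P ⊓ 𝐍(X) ≤ P).eq_or_lt with e | hlt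
  · rw [e] at hc
    have := rk_le_one_of_cyclic (p := p) hc
    omega
  · exact (nil_norm_grow hP.nil hlt).not_ge
      (inf_le_inf_left P (norm_le_of_le_cyclic hc (le_inf hX (le_norm X))))

/-- B&G Proposition 10.14(d). -/
theorem beta_norm_sub_mmax {M Y : Subgroup G} (hM : Mx M) (hYM : Y ≤ M) (hY : PiGrp (beta M) Y)
    (hY1 : Y ≠ ⊥) : 𝐍(Y) ≤ M := by
  obtain ⟨q, hq, hd⟩ := Nat.exists_prime_and_dvd (card_ne_one (Fitting_ne_bot (sub_mmax_sol hM hYM) hY1))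
  haveI := Fact.mk hq
  have hβ : q ∈ beta M := hY.mem hq (hd.trans (card_dvd (Fitting_le Y)))
  have hX1 : 𝐎({q}, Y) ≠ ⊥ := by
    rw [← pcore_Fitting]
    exact (nil_pcore_Hall (Fitting_nil Y) {q}).ne_bot hq hd rfl
  obtain ⟨P, hP, hXP⟩ := Syl.exists_ge (pcore_pgroup q Y) ((pcore_le _ Y).trans hYM)
  exact (norm_pcore le_rfl _).trans ((beta_subnorm_uniq hβ.2 (sigma_Sylow_G (beta_sub_sigma hM hβ) hP) hXP).ge hM
    (inf_le_left.trans hP.le) inf_le_right (mFT_pgroup_norm_proper (pcore_pgroup q Y) hX1))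

end Cfsg.Lib.BG.Z
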