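import Cfsg.Agent.Lib.ZB.T10_2
import Cfsg.Agent.Lib.BG.T06_7

set_option autoImplicit false
set_option linter.unusedVariables false

namespace Cfsg.Lib.BG.Z

open Subgroup
open scoped Cfsg.Lib.Transfer

variable {G : Type*} [Group G] [Finite G] [Sz G]

/-- B&G Lemma 10.3. -/
theorem cent_alpha'_uniq {M X : Subgroup G} (hM : Mx M) (hXM : X ≤ M) (hX : PiGrp (alpha M)ᶜ X)
    (h2 : 2 ≤ rank (alphaCore M ⊓ 𝐂(X))) : Uniq (M ⊓ 𝐂(X)) := by
  have hne : Loc (M ⊓ 𝐂(X)) := A10.ne_top_of_le hM.1 inf_le_left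
  obtain ⟨p, hp, h⟩ := A10.lt_rank_iff.mp h2
  haveI := Fact.mk hp
  obtain ⟨B, hB⟩ := A10.lt_rk_iff.mp h
  have hMa := Malpha_Hall hM
  have hd : p ∣ Nat.card (alphaCore M) := (A10.dvd_card_of_rk_pos (Nat.zero_lt_of_lt h)).trans (card_dvd inf_le_left)
  have hα : p ∈ alpha M := hMa.pi.mem hp hd
  have hBM : B ≤ M := hB.le.trans (inf_le_left.trans hMa.le)
  by_cases hmax : MaxElem p B ⊤
  · have hX' : X ≤ 𝐎({p}ᶜ, M) := norm_pmaxElem_p'core (A10.mFT_ne_two hd) (A10.mFT_sol hM.1)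
      ⟨hBM, hB.elem, fun C _ => hmax.max C le_top⟩ hXM (hX.p'_of_compl hα) (norm_of_cent (hB.le.trans inf_le_right))
    obtain ⟨P, hP, hXP⟩ := Syl.exists_inv p (A := X) (K := alphaCore M) (hXM.trans (pcore_nml _ M).norm)
      (hMa.pi.coprime hX).symm (Or.inl (A10.mFT_sol (A10.ne_top_of_le hM.1 hXM)))
    have hPM := hP.of_Hall hMa hα
    have hc : P ≤ 𝐂(X) := comm_eq_bot_iff.mp <| eq_bot_iff.mpr <|
      (le_inf (comm_le_left hXP) ((commutator_mono le_rfl hX').trans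
        (comm_le_right (hPM.le.trans (pcore_nml _ M).norm)))).trans (hP.pi.inf_eq_bot (pcore_pi _ M)).le
    exact rank3_Uniqueness hne ((A10.mem_alpha_iff.mp hα).trans ((A10.rk_syl hPM).ge.trans
      ((A10.rk_mono (le_inf hPM.le hc)).trans (A10.rk_le_rank _))))
  · exact A10.uniq_ge (nonmaxElem2_Uniqueness ⟨le_top, hB.elem, hB.card⟩ hmax)
      (le_inf hBM (hB.le.trans inf_le_right)) hne

end Cfsg.Lib.BG.Z
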