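import Cfsg.Agent.Lib.ZB.T10_3

set_option autoImplicit false
set_option linter.unusedVariables false

namespace Cfsg.Lib.BG.Z

open Subgroup
open scoped Cfsg.Lib.Transfer

variable {G : Type*} [Group G] [Finite G] [Sz G]

/-- B&G Lemma 10.4(a). -/
theorem der1_quo_sigma' {p : ℕ} [Fact p.Prime] {M : Subgroup G} (hM : Mx M) (hp : p ∣ ⁅M, M⁆.relIndex M) :
    p ∉ sigma M :=
  A10.der1_idx_sigma' hM p Fact.out hp

/-- B&G Lemma 10.4(b). -/
theorem cent1_sigma'_Zgroup {p : ℕ} [Fact p.Prime] {M P : Subgroup G} (hM : Mx M) (hp : p ∉ sigma M)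
    (hP : Syl p P M) (hP1 : P ≠ ⊥) :
    ∃ x ∈ 𝐙(P), orderOf x = p ∧ (p ∈ DD G → ¬ UniqMax 𝐂[x] M) ∧ IsZGroup ↥(alphaCore M ⊓ 𝐂[x]) := by
  by_cases hD : p ∈ DD G
  swap
  · obtain ⟨x, hx, ho⟩ := exists_orderOf_prime Fact.out (pgroup_dvd_card (pgroup_of_le hP.pgroup inf_le_left)
      (center_ne_bot_of_nil hP.nil hP1))
    refine ⟨x, hx, ho, fun h => absurd h hD, ?_⟩
    rw [← cent_zpowers, not_D_cent_eq_bot hM.1.Malpha_D hD (by rw [Nat.card_zpowers, ho])]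
    infer_instance
  have h : ∃ x ∈ 𝐙(P), orderOf x = p ∧ ¬ UniqMax 𝐂[x] M := by
    by_contra! h
    refine hp (A10.mem_sigma_iff.mpr ⟨hP.dvd_card' hP1, P, hP, fun g hg => ?_, hD⟩)
    obtain ⟨x, hx⟩ := exists_prime_orderOf_dvd_card' p (pgroup_dvd_card (pgroup_of_le hP.pgroup inf_le_left)
      (center_ne_bot_of_nil hP.nil hP1))
    rw [← orderOf_coe] at hx
    have h1 := A10.uniqMax_conj (h x x.2 hx) g
    rw [conj_cent1] at h1
    have h2 := h (g * x * g⁻¹) (conj_mem_of_norm (norm_center le_rfl hg) x.2)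
      ((orderOf_injective (MulAut.conj g).toMonoidHom (MulAut.conj g).injective x).trans hx)
    rw [← A10.norm_mmax hM]
    exact norm_of_conj_eq (h2.uniq _ h1.max h1.le)
  obtain ⟨x, hx, ho, hu⟩ := h
  refine ⟨x, hx, ho, fun _ => hu, (odd_rank1_Zgroup (A10.mFT_odd _)).mpr ?_⟩
  by_contra h2
  have hXP : zpowers x ≤ P := zpowers_le.mpr hx.1
  have hx1 : x ≠ 1 := by
    rintro rfl
    exact (Fact.out : p.Prime).one_lt.ne (orderOf_one.symm.trans ho)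
  have h3 := cent_alpha'_uniq hM (hXP.trans hP.le)
    (PiGrp.of_pgroup (pgroup_of_le hP.pgroup hXP) fun h => hp (alpha_sub_sigma hM h))
    (by rw [cent_zpowers]; omega)
  refine hu ?_
  rw [← cent_zpowers]
  exact A10.uniqMax_ge (A10.uniqMax_of_uniq h3 hM inf_le_left) inf_le_right
    (A10.mFT_cent_proper (zpowers_ne_bot.mpr hx1))

/-- B&G Lemma 10.4(c), first part. -/
theorem sigma'_rank2_max {p : ℕ} [Fact p.Prime] {M A : Subgroup G} (hM : Mx M) (hp : p ∉ sigma M)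
    (h2 : rk p M = 2) (hA : Elem p 2 A M) : MaxElem p A ⊤ := by
  by_contra hmax
  obtain ⟨P, hP, hAP⟩ := Syl.exists_ge (PGroup.elemAb_isPGroup hA.elem) hA.le
  have hd : p ∣ Nat.card M := A10.dvd_card_of_rk_pos (by omega)
  have hu := A10.uniqMax_ge (A10.uniqMax_of_uniq (nonmaxElem2_Uniqueness ⟨le_top, hA.elem, hA.card⟩ hmax) hM hA.le)
    hAP (A10.ne_top_of_le hM.1 hP.le)
  exact hp (A10.mem_sigma_iff.mpr ⟨hd, P, hP, A10.uniqMax_norm_le hu (hP.ne_bot' hd), by dd⟩)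

/-- B&G Lemma 10.4(c), second part. -/
theorem sigma'_rank2_beta' {p : ℕ} [Fact p.Prime] {M : Subgroup G} (hM : Mx M) (hp : p ∉ sigma M)
    (h2 : rk p M = 2) : ¬ IsIdealPrime p G := by
  intro h
  obtain ⟨A, hA⟩ := A10.lt_rk_iff.mp (show 1 < rk p M by omega)
  obtain ⟨P, hP⟩ := (PGroup.elemAb_isPGroup hA.elem).exists_le_sylow
  obtain ⟨B, -, hB, hAB⟩ := h.2.2.1 P A hP hA.elem hA.card
  exact hAB.ne' ((sigma'_rank2_max hM hp h2 hA).max B le_top hB hAB.le)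

/-- B&G Lemma 10.5, first part. -/
theorem sigma'_norm_mmax_rank2 {p : ℕ} [Fact p.Prime] {M X : Subgroup G} (hM : Mx M) (hp : p ∉ sigma M)
    (hX : IsPGroup p X) (hN : 𝐍(X) ≤ M)
    (hD : p ∈ DD G := by dd) : rk p M = 2 := by
  have hX1 : X ≠ ⊥ := by
    rintro rfl
    exact hM.1.ne_top (eq_top_iff.mpr (norm_bot.ge.trans hN))
  obtain ⟨P, hP, hXP⟩ := Syl.exists_ge hX ((le_norm X).trans hN)
  have hd := hP.dvd_card' (ne_bot_mono hX1 hXP)
  have h3 : ¬ 3 ≤ rk p M := fun h => hp (alpha_sub_sigma hM (A10.mem_alpha_iff.mpr h))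
  have h1 : ¬ rk p M ≤ 1 := fun h => by
    have hc := (odd_pgroup_rank1_cyclic (A10.mFT_ne_two hd) hP.pgroup).mpr ((A10.rk_syl hP).le.trans h)
    exact hp (A10.mem_sigma_iff.mpr ⟨hd, P, hP, (norm_le_of_le_cyclic hc hXP).trans hN, hD⟩)
  omega

/-- B&G Lemma 10.5, last part. -/
theorem sigma'1Elem_sub_p2Elem {p : ℕ} [Fact p.Prime] {M X : Subgroup G} (hM : Mx M) (hp : p ∉ sigma M)
    (hX : Elem p 1 X ⊤) (hN : 𝐍(X) ≤ M)
    (hD : p ∈ DD G := by dd) : ∃ A : Subgroup G, Elem p 2 A M ∧ X ≤ A := by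
  have hXp := PGroup.elemAb_isPGroup hX.elem
  have h2 := sigma'_norm_mmax_rank2 hM hp hXp hN
  have hXc : (Nat.card X).Prime := by rw [hX.card, pow_one]; exact Fact.out
  obtain ⟨P, hP, hXP⟩ := Syl.exists_ge hXp ((le_norm X).trans hN)
  have hP1 := ne_bot_mono (ne_bot_of_prime hXc) hXP
  have hT : ¬ omegaOne p 𝐙(P) ≤ X := fun h => by
    have e := (eq_bot_or_eq_of_prime hXc h).resolve_left (PGroup.omegaOne_ne_bot
      (pgroup_of_le hP.pgroup inf_le_left) (center_ne_bot_of_nil hP.nil hP1))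
    exact hp (A10.mem_sigma_iff.mpr ⟨hP.dvd_card' hP1, P, hP,
      (norm_Ohm1 (norm_center le_rfl) p).trans (by rw [e]; exact hN), hD⟩)
  have hA : IsElementaryAbelian p (X ⊔ omegaOne p 𝐙(P)) :=
    PGroup.elemAb_sup hX.elem (PGroup.isElementaryAbelian_omegaOne (abelian_center P))
      (cent_symm ((Ohm1_le p _).trans (inf_le_right.trans (cent_anti hXP))))
  have hAM : X ⊔ omegaOne p 𝐙(P) ≤ M := (sup_le hXP ((Ohm1_le p _).trans inf_le_left)).trans hP.le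
  obtain ⟨k, hk⟩ := PGroup.elemAb_card hA
  have hk2 : k ≤ 2 := h2 ▸ A10.elem_le_rk ⟨hAM, hA, hk⟩
  have hk1 : 1 < k := by
    have := Core.card_lt_card_of_lt (left_lt_sup.mpr hT)
    rw [hk, hX.card] at this
    exact (Nat.pow_lt_pow_iff_right (Fact.out : p.Prime).one_lt).mp this
  obtain rfl : k = 2 := by omega
  exact ⟨_, ⟨hAM, hA, hk⟩, le_sup_left⟩

end Cfsg.Lib.BG.Z
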