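import Cfsg.Agent.Lib.ZB.T10_7
import Cfsg.Agent.Lib.BG.T05_5

set_option autoImplicit false
set_option linter.unusedVariables false

namespace Cfsg.Lib.BG.Z

open Subgroup
open scoped Cfsg.Lib.Transfer

variable {G : Type*} [Group G] [Finite G]

/-- If `p` is not ideal, every Sylow `p`-subgroup of `G` is narrow. -/
theorem A10.narrow_of_not_ideal {p : ℕ} [hp : Fact p.Prime] {P : Subgroup G} (hP : Syl p P ⊤)
    (h : ¬ IsIdealPrime p G)
    (hD : p ∈ DD G := by dd) : Narrow p P := by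
  intro h3
  by_contra hn
  refine h ⟨hp.out, fun h2 => h3.not_ge (A10.rk_le_iff.mpr (PGroup.pRankLE_subgroup h2 P)), fun S A hA hAe hAc => ?_, hD⟩
  by_contra hB
  obtain ⟨g, -, rfl⟩ := (Syl.of_sylow_top S).exists_conj_eq hP
  refine hn ⟨g ⋆ A, ⟨Transfer.conj_mono g hA, PGroup.elemAb_map _ hAe, (Transfer.card_conj g A).trans hAc⟩,
    Transfer.conj_mono g hA, PGroup.elemAb_map _ hAe, fun B hB1 hB2 hB3 => ?_⟩
  by_contra hne
  refine hB ⟨g⁻¹ ⋆ B, Transfer.le_conj_iff_inv_conj_le.mp hB1, PGroup.elemAb_map _ hB2, ?_⟩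
  rw [← Transfer.conj_lt_conj_iff (g := g), Transfer.conj_inv_conj]
  exact lt_of_le_of_ne hB3 (Ne.symm hne)

variable [Sz G]

theorem A10.narrow_of_not_beta {p : ℕ} [Fact p.Prime] {M P : Subgroup G} (hM : Mx M) (hp : p ∉ beta M)
    (hP : Syl p P M) : Narrow p P := fun h3 => by
  have hα : p ∈ alpha M := A10.mem_alpha_iff.mpr (by rw [← A10.rk_syl hP]; omega)
  exact A10.narrow_of_not_ideal (A10.sigma_Sylow_G (alpha_sub_sigma hM hα) hP) (fun h => hp ⟨hα, h⟩) (by dd) h3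

/-- B&G Lemma 10.8(c). -/
theorem beta_max_pdiv {p : ℕ} [Fact p.Prime] {M : Subgroup G} (hM : Mx M) (hp : p ∉ beta M) :
    Hall {p}ᶜ 𝐎({p}ᶜ, ⁅M, M⁆) ⁅M, M⁆ ∧ Hall {p}ᶜ 𝐎({p}ᶜ, sigmaCore M) (sigmaCore M) ∧
      ∀ q : ℕ, q.Prime → q ∣ 𝐎({p}ᶜ, M).relIndex M → q ≤ p := by
  obtain ⟨P, hP⟩ := Syl.exists p M
  obtain ⟨h1, h2⟩ := narrow_der1_complement_max_pdiv (A10.mFT_sol hM.1) (A10.mFT_odd M) hP
    (A10.narrow_of_not_beta hM hp hP) fun _ => mFT_proper_plength1 p hM.1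
  exact ⟨h1, A10.hall_pcore_of_le h1 (Msigma_der1 hM), h2⟩

/-- For every `π ⊇ β(M)`, `O_π(M')` is a Hall subgroup of `M'`. -/
theorem A10.der1_pcore_Hall {π : Set ℕ} {M : Subgroup G} (hM : Mx M) (h : beta M ⊆ π) :
    Hall π 𝐎(π, ⁅M, M⁆) ⁅M, M⁆ :=
  A10.hall_pcore_of_forall (sol_of_le (A10.mFT_sol hM.1) (der_le M)) fun p hp hπ =>
    haveI := Fact.mk hp
    (beta_max_pdiv hM fun hβ => hπ (h hβ)).1

/-- B&G Lemma 10.8(a). -/
theorem Mbeta_Hall {M : Subgroup G} (hM : Mx M) : Hall (beta M) (betaCore M) M :=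
  A10.hall_pcore_of_nml ((A10.der1_pcore_Hall hM le_rfl).trans_idx (der_le M)
    ((A10.der1_idx_sigma' hM).mono (Set.compl_subset_compl.mpr (beta_sub_sigma hM))))
    ((Nml.der_self M).pcore _).norm

theorem Mbeta_Hall_G {M : Subgroup G} (hM : Mx M) : Hall (beta M) (betaCore M) ⊤ :=
  ((Mbeta_Hall hM).of_le (Mbeta_sub_Msigma hM) (pcore_le _ M)).trans (Msigma_Hall_G hM) (beta_sub_sigma hM)

theorem Mbeta_der1 {M : Subgroup G} (hM : Mx M) : betaCore M ≤ ⁅M, M⁆ :=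
  (Mbeta_sub_Msigma hM).trans (Msigma_der1 hM)

/-- B&G Lemma 10.8(b): `M' / M_β` is nilpotent. -/
theorem beta'_der1_nil {M H : Subgroup G} (hM : Mx M) (hH : PiGrp (beta M)ᶜ H) (hHM : H ≤ ⁅M, M⁆) :
    Group.IsNilpotent H :=
  A10.nil_of_forall_p_complement (A10.mFT_sol (A10.ne_top_of_le hM.1 (hHM.trans (der_le M)))) fun p hp hd =>
    haveI := Fact.mk hp
    A10.hall_pcore_of_le (beta_max_pdiv hM (hH.mem hp hd)).1 hHM

/-- A Sylow subgroup of `M'` is normal modulo `M_β`. -/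
theorem A10.Mbeta_sup_Sylow_nml {q : ℕ} [hq : Fact q.Prime] {M X : Subgroup G} (hM : Mx M)
    (hX : Syl q X ⁅M, M⁆) : Nml (betaCore M ⊔ X) M := by
  have hn : X ≤ 𝐍(betaCore M) := (hX.le.trans (der_le M)).trans (pcore_nml _ M).norm
  have h : Hall (beta M ∪ {q}) (betaCore M ⊔ X) ⁅M, M⁆ :=
    Hall.mk' (sup_le (Mbeta_der1 hM) hX.le)
      (((Mbeta_Hall hM).pi.mono Set.subset_union_left).sup (hX.pi.mono Set.subset_union_right) hn)
      (PiNat.compl_iff.mpr fun r hr hπ hd => hπ.elim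
        (fun hβ => ((Mbeta_Hall hM).of_le (Mbeta_der1 hM) (der_le M)).not_dvd hr hβ
          (hd.trans (relIndex_dvd_left le_sup_left _)))
        fun e => hX.not_dvd hr e (hd.trans (relIndex_dvd_left le_sup_right _)))
  have h' := A10.der1_pcore_Hall (π := beta M ∪ {q}) hM Set.subset_union_left
  rw [h.eq_of_le' h' (A10.le_pcore_of_hall h' h.pi h.le)]
  exact (Nml.der_self M).pcore _

/-- Frattini factorization `M = M_β N_M(X)` for a Sylow subgroup `X` of `M'`. -/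
theorem A10.Mbeta_sup_norm {q : ℕ} [hq : Fact q.Prime] {M X : Subgroup G} (hM : Mx M)
    (hX : Syl q X ⁅M, M⁆) : betaCore M ⊔ (M ⊓ 𝐍(X)) = M := by
  have h := Syl.frattini (hX.of_le le_sup_right (sup_le (Mbeta_der1 hM) hX.le)) (A10.Mbeta_sup_Sylow_nml hM hX)
  rwa [sup_assoc, sup_eq_right.mpr (le_inf (hX.le.trans (der_le M)) (le_norm X))] at h

end Cfsg.Lib.BG.Z
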