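import Cfsg.Agent.Lib.ZB.T10_10

set_option autoImplicit false
set_option linter.unusedVariables false

namespace Cfsg.Lib.BG.Z

open Subgroup
open scoped Cfsg.Lib.Transfer

variable {G : Type*} [Group G] [Finite G] [hG : Sz G]

/-- Preliminary remarks of B&G section 11. -/
theorem Exceptional.rk_eq {p : ℕ} [Fact p.Prime] {M A₀ A : Subgroup G} (h : Exceptional p M A₀ A) :
    rk p M = 2 :=
  sigma'_norm_mmax_rank2 h.max h.not_sigma h.elemA₀.pgroup h.norm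

theorem Exceptional.maxElem {p : ℕ} [Fact p.Prime] {M A₀ A : Subgroup G} (h : Exceptional p M A₀ A) :
    MaxElem p A ⊤ :=
  sigma'_rank2_max h.max h.not_sigma h.rk_eq h.elemA

omit [Finite G] hG in
theorem Exceptional.cent_le {p : ℕ} {M A₀ A : Subgroup G} (h : Exceptional p M A₀ A) : 𝐂(A) ≤ M :=
  (cent_anti h.elemA₀.le).trans ((cent_le_norm A₀).trans h.norm)

omit hG in
theorem Exceptional.coprime {p : ℕ} [Fact p.Prime] {M A₀ A : Subgroup G} (h : Exceptional p M A₀ A) :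
    (Nat.card A).Coprime (Nat.card (sigmaCore M)) :=
  (((Msigma_pi M).p'_of_not_mem h.not_sigma).coprime_pgroup h.elemA.pgroup).symm

/-- B&G Lemma 11.1. -/
theorem exceptional_TIsigmaJ {p q : ℕ} [Fact p.Prime] [Fact q.Prime] {M A₀ A Q₁ Q₂ : Subgroup G}
    (h : Exceptional p M A₀ A) {g : G} (hg : g ∉ M) (hA : A ≤ g ⋆ M)
    (hQ₁ : Syl q Q₁ (sigmaCore M)) (hAQ₁ : A ≤ 𝐍(Q₁)) (hQ₂ : Syl q Q₂ (g ⋆ sigmaCore M)) (hAQ₂ : A ≤ 𝐍(Q₂)) :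
    Q₁ ⊓ Q₂ = ⊥ ∧ ∀ X : Subgroup G, Elem p 1 X A → Q₁ ⊓ 𝐂(X) = ⊥ ∨ Q₂ ⊓ 𝐂(X) = ⊥ := by
  suffices key : ∀ H : Subgroup G, Loc H → A ≤ H → H ⊓ Q₁ ≠ ⊥ → H ⊓ Q₂ ≠ ⊥ → False by
    refine ⟨?_, fun X hX => ?_⟩
    · by_contra hne
      have h1 : Q₁ ≤ M := hQ₁.le.trans (Msigma_le M)
      exact key M h.max.1 h.elemA.le (ne_bot_mono hne (le_inf (inf_le_left.trans h1) inf_le_left))
        (ne_bot_mono hne (inf_le_inf_right _ h1))
    · by_contra! hne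
      exact key 𝐂(X) (mFT_cent_proper (hX.ne_bot one_ne_zero)) (abelian_cent' h.elemA.abelian le_rfl hX.le)
        (by rw [inf_comm]; exact hne.1) (by rw [inf_comm]; exact hne.2)
  intro H hH hAH h₁ h₂
  have hq : q ∈ sigma M :=
    ((Msigma_pi M).of_le hQ₁.le).mem_of_pgroup hQ₁.pgroup (ne_bot_mono h₁ inf_le_right)
  have hq' : q ∈ sigma (g ⋆ M) := by rw [sigma_conj]; exact hq
  rw [← Msigma_conj] at hQ₂
  have hS₁ := hQ₁.of_Hall (Msigma_Hall_G h.max) hq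
  have hS₂ := hQ₂.of_Hall (Msigma_Hall_G (mmax_conj h.max g)) hq'
  obtain ⟨k, hk, e⟩ := (plength_1_normed_constrained h.maxElem (h.elemA.ne_bot two_ne_zero)).meet_trans
    (q := q) (fun e => h.not_sigma (e ▸ hq))
    (maxInv_mk le_top hS₁.pi hAQ₁ fun R _ hR _ hQR => (hS₁.eq_of_le hQR le_top hR).ge)
    (maxInv_mk le_top hS₂.pi hAQ₂ fun R _ hR _ hQR => (hS₂.eq_of_le hQR le_top hR).ge) hH hAH (inf_comm H Q₁ ▸ h₁) (inf_comm H Q₂ ▸ h₂)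
  have h3 : Q₂ ≤ M := e ▸ conj_le_of_mem (hQ₁.le.trans (Msigma_le M)) (h.cent_le (pcore_le _ _ hk))
  exact hg (inv_mem_iff.mp (sigma_Sylow_trans hq (hS₂.of_le h3 le_top)
    (Transfer.le_conj_iff_inv_conj_le.mp (hQ₂.le.trans (Msigma_le _)))))

/-- B&G Corollary 11.2. -/
theorem exceptional_TI_MsigmaJ {p : ℕ} [Fact p.Prime] {M A₀ A : Subgroup G} (h : Exceptional p M A₀ A) {g : G}
    (hg : g ∉ M) (hA : A ≤ g ⋆ M) : sigmaCore M ⊓ g ⋆ M = ⊥ ∧ sigmaCore M ⊓ 𝐂(g ⋆ A₀) = ⊥ := by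
  have h1 : sigmaCore M ⊓ g ⋆ M = ⊥ := by
    by_contra hne
    obtain ⟨q, hq, hd⟩ := Nat.exists_prime_and_dvd (card_ne_one hne)
    haveI := Fact.mk hq
    have hs : Group.IsSolvable A := pgroup_sol h.elemA.pgroup
    obtain ⟨Q₀, hQ₀, hAQ₀⟩ := Syl.exists_inv q (norm_inf (norm_Msigma h.elemA.le) (le_norm_of_le hA))
      (coprime_mono h.coprime le_rfl inf_le_left) (Or.inl hs)
    obtain ⟨Q₁, hQ₁, h01, hAQ₁⟩ := Syl.exists_inv_ge (norm_Msigma h.elemA.le) h.coprime (Or.inl hs) hQ₀.pgroup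
      (hQ₀.le.trans inf_le_left) hAQ₀
    have hle : Q₀ ≤ sigmaCore (g ⋆ M) := (Msigma_Hall (mmax_conj h.max g)).ge_of_normal (Msigma_nml _).norm
      (hQ₀.le.trans inf_le_right) (by rw [sigma_conj]; exact (Msigma_pi M).of_le (hQ₀.le.trans inf_le_left))
    obtain ⟨Q₂, hQ₂, h02, hAQ₂⟩ := Syl.exists_inv_ge (norm_Msigma hA)
      (by rw [Msigma_conj, Transfer.card_conj]; exact h.coprime) (Or.inl hs) hQ₀.pgroup hle hAQ₀
    rw [Msigma_conj] at hQ₂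
    exact hQ₀.ne_bot' hd (eq_bot_mono (exceptional_TIsigmaJ h hg hA hQ₁ hAQ₁ hQ₂ hAQ₂).1 (le_inf h01 h02))
  refine ⟨h1, eq_bot_mono h1 (inf_le_inf_left _ ?_)⟩
  rw [← Transfer.conj_centralizer]
  exact Transfer.conj_mono g ((cent_le_norm A₀).trans h.norm)

end Cfsg.Lib.BG.Z
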