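import Cfsg.Agent.Lib.ZB.T11_5
import Cfsg.Agent.Lib.ZB.T10_11

set_option autoImplicit false
set_option linter.unusedVariables false

namespace Cfsg.Lib.BG.Z

open Subgroup
open scoped Cfsg.Lib.Transfer

variable {G : Type*} [Group G] [Finite G] [Sz G]

/-- In the exceptional situation, `A` centralizes every `A`-invariant Sylow `q`-subgroup of `M` for `q ∉ σ(M) ∪ {p}`. -/
theorem A10.exceptional_cent_Sylow {p q : ℕ} [Fact p.Prime] [Fact q.Prime] {M A₀ A Q : Subgroup G}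
    (h : Exceptional p M A₀ A) (hpq : p ≠ q) (hq : q ∉ sigma M) (hQ : Syl q Q M) (hAQ : A ≤ 𝐍(Q)) : A ≤ 𝐂(Q) := by
  by_contra hc
  have hQ1 : Q ≠ ⊥ := by
    rintro rfl
    exact hc (le_top.trans cent_bot.ge)
  have hcop : (Nat.card A).Coprime (Nat.card Q) := coprime_pgroups h.elemA.pgroup hQ.pgroup hpq
  by_cases hCQ : Q ⊓ 𝐂(A) = ⊥
  · obtain ⟨P, hP, hAP⟩ := Syl.exists_ge h.elemA.pgroup h.elemA.le
    obtain ⟨-, -, A₁, A₂, h₁, h₂, hne, h₁', h₂'⟩ := exceptional_structure h hP hAP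
    have hZ : 𝐙(Q) ≤ M := inf_le_left.trans hQ.le
    have hZq : IsPGroup q ↥𝐙(Q) := pgroup_of_le hQ.pgroup inf_le_left
    have key : ∀ X : Subgroup G, Elem p 1 X A → sigmaCore M ⊓ 𝐂(X) = ⊥ → Nml ⁅𝐙(Q), X⁆ M := fun X hX hX' =>
      (commG_sigma'_1Elem_cyclic h.max hZ (PiGrp.of_pgroup hZq hq) h.not_sigma
        (hX.mono (le_inf h.elemA.le (norm_center hAQ))) hX' (p'_of_pgroup hZq hpq.symm) (abelian_center Q)).2.2
    have hn := (key A₁ h₁ h₁').sup (key A₂ h₂ h₂')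
    have e : ⁅𝐙(Q), A₁⁆ ⊔ ⁅𝐙(Q), A₂⁆ = 𝐙(Q) := by
      refine le_antisymm (sup_le (comm_le_left (h₁.le.trans (norm_center hAQ)))
        (comm_le_left (h₂.le.trans (norm_center hAQ)))) ?_
      refine (coprime_comm_eq_of_cent_bot (norm_center hAQ) (coprime_mono hcop le_rfl inf_le_left)
        (Or.inr (pgroup_sol hZq)) (eq_bot_mono hCQ (inf_le_inf_right _ inf_le_left))).ge.trans ?_
      rw [← A10.elem2_eq_sup h.elemA h₁ h₂ hne, commutator_comm]
      exact Core.commutator_sup_le ((h₁.le.trans h.elemA.le).trans hn.norm) ((h₂.le.trans h.elemA.le).trans hn.norm)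
        ((commutator_comm _ _).le.trans le_sup_left) ((commutator_comm _ _).le.trans le_sup_right)
    rw [e] at hn
    exact not_norm_le_of_sigma' hq hQ hQ1 (h.max.D_of_nml hn hZq (center_ne_bot_of_nil hQ.nil hQ1))
      ((norm_center le_rfl).trans (mmax_normal h.max hn (center_ne_bot_of_nil hQ.nil hQ1)).le)
  · obtain ⟨R, hR, hQR⟩ := maxInv_exists (H := ⊤) (π := {q}) le_top hQ.pi hAQ
    obtain ⟨P, -, hAP, -, -, hn⟩ := max_normed_2Elem_signaliser hpq h.elemA.top h.maxElem hR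
      ((pgroup_dvd_card (pgroup_of_le hQ.pgroup inf_le_left) hCQ).trans (card_dvd inf_le_right))
    have h2 : rk q M ≤ 2 := not_mem_alpha_iff.mp fun hα => hq (alpha_sub_sigma h.max hα)
    have h1 : rk q M ≤ 1 := by
      by_contra h1
      obtain ⟨B, hB⟩ := exists_elem_of_le_rk (show 2 ≤ rk q Q by rw [hQ.rk_eq]; omega)
      exact hc (hAP.trans ((hn fun _ => ⟨B, hB.mono hQR, (sigma'_rank2_max h.max hq (by omega)
        (hB.mono hQ.le)).of_le (hB.le.trans hQR) le_top⟩).trans (cent_anti hQR)))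
    exact (coprime_act_cyclic_pgroup (mFT_cyclic_of_rk hQ.pgroup hQ.le h1) hQ.pgroup hAQ
      (p'_of_pgroup h.elemA.pgroup hpq).coprime_p).elim hc fun h => hCQ h.1

/-- B&G Theorem 11.7. -/
theorem exceptional_mul_sigma_normal {p : ℕ} [Fact p.Prime] {M A₀ A : Subgroup G} (h : Exceptional p M A₀ A) :
    Nml (sigmaCore M ⊔ A) M := by
  obtain ⟨E, hE, hAE⟩ := Hall.exists_ge (π := (sigma M)ᶜ) (mmax_sol h.max) h.elemA.le (h.elemA.pi h.not_sigma)
  obtain ⟨P, hP, hAP⟩ := Syl.exists_ge h.elemA.pgroup hAE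
  have hPM := hP.of_Hall hE h.not_sigma
  suffices hEA : E ≤ 𝐍(A) by
    refine ⟨sup_le (Msigma_le M) h.elemA.le, ?_⟩
    exact ((Msigma_Hall h.max).sd (Msigma_nml M).norm hE).sup.ge.trans
      (sup_le (le_norm_of_le le_sup_left) (norm_sup (norm_Msigma hE.le) hEA))
  have hL := rank2_ge_pcore_Hall p (sub_mmax_sol h.max hE.le) (mFT_odd E)
    ((rank_mono (Fitting_le E)).trans (A10.sigma'_rank2 h.max hE.le hE.pi))
  have hK := rank2_ge_pcore_Hall (p + 1) (sub_mmax_sol h.max hE.le) (mFT_odd E)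
    ((rank_mono (Fitting_le E)).trans (A10.sigma'_rank2 h.max hE.le hE.pi))
  have hPL : P ≤ 𝐎({q | p ≤ q}, E) := A10.le_pcore_of_hall hL (PiGrp.of_pgroup hP.pgroup (le_refl p)) hP.le
  have hKL : 𝐎({q | p + 1 ≤ q}, E) ≤ 𝐎({q | p ≤ q}, E) := pcore_mono (fun q hq => Nat.le_of_succ_le hq) E
  have hLA : 𝐎({q | p ≤ q}, E) ≤ 𝐍(A) := Syl.le_of_forall fun q hq hd => by
    haveI := Fact.mk hq
    rcases (show p ≤ q from hL.pi.mem hq hd).eq_or_lt with rfl | hlt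
    · exact ⟨P, hP.of_le hPL hL.le, abelian_norm (exceptional_Sylow_abelian h hPM) hAP⟩
    · obtain ⟨Q, hQ, hAQ⟩ := Syl.exists_inv q (hAE.trans (pcore_nml _ E).norm)
        ((hK.pi.p'_of_not_mem (Nat.not_succ_le_self p)).coprime_pgroup h.elemA.pgroup).symm
        (Or.inl (pgroup_sol h.elemA.pgroup))
      have hσ : q ∉ sigma M := hE.pi.mem hq (hd.trans (card_dvd hL.le))
      have hQE := hQ.of_Hall hK hlt
      exact ⟨Q, hQE.of_le (hQ.le.trans hKL) hL.le, norm_of_cent (cent_symm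
        (A10.exceptional_cent_Sylow h hlt.ne hσ (hQE.of_Hall hE hσ) hAQ))⟩
  have e : omegaOne p 𝐎({p}, 𝐎({q | p ≤ q}, E)) = A :=
    le_antisymm ((Ohm1_mono (hP.of_le hPL hL.le).pcore_le p).trans (exceptional_structure h hPM hAP).1.le)
      (elab_le_Ohm1 h.elemA.elem (pcore_max_p h.elemA.pgroup ⟨hAP.trans hPL, hLA⟩))
  rw [← e]
  exact norm_Ohm1 (norm_pcore (pcore_nml _ E).norm _) p

end Cfsg.Lib.BG.Z
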