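import Cfsg.Agent.Lib.BG.Quo
import Cfsg.Agent.Lib.ZB.T10_4
import Cfsg.Agent.Lib.BG.T06_3

set_option autoImplicit false
set_option linter.unusedVariables false

namespace Cfsg.Lib.BG.Z

open Subgroup
open scoped Cfsg.Lib.Transfer

variable {G : Type*} [Group G] [Finite G] [Sz G]

/-- Preliminary remarks of B&G section 12. -/
theorem sdprod_sigma {M E : Subgroup G} (hM : Mx M) (hE : Hall (sigma M)ᶜ E M) : SD (sigmaCore M) E M :=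
  (Msigma_Hall hM).sd (Msigma_nml M).norm hE

/-- A complement to `M_σ` in `M` is a Hall `σ(M)'`-subgroup (translation of the hypothesis of the statements). -/
theorem sigma_compl_Hall {M E : Subgroup G} (hM : Mx M) (hE : SD (sigmaCore M) E M) :
    Hall (sigma M)ᶜ E M :=
  Hall.of_sd_right hE (by rw [compl_compl]; exact Msigma_Hall hM)

theorem ex_sigma_compl {M F : Subgroup G} (hM : Mx M) (hF : F ≤ M) (hFs : PiGrp (sigma M)ᶜ F) :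
    ∃ E : Subgroup G, Hall (sigma M)ᶜ E M ∧ F ≤ E :=
  Hall.exists_ge (mmax_sol hM) hF hFs

theorem der1_sigma_compl {M E : Subgroup G} (hM : Mx M) (hE : Hall (sigma M)ᶜ E M) :
    ⁅M, M⁆ ⊓ E = ⁅E, E⁆ := by
  rw [inf_comm, pprod_focal_coprime (Msigma_nml M) (sdprod_sigma hM hE).sup le_rfl
    ((Msigma_pi M).coprime hE.pi)]
  exact inf_eq_right.2 (der_le E)

/-- Outside `σ(M)` the `p`-rank of `M` is at most two. -/
theorem sigma'_rk_le_two {p : ℕ} [Fact p.Prime] {M : Subgroup G} (hM : Mx M) (hp : p ∉ sigma M) :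
    rk p M ≤ 2 :=
  not_mem_alpha_iff.1 fun h => hp (alpha_sub_sigma hM h)

theorem partition_pi_mmax {p : ℕ} [Fact p.Prime] {M : Subgroup G} (hM : Mx M) :
    p ∣ Nat.card M ↔ p ∈ tau1 M ∨ p ∈ tau2 M ∨ p ∈ tau3 M ∨ p ∈ sigma M := by
  constructor
  · intro hd
    by_cases hs : p ∈ sigma M
    · exact .inr (.inr (.inr hs))
    have h2 := sigma'_rk_le_two hM hs
    have h0 := rk_pos_iff.2 hd
    rcases (show rk p M = 1 ∨ rk p M = 2 by omega) with h | h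
    · rcases mem_tau13_iff.2 ⟨hs, h⟩ with h | h
      · exact .inl h
      · exact .inr (.inr (.inl h))
    · exact .inr (.inl (mem_tau2_iff.2 ⟨hs, h⟩))
  · rintro (h | h | h | h)
    exacts [tau1_dvd h, tau2_dvd h, tau3_dvd h, sigma_dvd h]

theorem partition_pi_sigma_compl {p : ℕ} [Fact p.Prime] {M E : Subgroup G} (hM : Mx M)
    (hE : Hall (sigma M)ᶜ E M) : p ∣ Nat.card E ↔ p ∈ tau1 M ∨ p ∈ tau2 M ∨ p ∈ tau3 M := by
  rw [hE.dvd_card_iff Fact.out, partition_pi_mmax hM]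
  constructor
  · rintro ⟨h | h | h | h, hs⟩
    exacts [.inl h, .inr (.inl h), .inr (.inr h), absurd h hs]
  · rintro (h | h | h)
    exacts [⟨.inl h, tau1_sigma' h⟩, ⟨.inr (.inl h), tau2_sigma' h⟩, ⟨.inr (.inr (.inl h)), tau3_sigma' h⟩]

/-- `E'` is a Hall `σ(M)'`-subgroup of `M'`. -/
theorem der1_sigma_compl_Hall {M E : Subgroup G} (hM : Mx M) (hE : Hall (sigma M)ᶜ E M) :
    Hall (sigma M)ᶜ ⁅E, E⁆ ⁅M, M⁆ := by
  rw [← der1_sigma_compl hM hE, inf_comm]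
  exact hE.inf_nml (Nml.der_self M)

omit [Sz G] in
theorem sigma'_of_rk_pos {p : ℕ} [Fact p.Prime] {M E : Subgroup G} (hE : Hall (sigma M)ᶜ E M) (h : 0 < rk p E) :
    p ∉ sigma M :=
  mem_pi_of_rk_pos hE.pi h

theorem dvd_der1_sigma_compl {p : ℕ} [Fact p.Prime] {M E : Subgroup G} (hM : Mx M)
    (hE : Hall (sigma M)ᶜ E M) (hp : p ∉ sigma M) : p ∣ Nat.card ↥⁅E, E⁆ ↔ p ∣ Nat.card ↥⁅M, M⁆ := by
  rw [(der1_sigma_compl_Hall hM hE).dvd_card_iff Fact.out]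
  exact and_iff_left hp

theorem tau1E {p : ℕ} [Fact p.Prime] {M E : Subgroup G} (hM : Mx M) (hE : Hall (sigma M)ᶜ E M) :
    p ∈ tau1 M ↔ rk p E = 1 ∧ ¬ p ∣ Nat.card ↥⁅E, E⁆ := by
  rw [mem_tau1_iff]
  constructor
  · rintro ⟨hs, h1, h2⟩
    exact ⟨(hE.rk_eq hs).trans h1, by rwa [dvd_der1_sigma_compl hM hE hs]⟩
  · rintro ⟨h1, h2⟩
    have hs := sigma'_of_rk_pos hE (by omega : 0 < rk p E)
    exact ⟨hs, (hE.rk_eq hs).symm.trans h1, by rwa [← dvd_der1_sigma_compl hM hE hs]⟩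

theorem tau2E {p : ℕ} [Fact p.Prime] {M E : Subgroup G} (hM : Mx M) (hE : Hall (sigma M)ᶜ E M) :
    p ∈ tau2 M ↔ rk p E = 2 := by
  have _ := hM
  rw [mem_tau2_iff]
  constructor
  · rintro ⟨hs, h1⟩
    exact (hE.rk_eq hs).trans h1
  · intro h1
    have hs := sigma'_of_rk_pos hE (by omega : 0 < rk p E)
    exact ⟨hs, (hE.rk_eq hs).symm.trans h1⟩

theorem tau3E {p : ℕ} [Fact p.Prime] {M E : Subgroup G} (hM : Mx M) (hE : Hall (sigma M)ᶜ E M) :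
    p ∈ tau3 M ↔ rk p E = 1 ∧ p ∣ Nat.card ↥⁅E, E⁆ := by
  rw [mem_tau3_iff]
  constructor
  · rintro ⟨hs, h1, h2⟩
    exact ⟨(hE.rk_eq hs).trans h1, by rwa [dvd_der1_sigma_compl hM hE hs]⟩
  · rintro ⟨h1, h2⟩
    have hs := sigma'_of_rk_pos hE (by omega : 0 < rk p E)
    exact ⟨hs, (hE.rk_eq hs).symm.trans h1, by rwa [← dvd_der1_sigma_compl hM hE hs]⟩

theorem ex_tau2Elem {p : ℕ} [Fact p.Prime] {M E : Subgroup G} (hM : Mx M) (hE : Hall (sigma M)ᶜ E M)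
    (hp : p ∈ tau2 M) : ∃ A : Subgroup G, Elem p 2 A E :=
  exists_elem_of_le_rk ((tau2E hM hE).1 hp).ge

/-- An elementary abelian subgroup of order `p ^ 2` of `M`, with `p ∉ σ(M)`, forces `p ∈ τ₂(M)`. -/
theorem tau2_of_sigma'_elem {p : ℕ} [Fact p.Prime] {M A : Subgroup G} (hM : Mx M) (hs : p ∉ sigma M)
    (hA : Elem p 2 A M) : p ∈ tau2 M :=
  mem_tau2_iff.2 ⟨hs, le_antisymm (sigma'_rk_le_two hM hs) hA.le_rk⟩

theorem sigma'2Elem_tau2 {p : ℕ} [Fact p.Prime] {M E A : Subgroup G} (hM : Mx M) (hE : Hall (sigma M)ᶜ E M)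
    (hA : Elem p 2 A E) : p ∈ tau2 M :=
  tau2_of_sigma'_elem hM (hA.mem_pi two_ne_zero hE.pi) (hA.mono hE.le)

/-- B&G Lemma 12.1(a). -/
theorem der1_sigma_compl_nil {M E : Subgroup G} (hM : Mx M) (hE : Hall (sigma M)ᶜ E M) :
    Group.IsNilpotent ↥⁅E, E⁆ :=
  alpha'_der1_nil hM ((hE.pi.of_le (der_le E)).mono (Set.compl_subset_compl.2 (alpha_sub_sigma hM)))
    (der_mono hE.le)

/-- B&G Lemma 12.1(g). -/
theorem tau2_not_beta {p : ℕ} [Fact p.Prime] {M : Subgroup G} (hM : Mx M) (hp : p ∈ tau2 M) :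
    ¬ IsIdealPrime p G ∧ ∀ A : Subgroup G, Elem p 2 A M → MaxElem p A ⊤ :=
  ⟨sigma'_rank2_beta' hM (tau2_sigma' hp) (tau2_rk hp),
    fun _ hA => sigma'_rank2_max hM (tau2_sigma' hp) (tau2_rk hp) hA⟩

omit [Finite G] [Sz G] in
/-- `E'` is a `τ₁(M)'`-group. -/
theorem der1_sigma_compl_tau1' {M E : Subgroup G} (hE : E ≤ M) : PiGrp (tau1 M)ᶜ ⁅E, E⁆ :=
  fun _ _ hd h => tau1_not_dvd_der h (hd.trans (card_dvd (der_mono hE)))

/-- Any `τ₁`- and `τ₃`-Hall subgroups of `E` extend to a standard decomposition. -/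
theorem ex_tau13_compl {M E E₁ E₃ : Subgroup G} (hM : Mx M) (hE : Hall (sigma M)ᶜ E M)
    (h₁ : Hall (tau1 M) E₁ E) (h₃ : Hall (tau3 M) E₃ E) : ∃ E₂ : Subgroup G, SigmaCompl M E E₁ E₂ E₃ := by
  have hs : Group.IsSolvable E := sub_mmax_sol hM hE.le
  obtain ⟨K, hK, hle⟩ := Hall.exists_ge hs (der_le E) (der1_sigma_compl_tau1' hE.le)
  have hn : Nml K E := Nml.of_der_le hle hK.le
  obtain ⟨E₂, h₂, hn₂⟩ := Hall.exists_inv (tau2 M) (h₁.le.trans hn.norm) (h₁.pi.coprime hK.pi) (sol_of_le hs hK.le)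
  exact ⟨E₂, hE, h₁, h₂.trans hK (fun _ h h' => tau1_tau2' h' h), h₃, hn₂⟩

/-- Any `τ₂`-Hall subgroup of `E` extends to a standard decomposition. -/
theorem ex_tau2_compl {M E E₂ : Subgroup G} (hM : Mx M) (hE : Hall (sigma M)ᶜ E M)
    (h₂ : Hall (tau2 M) E₂ E) : ∃ E₁ E₃ : Subgroup G, SigmaCompl M E E₁ E₂ E₃ := by
  have hs : Group.IsSolvable E := sub_mmax_sol hM hE.le
  obtain ⟨E₁, h₁⟩ := Hall.exists (tau1 M) hs
  obtain ⟨E₃, h₃⟩ := Hall.exists (tau3 M) hs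
  obtain ⟨F, hF⟩ := ex_tau13_compl hM hE h₁ h₃
  obtain ⟨g, hg, rfl⟩ := hF.hall₂.exists_conj_eq h₂ hs
  refine ⟨g ⋆ E₁, E₃, hE, h₁.conj_of_mem hg, h₂, h₃, ?_⟩
  rw [← S14.conj_norm]
  exact S14.conj_mono g hF.norm₁₂

/-- Any `τ₁`-subgroup of `E` lies in the `E₁` of a standard decomposition. -/
theorem ex_tau1_compl {M E X : Subgroup G} (hM : Mx M) (hE : Hall (sigma M)ᶜ E M) (hX : X ≤ E)
    (hX₁ : PiGrp (tau1 M) X) : ∃ E₁ E₂ E₃ : Subgroup G, SigmaCompl M E E₁ E₂ E₃ ∧ X ≤ E₁ := by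
  have hs : Group.IsSolvable E := sub_mmax_sol hM hE.le
  obtain ⟨E₁, h₁, hle⟩ := Hall.exists_ge hs hX hX₁
  obtain ⟨E₃, h₃⟩ := Hall.exists (tau3 M) hs
  obtain ⟨E₂, h⟩ := ex_tau13_compl hM hE h₁ h₃
  exact ⟨E₁, E₂, E₃, h, hle⟩

/-- A Hall `τ₁`-subgroup of `E` is cyclic. -/
theorem tau1_compl_cyclic {M E E₁ : Subgroup G} (hE : E ≤ M) (h₁ : Hall (tau1 M) E₁ E)
    (hL : Loc E := by dd) : IsCyclic E₁ := by
  have hab : IsMulCommutative E₁ := abelian_iff_der.2 <| eq_bot_mono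
    (h₁.pi.inf_eq_bot (der1_sigma_compl_tau1' hE)) (le_inf (der_le E₁) (der_mono h₁.le))
  refine abelian_cyclic_of_rank_le_one hab (rank_le_iff_forall.2 fun q hq => ?_)
  haveI := Fact.mk hq
  by_cases h : q ∈ tau1 M
  · exact (rk_mono (h₁.le.trans hE) q).trans (tau1_rk h).le
  · rw [rk_eq_zero_of_pi h₁.pi h]; exact zero_le_one

/-- A Hall `τ₃`-subgroup of `E` is a cyclic normal subgroup of `E` contained in `E'`. -/
theorem tau3_compl_der {M E E₃ : Subgroup G} (hM : Mx M) (hE : Hall (sigma M)ᶜ E M)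
    (h₃ : Hall (tau3 M) E₃ E) : E₃ ≤ ⁅E, E⁆ ∧ Nml E₃ E ∧ IsCyclic E₃ := by
  have hle : E₃ ≤ ⁅E, E⁆ := by
    refine Syl.le_of_forall fun q hq hd => ?_
    haveI := Fact.mk hq
    have h3 : q ∈ tau3 M := h₃.pi.mem hq hd
    obtain ⟨P, hP⟩ := Syl.exists q E₃
    have hPE : Syl q P E := hP.of_Hall h₃ h3
    have hc : IsCyclic P := mFT_cyclic_of_rk hP.pgroup (hPE.le.trans hE.le) (tau3_rk h3).le
    refine ⟨P, hP, (cyclic_Sylow_tiVsub_der1 hPE hc).resolve_left ?_⟩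
    exact Syl.ne_bot' (hPE.inf_nml (Nml.der_self E)) ((tau3E hM hE).1 h3).2
  have hnil := der1_sigma_compl_nil hM hE
  have hH : Hall (tau3 M) E₃ ⁅E, E⁆ := h₃.of_le hle (der_le E)
  refine ⟨hle, ?_, mFT_nil_cyclic (nil_of_le hnil hle) (rank_le_iff_forall.2 fun q hq => ?_)⟩
  · rw [hH.eq_of_nil hnil]
    exact (Nml.der_self E).pcore _
  · haveI := Fact.mk hq
    by_cases h : q ∈ tau3 M
    · exact (rk_mono (h₃.le.trans hE.le) q).trans (tau3_rk h).le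
    · rw [rk_eq_zero_of_pi h₃.pi h]; exact zero_le_one

/-- B&G Lemma 12.1(b)-(f). -/
theorem sigma_compl_context {M E E₁ E₂ E₃ : Subgroup G} (hM : Mx M) (h : SigmaCompl M E E₁ E₂ E₃) :
    (E₃ ≤ ⁅E, E⁆ ∧ Nml E₃ E) ∧ (E₂ = ⊥ → E₁ ≠ ⊥) ∧ (IsCyclic E₁ ∧ IsCyclic E₃) ∧
    (SD E₃ (E₂ ⊔ E₁) E ∧ SD E₂ E₁ (E₂ ⊔ E₁) ∧ SD E₃ E₂ (E₃ ⊔ E₂) ∧ SD (E₃ ⊔ E₂) E₁ E) ∧ E₃ ⊓ 𝐂(E) = ⊥ := by
  obtain ⟨hE, h₁, h₂, h₃, hn⟩ := h
  obtain ⟨hle, hn₃, hc₃⟩ := tau3_compl_der hM hE h₃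
  have hs : Group.IsSolvable E := sub_mmax_sol hM hE.le
  have hall : E ≤ E₃ ⊔ (E₂ ⊔ E₁) := by
    refine Syl.le_of_forall fun q hq hd => ?_
    haveI := Fact.mk hq
    rcases (partition_pi_sigma_compl hM hE).1 hd with h | h | h
    · obtain ⟨P, hP⟩ := Syl.exists q E₁
      exact ⟨P, hP.of_Hall h₁ h, hP.le.trans (le_sup_of_le_right le_sup_right)⟩
    · obtain ⟨P, hP⟩ := Syl.exists q E₂
      exact ⟨P, hP.of_Hall h₂ h, hP.le.trans (le_sup_of_le_right le_sup_left)⟩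
    · obtain ⟨P, hP⟩ := Syl.exists q E₃
      exact ⟨P, hP.of_Hall h₃ h, hP.le.trans le_sup_left⟩
  have h21 : PiGrp (tau3 M)ᶜ (E₂ ⊔ E₁) :=
    (h₂.pi.mono fun _ h h' => tau3_tau2' h' h).sup (h₁.pi.mono fun _ h h' => tau1_tau3' h h') hn
  have h32 : PiGrp (tau1 M)ᶜ (E₃ ⊔ E₂) :=
    (h₃.pi.mono fun _ h h' => tau1_tau3' h' h).sup (h₂.pi.mono fun _ h h' => tau1_tau2' h' h)
      (h₂.le.trans hn₃.norm)
  have sd₃ : SD E₃ (E₂ ⊔ E₁) E := SD.mk' hn₃ (sup_le h₂.le h₁.le) (h₃.pi.inf_eq_bot h21) hall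
  refine ⟨⟨hle, hn₃⟩, ?_, ⟨tau1_compl_cyclic hE.le h₁, hc₃⟩, ⟨sd₃, ?_, ?_, ?_⟩, ?_⟩
  · rintro rfl rfl
    have hE3 : E ≤ ⁅E, E⁆ := hall.trans (by simpa using hle)
    have hEb : E = ⊥ := by
      by_contra h1
      exact (Core.commutator_lt_of_isSolvable hs h1).not_ge hE3
    subst hEb
    have hMs := (sdprod_sigma hM hE).eq_of_right_bot
    exact (Core.commutator_lt_of_isSolvable (mmax_sol hM) (mmax_ne_bot hM)).not_ge (hMs.ge.trans (Msigma_der1 hM))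
  · exact SD.of_norm hn (h₂.pi.inf_eq_bot' h₁.pi fun _ h h' => tau1_tau2' h' h)
  · exact SD.of_norm (h₂.le.trans hn₃.norm) (h₃.pi.inf_eq_bot' h₂.pi fun _ h => tau3_tau2' h)
  · refine ⟨norm_sup (h₁.le.trans hn₃.norm) hn, ?_, ?_⟩
    · rw [inf_comm]; exact h₁.pi.inf_eq_bot h32
    · rw [sup_assoc]; exact sd₃.sup
  · have := (coprime_der1_sdprod sd₃ (h₃.pi.coprime h21) (sol_of_le hs h₃.le) hle).2
    rw [abelian_iff_der.1 (abelian_of_cyclic hc₃)] at this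
    exact eq_bot_mono (le_bot_iff.1 this) (inf_le_inf_left _ (cent_anti (sup_le h₂.le h₁.le)))

end Cfsg.Lib.BG.Z
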