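import Cfsg.Agent.Lib.ZB.T12_8
import Cfsg.Agent.Lib.ZB.T12_4

set_option autoImplicit false
set_option linter.unusedVariables false

namespace Cfsg.Lib.BG.Z

open Subgroup A12
open scoped Cfsg.Lib.Transfer

variable {G : Type*} [Group G] [Finite G] [Sz G]

/-- B&G Corollary 12.10(a). -/
theorem sigma'_nil_abelian {M N : Subgroup G} (hM : Mx M) (hNM : N ≤ M) (hN : PiGrp (sigma M)ᶜ N)
    (hnil : Group.IsNilpotent N) : IsMulCommutative N := by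
  refine nil_abelian_of_pcore hnil fun q hq hd => ?_
  have := Fact.mk hq
  by_contra hab
  obtain ⟨A, hA⟩ := exists_elem_two (pcore_pgroup q N) fun h => hab (abelian_of_cyclic h)
  obtain ⟨P, hP, h⟩ := Syl.exists_ge (pcore_pgroup q N) ((pcore_le _ _).trans hNM)
  exact hab (abelian_of_le (tau2_Sylow_abelian hM
    (mk_t2 hM (hN q hq hd) (hA.mono (h.trans hP.le))) hP) h)

/-- B&G Corollary 12.10(b), first assertion. -/
theorem der_mmax_compl_abelian {M E : Subgroup G} (hM : Mx M) (hE : Hall (sigma M)ᶜ E M) :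
    IsMulCommutative ↥⁅E, E⁆ :=
  sigma'_nil_abelian hM ((der_le E).trans hE.le) (hE.pi.of_le (der_le E)) (der1_sigma_compl_nil hM hE)

/-- B&G Corollary 12.10(b), second assertion. -/
theorem tau2_compl_abelian {M E E₂ : Subgroup G} (hM : Mx M) (hE : Hall (sigma M)ᶜ E M)
    (h₂ : Hall (tau2 M) E₂ E) : IsMulCommutative E₂ := by
  rcases (tau2 M).eq_empty_or_nonempty with h | ⟨p, hp⟩
  · rw [h₂.pi.eq_bot fun q _ _ hq => by simp [h] at hq]
    exact abelian_bot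
  have := Fact.mk hp.1
  obtain ⟨A, hA⟩ := ex_tau2Elem hM hE hp
  obtain ⟨S, hS, hAS⟩ := Syl.exists_ge hA.pgroup (le_top (a := A))
  by_cases hab : IsMulCommutative S
  · obtain ⟨E₁, E₃, h⟩ := ex_tau2_compl hM hE h₂
    exact (abelian_tau2 hM h hp hA hS hAS hab).1.2
  · rw [nonabelian_tau2_a hM hE hp hA hS.pgroup hab] at h₂
    exact tau2_Sylow_abelian hM hp (Syl.of_Hall h₂ hE (t2_ns hp))

/-- B&G Corollary 12.10(c). -/
theorem tau1_cent_tau2Elem_factor {p : ℕ} [Fact p.Prime] {M E A : Subgroup G} (hM : Mx M)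
    (hE : Hall (sigma M)ᶜ E M) (hp : p ∈ tau2 M) (hA : Elem p 2 A E) : PiNat (tau1 M) (𝐂(A).relIndex E) := by
  obtain ⟨E₂, h₂⟩ := Hall.exists (tau2 M) (A12.mmax_sol hM hE.le)
  obtain ⟨E₁, E₃, h⟩ := ex_tau2_compl hM hE h₂
  obtain ⟨⟨-, h₃⟩, -, -, ⟨-, -, -, hsd⟩, -⟩ := sigma_compl_context hM h
  obtain ⟨⟨hAE, -⟩, -⟩ := tau2_compl_context hM hE hp hA
  have h1 : E₃ ⊔ E₂ ≤ 𝐂(A) := sup_le
    (h₃.cent_of_disjoint hAE (h.hall₃.pi.inf_eq_bot' (hA.pi hp) fun q hq => t3_ne_t2 hq))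
    (abelian_cent' (tau2_compl_abelian hM hE h₂) le_rfl (tau2_regular hM h hp hA).2.2)
  exact PiNat.of_dvd h.hall₁.pi (hsd.relIndex_left ▸ relIndex_dvd_left h1 E)

/-- B&G Corollary 12.10(d). -/
theorem norm_noncyclic_sigma {p : ℕ} [Fact p.Prime] {M P : Subgroup G} (hM : Mx M) (hp : p ∈ sigma M)
    (hP : IsPGroup p P) (hPM : P ≤ M) (hnc : ¬ IsCyclic P) : 𝐍(P) ≤ M := by
  obtain ⟨A, hA⟩ := exists_elem_two hP hnc
  rw [← sigma_group_trans_c hM hp hP hPM]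
  exact sup_le inf_le_left ((cent_anti hA.le).trans (p2Elem_mmax hM (hA.mono hPM)))

/-- B&G Corollary 12.10(e). -/
theorem cent1_nreg_sigma_uniq {M : Subgroup G} {x : G} (hM : Mx M) (hx : x ∈ M) (hx1 : x ≠ 1)
    (hx2 : PiElt (tau2 M) x) (hC : sigmaCore M ⊓ 𝐂[x] ≠ ⊥) : UniqMax 𝐂[x] M := by
  have hX1 : zpowers x ≠ ⊥ := ne_bot_of_mem (mem_zpowers x) hx1
  obtain ⟨E, hE, hxE⟩ := ex_sigma_compl hM (zpowers_le.mpr hx) (hx2.zpowers.mono fun q hq => t2_ns hq)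
  obtain ⟨E₂, h₂, hx₂⟩ := Hall.exists_ge (A12.mmax_sol hM hE.le) hxE hx2.zpowers
  obtain ⟨p, hp, hd⟩ := Nat.exists_prime_and_dvd (card_ne_one hX1)
  have := Fact.mk hp
  have hp2 := hx2.zpowers p hp hd
  obtain ⟨A, hA⟩ := ex_tau2Elem hM hE hp2
  obtain ⟨E₁, E₃, h⟩ := ex_tau2_compl hM hE h₂
  have hAx : A ≤ 𝐂[x] := cent_zpowers x ▸
    abelian_cent' (tau2_compl_abelian hM hE h₂) (tau2_regular hM h hp2 hA).2.2 hx₂
  refine uniqMax_of_forall (cent_zpowers x ▸ A10.mFT_cent_proper hX1) hM fun L hL hxL => by_contra fun hne => ?_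
  exact hC (eq_bot_mono ((tau2_context hM hp2 (hA.mono hE.le)).2.2.2.1 L hL (hAx.trans hxL) hne)
    (inf_le_inf_left _ hxL))

end Cfsg.Lib.BG.Z
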