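import Cfsg.Agent.Lib.ZB.T12_10
import Cfsg.Agent.Lib.ZB.T10_8

set_option autoImplicit false
set_option linter.unusedVariables false

namespace Cfsg.Lib.BG.Z

open Subgroup A12
open scoped Cfsg.Lib.Transfer

variable {G : Type*} [Group G] [Finite G] [Sz G]

namespace A12

theorem norm_tau2Elem_sigma {p : ℕ} [Fact p.Prime] {A L : Subgroup G} (hA : Elem p 2 A ⊤)
    (hL : Mx L) (hN : 𝐍(A) ≤ L) : p ∈ sigma L := by
  by_contra hs
  have hAL := hA.of_le ((le_norm A).trans hN)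
  obtain ⟨E, hE, hAE⟩ := ex_sigma_compl hL hAL.le (hA.pi hs)
  exact (tau2_compl_context hL hE (mk_t2 hL hs hAL) (hA.of_le hAE)).2.1.2.2 hN

/-- B&G Lemma 12.11(a). -/
theorem primes_norm_tau2Elem_a {p : ℕ} [Fact p.Prime] {M E A Ms : Subgroup G} (hM : Mx M)
    (hE : Hall (sigma M)ᶜ E M) (hp : p ∈ tau2 M) (hA : Elem p 2 A E) (hMs : Mx Ms) (hN : 𝐍(A) ≤ Ms) :
    ∀ q ∈ tau2 M, q ∈ sigma Ms ∧ ¬ IsIdealPrime q G := by
  intro q hq
  have := Fact.mk hq.1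
  refine ⟨?_, (tau2_not_beta hM hq).1⟩
  by_cases hqp : q = p
  · subst hqp; exact norm_tau2Elem_sigma hA.top hMs hN
  obtain ⟨B, hB⟩ := ex_tau2Elem hM hE hq
  obtain ⟨S, hS, hAS⟩ := Syl.exists_ge hA.pgroup (le_top (a := A))
  obtain ⟨T, hT, hBT⟩ := Syl.exists_ge hB.pgroup (le_top (a := B))
  have hSab : IsMulCommutative S := by_contra fun h => hqp (by
    rwa [nonabelian_tau2_a hM hE hp hA hS.pgroup h] at hq)
  have hTab : IsMulCommutative T := by_contra fun h => hqp (Eq.symm (by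
    rwa [nonabelian_tau2_a hM hE hq hB hT.pgroup h] at hp))
  obtain ⟨E₂, h₂⟩ := Hall.exists (tau2 M) (mmax_sol hM hE.le)
  obtain ⟨E₁, E₃, h⟩ := ex_tau2_compl hM hE h₂
  obtain ⟨-, -, ⟨h1, h2, -⟩, -⟩ := abelian_tau2 hM h hp hA hS hAS hSab
  obtain ⟨-, -, ⟨h3, h4, -⟩, -⟩ := abelian_tau2 hM h hq hB hT hBT hTab
  exact norm_tau2Elem_sigma hB.top hMs (by rwa [h3, h4, ← h2, ← h1])

omit [Sz G] in
/-- If `q` divides `|E : C_E(A)|` with `A ⊴ E`, no Sylow `q`-subgroup of `E` centralizes `A`. -/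
theorem syl_not_cent {q : ℕ} [Fact q.Prime] {E A Q : Subgroup G} (hQ : Syl q Q E)
    (hd : q ∣ 𝐂(A).relIndex E) : ¬ Q ≤ 𝐂(A) := fun h =>
  hQ.not_dvd' (hd.trans (relIndex_dvd_left h E))

/-- B&G Lemma 12.11(b). -/
theorem primes_norm_tau2Elem_b {p : ℕ} [Fact p.Prime] {M E A Ms : Subgroup G} (hM : Mx M)
    (hE : Hall (sigma M)ᶜ E M) (hp : p ∈ tau2 M) (hA : Elem p 2 A E) (hMs : Mx Ms) (hN : 𝐍(A) ≤ Ms) :
    PiNat (tau1 Ms ∪ tau2 Ms) (𝐂(A).relIndex E) := by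
  intro q hq hd
  have := Fact.mk hq
  obtain ⟨⟨hAE, -⟩, -⟩ := tau2_compl_context hM hE hp hA
  have hqp : q ≠ p := by
    rintro rfl; exact t1_ne_t2 (tau1_cent_tau2Elem_factor hM hE hp hA q hq hd) hp
  obtain ⟨Q, hQ⟩ := Syl.exists q E
  have hQM : Q ≤ Ms := hQ.le.trans (hAE.norm.trans hN)
  have hQd : ¬ Q ≤ ⁅Ms, Ms⁆ := fun h => syl_not_cent hQ hd (by
    have hb : p ∉ beta Ms := fun h => (tau2_not_beta hM hp).1 h.2
    have h1 : Q ≤ 𝐎({p}ᶜ, ⁅Ms, Ms⁆) := (beta_max_pdiv hMs hb).1.ge_of_normal (pcore_nml _ _).norm h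
      (p'_of_pgroup hQ.pgroup hqp)
    exact comm_eq_bot_iff'.mp (eq_bot_mono ((hA.pi (π := {p}) rfl).inf_eq_bot (pcore_pi _ ⁅Ms, Ms⁆))
      (le_inf (comm_le_left (hQ.le.trans hAE.norm)) ((commutator_mono le_rfl h1).trans
        (comm_le_right (norm_pcore (norm_der (le_norm_of_le ((le_norm A).trans hN))) _))))))
  have hdE : q ∣ Nat.card E := hd.trans (relIndex_dvd_card _ _)
  rcases (partition_pi_mmax hMs).mp (hdE.trans (card_dvd (hAE.norm.trans hN))) with h | h | h | h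
  · exact Or.inl h
  · exact Or.inr h
  · obtain ⟨R, hR, hQR⟩ := Syl.exists_ge hQ.pgroup hQM
    refine absurd (hQR.trans ((cyclic_Sylow_tiVsub_der1 hR
      (pgroup_cyclic hR.pgroup (hR.rk_eq ▸ t3_rk h))).resolve_left ?_)) hQd
    exact Syl.ne_bot' (hR.inf_nml (Nml.der_self Ms)) h.2.2.1
  · exact absurd (A10.sigma_le_der hMs (PiGrp.of_pgroup hQ.pgroup h) hQM) hQd

end A12

/-- B&G Lemma 12.11. -/
theorem primes_norm_tau2Elem {p : ℕ} [Fact p.Prime] {M E A Ms : Subgroup G} (hM : Mx M)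
    (hE : Hall (sigma M)ᶜ E M) (hp : p ∈ tau2 M) (hA : Elem p 2 A E) (hMs : Mx Ms) (hN : 𝐍(A) ≤ Ms) :
    (∀ q ∈ tau2 M, q ∈ sigma Ms ∧ ¬ IsIdealPrime q G) ∧
    PiNat (tau1 Ms ∪ tau2 Ms) (𝐂(A).relIndex E) ∧
    ∀ q : ℕ, q.Prime → q ∣ 𝐂(A).relIndex E → q ∣ Nat.card ↥(E ⊓ 𝐂(A)) →
      q ∈ tau2 Ms ∧ (∃ P : Subgroup G, Syl p P ⊤ ∧ Nml P Ms) ∧
        ∃ Q : Subgroup G, Syl q Q ⊤ ∧ Q ≤ Ms ∧ IsMulCommutative Q := by
  refine ⟨primes_norm_tau2Elem_a hM hE hp hA hMs hN, primes_norm_tau2Elem_b hM hE hp hA hMs hN,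
    fun q hq hd hdC => ?_⟩
  have := Fact.mk hq
  obtain ⟨⟨hAE, -⟩, ⟨hCA, -, -⟩, -⟩ := tau2_compl_context hM hE hp hA
  have hq1 := tau1_cent_tau2Elem_factor hM hE hp hA q hq hd
  obtain ⟨Q, hQ⟩ := Syl.exists q E
  have hQc : IsCyclic Q := pgroup_cyclic hQ.pgroup ((rk_mono (hQ.le.trans hE.le) q).trans (t1_rk hq1))
  have hQ₀ : Syl q (Q ⊓ 𝐂(A)) 𝐂(A) := hQ.inf_nml ⟨hCA, norm_cent hAE.norm⟩
  rw [inf_eq_right.mpr hCA] at hdC
  have hQ₀1 := hQ₀.ne_bot' hdC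
  obtain ⟨L, hL, hQL⟩ := exists_mmax (A10.mFT_norm_proper hQ₀1 (A10.mFT_pgroup_proper hQ₀.pgroup))
  have hAL : A ≤ L := (norm_of_cent (cent_symm inf_le_right)).trans hQL
  have hCL := p2Elem_mmax hL (hA.of_le hAL)
  have hNL : 𝐍(A) ≤ L := (hQ₀.frattini (Nml.cent_norm A)).ge.trans (sup_le hCL (inf_le_right.trans hQL))
  have hpL := norm_tau2Elem_sigma hA.top hL hNL
  have hqL : q ∈ tau2 L := by
    refine (prime_class_mmax_norm hL hQ₀.pgroup hQL).resolve_left ?_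
    exact (primes_norm_tau2Elem_b hM hE hp hA hL hNL q hq hd).elim t1_ns t2_ns
  have hQL' : Q ≤ L := hQ.le.trans (hAE.norm.trans hNL)
  obtain ⟨F, hF, hQF⟩ := ex_sigma_compl hL hQL' (PiGrp.of_pgroup hQ.pgroup (t2_ns hqL))
  obtain ⟨B, hB⟩ := ex_tau2Elem hL hF hqL
  obtain ⟨-, ⟨hCB, -⟩, -, hcop⟩ := tau2_compl_context hL hF hqL hB
  obtain rfl : L = Ms := by
    have hpMs := norm_tau2Elem_sigma hA.top hMs hN
    obtain ⟨g, rfl⟩ : Cj L Ms := by_contra fun h => Nat.not_coprime_of_dvd_of_dvd (Fact.out : p.Prime).one_lt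
        ((Msigma_Hall hL).dvd_card Fact.out (sigma_dvd hpL) hpL)
        ((Msigma_Hall hMs).dvd_card Fact.out (sigma_dvd hpMs) hpMs) (hcop Ms hMs h)
    exact (conj_eq_of_mem (sigma_group_trans_e hL hpL hA.pgroup hAL hCL ((le_norm A).trans hN))).symm
  have hnil := tau2_Msigma_nil hL hqL
  refine ⟨hqL, ⟨𝐎({p}, sigmaCore L), Syl.of_Hall (nil_pcore_Hall hnil {p}) (Msigma_Hall_G hL) hpL,
    (Ms_nml L).pcore _⟩, ?_⟩
  obtain ⟨T, hT, hBT⟩ := Syl.exists_ge hB.pgroup (le_top (a := B))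
  have hTab : IsMulCommutative T := by
    by_contra hab
    obtain ⟨-, -, hc, E₀, hsd, -⟩ := nonabelian_tau2 hL hF hqL hB hT.pgroup hab
    obtain ⟨X, hX⟩ := Elem.exists_one_of_pgroup hQ₀.pgroup hQ₀1
    have hXQ := hX.mono inf_le_left
    have h1 : X = B ⊓ 𝐂(sigmaCore L) := by_contra fun h => hA.ne_bot two_ne_zero
      (eq_bot_mono (hc X (hXQ.mono hQF) h).1
        (le_inf (le_Ms hL hAL (hA.pi hpL)) (cent_symm (hX.le.trans inf_le_right))))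
    have h2 := (h1 ▸ hsd).restrict_right hXQ.le hQF
    have h3 : E₀ ⊓ Q = ⊥ := by_contra fun h => hX.ne_bot one_ne_zero (by
      rw [← h2.inf, left_eq_inf]
      exact le_of_cyclic_pgroup hQc hQ.pgroup hXQ inf_le_right h)
    refine syl_not_cent hQ hd ?_
    rw [← h2.sup, h3, sup_bot_eq]
    exact hX.le.trans inf_le_right
  exact ⟨T, hT, (abelian_cent' hTab le_rfl hBT).trans (hCB.trans hF.le), hTab⟩

end Cfsg.Lib.BG.Z
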