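import Cfsg.Agent.Lib.ZB.T12_12Aux

set_option autoImplicit false
set_option linter.unusedVariables false

namespace Cfsg.Lib.BG.Z

open Subgroup A12
open scoped Cfsg.Lib.Transfer

variable {G : Type*} [Group G] [Finite G] [Sz G]

namespace A12

omit [Sz G] in
theorem exists_orderOf_eq_of_conj_le {X V : Subgroup G} {g u : G} (hg : g ∈ X) (h : u ⋆ X ≤ V) :
    ∃ y ∈ V, orderOf g ∣ orderOf y :=
  ⟨_, h (Transfer.conj_mem_conj.mpr hg), ((MulAut.conj u).orderOf_eq g).symm.dvd⟩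

/-- B&G Theorem 12.12 when the Sylow `p`-subgroups are not abelian for some `p ∈ τ₂(M) ∩ π(U)`. -/
theorem FTtypeF_nonabelian {p : ℕ} [hp : Fact p.Prime] {M E U A S : Subgroup G} (hM : Mx M)
    (hE : Hall (sigma M)ᶜ E M) (hU : Nml U E)
    (hreg : ∀ e ∈ U, e ≠ 1 → PiElt (tau1 M ∪ tau3 M) e → sigmaCore M ⊓ 𝐂[e] = ⊥)
    (hp2 : p ∈ tau2 M) (hA : Elem p 2 A U) (hS : IsPGroup p S) (hab : ¬ IsMulCommutative S) :
    (∃ A₀ : Subgroup G, Nml A₀ U ∧ IsMulCommutative A₀ ∧ ∀ x ∈ sigmaCore M, x ≠ 1 → U ⊓ 𝐂[x] ≤ A₀) ∧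
    ∃ E₀ : Subgroup G, E₀ ≤ U ∧ Monoid.exponent E₀ = Monoid.exponent U ∧ SemiReg (sigmaCore M) E₀ := by
  obtain ⟨-, ⟨hc, -⟩, -, E₀, hsd, h1⟩ := nonabelian_tau2 hM hE hp2 (hA.mono hU.le) hS hab
  obtain ⟨⟨hAE, -⟩, -⟩ := tau2_compl_context hM hE hp2 (hA.mono hU.le)
  have hA₀ : Elem p 1 (A ⊓ 𝐂(sigmaCore M)) A := Elem.of_card inf_le_left hc
  have hA₀C : A ⊓ 𝐂(sigmaCore M) ≤ 𝐂(sigmaCore M) := inf_le_right
  generalize A ⊓ 𝐂(sigmaCore M) = A₀ at hsd hA₀ hA₀C hc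
  have hsd' := hsd.restrict_right (hA₀.le.trans hA.le) hU.le
  have key : ∀ e ∈ E₀ ⊓ U, ∀ x ∈ sigmaCore M, x ≠ 1 → e ∈ 𝐂[x] → e = 1 := fun e he x hx hx1 h =>
    by_contra fun he1 => ne_bot_of_mem (A := sigmaCore M ⊓ 𝐂[e]) ⟨hx, mem_cent1_symm h⟩ hx1
      (hreg e he.2 he1 (((h1 x hx hx1).elt ⟨he.1, h⟩).mono Set.subset_union_left))
  refine ⟨⟨A₀, hsd'.nml, hA₀.abelian, fun x hx hx1 u hu => ?_⟩, E₀ ⊓ U, inf_le_right,
    exponent_eq_of_prime inf_le_right fun r hr _ g hg hgr => ?_, fun e he he1 => ?_⟩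
  · obtain ⟨a, ha, e, he, rfl⟩ := hsd'.mem hu.1
    rw [key e he x hx hx1 ((mul_mem_cancel_left (cent_le_cent1 hx (hA₀C ha))).mp hu.2), mul_one]
    exact ha
  · have := Fact.mk hr
    by_cases hrp : r = p
    · subst hrp
      obtain ⟨P, hP, hgP⟩ := Syl.exists_ge hgr (zpowers_le.mpr hg)
      obtain ⟨P', hP', hPP'⟩ := Syl.exists_ge hP.pgroup (hP.le.trans (hU.le.trans hE.le))
      have hPab := abelian_of_le (tau2_Sylow_abelian hM hp2 hP') hPP'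
      have hAP : A ≤ P := hP.ge_of_nml (hAE.of_le hA.le hU.le) (hA.pi rfl)
      obtain ⟨a, ha, e, he, rfl⟩ := (hsd'.restrict_right (hA₀.le.trans hAP) hP.le).mem (hgP (mem_zpowers g))
      have hap : orderOf a ∣ r := orderOf_dvd_of_pow_eq_one (hA₀.pow_eq_one ha)
      by_cases he1 : e = 1
      · have h2 := hsd'.restrict_right hA₀.le hA.le
        obtain ⟨y, hy, hy1⟩ := exists_ne_one (A := E₀ ⊓ U ⊓ A) fun h => hA.not_cyclic le_rfl (by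
          rw [← h2.sup, h, sup_bot_eq]; exact hA₀.cyclic)
        exact ⟨y, hy.1, by rwa [he1, mul_one, hA.orderOf_eq hy.2 hy1]⟩
      · refine ⟨e, he.1, (Commute.orderOf_mul_dvd_lcm
          (le_cent_iff.mp (abelian_cent hPab) a (hAP (hA₀.le ha)) e he.2)).trans
          (Nat.lcm_dvd (hap.trans ?_) dvd_rfl)⟩
        exact Nat.card_zpowers e ▸ pgroup_dvd_card (pgroup_of_le hP.pgroup (zpowers_le.mpr he.2))
          (ne_bot_of_mem (mem_zpowers e) he1)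
    · obtain ⟨R, hR⟩ := Syl.exists r (E₀ ⊓ U)
      have hR' : Syl r R U := hR.trans_idx inf_le_right (by
        rw [hsd'.relIndex_right, hc]; exact PiNat.of_prime hp.out (Ne.symm hrp))
      obtain ⟨u, -, hu⟩ := hR'.exists_conj_le hgr (zpowers_le.mpr hg)
      exact exists_orderOf_eq_of_conj_le (mem_zpowers g) (hu.trans hR.le)
  · exact eq_bot_iff.mpr fun x hx => by_contra fun hx1 => he1 (key e he x hx.1 hx1 (mem_cent1_symm hx.2))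

theorem reg_of_tau13 {r : ℕ} [Fact r.Prime] {M U X : Subgroup G}
    (hreg : ∀ e ∈ U, e ≠ 1 → PiElt (tau1 M ∪ tau3 M) e → sigmaCore M ⊓ 𝐂[e] = ⊥)
    (hX : Elem r 1 X U) (hr : r ∈ tau1 M ∪ tau3 M) : sigmaCore M ⊓ 𝐂(X) = ⊥ := by
  obtain ⟨e, he, he1⟩ := exists_ne_one (hX.ne_bot one_ne_zero)
  exact cent1_eq_of_prime hX.prime he he1 ▸ hreg e (hX.le he) he1 ((hX.pi hr).elt he)

theorem tau13_of_not_tau2 {r : ℕ} [Fact r.Prime] {M E : Subgroup G} (hM : Mx M)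
    (hE : Hall (sigma M)ᶜ E M) (hd : r ∣ Nat.card E) (hr : r ∉ tau2 M) : r ∈ tau1 M ∪ tau3 M := by
  rcases (partition_pi_sigma_compl hM hE).mp hd with h | h | h
  exacts [Or.inl h, absurd h hr, Or.inr h]

end A12

/-- B&G Theorem 12.12, generalized (as in the Coq proof) to a normal Hall subgroup `U` of `E`, for use in 15.1. -/
theorem FTtypeF_complement {M E U : Subgroup G} (hM : Mx M) (hE : Hall (sigma M)ᶜ E M) (hU : Nml U E)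
    (hHall : (Nat.card U).Coprime (U.relIndex E))
    (hreg : ∀ e ∈ U, e ≠ 1 → PiElt (tau1 M ∪ tau3 M) e → sigmaCore M ⊓ 𝐂[e] = ⊥) :
    (∃ A₀ : Subgroup G, Nml A₀ U ∧ IsMulCommutative A₀ ∧ ∀ x ∈ sigmaCore M, x ≠ 1 → U ⊓ 𝐂[x] ≤ A₀) ∧
    ∃ E₀ : Subgroup G, E₀ ≤ U ∧ Monoid.exponent E₀ = Monoid.exponent U ∧ SemiReg (sigmaCore M) E₀ := by
  have hUH := Hall.of_coprime hU.le hHall
  by_cases hna : ∃ p ∈ tau2 M, p ∣ Nat.card U ∧ ∃ S : Subgroup G, IsPGroup p S ∧ ¬ IsMulCommutative S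
  · obtain ⟨p, hp, hd, S, hS, hab⟩ := hna
    have := Fact.mk hp.1
    obtain ⟨A, hA⟩ := ex_tau2Elem hM hE hp
    exact FTtypeF_nonabelian hM hE hU hreg hp (hA.of_le (hUH.ge_of_normal hU.norm hA.le (hA.pi hd))) hS hab
  push Not at hna
  obtain ⟨E₂, h₂⟩ := Hall.exists (tau2 M) (A12.mmax_sol hM hE.le)
  obtain ⟨E₁, E₃, hs⟩ := ex_tau2_compl hM hE h₂
  have hU₂ := h₂.inf_nml hU
  have hab : IsMulCommutative ↥(E₂ ⊓ U) := abelian_of_le (tau2_compl_abelian hM hE h₂) inf_le_left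
  have hZ : ∀ p : ℕ, ∃ Z : Subgroup G, p ∈ tau2 M ∧ p ∣ Nat.card U → Nml E₂ E ∧ Z ≤ E₂ ⊓ U ∧ PiGrp {p} Z ∧
      U ≤ 𝐍(Z) ∧ (∀ g ∈ U, IsPGroup p (zpowers g) → ∃ y ∈ Z, orderOf g ∣ orderOf y) ∧
      ∀ X : Subgroup G, Elem p 1 X Z → sigmaCore M ⊓ 𝐂(X) = ⊥ := fun p => by
    by_cases h : p ∈ tau2 M ∧ p ∣ Nat.card U
    swap
    · exact ⟨⊥, fun h' => absurd h' h⟩
    have := Fact.mk h.1.1
    obtain ⟨A, hA⟩ := ex_tau2Elem hM hE h.1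
    obtain ⟨S, hS, hAS⟩ := Syl.exists_ge hA.pgroup (le_top (a := A))
    have hSab := hna p h.1 h.2 S hS.pgroup
    obtain ⟨⟨n₂, -⟩, -, ⟨hAS', -⟩, -, hS₂⟩ := abelian_tau2 hM hs h.1 hA hS hAS hSab
    obtain ⟨Z, h1, h2, h3, h4⟩ := exists_Zp hM hE hU hHall hreg h.1 hA hS hAS hSab
    have hSE := hS₂.trans h₂.le
    exact ⟨Z, fun _ => ⟨n₂, h1.trans (le_inf hS₂ (hUH.ge_of_normal hU.norm hSE
      (PiGrp.of_pgroup hS.pgroup h.2))), hS.pi.of_le h1, h2, fun g hg hgp => h3 g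
      ((hS.of_le hSE le_top).ge_of_normal (hAS' ▸ (tau2_compl_context hM hE h.1 hA).1.1.norm)
        ((zpowers_le.mpr hg).trans hU.le) (PiGrp.p_iff.mpr hgp) (mem_zpowers g)), h4⟩⟩
  choose Z hZ using hZ
  have hn₂ : Nml (E₂ ⊓ U) U := by
    by_cases h : E₂ ⊓ U = ⊥
    · rw [h]; exact Nml.bot U
    obtain ⟨p, hp, hd⟩ := Nat.exists_prime_and_dvd (card_ne_one h)
    exact (hZ p ⟨hU₂.pi p hp hd, hd.trans (card_dvd inf_le_right)⟩).1.inf_right hU.le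
  refine ⟨⟨E₂ ⊓ U, hn₂, hab, fun x hx hx1 => hU₂.ge_of_normal hn₂.norm inf_le_left fun r hr hd => ?_⟩, ?_⟩
  · have := Fact.mk hr
    obtain ⟨X, hX⟩ := Elem.exists_one hd
    by_contra h
    exact ne_bot_of_mem (A := sigmaCore M ⊓ 𝐂(X)) ⟨hx, le_cent1_iff.mp (hX.le.trans inf_le_right)⟩ hx1
      (reg_of_tau13 hreg (hX.mono inf_le_left)
        (tau13_of_not_tau2 hM hE (hd.trans (card_dvd (inf_le_left.trans hU.le))) h))
  generalize E₂ ⊓ U = U₂ at hU₂ hab hZ hn₂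
  let Z₀ : Subgroup G := U₂ ⊓ ⨅ p : ℕ, ⨅ _ : p ∈ tau2 M ∧ p ∣ Nat.card U, (Z p ⊔ 𝐎({p}ᶜ, U₂))
  have hUZ : U ≤ 𝐍(Z₀) := by
    refine le_norm_iff.mpr fun u hu z hz => mem_inf.mpr ⟨conj_mem_of_norm (hn₂.norm hu) hz.1, ?_⟩
    have h1 := (mem_inf.mp hz).2
    simp only [mem_iInf] at h1 ⊢
    exact fun p hp => conj_mem_of_norm (norm_sup (hZ p hp).2.2.2.1 (norm_pcore hn₂.norm _) hu) (h1 p hp)
  have hZZ : ∀ p, p ∈ tau2 M ∧ p ∣ Nat.card U → Z p ≤ Z₀ := fun p hp => by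
    refine le_inf (hZ p hp).2.1 (le_iInf₂ fun q _ => ?_)
    by_cases h : q = p
    · exact h ▸ le_sup_left
    · exact le_sup_of_le_right (nil_le_pcore (abelian_nil hab) (hZ p hp).2.1
        ((hZ p hp).2.2.1.mono (Set.singleton_subset_iff.mpr (Ne.symm h))))
  obtain ⟨V, hV⟩ := Hall.exists (tau2 M)ᶜ (A12.mmax_sol hM (hU.le.trans hE.le))
  have hZπ : PiGrp (tau2 M) Z₀ := hU₂.pi.of_le inf_le_left
  have hsd := SD.of_coprime (hV.le.trans hUZ) (hZπ.coprime hV.pi)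
  have hle : Z₀ ⊔ V ≤ U := sup_le (inf_le_left.trans hn₂.le) hV.le
  refine ⟨Z₀ ⊔ V, hle, exponent_eq_of_prime hle fun r hr hd g hg hgr => ?_,
    semiReg_of_prime fun X hX hr => ?_⟩
  · have := Fact.mk hr
    by_cases h : r ∈ tau2 M
    · obtain ⟨y, hy, h1⟩ := (hZ r ⟨h, hd⟩).2.2.2.2.1 g hg hgr
      exact ⟨y, mem_sup_left (hZZ r ⟨h, hd⟩ hy), h1⟩
    · obtain ⟨u, -, hu⟩ := hV.exists_conj_le (A12.mmax_sol hM (hU.le.trans hE.le)) (zpowers_le.mpr hg)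
        (PiGrp.of_pgroup hgr h)
      exact exists_orderOf_eq_of_conj_le (mem_zpowers g) (hu.trans le_sup_right)
  · have := Fact.mk hr
    have hX' : Elem (Nat.card X) 1 X U := Elem.of_card (hX.trans hle) rfl
    have hd := hX'.dvd_card one_ne_zero
    by_cases h : Nat.card X ∈ tau2 M
    · obtain ⟨-, h1, h2, -, -, h3⟩ := hZ _ ⟨h, hd⟩
      have h4 : X ≤ Z₀ := (Hall.of_sd hsd hZπ hV.pi).1.ge_of_normal hsd.nml.norm hX (hX'.pi h)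
      have hsd' := SD.of_coprime ((pcore_le _ _).trans (abelian_norm hab h1)) (h2.coprime (pcore_pi _ U₂))
      exact h3 X (hX'.of_le ((Hall.of_sd hsd' h2 (pcore_pi _ _)).1.ge_of_normal hsd'.nml.norm
        (h4.trans (inf_le_right.trans (iInf₂_le _ ⟨h, hd⟩))) (hX'.pi rfl)))
    · exact reg_of_tau13 hreg hX' (tau13_of_not_tau2 hM hE (hd.trans (card_dvd hU.le)) h)

end Cfsg.Lib.BG.Z
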