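import Cfsg.Agent.Lib.ZB.Max
import Cfsg.Agent.Lib.ZB.T10_2
import Cfsg.Agent.Lib.ZB.T10_8

set_option autoImplicit false
set_option linter.unusedVariables false

namespace Cfsg.Lib.BG.Z

open Subgroup
open scoped Cfsg.Lib.Transfer

variable {G : Type*} [Group G] [Finite G] [Sz G]

/-- B&G Lemma 12.19. -/
theorem der_compl_cent_beta' {M E : Subgroup G} (hM : Mx M) (hE : Hall (sigma M)ᶜ E M) :
    ∃ H : Subgroup G, Hall (beta M)ᶜ H (sigmaCore M) ∧ ⁅E, E⁆ ≤ 𝐂(H) := by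
  have h1 : PiGrp (sigma M)ᶜ ⁅E, E⁆ := hE.pi.of_le (der_le E)
  obtain ⟨W, hW, hEW⟩ := Hall.exists_ge (sub_mmax_sol hM (der_le M)) (der_mono hE.le)
    (h1.mono (Set.compl_subset_compl.mpr (beta_sub_sigma hM)))
  exact ⟨W ⊓ sigmaCore M, hW.inf_nml ((Msigma_nml M).of_le (Msigma_der1 hM) (der_le M)),
    nil_cent_of_coprime (beta'_der1_nil hM hW.pi hW.le) hEW inf_le_left
      (((Msigma_pi M).of_le inf_le_right).coprime h1).symm⟩

end Cfsg.Lib.BG.Z
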