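import Cfsg.Agent.Lib.BG.T03_7
import Cfsg.Agent.Lib.ZB.T12_4
import Cfsg.Agent.Lib.ZB.T11_5
import Cfsg.Agent.Lib.BG.T03_1

set_option autoImplicit false
set_option linter.unusedVariables false

namespace Cfsg.Lib.BG.Z

open Subgroup
open scoped Cfsg.Lib.Transfer

variable {G : Type*} [Group G] [Finite G] [Sz G]

/-- For `p ∉ σ(M)` every `A ∈ E_p^2(M)` satisfies Hypothesis 11.1. -/
theorem exists_exceptional {p : ℕ} [Fact p.Prime] {M A : Subgroup G} (hM : Mx M) (hp : p ∉ sigma M)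
    (hA : Elem p 2 A M) : ∃ A₀ : Subgroup G, Exceptional p M A₀ A := by
  by_contra h
  exact hp (p2Elem_mmax_b hM hA fun A₀ hA₀ hu => h ⟨A₀, hM, hp, hA, hA₀, hu.le⟩).1

/-- B&G Theorem 12.5(a). -/
theorem tau2_Msigma_nil {p : ℕ} [Fact p.Prime] {M : Subgroup G} (hM : Mx M) (hp : p ∈ tau2 M) :
    Group.IsNilpotent (sigmaCore M) := by
  obtain ⟨A, hA⟩ := exists_elem_of_le_rk (tau2_rk hp).ge
  obtain ⟨A₀, h⟩ := exists_exceptional hM (tau2_sigma' hp) hA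
  exact exceptional_sigma_nil h

/-- B&G Theorem 12.5(b), first part. -/
theorem tau2_Sylow_abelian {p : ℕ} [Fact p.Prime] {M P : Subgroup G} (hM : Mx M) (hp : p ∈ tau2 M)
    (hP : Syl p P M) : IsMulCommutative P := by
  obtain ⟨A, hA⟩ := exists_elem_of_le_rk (tau2_rk hp).ge
  obtain ⟨A₀, h⟩ := exists_exceptional hM (tau2_sigma' hp) hA
  exact exceptional_Sylow_abelian h hP

/-- B&G Theorem 12.5(b)-(f). -/
theorem tau2_context {p : ℕ} [Fact p.Prime] {M A : Subgroup G} (hM : Mx M) (hp : p ∈ tau2 M)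
    (hA : Elem p 2 A M) :
    (∀ P : Subgroup G, Syl p P M → A ≤ P → omegaOne p P = A ∧ ¬ 𝐍(P) ≤ M) ∧
    Nml (sigmaCore M ⊔ A) M ∧ sigmaCore M ⊓ 𝐂(A) = ⊥ ∧
    (∀ Ms : Subgroup G, Mx Ms → A ≤ Ms → Ms ≠ M → sigmaCore M ⊓ Ms = ⊥) ∧
    ∃ A₁ : Subgroup G, Elem p 1 A₁ A ∧ sigmaCore M ⊓ 𝐂(A₁) = ⊥ := by
  have hs := tau2_sigma' hp
  obtain ⟨A₀, h⟩ := exists_exceptional hM hs hA
  obtain ⟨P, hP, hAP⟩ := Syl.exists_ge hA.pgroup hA.le
  obtain ⟨-, hreg, A₁, -, hA₁, -, -, hreg₁, -⟩ := exceptional_structure h hP hAP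
  refine ⟨fun Q hQ hAQ => ⟨(exceptional_structure h hQ hAQ).1,
    not_norm_le_of_sigma' hs hQ (ne_bot_mono (hA.ne_bot two_ne_zero) hAQ)⟩, exceptional_mul_sigma_normal h, hreg,
    fun H hH hAH hne => eq_bot_mono hreg (le_inf inf_le_left (cent_symm ?_)), A₁, hA₁, hreg₁⟩
  by_cases h' : ∀ A₀ : Subgroup G, Elem p 1 A₀ A → ¬ UniqMax 𝐍(A₀) H
  · obtain ⟨hs', -, hnil⟩ := p2Elem_mmax_b hH (hA.of_le hAH) h'
    have hAs : A ≤ sigmaCore H := (Msigma_Hall hH).ge_of_normal (Msigma_nml H).norm hAH (hA.pi hs')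
    rw [← comm_eq_bot_iff', eq_bot_iff, ← ((sigma_disjoint hH hM (not_Cj_of_sigma hs' hs)).2.2 hnil).1]
    exact le_inf ((commutator_mono le_rfl hAs).trans (comm_le_right (norm_Msigma inf_le_right)))
      ((comm_le_left (norm_inf (norm_Msigma hA.le) (le_norm_of_le hAH))).trans inf_le_left)
  · simp only [not_forall, not_not] at h'
    obtain ⟨B, hB, hu⟩ := h'
    exact (nonuniq_p2Elem_cent_sigma hM hH hne hA hB hu.le).1 hs

/-- If `τ₂(M) ≠ ∅` then `M` is a `DD G`-group. -/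
theorem tau2_pure {p : ℕ} {M : Subgroup G} (hM : Mx M) (hp : p ∈ tau2 M) : PiGrp (DD G) M := fun q hq hd => by
  haveI := Fact.mk hp.1
  haveI := Fact.mk hq
  by_contra hD
  obtain ⟨A, hA⟩ := exists_elem_of_le_rk (tau2_rk hp).ge
  obtain ⟨-, hn, hC, -⟩ := tau2_context hM hp hA
  obtain ⟨Q, hQ⟩ := Elem.exists_one hd
  have hAD : PiGrp (DD G) (sigmaCore M ⊔ A) :=
    (Msigma_D M).sup (elem_D hA (hM.loc.tau2_D hp)) (norm_Msigma hA.le)
  have hnil := prime_Frobenius_sol_kernel_nil (hQ.le.trans hn.norm) hQ.prime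
    (not_D_cent_eq_bot hAD hD (by rw [hQ.card, pow_one]))
  exact Msigma_ne_bot hM (eq_bot_mono hC (le_inf le_rfl (nil_cent_of_coprime hnil le_sup_left le_sup_right
    ((Msigma_pi M).coprime (hA.pi (tau2_sigma' hp))))))

macro_rules
  | `(tactic| dd) => `(tactic| first
    | with_reducible assumption
    | with_reducible exact Mx.loc (by with_reducible assumption)
    | with_reducible exact sigma_D (by with_reducible assumption)
    | (dd_fwd; dd_bwd)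
    | (dd_fwd; saturate 2 [tau2_pure]; dd_fwd; dd_bwd))

/-- B&G Corollary 12.6(a), (b), (c), (f). -/
theorem tau2_compl_context {p : ℕ} [Fact p.Prime] {M E A : Subgroup G} (hM : Mx M)
    (hE : Hall (sigma M)ᶜ E M) (hp : p ∈ tau2 M) (hA : Elem p 2 A E) :
    (Nml A E ∧ ∀ X : Subgroup G, Elem p 1 X E → X ≤ A) ∧
    (𝐂(A) ≤ E ∧ M ⊓ 𝐍(A) = E ∧ ¬ 𝐍(A) ≤ M) ∧
    (∀ X : Subgroup G, Elem p 1 X E → sigmaCore M ⊓ 𝐂(X) ≠ ⊥ → UniqMax 𝐂(X) M) ∧
    ∀ Ms : Subgroup G, Mx Ms → ¬ Cj M Ms → (Nat.card (sigmaCore M)).Coprime (Nat.card (sigmaCore Ms)) := by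
  have hs := tau2_sigma' hp
  have hAM := hA.mono hE.le
  have sd := sdprod_sigma hM hE
  obtain ⟨hΩ, hn, hreg, hti, -⟩ := tau2_context hM hp hAM
  have hnA : Nml A E := by
    have e : (sigmaCore M ⊔ A) ⊓ E = A := by rw [modular_right hA.le (norm_Msigma hAM.le), sd.inf, bot_sup_eq]
    rw [← e]
    exact hn.inf_right hE.le
  have hX : ∀ X : Subgroup G, Elem p 1 X E → X ≤ A := by
    intro X hX
    obtain ⟨P, hP, hXP⟩ := Syl.exists_ge hX.pgroup hX.le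
    rw [← (hΩ P (hP.of_Hall hE hs) (hP.ge_of_norm_p hA.le hA.pgroup (hP.le.trans hnA.norm))).1]
    exact (hX.of_le hXP).le_Ohm1
  have hNA : M ⊓ 𝐍(A) = E := by
    rw [← sd.sup, modular_right hnA.norm sd.norm, coprime_norm_cent (norm_Msigma hAM.le)
      (((Msigma_pi M).p'_of_not_mem hs).coprime_pgroup hA.pgroup).symm, hreg, bot_sup_eq]
  have hCA : 𝐂(A) ≤ M := p2Elem_mmax hM hAM
  refine ⟨⟨hnA, hX⟩, ⟨hNA ▸ le_inf hCA (cent_le_norm A), hNA, fun hN => ?_⟩, fun X hXE h1 => ?_,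
    fun H hH hnc => ?_⟩
  · obtain ⟨P, hP, hAP⟩ := Syl.exists_ge hA.pgroup hAM.le
    obtain ⟨e, hNP⟩ := hΩ P hP hAP
    exact hNP ((e ▸ norm_Ohm1 le_rfl p).trans hN)
  · have hu : ∀ L : Subgroup G, Mx L → 𝐂(X) ≤ L → L = M := fun L hL hle => by
      by_contra hne
      exact h1 (eq_bot_mono (hti L hL ((abelian_cent' hA.abelian le_rfl (hX X hXE)).trans hle) hne)
        (inf_le_inf_left _ hle))
    obtain ⟨L, hL, hle⟩ := mmax_exists (mFT_cent_proper (hXE.ne_bot one_ne_zero))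
    exact ⟨hM, hu L hL hle ▸ hle, hu⟩
  · exact (Msigma_pi M).coprime' (Msigma_pi H) ((sigma_disjoint hM hH hnc).2.2 (tau2_Msigma_nil hM hp)).2

/-- A `τ₁(M) ∪ τ₃(M)`-subgroup of `M` centralizing `A ∈ E_p^2(M)`, `p ∈ τ₂(M)`, acts regularly on `M_σ`. -/
theorem tau13_cent_tau2_regular {p : ℕ} [Fact p.Prime] {M A F : Subgroup G} (hM : Mx M) (hp : p ∈ tau2 M)
    (hA : Elem p 2 A M) (hF : F ≤ M) (hc : F ≤ 𝐂(A)) (hπ : PiGrp (tau1 M ∪ tau3 M) F) :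
    SemiReg (sigmaCore M) F := by
  refine semiReg_of_prime fun X hX hq => ?_
  haveI := Fact.mk hq
  have hXe : Elem (Nat.card X) 1 X M := Elem.of_card (hX.trans hF) rfl
  obtain ⟨H, hH, hN⟩ := mFT_pgroup_norm_mmax hXe.pgroup (hXe.ne_bot one_ne_zero)
  have hnc := mmax_norm_notJ hM hH hXe.pgroup hXe.le hN (.inr (hπ.mem hq (card_dvd hX)))
  have hCH := (cent_le_norm X).trans hN
  exact eq_bot_mono ((tau2_context hM hp hA).2.2.2.1 H hH ((cent_symm (hX.trans hc)).trans hCH) (Cj.ne_of_not hnc))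
    (inf_le_inf_left _ hCH)

/-- B&G Corollary 12.6(d), (e). -/
theorem tau2_regular {p : ℕ} [Fact p.Prime] {M E E₁ E₂ E₃ A : Subgroup G} (hM : Mx M)
    (h : SigmaCompl M E E₁ E₂ E₃) (hp : p ∈ tau2 M) (hA : Elem p 2 A E) :
    SemiReg (sigmaCore M) E₃ ∧ SemiReg (sigmaCore M) (E₁ ⊓ 𝐂(A)) ∧ A ≤ E₂ := by
  have hnA := (tau2_compl_context hM h.hallE hp hA).1.1
  have hn₃ := (sigma_compl_context hM h).1.2
  have hAM := hA.mono h.hallE.le
  refine ⟨tau13_cent_tau2_regular hM hp hAM (h.hall₃.le.trans h.hallE.le) ?_ (h.hall₃.pi.mono Set.subset_union_right),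
    tau13_cent_tau2_regular hM hp hAM (inf_le_left.trans (h.hall₁.le.trans h.hallE.le)) inf_le_right
      ((h.hall₁.pi.of_le inf_le_left).mono Set.subset_union_left), h.hall₂.ge_of_nml hnA (hA.pi hp)⟩
  exact hn₃.cent_of_disjoint hnA (h.hall₃.pi.inf_eq_bot' (hA.pi hp) fun _ h => tau3_tau2' h)

end Cfsg.Lib.BG.Z
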