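import Cfsg.Agent.Lib.ZB.T12_7Aux
import Cfsg.Agent.Lib.BG.T03_1
import Cfsg.Agent.Lib.ZB.T10_10
import Cfsg.Agent.Lib.ZB.T10_11
import Cfsg.Agent.Lib.ZB.T10_13
import Cfsg.Agent.Lib.ZB.T12_1
import Cfsg.Agent.Lib.ZB.T12_2
import Cfsg.Agent.Lib.ZB.T12_5
import Cfsg.Agent.Lib.Coprime.Gaschutz

set_option autoImplicit false
set_option linter.unusedVariables false

namespace Cfsg.Lib.BG.Z

open Subgroup
open scoped Cfsg.Lib.Transfer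

variable {G : Type*} [Group G] [Finite G] [Sz G]

namespace A12

omit [Sz G] in
theorem syl_nonabelian {p : ℕ} [Fact p.Prime] {P S : Subgroup G} (hP : IsPGroup p P)
    (hab : ¬ IsMulCommutative P) (hS : Syl p S ⊤) : ¬ IsMulCommutative S := fun h => by
  obtain ⟨g, -, hg⟩ := hS.exists_conj_le hP le_top
  exact hab ((abelian_conj g).mp (abelian_of_le h hg))

/-- B&G Theorem 12.7(a). -/
theorem nonabelian_tau2_a {p : ℕ} [Fact p.Prime] {M E A P : Subgroup G} (hM : Mx M)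
    (hE : Hall (sigma M)ᶜ E M) (hp : p ∈ tau2 M) (hA : Elem p 2 A E) (hP : IsPGroup p P)
    (hab : ¬ IsMulCommutative P) : tau2 M = {p} := by
  refine Set.eq_singleton_iff_unique_mem.mpr ⟨hp, fun q hq => by_contra fun hqp => ?_⟩
  have := Fact.mk hq.1
  obtain ⟨B, hB⟩ := ex_tau2Elem hM hE hq
  obtain ⟨⟨hAE, -⟩, -⟩ := tau2_compl_context hM hE hp hA
  obtain ⟨⟨hBE, -⟩, ⟨hCB, -⟩, -⟩ := tau2_compl_context hM hE hq hB
  have hBA : B ≤ 𝐂(A) := hBE.cent_of_disjoint hAE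
    (disjoint_of_coprime (coprime_pgroups hB.pgroup hA.pgroup hqp))
  have h0 : B ∈ invSubgroups ⊤ A {q} := ⟨le_top, hB.pi (π := {q}) rfl, hA.le.trans hBE.norm⟩
  obtain ⟨Q, hBQ, hQ⟩ := Finite.exists_le_maximal (p := fun Y => Y ∈ invSubgroups ⊤ A {q}) h0
  obtain ⟨S, hS, -, -, -, hSQ⟩ := max_normed_2Elem_signaliser (Ne.symm hqp) hA.top
    ((tau2_not_beta hM hp).2 A (hA.mono hE.le)) ⟨hQ.1, fun R hR h => le_antisymm (hQ.2 hR h) h⟩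
    ((hB.of_le hBA).dvd_card two_ne_zero)
  have h1 := hSQ fun _ => ⟨B, hB.of_le hBQ, ((tau2_not_beta hM hq).2 B (hB.mono hE.le)).of_le hBQ le_top⟩
  exact syl_nonabelian hP hab hS (tau2_Sylow_abelian hM hp
    (hS.of_le (h1.trans ((cent_anti hBQ).trans (hCB.trans hE.le))) le_top))

end A12

open A12

/-- B&G Theorem 12.7. -/
theorem nonabelian_tau2 {p : ℕ} [Fact p.Prime] {M E A P : Subgroup G} (hM : Mx M)
    (hE : Hall (sigma M)ᶜ E M) (hp : p ∈ tau2 M) (hA : Elem p 2 A E) (hP : IsPGroup p P)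
    (hab : ¬ IsMulCommutative P) :
    tau2 M = {p} ∧
    (Nat.card ↥(A ⊓ 𝐂(sigmaCore M)) = p ∧ DP (sigmaCore M) (A ⊓ 𝐂(sigmaCore M)) 𝐅(M)) ∧
    (∀ X : Subgroup G, Elem p 1 X E → X ≠ A ⊓ 𝐂(sigmaCore M) → sigmaCore M ⊓ 𝐂(X) = ⊥ ∧ ¬ 𝐂(X) ≤ M) ∧
    ∃ E₀ : Subgroup G, SD (A ⊓ 𝐂(sigmaCore M)) E₀ E ∧
      ∀ x ∈ sigmaCore M, x ≠ 1 → PiGrp (tau1 M) (E₀ ⊓ 𝐂[x]) := by
  have ha := nonabelian_tau2_a hM hE hp hA hP hab
  obtain ⟨⟨hAE, hE1⟩, ⟨hCA, -⟩, huniq, -⟩ := tau2_compl_context hM hE hp hA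
  have hAM := hA.mono hE.le
  obtain ⟨P₀, hP₀, hAP₀⟩ := Syl.exists_ge hA.pgroup hA.le
  have hP₀M : Syl p P₀ M := hP₀.of_Hall hE (t2_ns hp)
  have hP₀ab := tau2_Sylow_abelian hM hp hP₀M
  obtain ⟨S, hS, hP₀S⟩ := Syl.exists_ge hP₀.pgroup (le_top (a := P₀))
  have hSab := syl_nonabelian hP hab hS
  have hSM : P₀ = S ⊓ M := hP₀M.eq_of_le_pgroup (le_inf hP₀S hP₀M.le) inf_le_right
    (pgroup_of_le hS.pgroup inf_le_left)
  have hSC : S ⊓ 𝐂(A) = P₀ := le_antisymm (hSM ▸ inf_le_inf_left S (hCA.trans hE.le))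
    (le_inf hP₀S (abelian_cent' hP₀ab le_rfl hAP₀))
  obtain ⟨hZ, ⟨Y, -, -, hY⟩, htr⟩ := basic_p2maxElem_structure hA.top ((tau2_not_beta hM hp).2 A hAM)
    hS.pgroup (hAP₀.trans hP₀S) hSab
  have hZM : ¬ 𝐂(omegaOne p 𝐙(S)) ≤ M := fun h => hSab (by
    have h1 : S ≤ M := (cent_symm ((Ohm1_le p _).trans inf_le_right)).trans h
    rwa [hSM, inf_eq_left.mpr h1] at hP₀ab)
  have hAMs : A ≤ 𝐍(sigmaCore M) := hAM.le.trans (Ms_nml M).norm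
  have hcop : (Nat.card A).Coprime (Nat.card (sigmaCore M)) :=
    ((Ms_pi M).coprime (hE.pi.of_le hA.le)).symm
  obtain ⟨a, haA, ha1, hCa⟩ := coprime_abelian_exists_cent1 hA.abelian (hA.not_cyclic le_rfl) hAMs hcop
    (Msigma_ne_bot hM)
  have hX₀ := hA.zpowers_of_mem haA ha1
  rw [← cent_zpowers] at hCa
  generalize zpowers a = X₀ at hX₀ hCa
  have hu₀ := huniq X₀ (hX₀.mono hA.le) hCa
  have hX₀Z : X₀ ≠ omegaOne p 𝐙(S) := fun h => hZM (h ▸ hu₀.le)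
  have hc : ∀ X : Subgroup G, Elem p 1 X E → X ≠ X₀ → sigmaCore M ⊓ 𝐂(X) = ⊥ ∧ ¬ 𝐂(X) ≤ M := by
    intro X hX hne
    have h1 : ¬ 𝐂(X) ≤ M := fun h => by
      obtain ⟨g, hg, rfl⟩ := htr X₀ ⟨hX₀, hX₀Z⟩ X ⟨hX.of_le (hE1 X hX), fun h' => hZM (h' ▸ h)⟩
      have h2 := (A10.uniqMax_conj hu₀ g).uniq M hM (by rwa [Transfer.conj_centralizer])
      have h3 : g ∈ P₀ := hSM ▸ ⟨hg.1, A10.norm_mmax hM ▸ norm_of_conj_eq h2.symm⟩
      exact hne (conj_eq_of_cent (abelian_cent' hP₀ab le_rfl (hX₀.le.trans hAP₀) h3))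
    exact ⟨by_contra fun h => h1 (huniq X hX h).le, h1⟩
  have hMsX : sigmaCore M ≤ 𝐂(X₀) := by
    refine coprime_abelian_gen_cent1 hA.abelian (hA.not_cyclic le_rfl) hAMs hcop fun b hb hb1 => ?_
    rw [← cent_zpowers]
    by_cases h : zpowers b = X₀
    · rw [h]; exact inf_le_right
    · rw [(hc _ ((hA.zpowers_of_mem hb hb1).mono hA.le) h).1]; exact bot_le
  have hA₀ : A ⊓ 𝐂(sigmaCore M) = X₀ := by
    have h1 : X₀ ≤ A ⊓ 𝐂(sigmaCore M) := le_inf hX₀.le (cent_symm hMsX)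
    refine (hX₀.eq_of_le (hA.one_of_lt (ne_bot_mono (hX₀.ne_bot one_ne_zero) h1)
      (lt_of_le_of_ne inf_le_left fun h => Msigma_ne_bot hM ?_)) h1).symm
    rw [← (tau2_context hM hp hAM).2.2.1, left_eq_inf]
    exact cent_symm (h.ge.trans inf_le_right)
  have hEX : E ≤ 𝐍(X₀) := hA₀ ▸ norm_inf hAE.norm (norm_cent (hE.le.trans (Ms_nml M).norm))
  have hsd := sdprod_sigma hM hE
  have hX₀M : Nml X₀ M := ⟨hX₀.le.trans hAM.le, hsd.sup.ge.trans (sup_le (norm_of_cent hMsX) hEX)⟩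
  have hdp := hSC ▸ hY X₀ hX₀ hX₀Z
  rw [hA₀]
  refine ⟨ha, ⟨hX₀.card_one, ?_⟩, hc, ?_⟩
  · have hMsF := Fitting_max (tau2_Msigma_nil hM hp) (Ms_nml M)
    have hsd' := hsd.restrict_right hMsF (Fitting_le M)
    have hK : Nml (E ⊓ 𝐅(M)) M := by
      rw [(hE.inf_nml (Fitting_nml M)).eq_of_nil (Fitting_nil M)]
      exact (Fitting_nml M).pcore _
    have hKs : PiGrp (sigma M)ᶜ (E ⊓ 𝐅(M)) := hE.pi.of_le inf_le_left
    have hKC : E ⊓ 𝐅(M) ≤ 𝐂(sigmaCore M) :=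
      nil_cent_of_coprime (Fitting_nil M) inf_le_right hMsF ((Ms_pi M).coprime hKs).symm
    have hKc : IsCyclic ↥(E ⊓ 𝐅(M)) := nil_cyclic_of_rank_le_one (nil_of_le (Fitting_nil M) inf_le_right)
      (A10.mFT_odd _) (inf_eq_left.mpr hKC ▸ sub'cent_sigma_rank1 hM hK.le hKs)
    have hKp : PiGrp {p} (E ⊓ 𝐅(M)) := fun q hq hd => by
      have := Fact.mk hq
      obtain ⟨X, hX⟩ := Elem.exists_one hd
      have h1 := hK.of_le_cyclic hKc hX.le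
      exact ha ▸ (prime_class_mmax_norm hM hX.pgroup
        (A10.mmax_norm_eq hM (hX.ne_bot one_ne_zero) h1.le h1.norm).le).resolve_left (hKs q hq hd)
    have hXK : X₀ ≤ E ⊓ 𝐅(M) := le_inf (hX₀.le.trans hA.le) (Fitting_max (pgroup_nil hX₀.pgroup) hX₀M)
    have hdp' := hdp.restrict hXK (hP₀M.ge_of_nml hK hKp)
    have h1 : Y ⊓ (E ⊓ 𝐅(M)) = ⊥ := by_contra fun h => hX₀.ne_bot one_ne_zero (by
      rw [← hdp'.inf, left_eq_inf]
      exact le_of_cyclic_pgroup hKc hKp.pgroup (hX₀.of_le hXK) inf_le_right h)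
    have h2 : E ⊓ 𝐅(M) = X₀ := by rw [← hdp'.sup, h1, sup_bot_eq]
    exact DP.of_sd (h2 ▸ hsd') hMsX
  · obtain ⟨E₀, hE₀, h1, h2⟩ := Coprime.gaschutz_exists_of hX₀.abelian hdp.left_le hP₀.le hEX
      (hX₀.card_one ▸ (Nat.Prime.coprime_iff_not_dvd Fact.out).mpr hP₀.not_dvd') hdp.inf hdp.sup
    refine ⟨E₀, ⟨hE₀.trans hEX, h1, h2⟩, fun x hx hx1 q hq hd => ?_⟩
    have := Fact.mk hq
    obtain ⟨X, hX⟩ := Elem.exists_one hd
    have hXE := hX.mono (inf_le_left.trans hE₀)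
    have hxX : sigmaCore M ⊓ 𝐂(X) ≠ ⊥ :=
      ne_bot_of_mem ⟨hx, le_cent1_iff.mp (hX.le.trans inf_le_right)⟩ hx1
    rcases (partition_pi_sigma_compl hM hE).mp (hXE.dvd_card one_ne_zero) with h | h | h
    · exact h
    · obtain rfl : q = p := by rwa [ha] at h
      refine absurd (hc X hXE fun h' => hX.ne_bot one_ne_zero ?_).1 hxX
      rw [← h1, ← h', left_eq_inf]
      exact hX.le.trans inf_le_left
    · obtain ⟨E₂, hE₂⟩ := Hall.exists (tau2 M) (A12.mmax_sol hM hE.le)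
      obtain ⟨E₁, E₃, hs⟩ := ex_tau2_compl hM hE hE₂
      exact absurd ((tau2_regular hM hs hp hA).1.cent (hs.hall₃.ge_of_normal
        (sigma_compl_context hM hs).1.2.norm hXE.le (hX.pi h)) (hX.ne_bot one_ne_zero)) hxX

end Cfsg.Lib.BG.Z
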