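import Cfsg.Agent.Lib.ZB.T13_4
import Cfsg.Agent.Lib.ZB.T10_14

set_option autoImplicit false
set_option linter.unusedVariables false

namespace Cfsg.Lib.BG.Z

open Subgroup
open scoped Cfsg.Lib.Transfer

variable {G : Type*} [Group G] [Finite G] [Sz G]

/-- The one-sided consequences of the configuration of B&G Lemma 13.8. -/
theorem A13.asymmetry_side {p q : ℕ} [Fact p.Prime] [Fact q.Prime] {M Ms P Q : Subgroup G}
    (hM : Mx M) (hMs : Mx Ms) (hnc : ¬ Cj M Ms) (hp : p ∈ tau1 M)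
    (hP : Elem p 1 P (M ⊓ Ms)) (hQ : Syl q Q (M ⊓ Ms)) (hPQ : P ≤ 𝐍(Q)) (hC : Q ⊓ 𝐂(P) = ⊥) (hN : 𝐍(Q) ≤ Ms)
    (hD : q ∈ DD G := by dd) :
    alpha M = beta M ∧ q ∉ alpha M ∧ alphaCore M ⊓ 𝐂(P) ≠ ⊥ ∧ alphaCore M ⊓ 𝐂(Q ⊔ P) = ⊥ ∧ Q ≤ ⁅Ms, Ms⁆ ∧
      betaCore M ⊔ (M ⊓ Ms) = M := by
  have hQ1 : Q ≠ ⊥ := by
    rintro rfl
    exact hMs.1.ne_top (top_le_iff.1 (norm_bot.ge.trans hN))
  have hqp : q ≠ p := by
    rintro rfl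
    have := hQ.ge_of_norm_p' hP.le hP.pgroup hPQ
    exact center_ne_bot_of_nil hQ.nil hQ1 (eq_bot_mono hC (inf_le_inf_left _ (cent_anti this)))
  have hQM : Syl q Q M := hQ.of_norm_le inf_le_left (inf_le_inf_left _ hN)
  obtain ⟨h1, -, h2, h3, h4⟩ := cent_Malpha_reg_tau1_b hM hp hqp (hP.mono inf_le_left) hQ1 hPQ hC
    (fun h => Cj.ne_of_not hnc (h.eq hMs hN)) hQM
  have e : ⁅Q, P⁆ = Q := coprime_comm_eq_of_cent_bot hPQ (coprime_pgroups hP.pgroup hQ.pgroup hqp.symm)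
    (Or.inl (pgroup_sol hP.pgroup)) hC
  have hQd : Q ≤ ⁅M, M⁆ := e ▸ comm_le_der hQM.le (hP.le.trans inf_le_left)
  have hF := A13.Mbeta_Frattini hM (h1 ▸ h2) (hQM.of_le hQd (der_le M))
  refine ⟨h1, h2, h3, h4, e ▸ comm_le_der (hQ.le.trans inf_le_right) (hP.le.trans inf_le_right), ?_⟩
  exact le_antisymm (sup_le (Mbeta_le M) inf_le_left) (hF.ge.trans (sup_le_sup_left (inf_le_inf_left _ hN) _))

/-- The asymmetric part of the proof of B&G Lemma 13.8. -/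
theorem A13.asymmetry_core {p q qs s : ℕ} [Fact p.Prime] [Fact q.Prime] [Fact qs.Prime] [Fact s.Prime]
    {M Ms P Q Qs H : Subgroup G}
    (hM : Mx M) (hMs : Mx Ms) (hnc : ¬ Cj M Ms) (hp : p ∈ tau1 M) (hps : p ∈ tau1 Ms)
    (hP : Elem p 1 P (M ⊓ Ms)) (hQ : Syl q Q (M ⊓ Ms)) (hQs : Syl qs Qs (M ⊓ Ms)) (hPQ : P ≤ 𝐍(Q))
    (hPQs : P ≤ 𝐍(Qs)) (hC : Q ⊓ 𝐂(P) = ⊥) (hCs : Qs ⊓ 𝐂(P) = ⊥) (hN : 𝐍(Q) ≤ Ms) (hNs : 𝐍(Qs) ≤ M)
    (hH : Hall (beta M ∪ beta Ms) H 𝐂(P)) (hs : s ∈ beta M) (hX : 𝐎({s}, H) ≠ ⊥)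
    (hD : q ∈ DD G := by dd) (hDs : qs ∈ DD G := by dd) : False := by
  obtain ⟨hab, hqa, hC1, hC2, hQd, hF⟩ := A13.asymmetry_side hM hMs hnc hp hP hQ hPQ hC hN
  obtain ⟨habs, -, hC1s, -⟩ := A13.asymmetry_side hMs hM (fun h => hnc h.symm) hps (inf_comm M Ms ▸ hP)
    (inf_comm M Ms ▸ hQs) hPQs hCs hNs
  have hP1 : P ≠ ⊥ := hP.ne_bot one_ne_zero
  have hPD : PiGrp (DD G) P := D_of_inf_cent hM.loc.Malpha_D hC1
  have hPM : P ≤ M := hP.le.trans inf_le_left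
  -- a conjugate of `H` lies in `M`
  obtain ⟨g, hg⟩ := sigma_pgroup_conj_le (beta_sub_sigma hM hs) (pcore_pgroup s H)
  have hHL : H ≤ g⁻¹ ⋆ M := (pcore_nml {s} H).norm.trans (beta_norm_sub_mmax (mmax_conj hM _) (S14.conj_le_iff.1 hg)
    (by rw [beta_conj]; exact PiGrp.of_pgroup (pcore_pgroup s H) hs) hX)
  have hCb : PiGrp (beta M) (alphaCore M ⊓ 𝐂(P)) := hab ▸ (Malpha_pi M).of_le inf_le_left
  obtain ⟨c, hc, hcH⟩ := hH.exists_le_conj (mFT_cent_sol hP1) (inf_le_right : alphaCore M ⊓ 𝐂(P) ≤ _)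
    (hCb.mono Set.subset_union_left)
  obtain ⟨Y, hY, hYp⟩ := exists_prime_le hC1
  haveI := Fact.mk hYp
  have hJ : Cj (c ⋆ (g⁻¹ ⋆ M)) M := ((Cj.conj M _).trans (Cj.conj _ _)).symm
  have hLM : c ⋆ (g⁻¹ ⋆ M) = M := by
    by_contra hne
    refine mmax_norm_notJ (mmax_conj (mmax_conj hM _) _) hM (S14.pgroup_of_card (X := Y) rfl)
      (hY.trans (hcH.trans (S14.conj_mono c hHL)))
      (beta_norm_sub_mmax hM (hY.trans (inf_le_left.trans (Malpha_le M))) (hCb.of_le hY) (ne_bot_of_prime hYp))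
      (Or.inl ⟨?_, hne⟩) (beta_D (hCb.mem hYp (card_dvd hY))) hJ
    rw [← hJ.sigma_eqZ]
    exact beta_sub_sigma hM (hCb.mem hYp (card_dvd hY))
  have hHM : c ⋆ H ≤ M ⊓ 𝐂(P) := le_inf ((S14.conj_mono c hHL).trans hLM.le) (conj_le_of_mem hH.le hc)
  -- a prime `r ∈ β(Ms)` dividing `|C_{M ∩ Ms}(P)|`
  obtain ⟨R₀, hR₀, hr⟩ := exists_prime_le hC1s
  set r := Nat.card R₀ with hrdef
  haveI := Fact.mk hr
  have hra : r ∈ alpha Ms := (Malpha_pi Ms).mem hr (card_dvd (hR₀.trans inf_le_left))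
  have hrs : r ∉ sigma M := (sigma_disjoint hMs hM fun h => hnc h.symm).2.1 r hra
  have hrH : r ∣ Nat.card ↥(c ⋆ H) :=
    (hH.conj_of_mem hc).dvd_card hr (card_dvd (hR₀.trans inf_le_right)) (Or.inr (habs ▸ hra))
  have hps' : p ∉ beta M := fun h => tau1_sigma' hp (beta_sub_sigma hM h)
  obtain ⟨R, hR⟩ := Elem.exists_one (A13.dvd_card_cent_pprod hr (Mbeta_nml M) hF hP.le
    ((Mbeta_pi M).coprime (hP.pi hps')) (mmax_sol hM)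
    (fun hd => hrs (beta_sub_sigma hM ((Mbeta_pi M).mem hr hd))) (hrH.trans (card_dvd hHM)))
  have hRP : R ≤ 𝐂(P) := hR.le.trans inf_le_right
  have hNR : 𝐍(R) ≤ Ms := beta_norm_sub_mmax hMs (hR.le.trans (inf_le_left.trans inf_le_right))
    (hR.pi (habs ▸ hra)) (hR.ne_bot one_ne_zero)
  obtain ⟨E, hE, hPRE⟩ := ex_sigma_compl hM (sup_le hPM (hR.le.trans (inf_le_left.trans inf_le_left)))
    ((hP.pi (tau1_sigma' hp)).sup (hR.pi hrs) (norm_of_cent hRP))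
  have h4 := cent_tau1Elem_Msigma hM hE hp (hP.of_le (le_sup_left.trans hPRE))
    (hR.of_le (le_inf (le_sup_right.trans hPRE) hRP))
  have h5 : alphaCore M ⊓ 𝐂(P) ≤ alphaCore M ⊓ Ms := le_inf inf_le_left
    ((inf_le_inf_right _ (Malpha_sub_Msigma hM)).trans (h4.trans ((cent_le_norm R).trans hNR)))
  have hD : PiGrp (alpha M) (alphaCore M ⊓ Ms) := (Malpha_pi M).of_le inf_le_left
  have h6 : Q ≤ 𝐂(alphaCore M ⊓ Ms) := A13.cent_beta' hMs hQ.pgroup hQd inf_le_right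
    (hD.mono fun t ht hb => (sigma_disjoint hM hMs hnc).2.1 t ht (beta_sub_sigma hMs hb))
    (norm_inf (norm_Malpha (hQ.le.trans inf_le_left)) (le_norm_of_le (hQ.le.trans inf_le_right)))
    (hD.coprime (PiGrp.of_pgroup hQ.pgroup hqa)).symm
  exact hC1 (eq_bot_mono hC2 (le_inf inf_le_left (le_cent_sup (h5.trans (cent_symm h6)) inf_le_right)))

/-- B&G Lemma 13.8. -/
theorem tau1_mmaxI_asymmetry {p q qs : ℕ} [Fact p.Prime] [Fact q.Prime] [Fact qs.Prime] {M Ms P Q Qs : Subgroup G}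
    (hM : Mx M) (hMs : Mx Ms) (hnc : ¬ Cj M Ms) (hp : p ∈ tau1 M) (hps : p ∈ tau1 Ms)
    (hP : Elem p 1 P (M ⊓ Ms)) (hQ : Syl q Q (M ⊓ Ms)) (hQs : Syl qs Qs (M ⊓ Ms)) (hPQ : P ≤ 𝐍(Q))
    (hPQs : P ≤ 𝐍(Qs)) (hC : Q ⊓ 𝐂(P) = ⊥) (hCs : Qs ⊓ 𝐂(P) = ⊥) (hN : 𝐍(Q) ≤ Ms) (hNs : 𝐍(Qs) ≤ M)
    (hD : q ∈ DD G := by dd) (hDs : qs ∈ DD G := by dd) : False := by
  obtain ⟨hab, -, hC1, -⟩ := A13.asymmetry_side hM hMs hnc hp hP hQ hPQ hC hN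
  have hsol := mFT_cent_sol (hP.ne_bot one_ne_zero) (D_of_inf_cent hM.loc.Malpha_D hC1)
  obtain ⟨H, hH⟩ := Hall.exists (beta M ∪ beta Ms) hsol
  have hH1 : H ≠ ⊥ := by
    obtain ⟨Y, hY, hYp⟩ := exists_prime_le hC1
    exact hH.ne_bot hYp (card_dvd (hY.trans inf_le_right))
      (Or.inl (hab ▸ (Malpha_pi M).mem hYp (card_dvd (hY.trans inf_le_left))))
  obtain ⟨X, hX, hs⟩ := exists_prime_le (Fitting_ne_bot (sol_of_le hsol hH.le) hH1)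
  haveI := Fact.mk hs
  have hX1 : 𝐎({Nat.card X}, H) ≠ ⊥ :=
    ne_bot_mono (ne_bot_of_prime hs) (le_pcore_of_le_Fitting hX (S14.pgroup_of_card rfl))
  rcases hH.pi.mem hs (card_dvd (hX.trans (Fitting_le H))) with h | h
  · exact A13.asymmetry_core hM hMs hnc hp hps hP hQ hQs hPQ hPQs hC hCs hN hNs hH h hX1
  · exact A13.asymmetry_core hMs hM (fun h => hnc h.symm) hps hp (inf_comm M Ms ▸ hP) (inf_comm M Ms ▸ hQs)
      (inf_comm M Ms ▸ hQ) hPQs hPQ hCs hC hNs hN (Set.union_comm _ _ ▸ hH) h hX1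

end Cfsg.Lib.BG.Z
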