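import Cfsg.Agent.Lib.ZB.T13_6
import Cfsg.Agent.Lib.ZB.T13_8

set_option autoImplicit false
set_option linter.unusedVariables false

namespace Cfsg.Lib.BG.Z

open Subgroup
open scoped Cfsg.Lib.Transfer

variable {G : Type*} [Group G] [Finite G] [Sz G]

/-- B&G Theorem 13.9. -/
theorem sigma_partition {M Ms : Subgroup G} (hM : Mx M) (hMs : Mx Ms) (hnc : ¬ Cj M Ms) :
    ∀ p ∈ sigma M, p ∉ sigma Ms := by
  intro q hq hqs
  have hqp := sigma_prime hq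
  haveI := Fact.mk hqp
  obtain ⟨E, hE⟩ := Hall.exists (sigma M)ᶜ (mmax_sol hM)
  obtain ⟨S, hS, hES⟩ := Syl.exists_inv q (norm_Msigma hE.le) ((Msigma_pi M).coprime hE.pi).symm
    (Or.inl (sub_mmax_sol hM hE.le))
  have hSM : Syl q S M := hS.of_Hall (Msigma_Hall hM) hq
  have hSG : Syl q S ⊤ := sigma_Sylow_G hq hSM
  have hS1 : S ≠ ⊥ := sigma_Sylow_ne_bot hq hSM
  obtain ⟨g, hg⟩ := sigma_pgroup_conj_le hqs hS.pgroup
  -- replace `Ms` by the conjugate `L` containing `S`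
  obtain ⟨L, hL, hnL, hqL, hSL⟩ : ∃ L : Subgroup G, Mx L ∧ ¬ Cj M L ∧ q ∈ sigma L ∧ S ≤ L :=
    ⟨g⁻¹ ⋆ Ms, mmax_conj hMs _, fun h => hnc ((Cj.conj_right_iff _).1 h), by rwa [sigma_conj], S14.conj_le_iff.1 hg⟩
  have hSL' : Syl q S L := hSG.of_le hSL le_top
  have hNL : 𝐍(S) ≤ L := norm_sigma_Sylow hqL hSL'
  have hEL : E ≤ L := hES.trans hNL
  have no2 : ∀ {M L : Subgroup G}, Mx M → Mx L → ¬ Cj M L → q ∈ sigma M → q ∈ sigma L →
      ∀ p, p ∉ tau2 M := fun {M L} hM hL hn h1 h2 p hp => by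
    haveI := Fact.mk (tau2_prime hp)
    obtain ⟨E, hE⟩ := Hall.exists (sigma M)ᶜ (mmax_sol hM)
    obtain ⟨A, hA⟩ := ex_tau2Elem hM hE hp
    exact hqp.one_lt.ne' (Nat.eq_one_of_dvd_coprimes ((tau2_compl_context hM hE hp hA).2.2.2 L hL hn)
      ((Msigma_Hall hM).dvd_card hqp (sigma_dvd h1) h1) ((Msigma_Hall hL).dvd_card hqp (sigma_dvd h2) h2))
  obtain ⟨E₁, h₁⟩ := Hall.exists (tau1 M) (sub_mmax_sol hM hE.le)
  obtain ⟨E₂, E₃, h⟩ := A13.ex_compl_of_tau1 hM hE h₁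
  have h2 : E₂ = ⊥ := h.hall₂.pi.eq_bot fun p _ _ => no2 hM hL hnL hq hqL p
  obtain ⟨P, hP, hp⟩ := exists_prime_le ((sigma_compl_context hM h).2.1 h2)
  set p := Nat.card P with hpdef
  haveI := Fact.mk hp
  have hp1 : p ∈ tau1 M := h₁.pi.mem hp (card_dvd hP)
  have hPE : P ≤ E := hP.trans h₁.le
  have hP' : Elem p 1 P (M ⊓ L) := Elem.of_card (hPE.trans (le_inf hE.le hEL)) rfl
  have hC : S ⊓ 𝐂(P) = ⊥ := by
    by_contra hC
    obtain ⟨X, hX⟩ := Elem.exists_one_of_pgroup (pgroup_of_le hS.pgroup inf_le_left) hC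
    exact Cj.ne_of_not hnL (((cent_cent_Msigma_tau1_uniq hM hE hPE (ne_bot_of_prime hp) (hP'.pi hp1)
      (hX.mono (inf_le_inf_right _ hS.le))).2 S hS).eq hL hSL)
  have hpL : p ∈ tau1 L := by
    by_contra hpL
    have h3 : p ∈ sigma L ∨ p ∈ tau3 L := by
      have := (partition_pi_mmax hL).1 (card_dvd (hPE.trans hEL))
      have := no2 hL hM (fun h => hnL h.symm) hqL hq p
      tauto
    have := A13.cent_beta' hL hP'.pgroup (A13.pgroup_le_der hL h3 hP'.pgroup (hPE.trans hEL)) hSL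
      (PiGrp.of_pgroup hS.pgroup fun hb => (sigma_disjoint hL hM fun h => hnL h.symm).2.1 q (beta_sub_alpha L hb) hq)
      (hPE.trans hES) (coprime_pgroups hP'.pgroup hS.pgroup fun e => tau1_sigma' hp1 (e ▸ hq))
    exact hS1 (eq_bot_mono hC (le_inf le_rfl (cent_symm this)))
  have hSML : Syl q S (M ⊓ L) := hSG.of_le (le_inf hSM.le hSL) le_top
  exact tau1_mmaxI_asymmetry hM hL hnL hp1 hpL hP' hSML hSML (hPE.trans hES) (hPE.trans hES) hC hC hNL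
    (norm_sigma_Sylow hq hSM)

end Cfsg.Lib.BG.Z
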