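import Cfsg.Agent.Lib.ZB.T14_Api
import Cfsg.Agent.Lib.BG.T03_7
import Cfsg.Agent.Lib.ZB.T10_2
import Cfsg.Agent.Lib.ZB.T12_1
import Cfsg.Agent.Lib.ZB.T12_5

set_option autoImplicit false
set_option linter.unusedVariables false

namespace Cfsg.Lib.BG.Z.S14

open Subgroup
open scoped Cfsg.Lib.Transfer

variable {G : Type*} [Group G] [Finite G] [Sz G]

omit [Sz G] in
/-- Fixed points on `M_σ` of conjugate subgroups. -/
theorem cent_Ms_conj {M X : Subgroup G} {g : G} (hg : g ∈ M) :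
    sigmaCore M ⊓ 𝐂(g ⋆ X) = g ⋆ (sigmaCore M ⊓ 𝐂(X)) := by
  rw [conj_inf, conj_cent, (Ms_nml M).conj_eq hg]

/-- The definition of `κ(M)` in section 14 agrees with the one of the Prelude. -/
theorem _root_.Cfsg.Lib.BG.Z.mem_kappa_iff {p : ℕ} [Fact p.Prime] {M : Subgroup G} (hM : Mx M) :
    p ∈ kappa M ↔ (p ∈ tau1 M ∨ p ∈ tau3 M) ∧ ∃ P : Subgroup G, Elem p 1 P M ∧ sigmaCore M ⊓ 𝐂(P) ≠ ⊥ := by
  have e : ∀ Q : Sylow p M, IsCyclic ↥((Q : Subgroup M).map M.subtype) ↔ IsCyclic Q := fun Q =>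
    ((Q : Subgroup M).equivMapOfInjective M.subtype M.subtype_injective).symm.isCyclic
  constructor
  · rintro ⟨hp, hd, hs, h⟩
    obtain ⟨Q⟩ := (inferInstance : Nonempty (Sylow p M))
    obtain ⟨hc, x, hx, hx1, y, hy, hy1, hxy⟩ := h Q
    have hQ := Syl.of_sylow Q
    refine ⟨tau13_of_rank hp hd hs (rank1_of_cyclic_syl hQ ((e Q).2 hc)), ?_⟩
    have hxQ : zpowers (x : G) ≤ (Q : Subgroup M).map M.subtype := zpowers_le.2 (mem_map_of_mem _ hx)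
    obtain ⟨X, hX, hXp⟩ := exists_prime_le (A := zpowers (x : G)) (zpowers_ne_bot.2 fun h => hx1 (Subtype.ext h))
    refine ⟨X, elem1_mk (hX.trans (hxQ.trans hQ.le))
      (pgroup_eq_of_dvd (pgroup_of_le hQ.pgroup (hX.trans hxQ)) hXp dvd_rfl), ne_bot_of_mem ⟨hy, ?_⟩ hy1⟩
    exact cent_anti hX (by rw [cent_zpowers]; exact mem_cent1.2 hxy.symm)
  · rintro ⟨h, P, hP, hC⟩
    refine ⟨Fact.out, elem1_card hP ▸ card_dvd hP.le, tau13_sigma' h, fun Q => ?_⟩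
    have hQ := Syl.of_sylow Q
    refine ⟨(e Q).1 (tau13_cyclic h hQ.pgroup hQ.le), ?_⟩
    obtain ⟨g, hg, hle⟩ := hQ.exists_conj_le (elem_p hP) hP.le
    obtain ⟨x, hx, hx1⟩ := exists_ne_one (mt conj_eq_bot.1 (elem_ne_bot hP) : g ⋆ P ≠ ⊥)
    obtain ⟨y, hy, hy1⟩ := exists_ne_one (cent_Ms_conj hg ▸ mt conj_eq_bot.1 hC : sigmaCore M ⊓ 𝐂(g ⋆ P) ≠ ⊥)
    obtain ⟨x', hx', rfl⟩ := hle hx
    exact ⟨x', hx', fun h => hx1 (by rw [h]; rfl), y, hy.1, hy1, mem_cent.1 hy.2 _ hx⟩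

theorem _root_.Cfsg.Lib.BG.Z.kappa_tau13 {p : ℕ} {M : Subgroup G} (hM : Mx M) (hp : p ∈ kappa M) :
    p ∈ tau1 M ∨ p ∈ tau3 M :=
  haveI := Fact.mk hp.1
  ((mem_kappa_iff hM).1 hp).1

/-- For `p ∈ κ(M)` every subgroup of order `p` of `M` has a fixed point on `M_σ`. -/
theorem _root_.Cfsg.Lib.BG.Z.kappa_nonregular {p : ℕ} [Fact p.Prime] {M P : Subgroup G} (hM : Mx M)
    (hp : p ∈ kappa M) (hP : Elem p 1 P M) : sigmaCore M ⊓ 𝐂(P) ≠ ⊥ := by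
  obtain ⟨h, Q, hQ, hC⟩ := (mem_kappa_iff hM).1 hp
  obtain ⟨g, hg, rfl⟩ := tau13_conj h le_rfl hQ.le hP.le (elem1_card hQ) (elem1_card hP)
  rw [cent_Ms_conj hg]; exact mt conj_eq_bot.1 hC

theorem kappa_conj {M : Subgroup G} (hM : Mx M) (g : G) : kappa (g ⋆ M) = kappa M := by
  have key : ∀ (M : Subgroup G) (g : G), Mx M → kappa M ⊆ kappa (g ⋆ M) := by
    intro M g hM p hp
    haveI := Fact.mk hp.1
    obtain ⟨h, Q, hQ, hC⟩ := (mem_kappa_iff hM).1 hp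
    refine (mem_kappa_iff (A10.coatom_conj hM g)).2 ⟨by rwa [tau1_conj, tau3_conj], g ⋆ Q, elem_conj hQ g, ?_⟩
    rw [Ms_conj, ← conj_cent, ← conj_inf]; exact mt conj_eq_bot.1 hC
  refine Set.Subset.antisymm ?_ (key M g hM)
  have := key (g ⋆ M) g⁻¹ (A10.coatom_conj hM g)
  rwa [inv_conj] at this

theorem typeF_conj {M : Subgroup G} (h : TypeF M) (g : G) : TypeF (g ⋆ M) :=
  ⟨A10.coatom_conj h.1 g, by rw [kappa_conj h.1]; exact h.2⟩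
theorem typeP_conj {M : Subgroup G} (h : TypeP M) (g : G) : TypeP (g ⋆ M) :=
  ⟨A10.coatom_conj h.1 g, by rw [kappa_conj h.1]; exact h.2⟩
theorem typeP1_conj {M : Subgroup G} (h : TypeP1 M) (g : G) : TypeP1 (g ⋆ M) :=
  ⟨typeP_conj h.1 g, by rw [kappa_conj h.1.1, sigma_conj, card_conj]; exact h.2⟩
theorem typeP2_conj {M : Subgroup G} (h : TypeP2 M) (g : G) : TypeP2 (g ⋆ M) :=
  ⟨typeP_conj h.1 g, fun h' => h.2 (by have := typeP1_conj h' g⁻¹; rwa [inv_conj] at this)⟩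
omit [Finite G] [Sz G] in
theorem typeF_or_P {M : Subgroup G} (hM : Mx M) : TypeF M ∨ TypeP M :=
  (kappa M).eq_empty_or_nonempty.imp (⟨hM, ·⟩) (⟨hM, ·⟩)
omit [Finite G] [Sz G] in
theorem not_typeF_of_P {M : Subgroup G} (h : TypeP M) : ¬ TypeF M := fun h' => h.2.ne_empty h'.2
omit [Finite G] [Sz G] in
theorem notP1_iff {M : Subgroup G} (hM : Mx M) : TypeF M ∨ TypeP2 M ↔ ¬ TypeP1 M :=
  ⟨fun h h1 => h.elim (not_typeF_of_P h1.1) (·.2 h1), fun h => (typeF_or_P hM).imp_right (⟨·, h⟩)⟩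
omit [Sz G] in
theorem kappa_hall_sigma' {M K : Subgroup G} (hK : Hall (kappa M) K M) : PiGrp (sigma M)ᶜ K :=
  hK.pi.mono fun _ => kappa_sigma'

theorem der_lt {M : Subgroup G} (hM : Mx M) : ⁅M, M⁆ < M :=
  Core.commutator_lt_of_isSolvable (mmax_sol hM) (A10.mmax_ne_bot hM)

theorem exists_sigma'_prime {M : Subgroup G} (hM : Mx M) :
    ∃ p : ℕ, p.Prime ∧ p ∣ Nat.card M ∧ p ∉ sigma M := by
  by_contra! h
  exact ((Msigma_der1 hM).trans_lt (der_lt hM)).ne ((Msigma_Hall hM).eq_self h)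

theorem _root_.Cfsg.Lib.BG.Z.trivg_kappa {M K : Subgroup G} (hM : Mx M) (hK : Hall (kappa M) K M) :
    K = ⊥ ↔ TypeF M := by
  rw [hK.eq_bot_iff]
  exact ⟨fun h => ⟨hM, Set.eq_empty_of_forall_notMem fun p hp => h p hp.1 hp.2.1 hp⟩,
    fun h p _ _ hp => by rw [h.2] at hp; exact hp⟩

theorem _root_.Cfsg.Lib.BG.Z.nontriv_kappa {M K : Subgroup G} (hM : Mx M) (hK : Hall (kappa M) K M) :
    K ≠ ⊥ ↔ TypeP M := by
  rw [Ne, trivg_kappa hM hK]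
  exact ⟨(typeF_or_P hM).resolve_left, not_typeF_of_P⟩

theorem _root_.Cfsg.Lib.BG.Z.trivg_kappa_compl {M U K : Subgroup G} (hM : Mx M) (h : KappaCompl M U K) :
    U = ⊥ ↔ TypeP1 M := by
  rw [h.hallU.eq_bot_iff, compl_compl]
  constructor
  · intro h'
    obtain ⟨p, hp, hd, hs⟩ := exists_sigma'_prime hM
    exact ⟨⟨hM, p, (h' p hp hd).resolve_left hs⟩, fun q hq hd hs => (h' q hq hd).resolve_left hs⟩
  · exact fun h' q hq hd => (em (q ∈ sigma M)).imp_right (h'.2 q hq hd)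

theorem _root_.Cfsg.Lib.BG.Z.typeP2_iff {M U K : Subgroup G} (hM : Mx M) (h : KappaCompl M U K) :
    TypeP2 M ↔ K ≠ ⊥ ∧ U ≠ ⊥ := by
  rw [nontriv_kappa hM h.hallK, Ne, trivg_kappa_compl hM h]; rfl

omit [Sz G] in
theorem exists_elem2_syl {p : ℕ} [Fact p.Prime] {M S : Subgroup G} (hp : p ∈ tau2 M) (hS : Syl p S M) :
    ∃ A : Subgroup G, Elem p 2 A S := by
  obtain ⟨A, hA⟩ := exists_elem2 hp.2.2.2
  obtain ⟨g, -, hg⟩ := hS.exists_conj_le (elem_p hA) hA.le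
  exact ⟨g ⋆ A, elem_mono (elem_conj hA g) hg⟩

omit [Sz G] in
theorem card_Ohm1_cyclic {p : ℕ} [hp : Fact p.Prime] {S : Subgroup G} (hS : IsPGroup p S) (hc : IsCyclic S)
    (h1 : S ≠ ⊥) : Nat.card (omegaOne p S) = p := by
  have he := PGroup.isElementaryAbelian_omegaOne (p := p) (abelian_of_cyclic hc)
  have h2 := PGroup.elemAb_card_le_of_isCyclic he (cyclic_of_le hc (Ohm1_le p S))
  exact le_antisymm h2 (Nat.le_of_dvd Nat.card_pos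
    (pgroup_dvd_card (PGroup.elemAb_isPGroup he) (PGroup.omegaOne_ne_bot hS h1)))

/-- B&G Lemma 14.1. -/
theorem _root_.Cfsg.Lib.BG.Z.sigma'_kappa'_facts {p : ℕ} [Fact p.Prime] {M S : Subgroup G} (hM : Mx M)
    (hS : Syl p S M) (hpM : p ∣ Nat.card M) (hs : p ∉ sigma M) (hk : p ∉ kappa M) :
    (TypeF M ∨ TypeP2 M) ∧ Nat.card (omegaOne p S) ≤ p ^ 2 ∧ sigmaCore M ⊓ 𝐂(omegaOne p S) = ⊥ ∧
    Group.IsNilpotent (sigmaCore M) := by
  have hp : p.Prime := Fact.out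
  refine ⟨(notP1_iff hM).2 fun h => hk (h.2 p hp hpM hs), ?_⟩
  by_cases h2 : p ∈ tau2 M
  · obtain ⟨A, hA⟩ := exists_elem2_syl h2 hS
    obtain ⟨h1, -, h3, -⟩ := tau2_context hM h2 (elem_mono hA (hA.le.trans hS.le))
    rw [(h1 S hS hA.le).1]
    exact ⟨hA.card.le, h3, tau2_Msigma_nil hM h2⟩
  · have h13 : p ∈ tau1 M ∨ p ∈ tau3 M := by have := (partition_pi_mmax hM).1 hpM; tauto
    have hc := card_Ohm1_cyclic hS.pgroup (tau13_cyclic h13 hS.pgroup hS.le) (hS.ne_bot' hpM)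
    have hle := (Ohm1_le p S).trans hS.le
    have hC : sigmaCore M ⊓ 𝐂(omegaOne p S) = ⊥ := by
      by_contra h; exact hk ((mem_kappa_iff hM).2 ⟨h13, _, elem1_mk hle hc, h⟩)
    exact ⟨hc.le.trans (Nat.le_self_pow two_ne_zero p), hC,
      prime_Frobenius_sol_kernel_nil (Ms_norm hle) (hc.symm ▸ hp) hC⟩

theorem exists_sigma'_kappa'_prime {M : Subgroup G} (h : TypeF M ∨ TypeP2 M) :
    ∃ p : ℕ, p.Prime ∧ p ∣ Nat.card M ∧ p ∉ sigma M ∧ p ∉ kappa M := by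
  rcases h with h | h
  · obtain ⟨p, h1, h2, h3⟩ := exists_sigma'_prime h.1
    exact ⟨p, h1, h2, h3, by rw [h.2]; exact id⟩
  · by_contra! h'
    exact h.2 ⟨h.1, h'⟩

theorem _root_.Cfsg.Lib.BG.Z.notP1type_Msigma_nil {M : Subgroup G} (h : TypeF M ∨ TypeP2 M) :
    Group.IsNilpotent (sigmaCore M) := by
  obtain ⟨p, hp, h2, h3, h4⟩ := exists_sigma'_kappa'_prime h
  haveI := Fact.mk hp
  obtain ⟨S, hS⟩ := Syl.exists (p := p) M
  exact (sigma'_kappa'_facts (h.elim (·.1) (·.1.1)) hS h2 h3 h4).2.2.2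

end Cfsg.Lib.BG.Z.S14
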