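import Cfsg.Agent.Lib.ZB.T14_3
import Cfsg.Agent.Lib.BG.T01_Coprime
import Cfsg.Agent.Lib.ZB.T10_11
import Cfsg.Agent.Lib.ZB.T12_2
import Cfsg.Agent.Lib.ZB.T12_9

set_option autoImplicit false
set_option linter.unusedVariables false

namespace Cfsg.Lib.BG.Z.S14

open Subgroup
open scoped Cfsg.Lib.Transfer

variable {G : Type*} [Group G] [Finite G] [Sz G]

omit [Sz G] in
theorem dvd_relIndex_of_not_le {q : ℕ} [hq : Fact q.Prime] {Q N E : Subgroup G} (hQ : IsPGroup q Q) (hQE : Q ≤ E)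
    (hn : E ≤ 𝐍(N)) (h : ¬ Q ≤ N) : q ∣ N.relIndex E := by
  by_contra hd
  exact h ((PiGrp.p_iff.2 hQ).le_of_relIndex hQE hn (PiNat.p'_iff.2 hd))

theorem tau1_of_not_le_Fitting {q : ℕ} [Fact q.Prime] {M E Q : Subgroup G} (hM : Mx M)
    (hE : Hall (sigma M)ᶜ E M) (hQ : Elem q 1 Q E) (hF : ¬ Q ≤ 𝐅(E)) : q ∈ tau1 M := by
  rcases (partition_pi_sigma_compl hM hE).1 (elem1_card hQ ▸ card_dvd hQ.le) with h | h | h
  · exact h
  · obtain ⟨A, hA⟩ := ex_tau2Elem hM hE h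
    obtain ⟨⟨h1, h2⟩, -⟩ := tau2_compl_context hM hE h hA
    exact absurd ((h2 Q hQ).trans (Fitting_max (abelian_nil hA.elem.1) h1)) hF
  · obtain ⟨E₁, E₂, E₃, hc, -⟩ := ex_tau1_compl hM hE bot_le PiGrp.bot
    obtain ⟨⟨-, h1⟩, -, ⟨-, h2⟩, -⟩ := sigma_compl_context hM hc
    exact absurd ((hc.hall₃.ge_of_normal h1.norm hQ.le (pigrp_of_card (elem1_card hQ) h)).trans
      (Fitting_max (abelian_nil (abelian_of_cyclic h2)) h1)) hF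

/-- B&G Lemma 14.11. -/
theorem _root_.Cfsg.Lib.BG.Z.primes_non_Fitting_Ftype {q : ℕ} [Fact q.Prime] {M E Q : Subgroup G} (hM : TypeF M)
    (hE : Hall (sigma M)ᶜ E M) (hQ : Elem q 1 Q E) (hF : ¬ Q ≤ 𝐅(E))
    (hDq : q ∈ DD G := by dd) :
    ∃ Ms : Subgroup G, Mx Ms ∧ ((q ∈ tau2 Ms ∧ UniqMax 𝐂(Q) Ms) ∨ (q ∈ kappa Ms ∧ TypeP1 Ms)) := by
  have hq : q.Prime := Fact.out
  have hm := hM.1
  have h1 := tau1_of_not_le_Fitting hm hE hQ hF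
  have hab := der_mmax_compl_abelian hm hE
  have hQE' : Q ≤ 𝐍(⁅E, E⁆) := norm_der (le_norm_of_le hQ.le)
  have hq' : PiGrp {q}ᶜ ⁅E, E⁆ := PiGrp.p'_iff.2 fun h => h1.2.2.2.1 (h.trans (card_dvd (der_mono hE.le)))
  have hKE' : ⁅⁅E, E⁆, Q⁆ ≤ ⁅E, E⁆ := comm_le_left hQE'
  have hKE := hKE'.trans (der_le E)
  have hcop := (hq'.coprime_pgroup (elem_p hQ)).symm
  have hKQ := coprime_commGid hQE' hcop
  have hreg : sigmaCore M ⊓ 𝐂(Q) = ⊥ := by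
    by_contra h
    have := (mem_kappa_iff hm).2 ⟨.inl h1, Q, elem_mono hQ (hQ.le.trans hE.le), h⟩
    rw [hM.2] at this; exact this
  obtain ⟨-, hcyc, hn⟩ := commG_sigma'_1Elem_cyclic hm (hKE.trans hE.le) (hE.pi.of_le hKE) (tau1_sigma' h1)
    (elem_mono hQ (le_inf (hQ.le.trans hE.le) (right_norm_comm _ _))) hreg (hq'.of_le hKE') (abelian_of_le hab hKE')
  have hC := (coprime_abelian_cent_dprod (right_norm_comm ⁅E, E⁆ Q) (coprime_mono hcop le_rfl hKE')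
    (abelian_of_le hab hKE')).inf
  rw [hKQ] at hcyc hn hC
  have hK1 : ⁅⁅E, E⁆, Q⁆ ≠ ⊥ := fun h => hF (le_sup_right.trans (Fitting_max
    (abelian_nil (abelian_sup hab hQ.elem.1 (comm_eq_bot_iff.1 h)))
    (Nml.of_der_le le_sup_left (sup_le (der_le E) hQ.le))))
  obtain ⟨R, hR, hr⟩ := exists_prime_le hK1
  haveI := Fact.mk hr
  have hDR : Nat.card R ∈ DD G := hm.D_of_nml (hn.of_le_cyclic hcyc hR) (pgroup_of_card rfl) (ne_bot_of_prime hr)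
  have h2 : Nat.card R ∈ tau2 M := (prime_class_mmax_norm hm (pgroup_of_card rfl)
    (nml_norm_eq hm (hn.of_le_cyclic hcyc hR) (ne_bot_of_prime hr)).le).resolve_left
      (hE.pi.mem hr (card_dvd (hR.trans hKE)))
  obtain ⟨A, hA⟩ := ex_tau2Elem hm hE h2
  obtain ⟨⟨hAn, hA1⟩, -⟩ := tau2_compl_context hm hE h2 hA
  have hAQ : ¬ A ≤ 𝐂(Q) := fun h => ne_bot_of_prime hr (eq_bot_mono hC
    (le_inf hR (le_inf hR ((hA1 R (elem1_mk (hR.trans hKE) rfl)).trans h))))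
  obtain ⟨-, -, hA₁, -⟩ := tau1_act_tau2 hm hE h2 hA h1 hQ hreg (mt comm_eq_bot_iff.1 hAQ)
  obtain ⟨Ms, hMs, hN⟩ := exists_mmax (norm_proper (elem_ne_bot hA) hm (hA.le.trans hE.le))
  obtain ⟨h3, h4, -⟩ := primes_norm_tau2Elem hm hE h2 hA hMs hN
  have hQMs : Q ≤ Ms := hQ.le.trans (hAn.norm.trans hN)
  have hCs : sigmaCore Ms ⊓ 𝐂(Q) ≠ ⊥ := ne_bot_mono (elem_ne_bot hA₁) (inf_le_inf_right _
    (le_Ms hMs ((le_norm A).trans hN) (PiGrp.of_pgroup (elem_p hA) (h3 _ h2).1)))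
  refine ⟨Ms, hMs, (h4 q hq (dvd_relIndex_of_not_le (elem_p hQ) hQ.le (norm_cent hAn.norm)
    fun h => hAQ (cent_symm h))).symm.imp (fun h => ⟨h, ?_⟩) fun h => ?_⟩
  · obtain ⟨x, hx, hx1⟩ := exists_ne_one (elem_ne_bot hQ)
    rw [← cent1_eq_of_prime (elem1_prime hQ) hx hx1] at hCs ⊢
    exact cent1_nreg_sigma_uniq hMs (hQMs hx) hx1 ((pigrp_of_card (elem1_card hQ) h).elt hx) hCs
  · have hk := (mem_kappa_iff hMs).2 ⟨.inl h, Q, elem_mono hQ hQMs, hCs⟩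
    refine ⟨hk, by_contra fun hP => ?_⟩
    obtain ⟨K, hK⟩ := Hall.exists (π := kappa Ms) (mmax_sol hMs)
    have := (h3 _ h2).1
    rw [(Ptype_structure_g ⟨⟨hMs, q, hk⟩, hP⟩ hK).1] at this
    exact (h3 _ h2).2 this.2

end Cfsg.Lib.BG.Z.S14
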