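import Cfsg.Agent.Lib.ZB.T14_7
import Cfsg.Agent.Lib.ZB.T14_11

set_option autoImplicit false
set_option linter.unusedVariables false

namespace Cfsg.Lib.BG.Z.S14

open Subgroup
open scoped Cfsg.Lib.Transfer

variable {G : Type*} [Group G] [Finite G] [Sz G]

theorem Ms_inf_cent {M H A B : Subgroup G} (hM : Mx M) (hH : Mx H) (hnc : ¬ Cj M H) (hA : A ≤ M)
    (hAH : A ≤ sigmaCore H) (hB : B ≤ sigmaCore M ⊓ H) : B ≤ 𝐂(A) :=
  comm_eq_bot_iff.1 (eq_bot_mono ((Ms_pi M).inf_eq_bot' (Ms_pi H) (sigma_partition hM hH hnc)) (le_inf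
    ((commutator_mono (hB.trans inf_le_left) le_rfl).trans ((Ms_nml M).comm_le hA))
    ((commutator_mono le_rfl hAH).trans ((Ms_nml H).comm_le' (hB.trans inf_le_right)))))

/-- B&G Corollary 14.12. -/
theorem _root_.Cfsg.Lib.BG.Z.P2type_signalizer {r : ℕ} [Fact r.Prime] {M Ms U K R H : Subgroup G}
    (h : KappaCompl M U K) (hM : TypeP2 M) (hMs : Mx Ms) (hC : 𝐂(K) ≤ Ms) (hR : Syl r R U) (hH : Mx H)
    (hN : 𝐍(R) ≤ H)
    (hDr : r ∈ DD G := by dd) :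
    TypeF H ∧ U ≤ sigmaCore H ∧ U ⊔ K = M ⊓ H ∧ ¬ H ⊓ 𝐍(U) ≤ M ∧ K ≤ 𝐅(H ⊓ Ms) ∧
    Hall (sigma H)ᶜ (H ⊓ Ms) H := by
  have hm := hM.1.1
  have hK := h.hallK
  obtain ⟨hK1, hU1⟩ := (typeP2_iff hm h).1 hM
  obtain ⟨hE, hsdM, hsd, ⟨-, hreg⟩, hab⟩ := kappa_compl_context hm h
  have hq := (Ptype_structure_g hM hK).2.1
  haveI := Fact.mk hq
  obtain ⟨Ms', hd⟩ := exists_dual hM.1 hK
  have huq := hd.uniq le_rfl hq
  obtain rfl := huq.uniq Ms hMs hC
  have hR1 : R ≠ ⊥ := by rintro rfl; rw [norm_bot] at hN; exact hH.1.ne_top (top_le_iff.1 hN)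
  have hrU := h.hallU.pi.mem Fact.out (hR.dvd_card' hR1)
  have hUR : 𝐍(U) ≤ 𝐍(R) := hR.norm_le (abelian_norm (hab hK1) hR.le)
  have hEU : 𝐍(U ⊔ K) ≤ 𝐍(U) := (h.hallU.of_le le_sup_left hE.le).norm_le hsd.nml.norm
  have hEH : U ⊔ K ≤ H := (le_norm _).trans (hEU.trans (hUR.trans hN))
  have hne : H ≠ M := by
    rintro rfl
    exact hrU (.inl (A10.mem_sigma_iff.2 ⟨(hR.dvd_card' hR1).trans (card_dvd h.hallU.le), R,
      hR.of_Hall h.hallU hrU, hN, hDr⟩))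
  have hnc : ¬ Cj M H := by
    rintro ⟨a, rfl⟩
    have h1 := hE.conj a
    obtain ⟨b, hb, e⟩ := h1.exists_conj_eq (h1.of_card_le hEH hE.pi (card_conj a _).le) (mmax_sol hH)
    rw [conj_conj] at e
    have h2 : a ∈ a ⋆ M := (Subgroup.mul_mem_cancel_left _ hb).1 (hN (hUR (hEU (norm_of_conj_eq e.symm))))
    exact hne (conj_eq_of_mem (by simpa using mem_conj.1 h2))
  have hncs : ¬ Cj Ms H := by
    rintro ⟨a, rfl⟩
    have ha : a ∈ Ms := by_contra fun ha => hK1 (eq_bot_mono ((Ptype_structure_d hd.Ps hd.halls).1 a ha)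
      (le_inf hd.eqs.ge (le_sup_right.trans hEH)))
    rw [conj_eq_of_mem ha] at hEH
    have h1 : U ≤ K ⊔ (sigmaCore M ⊓ 𝐂(K)) := hd.inf_eq ▸ le_inf h.hallU.le (le_sup_left.trans hEH)
    exact hU1 ((((hK.pi.mono Set.subset_union_right).sup (((Ms_pi M).of_le inf_le_left).mono Set.subset_union_left)
      hd.dp.sd.norm).of_le h1).eq_bot h.hallU.pi)
  have hF : TypeF H := (typeF_or_P hH).resolve_right fun hP => (hd.trans hP).elim hnc hncs
  have hqs : Nat.card K ∈ sigma Ms := (Ms_pi Ms).mem hq (card_dvd hd.le_Ms)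
  have hqH : Nat.card K ∉ sigma H := sigma_partition hMs hH hncs _ hqs
  obtain ⟨D, hD, hKD⟩ := ex_sigma_compl hH (le_sup_right.trans hEH) (pigrp_of_card rfl hqH)
  have hKF : K ≤ 𝐅(D) := by
    by_contra hF'
    obtain ⟨L, hL, h1 | h1⟩ := primes_non_Fitting_Ftype hF hD (elem1_mk hKD rfl) hF'
    · exact tau2_sigma' h1.1 (uniqMax_eq huq h1.2 ▸ hqs)
    · rcases hd.trans h1.2.1 with ⟨a, rfl⟩ | hj
      · exact (typeP2_conj hM a).2 h1.2
      · exact kappa_sigma' h1.1 (sigma_cj hj ▸ hqs)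
  have hKO : K ≤ 𝐎({Nat.card K}, D) := le_pcore_of_le_Fitting hKF (pgroup_of_card rfl)
  have hsdH := sdprod_sigma hH hD
  have hUH : U ≤ sigmaCore H := by
    have h1 : SD (sigmaCore H) 𝐎({Nat.card K}, D) (sigmaCore H ⊔ 𝐎({Nat.card K}, D)) :=
      SD.of_norm ((pcore_le _ D).trans hsdH.norm) (eq_bot_mono hsdH.inf (inf_le_inf_left _ (pcore_le _ D)))
    have h2 : H ≤ 𝐍(sigmaCore H ⊔ 𝐎({Nat.card K}, D)) := by
      conv_lhs => rw [← hsdH.sup]
      exact sup_le (le_norm_of_le le_sup_left) (norm_sup hsdH.norm (pcore_nml _ D).norm)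
    have hcop := regular_norm_coprime hsd.norm hreg
    refine (PiGrp.p'_iff_coprime.2 hcop).le_of_relIndex ?_ h1.nml.norm
      (by rw [compl_compl, h1.relIndex_left]; exact pcore_pi _ D)
    rw [← coprime_comm_eq_of_cent_bot hsd.norm hcop.symm (.inl (sub_sol hm hK.le)) (hreg.cent le_rfl hK1)]
    exact (commutator_mono le_rfl (hKO.trans le_sup_right)).trans
      (comm_le_right ((le_sup_left.trans hEH).trans h2))
  have hMH : U ⊔ K = M ⊓ H := by
    have := (hsdM.restrict_left (le_inf hE.le hEH) inf_le_left).sup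
    rwa [eq_bot_mono (cent_Ms_compl hm h.hallU hU1) (le_inf inf_le_left
      (Ms_inf_cent hm hH hnc h.hallU.le hUH (inf_le_inf_left _ inf_le_right))), bot_sup_eq] at this
  have hDMs : D ≤ Ms ∧ sigmaCore H ⊓ 𝐂(K) = ⊥ := by
    by_cases h2 : Nat.card K ∈ tau2 H
    · obtain ⟨A, hA⟩ := ex_tau2Elem hH hD h2
      obtain ⟨⟨h3, h4⟩, -, h5, -⟩ := tau2_compl_context hH hD h2 hA
      refine ⟨h3.norm.trans (norm_noncyclic_sigma hMs hqs (elem_p hA)
        ((abelian_cent' hA.elem.1 le_rfl (h4 K (elem1_mk hKD rfl))).trans hC) (elem2_not_cyclic hA)), ?_⟩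
      by_contra h6
      exact hncs (Cj.of_eq (uniqMax_eq (h5 K (elem1_mk hKD rfl) h6) huq))
    · have h13 : Nat.card K ∈ tau1 H ∨ Nat.card K ∈ tau3 H := by
        have := (partition_pi_sigma_compl hH hD).1 (card_dvd hKD); tauto
      refine ⟨((pcore_nml _ D).of_le_cyclic (tau13_cyclic h13 (pcore_pgroup _ D) ((pcore_le _ D).trans hD.le))
        hKO).norm.trans (A10.uniqMax_ge huq (cent_le_norm K) (norm_proper hK1 hm hK.le)).le, ?_⟩
      by_contra h6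
      have := (mem_kappa_iff hH).2 ⟨h13, K, elem1_mk (hKD.trans hD.le) rfl, h6⟩
      rw [hF.2] at this; exact this
  have hDe : D = H ⊓ Ms := by
    have := (hsdH.restrict_left (le_inf hD.le hDMs.1) inf_le_left).sup
    rwa [eq_bot_mono hDMs.2 (le_inf inf_le_left (Ms_inf_cent hH hMs (fun hj => hncs hj.symm)
      (hKD.trans hD.le) hd.le_Ms (inf_le_inf_left _ inf_le_right))), bot_sup_eq] at this
  refine ⟨hF, hUH, hMH, fun h1 => ?_, hDe ▸ hKF, hDe ▸ hD⟩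
  rcases hUH.eq_or_lt with e | hlt
  · exact hne (mmax_eq hH hm.1 ((le_inf le_rfl (e ▸ (Ms_nml H).norm)).trans h1)).symm
  · refine (nil_norm_grow (notP1type_Msigma_nil (.inl hF)) hlt).not_ge ?_
    have h2 : (U ⊔ K) ⊓ sigmaCore H = U := by
      rw [modular_left hUH hsd.norm, inf_comm, (Ms_pi H).inf_eq_bot (pigrp_of_card rfl hqH), sup_bot_eq]
    conv_rhs => rw [← h2, hMH]
    exact le_inf (le_inf ((inf_le_inf_right _ (Ms_le H)).trans h1) (inf_le_left.trans (Ms_le H))) inf_le_left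

end Cfsg.Lib.BG.Z.S14
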