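import Cfsg.Agent.Lib.ZB.T14_0
import Cfsg.Agent.Lib.BG.T03_1
import Cfsg.Agent.Lib.BG.T03_10
import Cfsg.Agent.Lib.BG.T06_3
import Cfsg.Agent.Lib.ZB.T10_0
import Cfsg.Agent.Lib.ZB.T10_1
import Cfsg.Agent.Lib.ZB.T12_10
import Cfsg.Agent.Lib.ZB.T12_16
import Cfsg.Agent.Lib.ZB.T12_17
import Cfsg.Agent.Lib.ZB.T12_19
import Cfsg.Agent.Lib.ZB.T13_4
import Cfsg.Agent.Lib.ZB.T13_6
import Cfsg.Agent.Lib.ZB.T13_7
import Cfsg.Agent.Lib.ZB.T13_10
import Cfsg.Agent.Lib.ZB.T13_12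

set_option autoImplicit false
set_option linter.unusedVariables false

namespace Cfsg.Lib.BG.Z.S14

open Subgroup
open scoped Cfsg.Lib.Transfer

variable {G : Type*} [Group G] [Finite G] [Sz G]

theorem le_Ms {M X : Subgroup G} (hM : Mx M) (hX : X ≤ M) (h : PiGrp (sigma M) X) : X ≤ sigmaCore M :=
  (Msigma_Hall hM).ge_of_normal (Ms_nml M).norm hX h
theorem mem_Ms {M : Subgroup G} {x : G} (hM : Mx M) (hx : x ∈ M) (h : PiElt (sigma M) x) : x ∈ sigmaCore M :=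
  (Msigma_Hall hM).mem_of_normal (Ms_nml M).norm hx h
theorem sigma_dvd_Ms {M : Subgroup G} {p : ℕ} (hM : Mx M) (h : p ∈ sigma M) : p ∣ Nat.card (sigmaCore M) :=
  (Msigma_Hall hM).dvd_card h.1 (sigma_dvd h) h

theorem kappa_prime_cent {M K X : Subgroup G} (hM : Mx M) (hK : Hall (kappa M) K M) (hX : X ≤ K)
    (hp : (Nat.card X).Prime) : sigmaCore M ⊓ 𝐂(X) ≠ ⊥ :=
  haveI := Fact.mk hp
  kappa_nonregular hM (hK.pi.mem hp (card_dvd hX)) (elem1_mk (hX.trans hK.le) rfl)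

/-- A `τ₁ ∪ τ₃`-subgroup acting in a prime manner with non-trivial fixed points is a `κ`-group. -/
theorem kappa_of_primact {M H X : Subgroup G} (hM : Mx M) (hH : H ≤ M) (h13 : PiGrp (tau1 M ∪ tau3 M) H)
    (hpr : SemiPrime (sigmaCore M) H) (hX : X ≤ H) (hX1 : X ≠ ⊥) (hC : sigmaCore M ⊓ 𝐂(X) ≠ ⊥) :
    PiGrp (kappa M) H := by
  intro q hq hd
  haveI := Fact.mk hq
  obtain ⟨Y, hY, hc⟩ := exists_card_eq_prime hq hd
  refine (mem_kappa_iff hM).2 ⟨h13 q hq hd, Y, elem1_mk (hY.trans hH) hc, ?_⟩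
  rwa [hpr.cent hY (ne_bot_of_card hc), ← hpr.cent hX hX1]

theorem Ptype_core {M K E : Subgroup G} (hP : TypeP M) (hK : Hall (kappa M) K M) (hE : Hall (sigma M)ᶜ E M)
    (hKE : K ≤ E) :
    ∃ U : Subgroup G, KappaCompl M U K ∧ SD U K E ∧ SemiPrime (sigmaCore M) K ∧ SemiReg U K ∧
      IsMulCommutative U ∧ (∀ X : Subgroup G, X ≤ K → (Nat.card X).Prime → K ≤ 𝐍(X)) ∧
      ∃ P : Subgroup G, P ≤ K ∧ P ≠ ⊥ ∧ PiGrp (tau1 M) P := by
  have hM := hP.1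
  have hK1 := (nontriv_kappa hM hK).2 hP
  by_cases h3 : ∃ p ∈ kappa M, p ∈ tau3 M
  · obtain ⟨p, hpk, hp3⟩ := h3
    haveI := Fact.mk hpk.1
    obtain ⟨E₁, E₂, E₃, hc, -⟩ := ex_tau1_compl hM hE bot_le PiGrp.bot
    obtain ⟨X, hX, hXc⟩ := exists_card_eq_prime hpk.1
      (hc.hall₃.dvd_card hpk.1 ((partition_pi_sigma_compl hM hE).2 (.inr (.inr hp3))) hp3)
    have hXE := hX.trans hc.hall₃.le
    have hC := kappa_nonregular hM hpk (elem1_mk (hXE.trans hE.le) hXc)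
    obtain ⟨h1, hsd, hpr, hn⟩ := tau13_nonregular hM hc fun h => hC (h.cent hX (ne_bot_of_card hXc))
    have h13 : PiGrp (tau1 M ∪ tau3 M) E := hsd.sup ▸
      (hc.hall₃.pi.mono Set.subset_union_right).sup (hc.hall₁.pi.mono Set.subset_union_left) hsd.norm
    have hk := kappa_of_primact hM hE.le h13 hpr hXE (ne_bot_of_card hXc) hC
    obtain rfl := hK.eq_of_le hKE hE.le hk
    refine ⟨⊥, ⟨hK, Hall.bot ?_, (Nml.bot _).norm.trans' le_top⟩, ⟨(Nml.bot _).norm, by simp, by simp⟩, hpr, fun _ _ _ => by simp, abelian_bot,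
      fun Y hY hp => (hn Y hY hp).norm, E₁, hc.hall₁.le, h1, hc.hall₁.pi⟩
    rw [compl_compl]
    exact fun q hq hd => (em (q ∈ sigma M)).imp_right fun hs => hk q hq (hE.dvd_card hq hd hs)
  · have hK1' : PiGrp (tau1 M) K := hK.pi.mono fun q hq =>
      (kappa_tau13 hM hq).resolve_right fun h => h3 ⟨q, hq, h⟩
    obtain ⟨E₁, E₂, E₃, hc, hKE₁⟩ := ex_tau1_compl hM hE hKE hK1'
    have hpr := tau1_primact_Msigma hM hE hc.hall₁
    obtain ⟨X₀, hX₀, hp₀⟩ := exists_prime_le hK1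
    have hC₀ := kappa_prime_cent hM hK hX₀ hp₀
    obtain rfl := hK.eq_of_le hKE₁ (hc.hall₁.le.trans hE.le) (kappa_of_primact hM (hc.hall₁.le.trans hE.le)
      (hc.hall₁.pi.mono Set.subset_union_left) hpr (hX₀.trans hKE₁) (ne_bot_of_prime hp₀) hC₀)
    obtain ⟨⟨-, hn3⟩, -, ⟨hcyc, -⟩, ⟨h31, -, h32, hsd⟩, -⟩ := sigma_compl_context hM hc
    have hU : PiGrp (tau3 M ∪ tau2 M) (E₃ ⊔ E₂) :=
      (hc.hall₃.pi.mono Set.subset_union_left).sup (hc.hall₂.pi.mono Set.subset_union_right) h32.norm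
    have hreg3 : SemiReg E₃ K := by
      by_contra h
      have hpr' := tau13_primact_Msigma hM hc h
      have hle : E₃ ⊔ K ≤ E := sup_le hn3.le hKE
      have hk := kappa_of_primact hM (hle.trans hE.le) ((hc.hall₃.pi.mono Set.subset_union_right).sup
        (hK1'.mono Set.subset_union_left) (hKE.trans hn3.norm)) hpr' (hX₀.trans le_sup_right)
        (ne_bot_of_prime hp₀) hC₀
      have : E₃ = ⊥ := (hk.of_le le_sup_left).eq_bot' hc.hall₃.pi fun q hq hq' => h3 ⟨q, hq, hq'⟩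
      exact h fun _ _ _ => by simp [this]
    have hreg : SemiReg (E₃ ⊔ E₂) K := semiReg_of_prime fun X hX hp => by
      by_contra h
      obtain ⟨Y, hY, hq⟩ := exists_prime_le h
      have hYE := (hY.trans inf_le_left).trans hsd.left_le
      haveI := Fact.mk hp
      haveI := Fact.mk hq
      rcases hU.mem hq (card_dvd (hY.trans inf_le_left)) with h' | h'
      · exact ne_bot_of_prime hq (eq_bot_mono (hreg3.cent hX (ne_bot_of_prime hp)) (le_inf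
          (hc.hall₃.ge_of_normal hn3.norm hYE (pigrp_of_card rfl h')) (hY.trans inf_le_right)))
      · obtain ⟨A, hA⟩ := ex_tau2Elem hM hE h'
        exact kappa_prime_cent hM hK hX hp (tau12_regular hM hE (hK1'.mem hp (card_dvd hX))
          (elem1_mk (hX.trans hKE) rfl) h' hA (ne_bot_mono (ne_bot_of_prime hq) (le_inf
            ((tau2_compl_context hM hE h' hA).1.2 Y (elem1_mk hYE rfl)) (hY.trans inf_le_right))))
    have hUM := hsd.left_le.trans hE.le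
    refine ⟨E₃ ⊔ E₂, ⟨hK, Hall.mk' hUM (hU.mono ?_) ?_, hsd.norm⟩, hsd, hpr, hreg,
      sigma'_nil_abelian hM hUM (hE.pi.of_le hsd.left_le) (hreg.nil hsd.norm hK1),
      fun X hX _ => abelian_norm (abelian_of_cyclic hcyc) hX, K, le_rfl, hK1, hK1'⟩
    · rintro q (h | h) (h' | h')
      exacts [tau3_sigma' h h', h3 ⟨q, h', h⟩, tau2_sigma' h h', tau13_tau2' (kappa_tau13 hM h') h]
    · rw [compl_compl, ← relIndex_mul_relIndex _ E M hsd.left_le hE.le, hsd.relIndex_left]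
      exact (PiNat.mono hK.pi Set.subset_union_right).mul
        ((compl_compl (sigma M) ▸ hE.idx : PiNat (sigma M) _).mono Set.subset_union_left)

theorem ex_compl_ge {M K : Subgroup G} (hM : Mx M) (hK : Hall (kappa M) K M) :
    ∃ E : Subgroup G, Hall (sigma M)ᶜ E M ∧ K ≤ E := ex_sigma_compl hM hK.le (kappa_hall_sigma' hK)

theorem dp_Kstar {M K : Subgroup G} (hK : Hall (kappa M) K M) :
    DP K (sigmaCore M ⊓ 𝐂(K)) (K ⊔ (sigmaCore M ⊓ 𝐂(K))) :=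
  ⟨cent_symm inf_le_right, by
    rw [inf_comm]; exact ((Ms_pi M).of_le inf_le_left).inf_eq_bot (kappa_hall_sigma' hK), rfl⟩

/-- The normalizer in `M` of a non-trivial normal subgroup of `K`. -/
theorem norm_sub_kappa {M K X : Subgroup G} (hP : TypeP M) (hK : Hall (kappa M) K M) (hX : X ≤ K) (hX1 : X ≠ ⊥)
    (hn : K ≤ 𝐍(X)) : M ⊓ 𝐍(X) = K ⊔ (sigmaCore M ⊓ 𝐂(K)) := by
  obtain ⟨E, hE, hKE⟩ := ex_compl_ge hP.1 hK
  obtain ⟨U, hU, hsd, hpr, hreg, -⟩ := Ptype_core hP hK hE hKE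
  rw [← pprod_norm_coprime_cent (Ms_nml M) (sdprod_sigma hP.1 hE).sup (hX.trans hKE)
    ((Ms_pi M).coprime (hE.pi.of_le (hX.trans hKE))) (mmax_sol hP.1),
    ← pprod_norm_coprime_cent hsd.nml hsd.sup hX
      (coprime_mono (regular_norm_coprime hsd.norm hreg) le_rfl hX) (sub_sol hP.1 hE.le),
    hpr.cent hX hX1, hreg.cent hX hX1, bot_sup_eq, inf_eq_left.2 hn, sup_comm]

theorem kappa_prime_norm {M K X : Subgroup G} (hP : TypeP M) (hK : Hall (kappa M) K M) (hX : X ≤ K)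
    (hp : (Nat.card X).Prime) : K ≤ 𝐍(X) := by
  obtain ⟨E, hE, hKE⟩ := ex_compl_ge hP.1 hK
  obtain ⟨U, -, -, -, -, -, h, -⟩ := Ptype_core hP hK hE hKE
  exact h X hX hp

theorem norm_kappa {M K : Subgroup G} (hP : TypeP M) (hK : Hall (kappa M) K M) :
    M ⊓ 𝐍(K) = K ⊔ (sigmaCore M ⊓ 𝐂(K)) :=
  norm_sub_kappa hP hK le_rfl ((nontriv_kappa hP.1 hK).2 hP) (le_norm K)

theorem norm_kappa_prime {M K X : Subgroup G} (hP : TypeP M) (hK : Hall (kappa M) K M) (hX : X ≤ K)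
    (hp : (Nat.card X).Prime) : M ⊓ 𝐍(X) = K ⊔ (sigmaCore M ⊓ 𝐂(K)) :=
  norm_sub_kappa hP hK hX (ne_bot_of_prime hp) (kappa_prime_norm hP hK hX hp)

/-- B&G Proposition 14.2(a). -/
theorem _root_.Cfsg.Lib.BG.Z.Ptype_structure_a {M K : Subgroup G} (hM : TypeP M) (hK : Hall (kappa M) K M) :
    SemiPrime (sigmaCore M) K ∧ ∃ U : Subgroup G, KappaCompl M U K ∧ SemiReg U K ∧ IsMulCommutative U := by
  obtain ⟨E, hE, hKE⟩ := ex_compl_ge hM.1 hK
  obtain ⟨U, hU, -, hpr, hreg, hab, -⟩ := Ptype_core hM hK hE hKE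
  exact ⟨hpr, U, hU, hreg, hab⟩

/-- B&G Proposition 14.2(b). -/
theorem _root_.Cfsg.Lib.BG.Z.Ptype_structure_b {M K X : Subgroup G} (hM : TypeP M) (hK : Hall (kappa M) K M)
    (hX : X ≤ K) (hXp : (Nat.card X).Prime) :
    M ⊓ 𝐍(X) = M ⊓ 𝐍(K) ∧ DP K (sigmaCore M ⊓ 𝐂(K)) (M ⊓ 𝐍(X)) ∧
    ∀ Ms : Subgroup G, Mx Ms → 𝐍(X) ≤ Ms → X ≤ sigmaCore Ms := by
  rw [norm_kappa_prime hM hK hX hXp, norm_kappa hM hK]
  refine ⟨rfl, dp_Kstar hK, fun Ms hMs hN => ?_⟩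
  haveI := Fact.mk hXp
  exact le_Ms hMs ((le_norm X).trans hN) (pigrp_of_card rfl (tau13_nonregular_sigma hM.1
    (elem1_mk (hX.trans hK.le) rfl) (kappa_tau13 hM.1 (hK.pi.mem hXp (card_dvd hX)))
    (kappa_prime_cent hM.1 hK hX hXp) hMs hN))

theorem Kstar_uniq {q : ℕ} [Fact q.Prime] {M K X : Subgroup G} (hM : TypeP M) (hK : Hall (kappa M) K M)
    (hX : X ≤ sigmaCore M ⊓ 𝐂(K)) (hc : Nat.card X = q) :
    UniqMax 𝐂(X) M ∧ ∀ S : Subgroup G, Syl q S (sigmaCore M) → UniqMax S M := by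
  obtain ⟨E, hE, hKE⟩ := ex_compl_ge hM.1 hK
  obtain ⟨U, -, -, -, -, -, -, P, hP, hP1, hP'⟩ := Ptype_core hM hK hE hKE
  exact cent_cent_Msigma_tau1_uniq hM.1 hE (hP.trans hKE) hP1 hP'
    (elem1_mk (hX.trans (inf_le_inf_left _ (cent_anti hP))) hc)

/-- B&G Proposition 14.2(c). -/
theorem _root_.Cfsg.Lib.BG.Z.Ptype_structure_c {M K : Subgroup G} (hM : TypeP M) (hK : Hall (kappa M) K M) :
    sigmaCore M ⊓ 𝐂(K) ≠ ⊥ ∧
    ∀ X : Subgroup G, X ≤ sigmaCore M ⊓ 𝐂(K) → (Nat.card X).Prime → UniqMax 𝐂(X) M := by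
  obtain ⟨X, hX, hp⟩ := exists_prime_le ((nontriv_kappa hM.1 hK).2 hM)
  refine ⟨(Ptype_structure_a hM hK).1.cent hX (ne_bot_of_prime hp) ▸ kappa_prime_cent hM.1 hK hX hp,
    fun Y hY hq => ?_⟩
  haveI := Fact.mk hq
  exact (Kstar_uniq hM hK hY rfl).1

/-- B&G Proposition 14.2(d). -/
theorem _root_.Cfsg.Lib.BG.Z.Ptype_structure_d {M K : Subgroup G} (hM : TypeP M) (hK : Hall (kappa M) K M) :
    (∀ g : G, g ∉ M → sigmaCore M ⊓ 𝐂(K) ⊓ g ⋆ M = ⊥) ∧ ∀ g ∈ M, g ∉ 𝐍(K) → K ⊓ g ⋆ K = ⊥ := by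
  constructor
  · intro g hg
    by_contra h
    obtain ⟨X, hX, hq⟩ := exists_prime_le h
    haveI := Fact.mk hq
    have hXs : X ≤ sigmaCore M := hX.trans (inf_le_left.trans inf_le_left)
    exact hg (sigma_group_trans_e hM.1 ((Ms_pi M).mem hq (card_dvd hXs)) (pgroup_of_card rfl) (hXs.trans (Ms_le M))
      ((Ptype_structure_c hM hK).2 X (hX.trans inf_le_left) hq).le (hX.trans inf_le_right))
  · intro g hg hgK
    by_contra h
    obtain ⟨X, hX, hq⟩ := exists_prime_le h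
    have h1 := norm_kappa_prime hM hK (hX.trans inf_le_left) hq
    have h2 := norm_kappa_prime hM hK (le_conj_iff.1 (hX.trans inf_le_right)) (by rwa [card_conj])
    rw [← conj_norm, ← conj_eq_of_mem (inv_mem hg), ← conj_inf, h1] at h2
    conv_rhs at h2 => rw [conj_eq_of_mem (inv_mem hg)]
    have hd := dp_Kstar hK
    exact hgK (inv_mem_iff.1 ((Hall.of_sd hd.sd (kappa_hall_sigma' hK) (by
      rw [compl_compl]; exact (Ms_pi M).of_le inf_le_left)).1.norm_le hd.nml_left.norm (norm_of_conj_eq h2)))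

/-- B&G Proposition 14.2(e). -/
theorem _root_.Cfsg.Lib.BG.Z.Ptype_structure_e {p : ℕ} [Fact p.Prime] {M K S : Subgroup G} (hM : TypeP M)
    (hK : Hall (kappa M) K M) (hp : p ∣ Nat.card ↥(sigmaCore M ⊓ 𝐂(K))) (hS : Syl p S (sigmaCore M)) :
    UniqMax S M ∧ ¬ S ≤ sigmaCore M ⊓ 𝐂(K) := by
  obtain ⟨X, hX, hc⟩ := exists_card_eq_prime Fact.out hp
  have hu := (Kstar_uniq hM hK hX hc).2 S hS
  refine ⟨hu, fun h => ?_⟩
  obtain ⟨Y, hY, hq⟩ := exists_prime_le ((nontriv_kappa hM.1 hK).2 hM)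
  obtain ⟨Ms, hMs, hN⟩ := exists_mmax (norm_proper (ne_bot_of_prime hq) hM.1 (hY.trans hK.le))
  obtain rfl := hu.uniq Ms hMs ((h.trans inf_le_right).trans ((cent_anti hY).trans ((cent_le_norm Y).trans hN)))
  exact ne_bot_of_prime hq (((Ms_pi _).of_le ((Ptype_structure_b hM hK hY hq).2.2 _ hMs hN)).eq_bot
    ((kappa_hall_sigma' hK).of_le hY))

/-- B&G Proposition 14.2(f). -/
theorem _root_.Cfsg.Lib.BG.Z.Ptype_structure_f {M K Y : Subgroup G} (hM : TypeP M) (hK : Hall (kappa M) K M)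
    (hY : PiGrp (sigma M) Y) (hne : Y ⊓ (sigmaCore M ⊓ 𝐂(K)) ≠ ⊥) : Y ≤ sigmaCore M := by
  obtain ⟨g, hg⟩ := sigma_Jsub hM.1 hY
  rw [conj_le_iff] at hg
  have : g⁻¹ ∈ M := by
    by_contra h
    exact hne (eq_bot_mono ((Ptype_structure_d hM hK).1 _ h)
      (le_inf inf_le_right (inf_le_left.trans (hg.trans (conj_mono _ (Ms_le M))))))
  rwa [(Ms_nml M).conj_eq this] at hg

/-- `C_{M_σ}(U) = 1` for a non-trivial Hall `(σ ∪ κ)'`-subgroup `U`. -/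
theorem cent_Ms_compl {M U : Subgroup G} (hM : Mx M) (hU : Hall (sigma M ∪ kappa M)ᶜ U M) (hU1 : U ≠ ⊥) :
    sigmaCore M ⊓ 𝐂(U) = ⊥ := by
  obtain ⟨p, hp, hd⟩ := Core.exists_prime_dvd_card hU1
  haveI := Fact.mk hp
  obtain ⟨S, hS⟩ := Syl.exists (p := p) U
  have hπ := hU.pi.mem hp hd
  exact eq_bot_mono (sigma'_kappa'_facts hM (hS.of_Hall hU hπ) (hd.trans (card_dvd hU.le)) (fun h => hπ (.inl h))
    fun h => hπ (.inr h)).2.2.1 (inf_le_inf_left _ (cent_anti ((Ohm1_le p S).trans hS.le)))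

/-- B&G Proposition 14.2(g). -/
theorem _root_.Cfsg.Lib.BG.Z.Ptype_structure_g {M K : Subgroup G} (hM : TypeP2 M) (hK : Hall (kappa M) K M) :
    sigma M = beta M ∧ (Nat.card K).Prime ∧ Group.IsNilpotent (sigmaCore M) ∧
    NormedTI ((sigmaCore M : Set G) \ {1}) M := by
  have hm := hM.1.1
  obtain ⟨E, hE, hKE⟩ := ex_compl_ge hm hK
  obtain ⟨U, hU, hsd, hpr, hreg, -⟩ := Ptype_core hM.1 hK hE hKE
  obtain ⟨hK1, hU1⟩ := (typeP2_iff hm hU).1 hM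
  have hnil := notP1type_Msigma_nil (.inr hM)
  have hC := cent_Ms_compl hm hU.hallU hU1
  have hsb : sigma M = beta M := by
    refine Set.Subset.antisymm (fun q hq => ?_) (beta_sub_sigma hm)
    obtain ⟨H, hH, hc⟩ := der_compl_cent_beta' hm hE
    have hUE : U ≤ ⁅E, E⁆ := coprime_comm_eq_of_cent_bot hsd.norm (regular_norm_coprime hsd.norm hreg).symm
      (.inl (sub_sol hm hK.le)) (hreg.cent le_rfl hK1) ▸ comm_le_der hsd.left_le hKE
    have := hH.eq_bot_iff.1 (eq_bot_mono hC (le_inf hH.le (cent_symm (hUE.trans hc))))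
    rw [compl_compl] at this
    exact this.mem hq.1 (sigma_dvd_Ms hm hq)
  refine ⟨hsb, (Frobenius_primact ⟨hsd, hU1, hK1, hreg⟩ (sub_sol hm hE.le) (A10.mFT_odd E) (Msigma_ne_bot hm) hnil
    (Ms_norm hE.le) ((Ms_pi M).coprime hE.pi).symm hC hpr).1, hnil, ?_, fun a ha g => ⟨fun h => ?_, fun h => ?_⟩⟩
  · obtain ⟨x, hx, h1⟩ := exists_ne_one (Msigma_ne_bot hm); exact ⟨x, hx, h1⟩
  · by_contra hg
    have h1 := ((sigma_compl_embedding hm hE).2.2 g hg).2.1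
    rw [← hsb] at h1
    exact ne_bot_of_mem (A := sigmaCore M ⊓ g ⋆ M) ⟨h.1, conj_mem_conj.2 (Ms_le M ha.1)⟩ h.2
      (((Ms_pi M).of_le inf_le_left).eq_bot h1)
  · exact ⟨conj_mem_of_norm ((Ms_nml M).norm h) ha.1, conj_ne_one ha.2 g⟩

theorem _root_.Cfsg.Lib.BG.Z.ex_kappa_compl {M K : Subgroup G} (hM : Mx M) (hK : Hall (kappa M) K M) :
    ∃ U : Subgroup G, KappaCompl M U K := by
  by_cases h : K = ⊥
  · obtain ⟨U, hU⟩ := Hall.exists (π := (sigma M ∪ kappa M)ᶜ) (mmax_sol hM)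
    exact ⟨U, hK, hU, h ▸ bot_le⟩
  · obtain ⟨-, U, hU, -⟩ := Ptype_structure_a ((nontriv_kappa hM hK).1 h) hK
    exact ⟨U, hU⟩

/-- Skolemized form of B&G Proposition 14.2(a). -/
theorem _root_.Cfsg.Lib.BG.Z.kappa_compl_context {M U K : Subgroup G} (hM : Mx M) (h : KappaCompl M U K) :
    Hall (sigma M)ᶜ (U ⊔ K) M ∧ SD (sigmaCore M) (U ⊔ K) M ∧ SD U K (U ⊔ K) ∧
    (SemiPrime (sigmaCore M) K ∧ SemiReg U K) ∧ (K ≠ ⊥ → IsMulCommutative U) := by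
  have hE : Hall (sigma M)ᶜ (U ⊔ K) M := by
    refine Hall.mk' (sup_le h.hallU.le h.hallK.le)
      ((h.hallU.pi.mono fun q hq hs => hq (.inl hs)).sup (kappa_hall_sigma' h.hallK) h.norm) fun q hq hd hs => ?_
    exact h.hallU.not_dvd hq (fun h' => h'.elim hs fun hk =>
      h.hallK.not_dvd hq hk (hd.trans (relIndex_dvd_left le_sup_right M))) (hd.trans (relIndex_dvd_left le_sup_left M))
  have hsd : SD U K (U ⊔ K) := SD.of_coprime h.norm (h.hallU.pi.coprime' h.hallK.pi fun q hq hk => hq (.inr hk))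
  refine ⟨hE, sdprod_sigma hM hE, hsd, ?_⟩
  by_cases hK : K = ⊥
  · subst hK
    exact ⟨⟨fun x hx h1 => absurd (mem_bot.1 hx) h1, fun x hx h1 => absurd (mem_bot.1 hx) h1⟩, fun h => absurd rfl h⟩
  · obtain ⟨V, hV, hsd', hpr, hreg, hab, -⟩ := Ptype_core ((nontriv_kappa hM h.hallK).1 hK) h.hallK hE le_sup_right
    obtain rfl := h.hallU.eq_of_le' hV.hallU ((hV.hallU.of_le hsd'.left_le hE.le).ge_of_normal hsd'.nml.norm
      le_sup_left h.hallU.pi)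
    exact ⟨⟨hpr, hreg⟩, fun _ => hab⟩

end Cfsg.Lib.BG.Z.S14
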