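import Cfsg.Agent.Lib.ZB.T14_3
import Cfsg.Agent.Lib.ZB.T12_15
import Cfsg.Agent.Lib.ZB.T13_9

set_option autoImplicit false
set_option linter.unusedVariables false

namespace Cfsg.Lib.BG.Z.S14

open Subgroup
open scoped Cfsg.Lib.Transfer

variable {G : Type*} [Group G] [Finite G] [Sz G]

theorem cj_of_sigma {M L : Subgroup G} {p : ℕ} (hM : Mx M) (hL : Mx L) (h : p ∈ sigma M)
    (h' : p ∈ sigma L) : Cj M L := by
  by_contra hnc; exact sigma_partition hM hL hnc p h h'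

omit [Finite G] [Sz G] in
theorem exists_prime_order {x : G} (hx : x ≠ 1) : ∃ p : ℕ, p.Prime ∧ p ∣ orderOf x :=
  Nat.exists_prime_and_dvd (mt orderOf_eq_one_iff.1 hx)

theorem sigMax_cj {x : G} {M L : Subgroup G} (hx : x ≠ 1) (hM : SigMax x M) (hL : SigMax x L) : Cj M L := by
  obtain ⟨p, hp, hd⟩ := exists_prime_order hx
  exact cj_of_sigma hM.1 hL.1 (sigMax_elt hM p hp hd) (sigMax_elt hL p hp hd)

omit [Sz G] in
theorem sigma_cj {M L : Subgroup G} (h : Cj M L) : sigma L = sigma M := by obtain ⟨g, rfl⟩ := h; exact sigma_conj g M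

theorem sigMax_of_cj {x : G} {M L : Subgroup G} (hM : SigMax x M) (h : Cj M L) (hx : x ∈ L) : SigMax x L := by
  have hL : Mx L := by obtain ⟨g, rfl⟩ := h; exact A10.coatom_conj hM.1 g
  exact ⟨hL, mem_Ms hL hx (sigma_cj h ▸ sigMax_elt hM)⟩

/-- Two conjugate maximal subgroups containing a non-cyclic `p`-subgroup, `p ∈ σ`, coincide. -/
theorem eq_of_cj_of_noncyclic {p : ℕ} [Fact p.Prime] {M L A : Subgroup G} (hM : Mx M) (h : Cj M L)
    (hp : p ∈ sigma M) (hA : IsPGroup p A) (hnc : ¬ IsCyclic A) (h1 : A ≤ M) (h2 : A ≤ L) : L = M := by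
  obtain ⟨g, rfl⟩ := h
  exact conj_eq_of_mem (sigma_group_trans_e hM hp hA h1
    ((cent_le_norm A).trans (norm_noncyclic_sigma hM hp hA h1 hnc)) h2)

theorem sig_core {x : G} (hx : x ≠ 1) (hmany : SigMany x) :
    ∃ (N : Subgroup G) (q : ℕ), Mx N ∧ 𝐂[x] ≤ N ∧ q ∣ orderOf x ∧ q ∈ tau2 N ∧
      ∀ M : Subgroup G, SigMax x M → ¬ Cj M N ∧ Hall (sigma N)ᶜ (M ⊓ N) N ∧
        ∀ r ∈ sigma N, r ∣ Nat.card M → r ∈ beta N := by
  obtain ⟨X, hX, hq⟩ := exists_prime_le (zpowers_ne_bot.2 hx)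
  haveI := Fact.mk hq
  have hd : Nat.card X ∣ orderOf x := Nat.card_zpowers x ▸ card_dvd hX
  have hXM : ∀ M : Subgroup G, SigMax x M → X ≤ M := fun M h => hX.trans (zpowers_le.2 (Ms_le M h.2))
  obtain ⟨M₁, M₂, hne, h₁, h₂⟩ := hmany
  have hXD : PiGrp (DD G) X := (Msigma_D M₁).of_le (hX.trans (zpowers_le.2 h₁.2))
  obtain ⟨N, hN, hXN⟩ := exists_mmax (norm_proper (ne_bot_of_prime hq) h₁.1 (hXM _ h₁))
  have key : ∀ M : Subgroup G, SigMax x M → ¬ Cj M N ∧ Nat.card X ∈ tau2 N ∧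
      (∀ r ∈ sigma N, r ∣ Nat.card M → r ∈ beta N) ∧ Hall (sigma N)ᶜ (M ⊓ N) N := by
    intro M hM
    have hs := sigMax_elt hM _ hq hd
    have hNM : N ≠ M := by
      rintro rfl
      have : ∀ L : Subgroup G, SigMax x L → L = N := fun L hL => by
        obtain ⟨c, hc, e⟩ := sigma_group_trans_b hN hs (pgroup_of_card rfl) N ⟨Cj.refl N, hXM N hM⟩ L
          ⟨sigMax_cj hx hM hL, hXM L hL⟩
        rw [e, conj_eq_of_mem (hXN (cent_le_norm X hc))]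
      exact hne ((this _ h₁).trans (this _ h₂).symm)
    obtain ⟨hnc, -, -, h4⟩ := sigma_subgroup_embedding hM.1 hs (hXM M hM) (pgroup_of_card rfl) hN hXN hNM
    exact ⟨hnc, h4 (sigma_partition hM.1 hN hnc _ hs)⟩
  exact ⟨N, _, hN, by rw [← cent_zpowers]; exact (cent_anti hX).trans ((cent_le_norm X).trans hXN), hd,
    (key _ h₁).2.1, fun M hM => ⟨(key M hM).1, (key M hM).2.2.2, (key M hM).2.2.1⟩⟩

/-- Conjugating one `σ`-complement containing `x` to another one by an element of `C_{N_σ}(x)`. -/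
theorem compl_conj_cent {N E F : Subgroup G} {x : G} (hN : Mx N) (hE : Hall (sigma N)ᶜ E N)
    (hF : Hall (sigma N)ᶜ F N) (hxE : x ∈ E) (hxF : x ∈ F) : ∃ u ∈ sigmaCore N ⊓ 𝐂[x], F = u ⋆ E := by
  obtain ⟨g, hg, rfl⟩ := hE.exists_conj_eq hF (mmax_sol hN)
  obtain ⟨u, hu, e, he, rfl⟩ := (sdprod_sigma hN hE).mem hg
  rw [← conj_conj, conj_eq_of_mem he] at hF hxF ⊢
  refine ⟨u, ⟨hu, mem_cent1_of_conj_eq ?_⟩, rfl⟩
  have h1 : u * x * u⁻¹ * x⁻¹ ∈ sigmaCore N ⊓ u ⋆ E := by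
    refine mem_inf.2 ⟨?_, mul_mem (conj_mem_conj.2 hxE) (inv_mem hxF)⟩
    rw [mul_assoc, mul_assoc, ← mul_assoc x]
    exact mul_mem hu (conj_mem_of_norm (Ms_norm hE.le hxE) (inv_mem hu))
  rw [(sdprod_sigma hN hF).inf, mem_bot] at h1
  exact mul_inv_eq_one.1 h1

omit [Sz G] in
theorem sigMax_conj_cent {x u : G} {M : Subgroup G} (hM : SigMax x M) (hu : u ∈ 𝐂[x]) : SigMax x (u ⋆ M) := by
  have := sigMax_conj hM u; rwa [conj_eq_of_mem_cent1 hu] at this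

theorem sig_core2 {x : G} (hx : x ≠ 1) (hmany : SigMany x) :
    ∃ N : Subgroup G, UniqMax 𝐂[x] N ∧ sigmaCore N ⊓ 𝐂[x] ≠ ⊥ ∧ PiElt (tau2 N) x ∧ (TypeF N ∨ TypeP2 N) ∧
      (∀ M : Subgroup G, SigMax x M → ¬ Cj M N ∧ Hall (sigma N)ᶜ (M ⊓ N) N ∧ tau2 N ⊆ sigma M ∧
        ∀ r ∈ sigma N, r ∣ Nat.card M → r ∈ beta N) ∧
      ∀ M L : Subgroup G, SigMax x M → SigMax x L → ∃ r ∈ sigmaCore N ⊓ 𝐂[x], L = r ⋆ M := by
  obtain ⟨N, q, hN, hC, hd, hq, key⟩ := sig_core hx hmany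
  haveI := Fact.mk hq.1
  have hxN : x ∈ N := hC (self_mem_cent1 x)
  have htr : ∀ M L : Subgroup G, SigMax x M → SigMax x L → ∃ r ∈ sigmaCore N ⊓ 𝐂[x], L = r ⋆ M := by
    intro M L hM hL
    obtain ⟨u, hu, e⟩ := compl_conj_cent hN (key M hM).2.1 (key L hL).2.1 ⟨Ms_le M hM.2, hxN⟩ ⟨Ms_le L hL.2, hxN⟩
    obtain ⟨A, hA⟩ := ex_tau2Elem hN (key L hL).2.1 hq
    have hM' := sigMax_conj_cent hM hu.2
    exact ⟨u, hu, eq_of_cj_of_noncyclic hM'.1 (sigMax_cj hx hM' hL) (sigMax_elt hM' q hq.1 hd) (elem_p hA)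
      (elem2_not_cyclic hA) ((e ▸ hA.le).trans (conj_mono u inf_le_left)) (hA.le.trans inf_le_left)⟩
  obtain ⟨M₁, M₂, hne, h₁, h₂⟩ := hmany
  have hR : sigmaCore N ⊓ 𝐂[x] ≠ ⊥ := fun h => by
    obtain ⟨r, hr, e⟩ := htr M₁ M₂ h₁ h₂
    rw [h, mem_bot] at hr
    exact hne (by rw [e, hr, conj_one])
  have hk : q ∉ kappa N := fun h => tau13_tau2' (kappa_tau13 hN h) hq
  obtain ⟨y, hy, hy1⟩ := exists_ne_one hR
  obtain ⟨h3, -, h4⟩ := (pi_of_cent_sigma hN hy.1 hy1 ⟨hxN, mem_cent1_symm hy.2⟩ hx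
    ((sigMax_elt h₁).mono (sigma_partition h₁.1 hN (key _ h₁).1))).resolve_left fun h => hk (h.1 q hq.1 hd)
  refine ⟨N, h4, hR, h3, (notP1_iff hN).2 fun h => hk (h.2 q hq.1 (tau2_dvd hq) (tau2_sigma' hq)),
    fun M hM => ⟨(key M hM).1, (key M hM).2.1, fun r hr => ?_, (key M hM).2.2⟩, htr⟩
  obtain ⟨A, hA⟩ := ex_tau2Elem hN (key M hM).2.1 hq
  exact ((primes_norm_tau2Elem hN (key M hM).2.1 hq hA hM.1 (norm_noncyclic_sigma hM.1 (sigMax_elt hM q hq.1 hd)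
    (elem_p hA) (hA.le.trans inf_le_left) (elem2_not_cyclic hA))).1 r hr).1

omit [Finite G] [Sz G] in
theorem sigBase_eq {x : G} {N : Subgroup G} (hmany : SigMany x) (h : UniqMax 𝐂[x] N) : sigBase x = N := by
  have h' : SigMany x ∧ ∃ N : Subgroup G, Mx N ∧ 𝐂[x] ≤ N := ⟨hmany, N, h.max, h.le⟩
  rw [sigBase, dif_pos h']
  exact h.uniq _ (Classical.choose_spec h'.2).1 (Classical.choose_spec h'.2).2

/-- All the information on `N = sigBase x`. -/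
theorem sigBase_spec {x : G} (hx : x ≠ 1) (hmany : SigMany x) :
    UniqMax 𝐂[x] (sigBase x) ∧ sigR x ≠ ⊥ ∧ PiElt (tau2 (sigBase x)) x ∧ (TypeF (sigBase x) ∨ TypeP2 (sigBase x)) ∧
      (∀ M : Subgroup G, SigMax x M → ¬ Cj M (sigBase x) ∧ Hall (sigma (sigBase x))ᶜ (M ⊓ sigBase x) (sigBase x) ∧
        tau2 (sigBase x) ⊆ sigma M ∧ ∀ r ∈ sigma (sigBase x), r ∣ Nat.card M → r ∈ beta (sigBase x)) ∧
      ∀ M L : Subgroup G, SigMax x M → SigMax x L → ∃ r ∈ sigR x, L = r ⋆ M := by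
  obtain ⟨N, h⟩ := sig_core2 hx hmany
  rw [sigR, sigBase_eq hmany h.1]; exact h

omit [Finite G] [Sz G] in
theorem sigR_le_cent (x : G) : sigR x ≤ 𝐂[x] := inf_le_right
omit [Finite G] [Sz G] in
theorem sigR_le_Ms (x : G) : sigR x ≤ sigmaCore (sigBase x) := inf_le_left
omit [Sz G] in
theorem sigR_pi (x : G) : PiGrp (sigma (sigBase x)) (sigR x) := (Ms_pi _).of_le (sigR_le_Ms x)

omit [Finite G] [Sz G] in
theorem sigR_bot {x : G} (h : ¬ SigMany x) : sigR x = ⊥ := by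
  rw [sigR, sigBase, dif_neg fun h' => h h'.1]
  exact eq_bot_mono rfl (inf_le_left.trans (Ms_le _))

set_option linter.unusedSectionVars false in
theorem _root_.Cfsg.Lib.BG.Z.sigR_eq_bot {x : G} (h : ¬ SigMany x) : sigR x = ⊥ := sigR_bot h

theorem sigR_hall {x : G} (hx : x ≠ 1) (hmany : SigMany x) : Hall (sigma (sigBase x)) (sigR x) 𝐂[x] :=
  have h := (sigBase_spec hx hmany).1
  (Msigma_Hall h.max).inf_of_normal (Ms_nml _).norm h.le

/-- B&G Theorem 14.4, first part: `R(x)` is a normal Hall subgroup of `C(x)`, sharply transitive on `𝓜_σ(x)`. -/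
theorem _root_.Cfsg.Lib.BG.Z.FT_signalizer_trans {x : G} (hx : Ell1 x) :
    (∀ M L : Subgroup G, SigMax x M → SigMax x L → ∃! r : G, r ∈ sigR x ∧ L = r ⋆ M) ∧
    Nml (sigR x) 𝐂[x] ∧ (Nat.card (sigR x)).Coprime ((sigR x).relIndex 𝐂[x]) := by
  by_cases hmany : SigMany x
  · obtain ⟨h1, -, -, -, h5, h6⟩ := sigBase_spec hx.1 hmany
    refine ⟨fun M L hM hL => ?_, (Ms_nml _).inf_right h1.le, (sigR_hall hx.1 hmany).coprime⟩
    obtain ⟨r, hr, rfl⟩ := h6 M L hM hL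
    refine ⟨r, ⟨hr, rfl⟩, fun s hs => ?_⟩
    have h7 : r⁻¹ * s ∈ sigmaCore (sigBase x) ⊓ (M ⊓ sigBase x) :=
      ⟨sigR_le_Ms x (mul_mem (inv_mem hr) hs.1), mem_of_conj_eq hM.1 (by rw [← conj_conj, ← hs.2, inv_conj]),
        h1.le (sigR_le_cent x (mul_mem (inv_mem hr) hs.1))⟩
    rw [(sdprod_sigma h1.max (h5 M hM).2.1).inf, mem_bot] at h7
    exact (inv_mul_eq_one.1 h7).symm
  · rw [sigR_bot hmany]
    refine ⟨fun M L hM hL => ⟨1, ⟨one_mem _, ?_⟩, fun s hs => mem_bot.1 hs.1⟩, Nml.bot _, by simp⟩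
    rw [conj_one]; by_contra h; exact hmany ⟨L, M, h, hL, hM⟩

/-- B&G Theorem 14.4(a), (c), (f). -/
theorem _root_.Cfsg.Lib.BG.Z.FT_signalizer_context {x : G} (hx : Ell1 x) (hmany : SigMany x) :
    UniqMax 𝐂[x] (sigBase x) ∧ sigR x ≠ ⊥ ∧ PiElt (tau2 (sigBase x)) x ∧
    (TypeF (sigBase x) ∨ TypeP2 (sigBase x)) :=
  have h := sigBase_spec hx.1 hmany
  ⟨h.1, h.2.1, h.2.2.1, h.2.2.2.1⟩

omit [Sz G] in
/-- The centralizer of an element of the complement of a coprime semidirect product. -/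
theorem sd_cent1 {K H M : Subgroup G} {x : G} (h : SD K H M) (hx : x ∈ H) :
    SD (K ⊓ 𝐂[x]) (H ⊓ 𝐂[x]) (M ⊓ 𝐂[x]) := by
  refine ⟨norm_inf (inf_le_left.trans h.norm) (norm_cent1 inf_le_right),
    eq_bot_mono h.inf (inf_le_inf inf_le_left inf_le_left),
    le_antisymm (sup_le (inf_le_inf_right _ h.left_le) (inf_le_inf_right _ h.right_le)) fun c hc => ?_⟩
  obtain ⟨k, hk, y, hy, rfl⟩ := h.mem hc.1
  have e := conj_eq_of_mem_cent1 hc.2
  have h1 : y * x * y⁻¹ * x⁻¹ ∈ K ⊓ H := by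
    refine mem_inf.2 ⟨?_, mul_mem (mul_mem (mul_mem hy hx) (inv_mem hy)) (inv_mem hx)⟩
    have : y * x * y⁻¹ * x⁻¹ = k⁻¹ * (x * k * x⁻¹) := by
      conv_rhs => rw [← e]
      have : k * y * x * (k * y)⁻¹ * k * (k * y * x * (k * y)⁻¹)⁻¹ = k * y * x * (k * y)⁻¹ * k * x⁻¹ := by rw [e]
      rw [this]; group
    rw [this]; exact mul_mem (inv_mem hk) (conj_mem_of_norm (h.norm hx) hk)
  rw [h.inf, mem_bot] at h1
  have hyc : y ∈ 𝐂[x] := mem_cent1_of_conj_eq (mul_inv_eq_one.1 h1)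
  refine mul_mem (mem_sup_left (mem_inf.2 ⟨hk, ?_⟩)) (mem_sup_right ⟨hy, hyc⟩)
  have := mul_mem (mem_inf.1 hc).2 (inv_mem hyc)
  rwa [mul_inv_cancel_right] at this

/-- B&G Theorem 14.4(b), (c), (d), (e). -/
theorem _root_.Cfsg.Lib.BG.Z.FT_signalizer_context_mmax {x : G} {M : Subgroup G} (hx : x ≠ 1) (hmany : SigMany x)
    (hM : SigMax x M) :
    SD (sigR x) (M ⊓ sigBase x ⊓ 𝐂[x]) 𝐂[x] ∧ SD (sigmaCore (sigBase x)) (M ⊓ sigBase x) (sigBase x) ∧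
    tau2 (sigBase x) ⊆ sigma M ∧ ∀ p ∈ sigma (sigBase x), p ∣ Nat.card M → p ∈ beta (sigBase x) := by
  obtain ⟨h1, -, -, -, h5, -⟩ := sigBase_spec hx hmany
  have hsd := sdprod_sigma h1.max (h5 M hM).2.1
  refine ⟨?_, hsd, (h5 M hM).2.2⟩
  have := sd_cent1 hsd ⟨Ms_le M hM.2, h1.le (self_mem_cent1 x)⟩
  rwa [inf_eq_right.2 h1.le] at this

/-- A supplement to B&G Theorem 14.4. -/
theorem _root_.Cfsg.Lib.BG.Z.sigMany_iff {x : G} {M : Subgroup G} (hx : x ≠ 1) (hM : SigMax x M) :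
    SigMany x ↔ ¬ 𝐂[x] ≤ M := by
  refine ⟨fun h hC => ?_, fun h => by_contra fun h' => h fun c hc => mem_of_conj_eq hM.1 ?_⟩
  · obtain ⟨h1, -, -, -, h5, -⟩ := sigBase_spec hx h
    exact (h5 M hM).1 (Cj.of_eq (h1.uniq M hM.1 hC))
  · by_contra e; exact h' ⟨_, _, e, sigMax_conj_cent hM hc, hM⟩

omit [Sz G] in
theorem sigMany_conj {x : G} (h : SigMany x) (g : G) : SigMany (g * x * g⁻¹) := by
  obtain ⟨M, L, hne, hM, hL⟩ := h
  exact ⟨_, _, mt conj_inj.1 hne, sigMax_conj hM g, sigMax_conj hL g⟩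

omit [Sz G] in
theorem ell1_conj {x : G} (h : Ell1 x) (g : G) : Ell1 (g * x * g⁻¹) :=
  ⟨conj_ne_one h.1 g, h.2.elim fun _ hM => ⟨_, sigMax_conj hM g⟩⟩

theorem _root_.Cfsg.Lib.BG.Z.sigBase_conj {x : G} (hx : Ell1 x) (hmany : SigMany x) (g : G) :
    sigBase (g * x * g⁻¹) = g ⋆ sigBase x :=
  sigBase_eq (sigMany_conj hmany g) (conj_cent1 g x ▸ A10.uniqMax_conj (sigBase_spec hx.1 hmany).1 g)

/-- Conjugation equivariance of the signalizer functor. -/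
theorem _root_.Cfsg.Lib.BG.Z.sigR_conj {x : G} (hx : Ell1 x) (g : G) : sigR (g * x * g⁻¹) = g ⋆ sigR x := by
  by_cases h : SigMany x
  · rw [sigR, sigR, sigBase_conj hx h, Ms_conj, conj_inf, conj_cent1]
  · rw [sigR_bot h, conj_bot, sigR_bot]
    intro h'; exact h (by simpa [mul_assoc] using sigMany_conj h' g⁻¹)

theorem fittingHall_le_Ms {M : Subgroup G} (hM : Mx M) : fittingHallOf M ≤ sigmaCore M := by
  rw [fittingHallOf, map_le_iff_le_comap]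
  refine sSup_le ?_
  rintro H ⟨hn, hnil, hcop⟩
  rw [← map_le_iff_le_comap]
  have hN := Nml.of_normal M H
  have hH : Hall _ (H.map M.subtype) M := Lib.Hall.isPiHallOf_map_subtype.2 (Lib.Hall.isPiHall_of_coprime hcop)
  refine le_Ms hM hN.le fun p hp hd => ?_
  haveI := Fact.mk hp
  have hS : Syl p 𝐎({p}, H.map M.subtype) (H.map M.subtype) :=
    nil_pcore_Hall ((Core.isNilpotent_map_iff M.subtype_injective).2 hnil) _
  refine A10.mem_sigma_iff.2 ⟨hd.trans (card_dvd hN.le), _,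
    hS.of_Hall hH (by rwa [card_map_of_injective M.subtype_injective] at hd), ?_⟩
  rw [nml_norm_eq hM (hN.pcore _) (hS.ne_bot' hd)]
  exact ⟨le_rfl, hM.D_of_nml (hN.pcore _) hS.pgroup (hS.ne_bot' hd)⟩

theorem fittingHall_eq_Ms {M : Subgroup G} (hM : Mx M) (h : Group.IsNilpotent (sigmaCore M)) :
    fittingHallOf M = sigmaCore M := by
  refine le_antisymm (fittingHall_le_Ms hM) ?_
  rw [← map_subgroupOf_eq_of_le (Ms_le M)]
  refine map_mono (le_sSup ⟨(Ms_nml M).normal, (Core.isNilpotent_subgroupOf_iff (Ms_le M)).2 h, ?_⟩)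
  rw [Nat.card_congr (subgroupOfEquivOfLe (Ms_le M)).toEquiv]
  exact (Msigma_Hall hM).coprime

/-- `R(x)` is the subgroup of the Prelude. -/
theorem _root_.Cfsg.Lib.BG.Z.supportR_eq_sigR {x : G} {M : Subgroup G} (hx : x ≠ 1) (hM : SigMax x M) :
    supportR M x = sigR x := by
  by_cases h : SigMany x
  · obtain ⟨h1, -, -, h4, -⟩ := sigBase_spec hx h
    have h' : ¬ 𝐂[x] ≤ M ∧ ∃! L : Subgroup G, Mx L ∧ 𝐂[x] ≤ L :=
      ⟨(sigMany_iff hx hM).1 h, _, ⟨h1.max, h1.le⟩, fun L hL => h1.uniq L hL.1 hL.2⟩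
    rw [supportR, dif_pos h', h1.uniq _ (Classical.choose_spec h'.2.exists).1 (Classical.choose_spec h'.2.exists).2,
      fittingHall_eq_Ms h1.max (notP1type_Msigma_nil h4), sigR]
  · rw [supportR, dif_neg fun h' => h ((sigMany_iff hx hM).2 h'.1), sigR_bot h]

omit [Sz G] in
theorem card_of_isComplIn {A B M : Subgroup G} (h : IsComplIn A B M) : Nat.card A * Nat.card B = Nat.card M := by
  have : IsComplement' (A.subgroupOf M) (B.subgroupOf M) := by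
    refine isComplement'_of_disjoint_and_mul_eq_univ ?_ (Set.eq_univ_of_forall fun m => ?_)
    · rw [disjoint_iff, subgroupOf, subgroupOf, ← comap_inf, h.2.2.1]; exact bot_subgroupOf M
    · obtain ⟨a, ha, b, hb, e⟩ := h.2.2.2 m m.2
      exact ⟨⟨a, h.1 ha⟩, ha, ⟨b, h.2.1 hb⟩, hb, Subtype.ext e.symm⟩
  rw [← this.card_mul_card, Nat.card_congr (subgroupOfEquivOfLe h.1).toEquiv,
    Nat.card_congr (subgroupOfEquivOfLe h.2.1).toEquiv]

/-- Translation of the standard factorisation of the Prelude. -/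
theorem kappaCompl_of_decomp {M K U : Subgroup G} (hM : Mx M) (h : IsSigmaDecomposition M K U) :
    KappaCompl M U K := by
  have hK : Hall (kappa M) K M := h.hall
  have hp : PiGrp (sigma M ∪ kappa M) (K ⊔ sigmaCore M) := (hK.pi.mono Set.subset_union_right).sup'
    ((Ms_pi M).mono Set.subset_union_left) (Ms_norm hK.le)
  have hc := card_of_isComplIn h.compl
  have e1 : U.relIndex M = Nat.card ↥(K ⊔ sigmaCore M) :=
    Nat.eq_of_mul_eq_mul_left Nat.card_pos (by rw [card_mul_relIndex h.compl.1, hc])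
  have e2 : (K ⊔ sigmaCore M).relIndex M = Nat.card U :=
    Nat.eq_of_mul_eq_mul_left Nat.card_pos (by rw [card_mul_relIndex h.compl.2.1, mul_comm, hc])
  refine ⟨hK, Hall.mk' h.compl.1 (fun q hq hd hs => ?_) (by rw [compl_compl, e1]; exact hp), h.normal⟩
  rw [← e2] at hd
  exact hs.elim (fun hs => (Msigma_Hall hM).not_dvd hq hs (hd.trans (relIndex_dvd_left le_sup_right M)))
    fun hs => hK.not_dvd hq hs (hd.trans (relIndex_dvd_left le_sup_left M))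

/-- `M = (M_σ U) ⋊ K`. -/
theorem kappaCompl_sd {M K U : Subgroup G} (hM : Mx M) (h : KappaCompl M U K) :
    SD (sigmaCore M ⊔ U) K M ∧ Hall (kappa M)ᶜ (sigmaCore M ⊔ U) M := by
  have hp : PiGrp (kappa M)ᶜ (sigmaCore M ⊔ U) := ((Ms_pi M).mono fun q hq hk => kappa_sigma' hk hq).sup
    (h.hallU.pi.mono fun q hq hk => hq (.inr hk)) (Ms_norm h.hallU.le)
  have hsd : SD (sigmaCore M ⊔ U) K M := ⟨norm_sup (Ms_norm h.hallK.le) h.norm,
    by rw [inf_comm]; exact h.hallK.pi.inf_eq_bot hp, by rw [sup_assoc, (kappa_compl_context hM h).2.1.sup]⟩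
  exact ⟨hsd, (Hall.of_sd hsd hp (by rw [compl_compl]; exact h.hallK.pi)).1⟩

end Cfsg.Lib.BG.Z.S14
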