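import Cfsg.Agent.Lib.ZB.T14_5

set_option autoImplicit false
set_option linter.unusedVariables false

namespace Cfsg.Lib.BG.Z.S14

open Subgroup
open scoped Cfsg.Lib.Transfer

variable {G : Type*} [Group G] [Finite G] [Sz G]

theorem exists_sigma_mmax {p : ℕ} (hp : p.Prime) (hd : p ∣ Nat.card G)
    (hD : p ∈ DD G := by dd) :
    ∃ M : Subgroup G, Mx M ∧ p ∈ sigma M := by
  haveI := Fact.mk hp
  obtain ⟨P, hP⟩ := Syl.exists (p := p) (⊤ : Subgroup G)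
  have h1 := hP.ne_bot' (by rwa [card_top])
  obtain ⟨M, hM, hN⟩ := exists_mmax (A10.mFT_norm_proper h1 (A10.mFT_pgroup_proper hP.pgroup))
  have hle := (le_norm P).trans hN
  exact ⟨M, hM, A10.mem_sigma_iff.2 ⟨(pgroup_dvd_card hP.pgroup h1).trans (card_dvd hle), P,
    hP.of_le hle le_top, hN, hD⟩⟩

theorem kappa_elt_not_tau2 {M : Subgroup G} {y : G} (hM : Mx M) (hy : y ≠ 1) (hk : PiElt (kappa M) y) :
    ¬ PiElt (tau2 M) y := fun h => by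
  obtain ⟨p, hp, hd⟩ := exists_prime_order hy
  exact tau13_tau2' (kappa_tau13 hM (hk p hp hd)) (h p hp hd)

/-- In the second case of 14.3, `M` is the signalizer base of `x'`. -/
theorem sigBase_of_tau2 {M : Subgroup G} {y : G} (hy : Ell1 y) (h2 : PiElt (tau2 M) y) (hu : UniqMax 𝐂[y] M) :
    SigMany y ∧ sigBase y = M := by
  obtain ⟨hy1, L, hL⟩ := hy
  have hm : SigMany y := (sigMany_iff hy1 hL).2 fun h => by
    obtain rfl := hu.uniq L hL.1 h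
    exact hy1 ((sigMax_elt hL).eq_one (h2.mono fun q => tau2_sigma'))
  exact ⟨hm, sigBase_eq hm hu⟩

/-- B&G Lemma 14.6: exactly one of the two cases holds. -/
theorem _root_.Cfsg.Lib.BG.Z.sigma_decomposition_dichotomy {g : G} (hg : g ≠ 1)
    (hD : PiElt (DD G) g := by dd) :
    Xor (∃ x : G, Ell1 x ∧ x⁻¹ * g ∈ sigR x)
      (∃ (y : G) (M : Subgroup G), y ≠ 1 ∧ SigMax y M ∧ y⁻¹ * g ∈ M ⊓ 𝐂[y] ∧ y⁻¹ * g ≠ 1 ∧
        PiElt (kappa M) (y⁻¹ * g)) := by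
  by_cases h1 : ∃ x : G, Ell1 x ∧ x⁻¹ * g ∈ sigR x
  · refine .inl ⟨h1, ?_⟩
    obtain ⟨x, hx, hr⟩ := h1
    rintro ⟨y, M, hy1, hM, hy', hy'1, hk⟩
    have hs : PiElt (sigma M)ᶜ (y⁻¹ * g) := hk.mono fun q => kappa_sigma'
    have hC := ((pi_of_cent_sigma hM.1 hM.2 hy1 hy' hy'1 hs).resolve_right fun h =>
      kappa_elt_not_tau2 hM.1 hy'1 hk h.1).2
    have hm : ¬ SigMany y := fun h => (sigMany_iff hy1 hM).1 h hC
    rcases decomp_cases hx hr hM.1 hy1 (sigMax_elt hM) hs (mem_cent1.1 hy'.2).symm (by simp) with ⟨rfl, -⟩ | ⟨e, e'⟩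
    · exact hm (sigMany_of_mem hr hy'1)
    · rw [← e] at hr
      obtain ⟨hN, -, h2, -⟩ := sigBase_spec hx.1 (sigMany_of_mem hr hy1)
      have : M = sigBase x := by_contra fun h => hm ⟨_, _, h, hM, hN.max, sigR_le_Ms x hr⟩
      rw [e'] at hk
      exact kappa_elt_not_tau2 hM.1 hx.1 hk (this ▸ h2)
  refine .inr ⟨by_contra fun h2 => ?_, h1⟩
  have key : ∀ (M : Subgroup G) (x x' : G), x ≠ 1 → SigMax x M → PiElt (sigma M)ᶜ x' → g = x * x' →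
      x * x' = x' * x → g ∉ M := by
    intro M x x' hx1 hM hx' e hc hgM
    have e' : x⁻¹ * g = x' := by rw [e, inv_mul_cancel_left]
    have hx'1 : x' ≠ 1 := by rintro rfl; exact h1 ⟨x, ⟨hx1, M, hM⟩, e' ▸ one_mem _⟩
    have hm : x' ∈ M ⊓ 𝐂[x] := mem_inf.2 ⟨e' ▸ mul_mem (inv_mem (Ms_le M hM.2)) hgM, mem_cent1.2 hc.symm⟩
    rcases pi_of_cent_sigma hM.1 hM.2 hx1 hm hx'1 hx' with h | ⟨h3, h4, h5⟩
    · exact h2 ⟨x, M, hx1, hM, e' ▸ hm, e' ▸ hx'1, e' ▸ h.1⟩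
    · refine h1 ⟨x', h4, ?_⟩
      rw [e, hc, inv_mul_cancel_left, sigR, (sigBase_of_tau2 h4 h3 h5).2]
      exact ⟨hM.2, mem_cent1.2 hc⟩
  obtain ⟨p, hp, hd⟩ := exists_prime_order hg
  obtain ⟨M₀, hM₀, hps⟩ := exists_sigma_mmax hp (hd.trans (orderOf_dvd_natCard g)) (hD p hp hd)
  obtain ⟨x, hxg, x', -, hx, hx', e, hc⟩ := exists_pi_decomp (sigma M₀) g
  have hx1 : x ≠ 1 := by rintro rfl; rw [one_mul] at e; exact PiNat.not_dvd hx' hp hps (e ▸ hd)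
  obtain ⟨a, hM⟩ := sigMax_of_elt hM₀ hx
  rw [← sigma_conj a] at hx'
  set M := a ⋆ M₀
  have hgx : g ∈ 𝐂[x] := mem_cent1.2 (by rw [e, mul_assoc, ← hc])
  have hm : SigMany x := (sigMany_iff hx1 hM).2 fun h => key M x x' hx1 hM hx' e hc (h hgx)
  obtain ⟨hN, -, -, -, h5, -⟩ := sigBase_spec hx1 hm
  have hgN := hN.le hgx
  obtain ⟨y, hyg, y', -, hy, hy', e', hc'⟩ := exists_pi_decomp (sigma (sigBase x)) g
  by_cases hy1 : y = 1
  · rw [hy1, one_mul] at e'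
    rw [← e'] at hy'
    obtain ⟨u, -, hu⟩ := (h5 M hM).2.1.exists_le_conj (mmax_sol hN.max) (zpowers_le.2 hgN) hy'.zpowers
    have hu' := hu.trans (conj_mono u inf_le_left)
    exact key (u ⋆ M) x x' hx1 (sigMax_of_cj hM (Cj.conj M u) (hu' hxg)) (by rwa [sigma_conj]) e hc
      (hu' (mem_zpowers g))
  · exact key _ y y' hy1 ⟨hN.max, mem_Ms hN.max (zpowers_le.2 hgN hyg) hy⟩ hy' e' hc' hgN

end Cfsg.Lib.BG.Z.S14
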