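import Cfsg.Agent.Lib.ZB.T14_7

set_option autoImplicit false
set_option linter.unusedVariables false

namespace Cfsg.Lib.BG.Z.S14

open Subgroup
open scoped Cfsg.Lib.Transfer

variable {G : Type*} [Group G] [Finite G] [Sz G]

theorem cover_or_zhat {g : G} (hg : g ≠ 1)
    (hD : PiElt (DD G) g := by dd) :
    (∃ M : Subgroup G, Mx M ∧ g ∈ clsupp (sigCover M) ⊤) ∨
      ∃ H L : Subgroup G, TypeP H ∧ Hall (kappa H) L H ∧ g ∈ zhat L (sigmaCore H ⊓ 𝐂(L)) := by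
  rcases sigma_decomposition_dichotomy hg with ⟨⟨x, ⟨hx1, M, hM⟩, hr⟩, -⟩ | ⟨⟨y, H, hy1, hH, h1, h2, h3⟩, -⟩
  · exact .inl ⟨M, hM.1, (mem_clsupp_cover hM.1).2 ⟨x, ⟨hx1, 1, by rw [conj_one]; exact hM.2⟩, _, hr, by simp⟩⟩
  · obtain ⟨hP, L, hL, h4, h5⟩ := exists_kappa_of_cent hH.1 hH.2 hy1 h1 (h3.mono fun _ => kappa_sigma')
      (kappa_elt_not_tau2 hH.1 h2 h3)
    exact .inr ⟨H, L, hP, hL, (mem_zhat (dp_Kstar hL)).2 ⟨_, h4, h2, y, h5, hy1, by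
      rw [mem_cent1.1 h1.2, mul_inv_cancel_left]⟩⟩

/-- B&G Corollary 14.9(1) (covering part; disjointness is 14.5(b)). -/
theorem _root_.Cfsg.Lib.BG.Z.mFT_partition_F (h : ∀ M : Subgroup G, ¬ TypeP M) {g : G} (hg : g ≠ 1)
    (hD : PiElt (DD G) g := by dd) :
    ∃ M : Subgroup G, Mx M ∧ g ∈ clsupp (sigCover M) ⊤ :=
  (cover_or_zhat hg).resolve_right fun ⟨H, _, hH, _⟩ => h H hH

omit [Finite G] [Sz G] in
theorem zhat_comm (A B : Subgroup G) : zhat A B = zhat B A := by rw [zhat, zhat, sup_comm, Set.union_comm]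

theorem zhat_conj_mem {M K H L : Subgroup G} (hM : Mx M) (hK : Hall (kappa M) K M) (hL : Hall (kappa H) L H)
    (hj : Cj M H) {g : G} (hg : g ∈ zhat L (sigmaCore H ⊓ 𝐂(L))) : g ∈ clsupp (zhat K (sigmaCore M ⊓ 𝐂(K))) ⊤ := by
  obtain ⟨a, rfl⟩ := hj
  have hK' := hK.conj a
  rw [← kappa_conj hM a] at hK'
  obtain ⟨b, hb, rfl⟩ := hK'.exists_conj_eq hL (mmax_sol (A10.coatom_conj hM a))
  rw [cent_Ms_conj hb, Ms_conj, ← conj_cent, ← conj_inf, conj_conj, conj_conj] at hg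
  refine ⟨b * a, mem_top _, (b * a)⁻¹ * g * (b * a), ⟨?_, ?_⟩, by group⟩
  · have := hg.1; rw [← conj_sup] at this; exact mem_conj.1 this
  · rintro (h | h)
    exacts [hg.2 (.inl (mem_conj.2 h)), hg.2 (.inr (mem_conj.2 h))]

/-- B&G Corollary 14.9(2). -/
theorem _root_.Cfsg.Lib.BG.Z.mFT_partition_P {M K : Subgroup G} (hM : TypeP M) (hK : Hall (kappa M) K M) :
    (∀ g : G, g ≠ 1 → PiElt (DD G) g → (∃ N : Subgroup G, Mx N ∧ g ∈ clsupp (sigCover N) ⊤) ∨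
      g ∈ clsupp (zhat K (sigmaCore M ⊓ 𝐂(K))) ⊤) ∧
    ∀ N : Subgroup G, Mx N →
      Disjoint (clsupp (zhat K (sigmaCore M ⊓ 𝐂(K))) ⊤) (clsupp (sigCover N) ⊤) := by
  refine ⟨fun g hg hD => (cover_or_zhat hg).imp_right ?_, fun N hN => Set.disjoint_left.2 ?_⟩
  · rintro ⟨H, L, hH, hL, h1⟩
    obtain ⟨Ms, h⟩ := exists_dual hM hK
    rcases h.trans hH with hj | hj
    · exact zhat_conj_mem hM.1 hK hL hj h1
    · have := zhat_conj_mem h.Ps.1 h.halls hL hj h1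
      rwa [h.eqs, zhat_comm] at this
  · rintro _ ⟨g, -, t, ht, rfl⟩ h'
    exact zhat_not_cover hM.1 hK hN ht (clsupp_conj h')

end Cfsg.Lib.BG.Z.S14
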