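import Cfsg.Agent.Lib.ZB.T15_1
import Cfsg.Agent.Lib.BG.T15_2Aux
import Cfsg.Agent.Lib.BG.T03_8
import Cfsg.Agent.Lib.BG.T06_3
import Cfsg.Agent.Lib.ZB.T10_8

set_option autoImplicit false
set_option linter.unusedVariables false
set_option linter.unusedSectionVars false
set_option linter.style.haveILetI false

namespace Cfsg.Lib.BG.Z

open Subgroup
open scoped Cfsg.Lib.Transfer

variable {G : Type*} [Group G] [Finite G] [Sz G]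

omit [Finite G] [Sz G] in
theorem mmax_type_cases {M : Subgroup G} (hM : Mx M) : TypeF M ∨ TypeP1 M ∨ TypeP2 M := by
  by_cases h : kappa M = ∅
  · exact Or.inl ⟨hM, h⟩
  · have hP : TypeP M := ⟨hM, Set.nonempty_iff_ne_empty.2 h⟩
    by_cases h1 : TypeP1 M
    · exact Or.inr (Or.inl h1)
    · exact Or.inr (Or.inr ⟨hP, h1⟩)

omit [Finite G] [Sz G] in
theorem TypeF.not_typeP {M : Subgroup G} (h : TypeF M) : ¬ TypeP M := fun h' => h'.2.ne_empty h.2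

omit [Finite G] [Sz G] in
theorem typeF_or_typeP {M : Subgroup G} (hM : Mx M) : TypeF M ∨ TypeP M := by
  rcases mmax_type_cases hM with h | h | h
  exacts [Or.inl h, Or.inr h.1, Or.inr h.1]

omit [Sz G] in
theorem TypeF.conj {M : Subgroup G} (h : TypeF M) (g : G) : TypeF (g ⋆ M) :=
  ⟨mmax_conj h.1 g, by rw [kappa_conj]; exact h.2⟩

omit [Sz G] in
theorem TypeP.conj {M : Subgroup G} (h : TypeP M) (g : G) : TypeP (g ⋆ M) :=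
  ⟨mmax_conj h.1 g, by rw [kappa_conj]; exact h.2⟩

omit [Sz G] in
theorem TypeP1.conj {M : Subgroup G} (h : TypeP1 M) (g : G) : TypeP1 (g ⋆ M) :=
  ⟨h.1.conj g, by rw [kappa_conj, sigma_conj, S14.card_conj]; exact h.2⟩

omit [Sz G] in
theorem TypeP2.conj {M : Subgroup G} (h : TypeP2 M) (g : G) : TypeP2 (g ⋆ M) :=
  ⟨h.1.conj g, fun h1 => h.2 (by have := h1.conj g⁻¹; rwa [S14.inv_conj] at this)⟩

theorem typeP1_of_Fcore_ne {M : Subgroup G} (hM : Mx M) (hne : fittingHallOf M ≠ sigmaCore M) : TypeP1 M := by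
  rcases mmax_type_cases hM with h | h | h
  · exact absurd ((Fcore_eq_Msigma hM).2 (notP1type_Msigma_nil (Or.inl h))) hne
  · exact h
  · exact absurd ((Fcore_eq_Msigma hM).2 (notP1type_Msigma_nil (Or.inr h))) hne

theorem Fcore_eq_of_notP1 {M : Subgroup G} (h : TypeF M ∨ TypeP2 M) : fittingHallOf M = sigmaCore M :=
  (Fcore_eq_Msigma (h.elim (·.1) (·.1.1))).2 (notP1type_Msigma_nil h)

/-- Structure of maximal subgroups of type `P₁`. -/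
theorem P1type_structure {M K : Subgroup G} (hM : TypeP1 M) (hK : Hall (kappa M) K M) :
    SD (sigmaCore M) K M ∧ sigmaCore M = ⁅M, M⁆ ∧ (Nat.card ↥(sigmaCore M ⊓ 𝐂(K))).Prime ∧
      ⁅sigmaCore M, K⁆ = sigmaCore M := by
  obtain ⟨U, hU⟩ := ex_kappa_compl hM.1.1 hK
  have hU1 := (trivg_kappa_compl hM.1.1 hU).2 hM
  obtain ⟨⟨-, hsd, -⟩, hd, -⟩ := kappa_structure hM.1.1 hU
  replace hd := (hd ((nontriv_kappa hM.1.1 hK).2 hM.1)).1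
  rw [hU1, sup_bot_eq] at hsd hd
  refine ⟨hsd, hd, ?_, ?_⟩
  · obtain ⟨_, -, -, -, -, -, -, -, h | h, -⟩ := Ptype_embedding hM.1 hK
    exacts [absurd hM h.1.2, h.2]
  · exact (coprime_der1_sdprod hsd ((Msigma_pi M).coprime' hK.pi fun _ hq hk => kappa_sigma' hk hq)
      (sub_mmax_sol hM.1.1 (Msigma_le M)) hd.le).1

section
variable {q : ℕ} {M K D : Subgroup G}

private theorem aux1 (hM : Mx M) (hK : Hall (kappa M) K M) (hne : fittingHallOf M ≠ sigmaCore M)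
    (hq : q = Nat.card ↥(sigmaCore M ⊓ 𝐂(K))) :
    sigmaCore M ⊓ 𝐂(K) ≤ 𝐎({q}, M) ∧ Syl q 𝐎({q}, M) (sigmaCore M) ∧ q ∈ sigma M ∧
      Group.IsNilpotent (quo (sigmaCore M) 𝐎({q}, M)) := by
  have hP1 := typeP1_of_Fcore_ne hM hne
  obtain ⟨hsd, -, hqp, hcomm⟩ := P1type_structure hP1 hK
  haveI : Fact q.Prime := ⟨hq ▸ hqp⟩
  have hcop : (Nat.card (sigmaCore M)).Coprime (Nat.card K) :=
    (Msigma_pi M).coprime' hK.pi fun _ hq hk => kappa_sigma' hk hq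
  have hpr := (Ptype_structure_a hP1.1 hK).1
  have hqs : q ∈ sigma M := (Msigma_pi M).mem Fact.out (hq ▸ card_dvd inf_le_left)
  have h1 : sigmaCore M ⊓ 𝐂(K) ≤ 𝐅(sigmaCore M) := by
    refine le_of_prime_of_inf_ne_bot hqp fun h => hne ((Fcore_eq_Msigma hM).2 ?_)
    have h2 := odd_sdprod_primact_commg_sub_Fitting hsd.norm (hsd.sup.symm ▸ mmax_sol hM) (mFT_odd _) hcop hpr
      (eq_bot_mono h (le_inf (inf_le_inf_right _ (Fitting_le _)) inf_le_left))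
    rw [hcomm] at h2
    exact nil_of_le (Fitting_nil _) h2
  have h2 : sigmaCore M ⊓ 𝐂(K) ≤ 𝐎({q}, M) :=
    le_pcore_of_le_Fitting (h1.trans (Msigma_nml M).Fitting_le) (S14.pgroup_of_card hq.symm)
  have hQ : 𝐎({q}, M) ≤ sigmaCore M := pcore_mono (Set.singleton_subset_iff.2 hqs) M
  have hQn : Nml 𝐎({q}, M) (sigmaCore M) := (pcore_nml _ M).of_le hQ (Msigma_le M)
  obtain ⟨K₁, hK₁, hp₁⟩ := exists_prime_le ((nontriv_kappa hM hK).2 hP1.1)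
  have hnil : Group.IsNilpotent (quo (sigmaCore M) 𝐎({q}, M)) :=
    nil_quo_of_cent_le (hK₁.trans hsd.norm) hQn ((hK₁.trans hK.le).trans (pcore_nml _ M).norm) hp₁
      (coprime_mono hcop.symm hK₁ le_rfl) (by rw [hpr.cent hK₁ (ne_bot_of_prime hp₁)]; exact h2)
  refine ⟨h2, ?_, hqs, hnil⟩
  have h3 := Hall.copre (pcore_pi {q} M) hQn (nil_pcore_Hall hnil {q})
  rwa [copre_pcore hQn (pcore_pi {q} M), (Msigma_nml M).pcore_eq, inf_eq_left.2 hQ] at h3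

private theorem aux2 (hM : Mx M) (hK : Hall (kappa M) K M) (hne : fittingHallOf M ≠ sigmaCore M)
    (hq : q = Nat.card ↥(sigmaCore M ⊓ 𝐂(K))) (hD : Hall {q}ᶜ D (sigmaCore M)) :
    SD 𝐎({q}, M) D (sigmaCore M) ∧ Group.IsNilpotent D ∧ ¬ D ≤ 𝐂(𝐎({q}, M)) := by
  obtain ⟨-, hS, -, hnil⟩ := aux1 hM hK hne hq
  have hsd := hS.sd ((Msigma_le M).trans (pcore_nml _ M).norm) hD
  have hDnil : Group.IsNilpotent D := nil_of_nil_quo hsd.norm hsd.inf (nil_of_le hnil (quo_mono hD.le _))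
  haveI : Fact q.Prime := ⟨hq ▸ (P1type_structure (typeP1_of_Fcore_ne hM hne) hK).2.2.1⟩
  exact ⟨hsd, hDnil, fun h => hne ((Fcore_eq_Msigma hM).2 ((DP.of_sd hsd (cent_symm h)).nil hS.nil hDnil))⟩

/-- The main part of B&G 15.2, for a `K`-invariant complement `D`. -/
private theorem aux3 (hM : Mx M) (hK : Hall (kappa M) K M) (hne : fittingHallOf M ≠ sigmaCore M)
    (hq : q = Nat.card ↥(sigmaCore M ⊓ 𝐂(K))) (hD : Hall {q}ᶜ D (sigmaCore M)) (hKD : K ≤ 𝐍(D)) :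
    (Nat.card K).Prime ∧
    (Chief M (𝐎({q}, M) ⊓ 𝐂(D)) 𝐎({q}, M) ∧ ⁅𝐎({q}, M), 𝐎({q}, M)⁆ ≤ 𝐎({q}, M) ⊓ 𝐂(D) ∧
      (∀ a ∈ 𝐎({q}, M), a ^ q ∈ 𝐎({q}, M) ⊓ 𝐂(D)) ∧
      Nat.card 𝐎({q}, M) = Nat.card ↥(𝐎({q}, M) ⊓ 𝐂(D)) * q ^ Nat.card K) ∧
    (⁅⁅M, M⁆, ⁅M, M⁆⁆ ≤ 𝐅(M) ∧ 𝐎({q}, M) ⊔ (M ⊓ 𝐂(𝐎({q}, M))) = 𝐅(M) ∧
      (∀ y ∈ sigmaCore M, y ∈ 𝐅(M) ↔ ∀ a ∈ 𝐎({q}, M), y * a * y⁻¹ * a⁻¹ ∈ 𝐎({q}, M) ⊓ 𝐂(D)) ∧
      (∀ y ∈ sigmaCore M, y ∈ 𝐅(M) ↔ ∀ a ∈ sigmaCore M ⊓ 𝐂(K), y * a * y⁻¹ * a⁻¹ ∈ 𝐎({q}, M) ⊓ 𝐂(D)) ∧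
      𝐅(M) < sigmaCore M) := by
  have hP1 := typeP1_of_Fcore_ne hM hne
  obtain ⟨hsdM, hder, hqp, hcomm⟩ := P1type_structure hP1 hK
  obtain ⟨hKsQ, hS, hqs, -⟩ := aux1 hM hK hne hq
  obtain ⟨hsd, hDnil, hnc⟩ := aux2 hM hK hne hq hD
  haveI : Fact q.Prime := ⟨hq ▸ hqp⟩
  have hnn : ¬ Group.IsNilpotent (sigmaCore M) := fun h => hne ((Fcore_eq_Msigma hM).2 h)
  set Q := 𝐎({q}, M) with hQdef
  set Ms := sigmaCore M with hMsdef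
  have hQ : Nml Q M := pcore_nml _ M
  have hQp : IsPGroup q Q := hS.pgroup
  have hcop : (Nat.card Ms).Coprime (Nat.card K) :=
    (Msigma_pi M).coprime' hK.pi fun _ hq hk => kappa_sigma' hk hq
  have hcDQ : (Nat.card D).Coprime (Nat.card Q) := hD.pi.coprime_pgroup hQp
  have hpr : SemiPrime Ms K := (Ptype_structure_a hP1.1 hK).1
  have hK1 : K ≠ ⊥ := (nontriv_kappa hM hK).2 hP1.1
  have hDM : D ≤ M := hD.le.trans (Msigma_le M)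
  obtain ⟨K₁, hK₁, hp₁⟩ := exists_prime_le hK1
  obtain ⟨hch, hKs0⟩ := chief_cent_compl (Msigma_nml M) hQ (pcore_sub_Fitting q M) hsd hcDQ hsdM.sup hKD hK₁ hp₁
    (coprime_mono hcop.symm hK₁ le_rfl) (hpr.cent hK₁ (ne_bot_of_prime hp₁)) hqp hKsQ hnc
  set Q₀ := Q ⊓ 𝐂(D) with hQ₀def
  set Ks := Ms ⊓ 𝐂(K) with hKsdef
  have hMN : M ≤ 𝐍(Q₀) := hch.nmlV.norm
  have hQN := hQ.le.trans hMN
  have hDN := hDM.trans hMN
  have hKN := hK.le.trans hMN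
  have hMsN : Ms ≤ 𝐍(Q₀) := (Msigma_le M).trans hMN
  have hreg : SemiReg D K := fun x hx hx1 => by
    refine eq_bot_mono hsd.inf (le_inf ?_ inf_le_left)
    exact ((inf_le_inf_right _ hD.le).trans (hpr x hx hx1).le).trans hKsQ
  have hD1 : D ≠ ⊥ := fun h => hnc (h ▸ bot_le)
  have hQ₀D : Q₀ ⊓ D = ⊥ := eq_bot_mono hsd.inf (inf_le_inf_right _ inf_le_left)
  have hQ₀K : Q₀ ⊓ K = ⊥ := eq_bot_mono hsdM.inf (inf_le_inf_right _ (inf_le_left.trans hS.le))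
  have hDK : D ⊔ K ≤ M := sup_le hDM hK.le
  have hfr := (hreg.frob hKD hD1 hK1).quo (hDK.trans hMN) (fun h => hD1 (by rw [← hQ₀D, inf_eq_right.2 h]))
    (fun h => hK1 (by rw [← hQ₀K, inf_eq_right.2 h]))
  have hcKQ : (Nat.card K).Coprime (Nat.card Q) := coprime_mono hcop.symm le_rfl hS.le
  have hQsol : Group.IsSolvable Q := pgroup_sol hQp
  have hCK : quo Q Q₀ ⊓ 𝐂(quo K Q₀) = quo Ks Q₀ := by
    rw [coprime_quo_cent (hK.le.trans hQ.norm) hKN hQN hcKQ (Or.inr hQsol)]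
    congr 1
    exact le_antisymm (inf_le_inf_right _ hS.le) (le_inf hKsQ inf_le_right)
  have hcardKs : Nat.card (quo Ks Q₀) = q := by
    rw [card_quo_of_disjoint (hKsQ.trans hQN) (by rw [inf_comm]; exact inf_eq_bot_of_prime hqp hKs0), hq]
  have hcL : (Nat.card ↥(D ⊔ K)).Coprime (Nat.card Q) := by
    rw [← (hreg.frob hKD hD1 hK1).sd.card]
    exact Nat.Coprime.mul_left hcDQ hcKQ
  obtain ⟨hp, hcard, hD'⟩ := Frobenius_primact hfr (sol_quo (sub_mmax_sol hM hDK) _) (odd_quo (mFT_odd _) _)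
    (mt (quo_eq_bot_iff hQN).1 hch.lt.not_ge) (nil_quo hS.nil _) (quo_norm (hDK.trans hQ.norm) _)
    (coprime_quo hcL _)
    (by rw [coprime_quo_cent (hDM.trans hQ.norm) hDN hQN hcDQ (Or.inr hQsol)]; exact quo_self _)
    ((hpr.mono_left hS.le).quo (hK.le.trans hQ.norm) hQN hKN hcKQ.symm hQsol)
  rw [card_quo_of_disjoint hKN hQ₀K] at hp hcard
  rw [hCK, hcardKs] at hcard
  replace hD' := hD' (by rw [hCK]; exact cyclic_of_prime (hcardKs ▸ Fact.out))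
  rw [← quo_comm hDN hDN, quo_le_cent_iff ((der_le D).trans hDN) hQN] at hD'
  obtain ⟨r, hr, hQ', hpow, k, hk, hidx⟩ := hch.elem hQsol
  obtain rfl : r = q := pgroup_eq_of_dvd hQp hr
    ((hidx ▸ dvd_pow_self r hk.ne' : r ∣ Q₀.relIndex Q).trans (relIndex_dvd_card _ _))
  -- subgroups of `M_σ` centralizing `Q / Q₀` lie in `F(M)`
  have key : ∀ X : Subgroup G, X ≤ Ms → ⁅X, Q⁆ ≤ Q₀ → X ≤ 𝐅(M) := by
    intro X hX hXQ
    have hC : Nml (Ms ⊓ copre Q₀ 𝐂(quo Q Q₀)) M := (Msigma_nml M).inf_left (norm_copre_cent hMN hQ.norm)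
    have hsdC := hsd.restrict_right (le_inf hS.le ((le_copre_cent_iff hQN hQN).2 hQ')) (inf_le_left (b := copre Q₀ 𝐂(quo Q Q₀)))
    have h1 : D ⊓ (Ms ⊓ copre Q₀ 𝐂(quo Q Q₀)) ≤ 𝐂(Q) := by
      refine stable_factor_cent (N := Q₀) ?_ (inf_le_left.trans (cent_symm inf_le_right))
        (coprime_mono hcDQ inf_le_left inf_le_left)
      rw [commutator_comm]
      exact (le_copre_cent_iff (inf_le_left.trans hDN) hQN).1 (inf_le_right.trans inf_le_right)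
    exact (le_inf hX ((le_copre_cent_iff (hX.trans hMsN) hQN).2 hXQ)).trans
      (Fitting_max ((DP.of_sd hsdC (cent_symm h1)).nil hS.nil (nil_of_le hDnil inf_le_left)) hC)
  have hKH : Hall (sigma M)ᶜ K M := Hall.of_sd_right hsdM (by rw [compl_compl]; exact Msigma_Hall hM)
  have hFMs : 𝐅(M) ≤ Ms := by
    have hd := nil_pcore_dprod (Fitting_nil M) (sigma M)
    have hY := (Fitting_nml M).pcore (sigma M)ᶜ
    rcases eq_bot_or_eq_of_prime hp (hKH.ge_of_nml hY (pcore_pi _ _)) with h | h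
    · rw [← hd.sup, h, sup_bot_eq]
      exact pcore_max (pcore_pi _ _) ((Fitting_nml M).pcore _)
    · rw [h] at hY
      have := comm_eq_bot_iff.2 ((Msigma_nml M).cent_of_disjoint hY hsdM.inf)
      exact absurd (hcomm.symm.trans this) (Msigma_ne_bot hM)
  have hFQ : ⁅𝐅(M), Q⁆ ≤ Q₀ := by rw [commutator_comm]; exact Fitting_stab_chief (Nml.refl M) hch
  refine ⟨hp, ⟨hch, hQ', hpow, ?_⟩, ?_, ?_, fun y hy => ⟨fun h a ha => hFQ (comm_mem_comm h ha), fun h => ?_⟩,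
    fun y hy => ⟨fun h a ha => hFQ (comm_mem_comm h (hKsQ ha)), fun h => ?_⟩,
    lt_of_le_of_ne hFMs fun e => hnn (e ▸ Fitting_nil M)⟩
  · rw [← hcard, card_quo_mul ⟨inf_le_left, hQN⟩]
  · rw [← hder]
    exact hsd.der_le.trans (sup_le (pcore_sub_Fitting r M) (key _ ((der_le D).trans hD.le) hD'))
  · apply le_antisymm
    · refine sup_le (pcore_sub_Fitting r M) (key _ ?_ ((comm_eq_bot_iff.2 inf_le_right).le.trans bot_le))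
      have hN : Nml (M ⊓ 𝐂(Q)) M := Nml.cent hQ.norm
      rcases eq_bot_or_eq_of_prime hp (inf_le_left : K ⊓ (M ⊓ 𝐂(Q)) ≤ K) with h | h
      · have h1 := (hKH.inf_nml hN).eq_bot_iff.1 h
        rw [compl_compl] at h1
        exact (Msigma_Hall hM).ge_of_nml hN h1
      · exact absurd (le_inf hS.le (cent_symm (h.ge.trans (inf_le_right.trans inf_le_right))))
          (Ptype_structure_e hP1.1 hK (hq ▸ dvd_rfl) hS).2
    · have hd := nil_pcore_dprod (Fitting_nil M) {r}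
      rw [pcore_Fitting] at hd
      rw [← hd.sup]
      exact sup_le_sup_left (le_inf (hd.right_le.trans (Fitting_le M)) (cent_symm hd.cent)) _
  · exact key (Ms ⊓ copre Q₀ 𝐂(quo Q Q₀)) inf_le_left
      ((le_copre_cent_iff (inf_le_left.trans hMsN) hQN).1 inf_le_right) ⟨hy, (mem_copre_cent_iff (hMsN hy) hQN).2 h⟩
  · have hKsN : Ks ≤ 𝐍(Q₀) := hKsQ.trans hQN
    have hsdC := hsd.restrict_right (A := Ms ⊓ copre Q₀ 𝐂(quo Ks Q₀)) (le_inf hS.le ((le_copre_cent_iff hQN hKsN).2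
      ((commutator_mono le_rfl hKsQ).trans hQ'))) inf_le_left
    set D₁ := D ⊓ (Ms ⊓ copre Q₀ 𝐂(quo Ks Q₀)) with hD₁def
    have hD₁ : D₁ ≤ D := inf_le_left
    have hKD₁ : K ≤ 𝐍(D₁) := norm_inf hKD (norm_inf hsdM.norm
      (norm_copre_cent hKN (norm_inf hsdM.norm (norm_cent (le_norm K)))))
    have h1 : quo D₁ Q₀ ≤ 𝐂(quo Q Q₀) := by
      refine cent_of_cent_prime_fixed ((hreg.mono hD₁ le_rfl).quo hKD₁ Q₀) (quo_norm hKD₁ _) hfr.compl_ne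
        (quo_norm ((hD₁.trans hDM).trans hQ.norm) _) (quo_norm (hK.le.trans hQ.norm) _)
        ((quo_abelian_iff hQN).2 hQ') (coprime_quo (coprime_mono hcDQ hD₁ le_rfl) _)
        (by rw [hCK, hcardKs]; exact hr) ?_
      rw [hCK]
      exact (le_copre_iff (hD₁.trans hDN)).1 (inf_le_right.trans inf_le_right)
    have h2 : Ms ⊓ copre Q₀ 𝐂(quo Ks Q₀) ≤ 𝐅(M) := by
      rw [← hsdC.sup]
      exact sup_le (pcore_sub_Fitting r M)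
        (key _ (hD₁.trans hD.le) ((quo_le_cent_iff (hD₁.trans hDN) hQN).1 h1))
    exact h2 ⟨hy, (mem_copre_cent_iff (hMsN hy) hKsN).2 h⟩

private theorem exists_inv_compl (hM : Mx M) (hK : Hall (kappa M) K M) (q : ℕ) :
    ∃ D : Subgroup G, Hall {q}ᶜ D (sigmaCore M) ∧ K ≤ 𝐍(D) :=
  Hall.exists_inv {q}ᶜ (norm_Msigma hK.le) (hK.pi.coprime' (Msigma_pi M) fun _ hk => kappa_sigma' hk)
    (sub_mmax_sol hM (Msigma_le M))

end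

/-- B&G Theorem 15.2(a)-(c). Here `q = |K*|` and `Q = O_q(M)`. -/
theorem Fcore_structure_abc {M K : Subgroup G} (hM : Mx M) (hK : Hall (kappa M) K M)
    (hne : fittingHallOf M ≠ sigmaCore M) :
    (TypeP1 M ∧ SD (sigmaCore M) K M ∧ sigmaCore M = ⁅M, M⁆) ∧
    ((Nat.card K).Prime ∧ (Nat.card ↥(sigmaCore M ⊓ 𝐂(K))).Prime ∧
      Nat.card ↥(sigmaCore M ⊓ 𝐂(K)) ∣ Nat.card (fittingHallOf M) ∧ Nat.card ↥(sigmaCore M ⊓ 𝐂(K)) ∈ beta M) ∧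
    Syl (Nat.card ↥(sigmaCore M ⊓ 𝐂(K))) 𝐎({Nat.card ↥(sigmaCore M ⊓ 𝐂(K))}, M) M := by
  have hP1 := typeP1_of_Fcore_ne hM hne
  obtain ⟨hsdM, hder, hqp, -⟩ := P1type_structure hP1 hK
  obtain ⟨hKsQ, hS, hqs, -⟩ := aux1 hM hK hne rfl
  obtain ⟨D, hD, hKD⟩ := exists_inv_compl hM hK (Nat.card ↥(sigmaCore M ⊓ 𝐂(K)))
  haveI : Fact (Nat.card ↥(sigmaCore M ⊓ 𝐂(K))).Prime := ⟨hqp⟩
  have hSM := hS.of_Hall (Msigma_Hall hM) hqs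
  refine ⟨⟨hP1, hsdM, hder⟩, ⟨(aux3 hM hK hne rfl hD hKD).1, hqp,
    card_dvd (hKsQ.trans (pcore_le_Fcore hSM)), ?_⟩, hSM⟩
  by_contra hb
  have h1 := (beta_max_pdiv hM hb).2.1
  refine (aux2 hM hK hne rfl h1).2.2 (cent_symm ?_)
  exact PiGrp.cent hS.pi h1.pi (hS.le.trans (pcore_nml _ _).norm)
    ((h1.le.trans (Msigma_le M)).trans (pcore_nml _ M).norm)

theorem Fcore_structure_Kstar {M K : Subgroup G} (hM : Mx M) (hK : Hall (kappa M) K M)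
    (hne : fittingHallOf M ≠ sigmaCore M) :
    sigmaCore M ⊓ 𝐂(K) ≤ 𝐎({Nat.card ↥(sigmaCore M ⊓ 𝐂(K))}, M) ∧
      𝐎({Nat.card ↥(sigmaCore M ⊓ 𝐂(K))}, M) ≤ fittingHallOf M := by
  obtain ⟨-, ⟨-, hqp, -⟩, hS⟩ := Fcore_structure_abc hM hK hne
  haveI : Fact (Nat.card ↥(sigmaCore M ⊓ 𝐂(K))).Prime := ⟨hqp⟩
  exact ⟨(aux1 hM hK hne rfl).1, pcore_le_Fcore hS⟩

/-- B&G Theorem 15.2, first assertion. -/
theorem Fcore_ne_bot {M : Subgroup G} (hM : Mx M) : fittingHallOf M ≠ ⊥ := by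
  by_cases hne : fittingHallOf M = sigmaCore M
  · rw [hne]; exact Msigma_ne_bot hM
  · obtain ⟨K, hK⟩ := Hall.exists (kappa M) (mmax_sol hM)
    obtain ⟨-, ⟨-, hqp, hd, -⟩, -⟩ := Fcore_structure_abc hM hK hne
    exact ne_bot_of_dvd hqp hd

/-- B&G Theorem 15.2(d)-(g).  Here `Q₀ = C_Q(D)` and the statements on `Q / Q₀` are written without quotients. -/
theorem Fcore_structure {q : ℕ} {M K D : Subgroup G} (hM : Mx M) (hK : Hall (kappa M) K M)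
    (hne : fittingHallOf M ≠ sigmaCore M) (hq : q = Nat.card ↥(sigmaCore M ⊓ 𝐂(K)))
    (hD : Hall {q}ᶜ D (sigmaCore M)) :
    Group.IsNilpotent D ∧ Nml (𝐎({q}, M) ⊓ 𝐂(D)) M ∧
    (Chief M (𝐎({q}, M) ⊓ 𝐂(D)) 𝐎({q}, M) ∧ ⁅𝐎({q}, M), 𝐎({q}, M)⁆ ≤ 𝐂(D) ∧ (∀ a ∈ 𝐎({q}, M), a ^ q ∈ 𝐂(D)) ∧
      Nat.card 𝐎({q}, M) = Nat.card ↥(𝐎({q}, M) ⊓ 𝐂(D)) * q ^ Nat.card K) ∧
    (⁅⁅M, M⁆, ⁅M, M⁆⁆ ≤ 𝐅(M) ∧ 𝐎({q}, M) ⊔ (M ⊓ 𝐂(𝐎({q}, M))) = 𝐅(M) ∧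
      (∀ y ∈ sigmaCore M, y ∈ 𝐅(M) ↔ ∀ a ∈ 𝐎({q}, M), y * a * y⁻¹ * a⁻¹ ∈ 𝐂(D)) ∧
      (∀ y ∈ sigmaCore M, y ∈ 𝐅(M) ↔ ∀ a ∈ sigmaCore M ⊓ 𝐂(K), y * a * y⁻¹ * a⁻¹ ∈ 𝐎({q}, M) ⊓ 𝐂(D)) ∧
      𝐅(M) < sigmaCore M) := by
  obtain ⟨D₀, hD₀, hKD⟩ := exists_inv_compl hM hK q
  obtain ⟨-, ⟨h1, h2, h3, h4⟩, h5, h6, h7, h8, h9⟩ := aux3 hM hK hne hq hD₀ hKD
  obtain ⟨g, hg, rfl⟩ := hD₀.exists_conj_eq hD (sub_mmax_sol hM (Msigma_le M))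
  have e : 𝐎({q}, M) ⊓ 𝐂(D₀) = 𝐎({q}, M) ⊓ 𝐂(g ⋆ D₀) := by
    rw [← h1.nmlV.conj_eq (Msigma_le M hg), S14.conj_inf, S14.conj_cent, (pcore_nml _ M).conj_eq (Msigma_le M hg)]
  rw [e] at h1 h2 h3 h4 h7 h8
  refine ⟨(aux2 hM hK hne hq hD).2.1, h1.nmlV, ⟨h1, h2.trans inf_le_right, fun a ha => (h3 a ha).2, h4⟩, h5, h6,
    fun y hy => (h7 y hy).trans ⟨fun h a ha => (h a ha).2, fun h a ha => ⟨?_, h a ha⟩⟩, h8, h9⟩
  exact (𝐎({q}, M)).mul_mem (conj_mem_of_norm ((pcore_nml _ M).norm (Msigma_le M hy)) ha) ((𝐎({q}, M)).inv_mem ha)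

end Cfsg.Lib.BG.Z
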