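import Cfsg.Agent.Lib.ZB.T15_7
import Cfsg.Agent.Lib.ZB.T10_0
import Cfsg.Agent.Lib.ZB.T12_7
import Cfsg.Agent.Lib.ZB.T14_12

set_option autoImplicit false
set_option linter.unusedVariables false
set_option linter.unusedSectionVars false
set_option linter.style.haveILetI false

namespace Cfsg.Lib.BG.Z

open Subgroup
open scoped Cfsg.Lib.Transfer

variable {G : Type*} [Group G] [Finite G] [Sz G]

theorem tau2_of_elem {p : ℕ} [Fact p.Prime] {M A : Subgroup G} (hM : Mx M) (hA : Elem p 2 A M)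
    (hs : p ∉ sigma M) : p ∈ tau2 M :=
  mem_tau2_iff.2 ⟨hs, le_antisymm (not_mem_alpha_iff.1 fun h => hs (alpha_sub_sigma hM h)) hA.le_rk⟩

/-- `U` is a normal Hall subgroup of the complement `U K` to `M_σ`. -/
theorem KappaCompl.le_U {M U K X : Subgroup G} (hM : Mx M) (h : KappaCompl M U K) (hX : X ≤ U ⊔ K)
    (hk : PiGrp (kappa M)ᶜ X) : X ≤ U := by
  obtain ⟨-, -, hsd, -⟩ := kappa_compl_context hM h
  exact (Hall.of_sd hsd h.kappa' (by rw [compl_compl]; exact h.hallK.pi)).1.ge_of_normal hsd.nml.norm hX hk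

/-- Every complement to `M_σ` in `M` has the form `U K`. -/
theorem exists_kappaCompl_eq {M E : Subgroup G} (hM : Mx M) (hE : Hall (sigma M)ᶜ E M) :
    ∃ U K : Subgroup G, KappaCompl M U K ∧ U ⊔ K = E := by
  obtain ⟨K, hK⟩ := Hall.exists (kappa M) (mmax_sol hM)
  obtain ⟨U, hU⟩ := ex_kappa_compl hM hK
  obtain ⟨g, hg, e⟩ := (kappa_compl_context hM hU).1.exists_conj_eq hE (mmax_sol hM)
  exact ⟨_, _, hU.conj_of_mem hg, by rw [e, S14.conj_sup]⟩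

/-- B&G Theorem 15.8. -/
theorem tau2_P2type_signalizer {r : ℕ} [Fact r.Prime] {M Ms U K R H : Subgroup G} (h : KappaCompl M U K)
    (hM : TypeP2 M) (hMs : Mx Ms) (hC : 𝐂(K) ≤ Ms) (hR : Syl r R U) (hH : Mx H) (hN : 𝐍(R) ≤ H)
    (h2 : (tau2 H).Nonempty)
    (hDr : r ∈ DD G := by dd) : (Nat.card K).Prime ∧ tau2 H = {Nat.card K} ∧ tau2 M = ∅ := by
  have hq := (Ptype_structure_g hM h.hallK).2.1
  obtain ⟨L, hL, -, huniq, ⟨hKs, -⟩, ⟨hKK, -⟩, -⟩ := Ptype_embedding hM.1 h.hallK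
  obtain rfl : Ms = L := (huniq K le_rfl hq).eq hMs hC
  obtain ⟨hHF, hUH, -, -, hKF, hD⟩ := P2type_signalizer h hM hMs hC hR hH hN
  set q := Nat.card K with hqdef
  haveI : Fact q.Prime := ⟨hq⟩
  have hKL : K ≤ sigmaCore Ms := hKK ▸ inf_le_left
  have hFab : IsMulCommutative 𝐅(H ⊓ Ms) := sigma'_nil_abelian hH ((Fitting_le _).trans hD.le)
    (hD.pi.of_le (Fitting_le _)) (Fitting_nil _)
  have key : ∀ (p : ℕ) [Fact p.Prime] (A : Subgroup G), p ∈ tau2 H → Elem p 2 A (H ⊓ Ms) →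
      p = q ∧ ¬ IsMulCommutative 𝐎({q}, Ms) := by
    intro p _ A hp hA
    obtain ⟨⟨hAn, -⟩, ⟨hCA, -⟩, -⟩ := tau2_compl_context hH hD hp hA
    have hAK : A ≤ 𝐂(K) := abelian_cent' hFab (Fitting_max (abelian_nil hA.abelian) hAn) hKF
    have hAL := hA.mono (inf_le_right : H ⊓ Ms ≤ Ms)
    have hps : p ∈ sigma Ms := by
      by_contra hs
      exact ne_bot_of_prime hq (eq_bot_mono (tau2_context hMs (tau2_of_elem hMs hAL hs) hAL).2.2.1
        (le_inf hKL (cent_symm hAK)))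
    have hAs : A ≤ sigmaCore Ms := (Msigma_Hall hMs).ge_of_normal (Msigma_nml Ms).norm hAL.le (hA.pi hps)
    have hQ : Syl q 𝐎({q}, Ms) (sigmaCore Ms) ∧ A ≤ 𝐅(Ms) := by
      by_cases he : fittingHallOf Ms = sigmaCore Ms
      · have hS := Fcore_pcore_Sylow (M := Ms) (p := q) (he ▸ card_dvd hKL)
        exact ⟨hS.of_le (he ▸ pcore_le_Fcore hS) (Msigma_le Ms), hAs.trans (he ▸ Fcore_sub_Fitting Ms)⟩
      · obtain ⟨-, -, hS⟩ := Fcore_structure_abc hMs hKs he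
        rw [hKK] at hS
        obtain ⟨D, hD'⟩ := Hall.exists {q}ᶜ (sub_mmax_sol hMs (Msigma_le Ms))
        obtain ⟨-, -, -, -, -, -, h1, -⟩ := Fcore_structure hMs hKs he (by rw [hKK]) hD'
        refine ⟨hS.of_le ((pcore_le_Fcore hS).trans (Fcore_sub_Msigma hMs)) (Msigma_le Ms),
          fun y hy => (h1 y (hAs hy)).2 fun a ha => ?_⟩
        rw [hKK] at ha
        rw [← mem_cent.1 (hAK hy) a ha]
        simp
    have hQu := (Ptype_structure_e hL hKs (by rw [hKK]) hQ.1).1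
    have hnc : ¬ 𝐎({q}, Ms) ≤ 𝐂(A) := fun h1 =>
      hHF.not_typeP (hQu.eq hH ((h1.trans hCA).trans inf_le_left) ▸ hL)
    have hpq : p = q := by
      by_contra hpq
      exact hnc (cent_symm (nil_cent_of_coprime (Fitting_nil Ms) hQ.2 (pcore_sub_Fitting q Ms)
        (coprime_pgroups hA.pgroup hQ.1.pgroup hpq)))
    subst hpq
    exact ⟨rfl, fun h1 => hnc (abelian_cent' h1 le_rfl (le_pcore_of_le_Fitting hQ.2 hA.pgroup))⟩
  obtain ⟨p, hp⟩ := h2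
  haveI : Fact p.Prime := ⟨tau2_prime hp⟩
  obtain ⟨A, hA⟩ := ex_tau2Elem hH hD hp
  obtain ⟨rfl, hna⟩ := key p A hp hA
  obtain ⟨h1, ⟨hX, -⟩, -⟩ := nonabelian_tau2 hH hD hp hA (pcore_pgroup q Ms) hna
  refine ⟨hq, h1, Set.eq_empty_of_forall_notMem fun s hs => ?_⟩
  haveI : Fact s.Prime := ⟨tau2_prime hs⟩
  obtain ⟨hE, -, hsd, ⟨-, hreg⟩, -⟩ := kappa_compl_context hM.1.1 h
  obtain ⟨B, hB⟩ := ex_tau2Elem hM.1.1 hE hs
  have hBU : B ≤ U := h.le_U hM.1.1 hB.le (hB.pi fun hk => kappa_tau2' hM.1.1 hk hs)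
  have hXU : A ⊓ 𝐂(sigmaCore H) ≤ 𝐂(U) := inf_le_right.trans (cent_anti hUH)
  have hXE := (hXU.trans (cent_anti hBU)).trans (tau2_compl_context hM.1.1 hE hs hB).2.1.1
  obtain ⟨g, hg, hgX⟩ := (h.hallK.of_le le_sup_right hE.le).exists_conj_le (sub_mmax_sol hM.1.1 hE.le) hXE
    (S14.pigrp_of_card hX (h.hallK.pi.mem hq dvd_rfl))
  have h3 := hreg.cent hgX (mt S14.conj_eq_bot.1 (S14.ne_bot_of_card hX))
  have h4 := S14.conj_mono g hXU
  rw [S14.conj_cent, hsd.nml.conj_eq hg] at h4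
  exact hB.ne_bot two_ne_zero (eq_bot_mono h3 (le_inf hBU (hBU.trans (cent_symm h4))))

/-- A maximal subgroup of type `F` with `τ₂(M) = ∅` is a Frobenius group. -/
theorem TypeF.frob_of_tau2 {M E : Subgroup G} (hM : TypeF M) (h2 : tau2 M = ∅) (hE : Hall (sigma M)ᶜ E M) :
    Frob (sigmaCore M) E M := by
  have hsd := sdprod_sigma hM.1 hE
  refine ⟨hsd, Msigma_ne_bot hM.1, fun h => ?_, semiReg_of_prime fun X hX hp => ?_⟩
  · rw [h] at hsd
    have h1 := Msigma_der1 hM.1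
    rw [hsd.eq_of_right_bot] at h1
    exact (Core.commutator_lt_of_isSolvable (mmax_sol hM.1) (mmax_ne_bot hM.1)).not_ge h1
  · haveI : Fact (Nat.card X).Prime := ⟨hp⟩
    by_contra hne
    have h1 := (partition_pi_sigma_compl hM.1 hE).1 (card_dvd hX)
    rw [h2] at h1
    have h3 : Nat.card X ∈ kappa M :=
      (mem_kappa_iff hM.1).2 ⟨by simpa using h1, X, Elem.of_card (hX.trans hE.le) rfl, hne⟩
    rw [hM.2] at h3
    exact h3

/-- B&G Corollary 15.9(a), (b). -/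
theorem nonFtype_signalizer_base {M : Subgroup G} {x : G} (hx : x ≠ 1) (hM : SigMax x M) (hC : ¬ 𝐂[x] ≤ M)
    (hN : ¬ TypeF (sigBase x)) :
    TypeF M ∧ TypeP2 (sigBase x) ∧
    ∃ E : Subgroup G, Hall (sigma M)ᶜ E M ∧ IsCyclic E ∧ Frob (sigmaCore M) E M := by
  have hmany := (sigMany_iff hx hM).2 hC
  obtain ⟨huniq, -, hx2, htype⟩ := FT_signalizer_context ⟨hx, M, hM⟩ hmany
  obtain ⟨-, hsd, h2s, -⟩ := FT_signalizer_context_mmax hx hmany hM
  have hP2 := htype.resolve_left hN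
  have hNm := huniq.max
  obtain ⟨U, K, hUK, e⟩ := exists_kappaCompl_eq hNm (sigma_compl_Hall hNm hsd)
  obtain ⟨r, hr, hrd⟩ := Nat.exists_prime_and_dvd (mt orderOf_eq_one_iff.1 hx)
  haveI : Fact r.Prime := ⟨hr⟩
  have hr2 := hx2 r hr hrd
  obtain ⟨R, hR⟩ := Syl.exists r U
  have hRN := hR.of_Hall hUK.hallU (by
    rintro (h | h)
    exacts [tau2_sigma' hr2 h, kappa_tau2' hNm h hr2])
  have hNR : 𝐍(R) ≤ M := by
    refine norm_noncyclic_sigma hM.1 (h2s hr2) hR.pgroup ((hR.le.trans (le_sup_left.trans e.le)).trans inf_le_left)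
      fun h => ?_
    have := rk_le_one_of_cyclic (p := r) h
    rw [hRN.rk_eq, tau2_rk hr2] at this
    omega
  obtain ⟨Ns, hNs, hCK⟩ := mmax_exists (mFT_cent_proper ((nontriv_kappa hNm hUK.hallK).2 hP2.1))
  obtain ⟨hF, -, -, -, -, hE⟩ := P2type_signalizer hUK hP2 hNs hCK hR hM.1 hNR
  have h2 : tau2 M = ∅ := by
    by_contra h
    have := (tau2_P2type_signalizer hUK hP2 hNs hCK hR hM.1 hNR (Set.nonempty_iff_ne_empty.2 h)).2.2
    rw [this] at hr2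
    exact hr2
  refine ⟨hF, hP2, _, hE, ?_, hF.frob_of_tau2 h2 hE⟩
  obtain ⟨E₁, E₂, E₃, hc, -⟩ := ex_tau1_compl hM.1 hE bot_le PiGrp.bot
  obtain ⟨g, hg, hgM⟩ := SetLike.not_le_iff_exists.1 hC
  have hxF : x ∈ 𝐅(M) := Fitting_max (notP1type_Msigma_nil (Or.inl hF)) (Msigma_nml M) hM.2
  have hne : 𝐅(M) ⊓ g ⋆ 𝐅(M) ≠ ⊥ := ne_bot_of_mem (mem_inf.2 ⟨hxF, by
    rw [← S14.conj_eq_of_mem_cent1 hg]; exact S14.conj_mem_conj.2 hxF⟩) hx
  have h3 := ((nonTI_Fitting_structure hM.1 hgM hne).2.2.2.1 _ _ _ _ hc).2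
  have h4 : E₂ = ⊥ := hc.hall₂.eq_bot_iff.2 (by rw [h2]; exact fun _ _ _ h => h)
  rw [h4] at h3
  rw [← h3.eq_of_left_bot]
  exact (sigma_compl_context hM.1 hc).2.2.1.1

end Cfsg.Lib.BG.Z
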