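import Cfsg.Agent.Lib.BG.T16_1
import Cfsg.Agent.Lib.ZB.T15_8

/-!
# B&G Proposition 16.1: the types of maximal subgroups
-/

set_option autoImplicit false
set_option linter.unusedVariables false
set_option linter.unusedSectionVars false
set_option linter.style.haveILetI false

namespace Cfsg.Lib.BG.Z

open Subgroup
open scoped Cfsg.Lib.Transfer

variable {G : Type*} [Group G] [Finite G]

/-! ### TI-subsets -/

theorem isTISubset_iff {H M : Subgroup G} (hN : 𝐍(H) = M) :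
    IsTISubset (H : Set G) ↔ ∀ g : G, g ∉ M → H ⊓ g ⋆ H = ⊥ := by
  subst hN
  refine ⟨fun h g hg => eq_bot_iff.2 fun x hx => ?_, fun h g hg x hx hx' => ?_⟩
  · refine h g⁻¹ (fun h' => hg (by simpa using inv_mem h')) x hx.1 ?_
    simpa using S14.mem_conj.1 hx.2
  · by_contra h1
    exact S14.conj_ne_one h1 g (mem_bot.1 (h g hg ▸ (⟨hx', S14.conj_mem_conj.2 hx⟩ : _ ∈ H ⊓ g ⋆ H)))

theorem isTISubset_iff_normedTI {H M : Subgroup G} (hN : 𝐍(H) = M) (h1 : H ≠ ⊥) :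
    IsTISubset (H : Set G) ↔ NormedTI ((H : Set G) \ {1}) M := by
  rw [isTISubset_iff hN, normedTI_sharp_iff hN.ge h1]

/-- A set that is invariant under `L` and that only elements of `L` can conjugate back into itself is a TI-subset
(no nonemptiness needed). -/
theorem isTISubset_of_conj_iff {A : Set G} {L : Subgroup G}
    (h : ∀ a ∈ A, ∀ g : G, g * a * g⁻¹ ∈ A ↔ g ∈ L) : IsTISubset A :=
  fun g hg x hx hx' => NormedTI.isTISubset ⟨⟨x, hx⟩, h⟩ g hg x hx hx'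

/-! ### Type `F` -/

theorem isOfTypeF_of_data {L U U₁ U₀ : Subgroup G} (hs : Group.IsSolvable L) (ho : Odd (Nat.card L))
    (hH : fittingHallOf L ≠ ⊥) (hsd : SD (fittingHallOf L) U L) (hU : U ≠ ⊥) (h₁ : Nml U₁ U)
    (hab : IsMulCommutative U₁) (hc : ∀ x ∈ fittingHallOf L, x ≠ 1 → U ⊓ 𝐂[x] ≤ U₁) (h₀ : U₀ ≤ U)
    (he : Monoid.exponent U₀ = Monoid.exponent U) (hreg : SemiReg (fittingHallOf L) U₀) : IsOfTypeF L := by
  have hUL := hsd.right_le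
  have hmem : ∀ x : L, x ∈ fittingHall L ↔ (x : G) ∈ fittingHallOf L := fun x => by
    rw [← Fcore_subgroupOf, mem_subgroupOf]
  refine ⟨hs, ho, fun h => hH ?_, fun h => hU ?_, U.subgroupOf L, fun h => hU ?_, ?_,
    ⟨U₁.subgroupOf L, comap_mono h₁.le, ?_, ?_, ?_⟩, U₀.subgroupOf L, comap_mono h₀, ?_, ?_⟩
  · rw [fittingHallOf, h, Subgroup.map_bot]
  · refine eq_bot_mono hsd.inf (le_inf (fun x hx => (hmem ⟨x, hUL hx⟩).1 ?_) le_rfl)
    rw [h]; trivial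
  · rw [subgroupOf_eq_bot, disjoint_iff, inf_eq_left.2 hUL] at h; exact h
  · rw [← Fcore_subgroupOf]; exact hsd.isComplement'
  · refine le_norm_iff.2 fun a ha x hx => ?_
    exact mem_subgroupOf.2 (conj_mem_of_norm (H := U₁) (h₁.norm ha) hx)
  · refine abelian_iff.2 (le_cent_iff.2 fun a ha b hb => Subtype.ext ?_)
    exact le_cent_iff.1 (abelian_cent hab) a ha b hb
  · intro x hx hx1 u hu
    refine hc x ((hmem x).1 hx) (fun e => hx1 (Subtype.ext e)) ⟨hu.1, mem_cent1.2 ?_⟩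
    exact congrArg Subtype.val (mem_cent1.1 hu.2)
  · rw [Monoid.exponent_eq_of_mulEquiv (subgroupOfEquivOfLe (h₀.trans hUL)),
      Monoid.exponent_eq_of_mulEquiv (subgroupOfEquivOfLe hUL), he]
  · intro u hu hu1 x hx e
    refine Subtype.ext (mem_bot.1 (hreg u hu (fun e => hu1 (Subtype.ext e)) ▸
      (⟨(hmem x).1 hx, mem_cent1.2 ?_⟩ : (x : G) ∈ fittingHallOf L ⊓ 𝐂[(u : G)])))
    exact (congrArg Subtype.val e).symm

variable [Sz G] {M K U V W₁ W₂ : Subgroup G}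

theorem norm_Fcore_eq (hM : Mx M) : 𝐍(fittingHallOf M) = M :=
  mmax_normal hM (Fcore_nml M) (Fcore_ne_bot hM)

theorem norm_Fitting_eq (hM : Mx M) : 𝐍(𝐅(M)) = M :=
  mmax_normal hM (Fitting_nml M) (mmax_Fitting_ne_bot hM)

theorem TypeF.compl_ne_bot (hM : TypeF M) (hU : Hall (sigma M)ᶜ U M) : U ≠ ⊥ := fun h =>
  hM.not_typeP ((trivg_kappa_compl hM.1 (hM.kappaCompl hU)).1 h).1

theorem TypeF.isOfTypeF (hM : TypeF M) : IsOfTypeF M := by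
  obtain ⟨U, hU⟩ := Hall.exists (sigma M)ᶜ (mmax_sol hM.1)
  obtain ⟨-, -, -, ⟨U₁, h₁, hab, hc⟩, U₀, h₀, he, hreg⟩ := kappa_structure hM.1 (hM.kappaCompl hU)
  have e := Fcore_eq_of_notP1 (Or.inl hM)
  exact isOfTypeF_of_data (mmax_sol hM.1) (mFT_odd M) (Fcore_ne_bot hM.1) (e ▸ sdprod_sigma hM.1 hU)
    (hM.compl_ne_bot hU) h₁ hab (e ▸ hc) h₀ he (e ▸ hreg)

/-- The trichotomy of type I. -/
theorem TypeF.cases (hM : TypeF M) : NormedTI ((fittingHallOf M : Set G) \ {1}) M ∨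
    (IsMulCommutative (fittingHallOf M) ∧ rank (fittingHallOf M) = 2) ∨
    ((∀ p : ℕ, p.Prime → p ∣ Nat.card (fittingHallOf M) → ∀ m ∈ M, m ^ (p - 1) ∈ fittingHallOf M) ∧
      ∃ p : ℕ, p.Prime ∧ p ∣ Nat.card (fittingHallOf M) ∧ IsCyclic 𝐎({p}ᶜ, fittingHallOf M)) := by
  by_cases h : NormedTI ((fittingHallOf M : Set G) \ {1}) M
  · exact Or.inl h
  rw [normedTI_sharp_iff (Fcore_nml M).norm (Fcore_ne_bot hM.1)] at h
  push Not at h
  obtain ⟨g, hg, hX⟩ := h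
  obtain ⟨⟨-, e⟩, -, -, -, h⟩ := nonTI_Fitting_structure hM.1 hg (ne_bot_mono hX
    (inf_le_inf (Fcore_sub_Fitting M) (S14.conj_mono g (Fcore_sub_Fitting M))))
  rcases h with h | ⟨p, hp, -, hs, -, -, hc, h | h⟩
  · exact Or.inr (Or.inl h.2)
  · exact Or.inr (Or.inr ⟨h, p, hp, e ▸ S14.sigma_dvd_Ms hM.1 hs, hc⟩)
  · exact absurd h.2.1.1 hM.not_typeP

/-! ### Type `P` -/

theorem TypeP.der_sd (hM : TypeP M) (hK : Hall (kappa M) K M) :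
    SD ⁅M, M⁆ K M ∧ Hall (kappa M)ᶜ ⁅M, M⁆ M :=
  let ⟨_, h⟩ := S14.exists_dual hM hK
  h.der_sd

theorem TypeP.cent1 (hM : TypeP M) (hK : Hall (kappa M) K M) {x : G} (hx : x ∈ K) (hx1 : x ≠ 1) :
    M ⊓ 𝐂[x] = K ⊔ (sigmaCore M ⊓ 𝐂(K)) :=
  let ⟨_, h⟩ := S14.exists_dual hM hK
  h.cent1 hx hx1

theorem TypeP.der_cent1 (hM : TypeP M) (hK : Hall (kappa M) K M) {x : G} (hx : x ∈ K) (hx1 : x ≠ 1) :
    ⁅M, M⁆ ⊓ 𝐂[x] = sigmaCore M ⊓ 𝐂(K) := by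
  have h1 : ⁅M, M⁆ ⊓ 𝐂[x] = (M ⊓ 𝐂[x]) ⊓ ⁅M, M⁆ := by
    rw [inf_right_comm, inf_eq_right.2 (der_le M)]
  rw [h1, hM.cent1 hK hx hx1, modular_right (inf_le_left.trans (Msigma_der1 hM.1))
    (norm_of_cent inf_le_right), inf_comm K, (hM.der_sd hK).1.inf, bot_sup_eq]

omit [Finite G] [Sz G] in
theorem isSelfNormalizingCyclic_of_normedTI (h₁ : W₁ ≠ ⊥) (h₂ : W₂ ≠ ⊥) (hdp : DP W₁ W₂ (W₁ ⊔ W₂))
    (hc : IsCyclic ↥(W₁ ⊔ W₂)) (h : NormedTI (zhat W₁ W₂) (W₁ ⊔ W₂)) : IsSelfNormalizingCyclic W₁ W₂ := by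
  refine ⟨h₁, h₂, hdp.inf, le_cent_iff.1 hdp.cent, hc, fun X hX ⟨a, ha⟩ => ?_⟩
  ext g
  rw [mem_set_normalizer_iff]
  refine ⟨fun hg => (h.2 a (hX ha) g).1 (hX ((hg a).1 ha)), fun hg x => ?_⟩
  have key : ∀ y ∈ X, g * y * g⁻¹ = y := fun y hy =>
    S14.conj_eq_of_mem_cent1 (cent_le_cent1 (hX hy).1 (abelian_cent (abelian_of_cyclic hc) hg))
  refine ⟨fun hx => (key x hx).symm ▸ hx, fun hx => ?_⟩
  have := key _ hx
  have e : g * x * g⁻¹ = x := by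
    have h2 : g * (g * x * g⁻¹) * g⁻¹ = g * x * g⁻¹ := this
    exact mul_left_cancel (mul_right_cancel h2)
  exact e ▸ hx

theorem TypeP.typePWith (hM : TypeP M) (hK : Hall (kappa M) K M) (hV : SD (fittingHallOf M) V ⁅M, M⁆)
    (hn : K ≤ 𝐍(V)) : IsTypePWith M K V (sigmaCore M ⊓ 𝐂(K)) := by
  obtain ⟨L, hL⟩ := S14.exists_dual hM hK
  obtain ⟨-, ⟨h2, hF, -⟩, ⟨-, hnil⟩, hFd⟩ := Fitting_structure hM.1
  obtain ⟨-, -, h3, h4, h5⟩ := Ptype_cyclics hM hK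
  exact ⟨hL.ne_bot, kappa_Hall_cyclic hM.1 hK, hK.coprime, hL.der_sd.1.isComplIn,
    hnil V hV.right_le (by rw [inf_comm, hV.inf]), hn, hV.isComplIn, h5, hF ▸ h2, hF, hFd hM, le_inf h4 h3,
    fun x hx hx1 => hM.der_cent1 hK hx hx1,
    isSelfNormalizingCyclic_of_normedTI hL.ne_bot hL.symm.ne_bot hL.dp hL.cyclic hL.normedTI⟩

theorem TypeP.exists_typePWith (hM : TypeP M) (hK : Hall (kappa M) K M) :
    ∃ V : Subgroup G, IsTypePWith M K V (sigmaCore M ⊓ 𝐂(K)) := by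
  obtain ⟨hsd, hH⟩ := hM.der_sd hK
  obtain ⟨V, hV, hn⟩ := Hall.exists_inv {q | q ∣ Nat.card (fittingHallOf M)}ᶜ hsd.norm
    (hK.pi.coprime hH.pi) (sub_mmax_sol hM.1 (der_le M))
  have hF := (Fitting_structure hM.1).2.2.1.1
  exact ⟨V, hM.typePWith hK (((Fcore_Hall M).of_le hF (der_le M)).sd (norm_Fcore (der_le M)) hV) hn⟩

/-- The data of a maximal subgroup of type `P` in the sense of Peterfalvi, in terms of `κ(M)` and `M_σ`. -/
theorem of_typePWith (hM : Mx M) (h : IsTypePWith M W₁ V W₂) :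
    TypeP M ∧ Hall (kappa M) W₁ M ∧ sigmaCore M ⊓ 𝐂(W₁) = W₂ := by
  have hsd : SD ⁅M, M⁆ W₁ M := SD.of_isComplIn h.W₁_compl (Nml.der_self M).norm
  have hW₂ : W₂ ≤ sigmaCore M := (h.W₂_le.trans inf_le_left).trans (Fcore_sub_Msigma hM)
  have hc : W₂ ≤ 𝐂(W₁) := cent_symm (le_cent_iff.2 h.selfNormalizing.2.2.2.1)
  have hH := Hall.of_coprime hsd.right_le h.W₁_hall
  have hk : PiGrp (kappa M) W₁ := by
    intro p hp hd
    haveI := Fact.mk hp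
    have hd' : ¬ p ∣ Nat.card ↥⁅M, M⁆ := hsd.relIndex_right ▸ hH.not_dvd hp hd
    obtain ⟨P, hP⟩ := Syl.exists p W₁
    obtain ⟨X, hX⟩ := Elem.exists_one hd
    refine (mem_kappa_iff hM).2 ⟨Or.inl ⟨hp, fun hs => hd' ((S14.sigma_dvd_Ms hM hs).trans
      (card_dvd (Msigma_der1 hM))), hd.trans (card_dvd hsd.right_le), hd',
      S14.rank1_of_cyclic_syl (hP.of_Hall hH hd) (cyclic_of_le h.W₁_cyclic hP.le)⟩, X,
      hX.mono hsd.right_le, ne_bot_mono h.selfNormalizing.2.1 (le_inf hW₂ (hc.trans (cent_anti hX.le)))⟩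
  obtain ⟨K, hK, hle⟩ := Hall.exists_ge (mmax_sol hM) hsd.right_le hk
  have hP : TypeP M := (nontriv_kappa hM hK).1 (ne_bot_mono h.W₁_ne hle)
  obtain rfl : W₁ = K := eq_of_le_of_card_le hle
    (by rw [← hsd.relIndex_left, ← (hP.der_sd hK).1.relIndex_left])
  obtain ⟨x, hx, hx1⟩ := exists_ne_one h.W₁_ne
  exact ⟨hP, hK, by rw [← hP.der_cent1 hK hx hx1, h.W₂_centralizer x hx hx1]⟩

theorem isOfTypeP_iff (hM : Mx M) : IsOfTypeP M ↔ TypeP M := by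
  refine ⟨fun ⟨_, _, _, h⟩ => (of_typePWith hM h).1, fun h => ?_⟩
  obtain ⟨K, hK⟩ := Hall.exists (kappa M) (mmax_sol hM)
  obtain ⟨V, hV⟩ := h.exists_typePWith hK
  exact ⟨_, _, _, hV⟩

theorem not_isOfTypeP_iff (hM : Mx M) : ¬ IsOfTypeP M ↔ TypeF M := by
  rw [isOfTypeP_iff hM]
  exact ⟨(typeF_or_typeP hM).resolve_right, TypeF.not_typeP⟩

omit [Finite G] [Sz G] in
theorem typePWith_sd (h : IsTypePWith M W₁ V W₂) : SD (fittingHallOf M) V ⁅M, M⁆ :=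
  SD.of_isComplIn h.U_compl (norm_Fcore (der_le M))

/-- For type `P₂`, a complement to `M_σ` in `M'` is a Hall `(σ ∪ κ)'`-subgroup of `M`. -/
theorem TypeP2.hall_of_sd (hM : TypeP2 M) (hV : SD (sigmaCore M) V ⁅M, M⁆) :
    Hall (sigma M ∪ kappa M)ᶜ V M := by
  obtain ⟨K, hK⟩ := Hall.exists (kappa M) (mmax_sol hM.1.1)
  have hH := (hM.1.der_sd hK).2
  have h1 : Hall (sigma M)ᶜ V ⁅M, M⁆ := Hall.of_sd_right hV (by
    rw [compl_compl]; exact (Msigma_Hall hM.1.1).of_le hV.left_le (der_le M))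
  refine Hall.trans (h1.congr fun q hq hd => ?_) hH (Set.compl_subset_compl.2 Set.subset_union_right)
  have := hH.pi.mem hq hd
  simp only [Set.mem_compl_iff, Set.mem_union, not_or] at this ⊢
  tauto

theorem TypeP2.kappaCompl (hM : TypeP2 M) (h : IsTypePWith M W₁ V W₂) : KappaCompl M V W₁ :=
  ⟨(of_typePWith hM.1.1 h).2.1, hM.hall_of_sd (Fcore_eq_of_notP1 (Or.inr hM) ▸ typePWith_sd h), h.U_normal⟩

theorem TypeP2.not_norm_le (hM : TypeP2 M) (h : KappaCompl M U K)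
    (hD : PiGrp (DD G) U := by dd) : ¬ 𝐍(U) ≤ M := by
  obtain ⟨X, hX, hr⟩ := exists_prime_le ((typeP2_iff hM.1.1 h).1 hM).2
  haveI := Fact.mk hr
  obtain ⟨R, hR⟩ := Syl.exists (Nat.card X) U
  obtain ⟨H, hH, hN⟩ := mFT_pgroup_norm_mmax hR.pgroup (hR.ne_bot' (card_dvd hX))
  obtain ⟨L, hL, hC⟩ := mmax_exists (mFT_cent_proper ((typeP2_iff hM.1.1 h).1 hM).1)
  exact fun hle => (P2type_signalizer h hM hL hC hR hH hN).2.2.2.1 (inf_le_right.trans hle)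

theorem TypeP1.der_eq (hM : TypeP1 M) : sigmaCore M = ⁅M, M⁆ :=
  let ⟨_, hK⟩ := Hall.exists (kappa M) (mmax_sol hM.1.1)
  (P1type_structure hM hK).2.1

theorem typePWith_eq_bot_iff (hM : Mx M) (h : IsTypePWith M W₁ V W₂) :
    V = ⊥ ↔ TypeP1 M ∧ fittingHallOf M = sigmaCore M := by
  have hsd := typePWith_sd h
  constructor
  · rintro rfl
    refine ⟨by_contra fun h1 => ?_, le_antisymm (Fcore_sub_Msigma hM)
      (hsd.eq_of_right_bot ▸ Msigma_der1 hM)⟩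
    have h2 : TypeP2 M := ⟨(of_typePWith hM h).1, h1⟩
    exact ((typeP2_iff hM (h2.kappaCompl h)).1 h2).2 rfl
  · rintro ⟨h1, e⟩
    refine eq_bot_mono hsd.inf (le_inf ?_ le_rfl)
    rw [e, h1.der_eq]; exact hsd.right_le

theorem norm_sylow_Msigma_le {p : ℕ} [Fact p.Prime] {P : Subgroup G} (hM : Mx M)
    (hP : Syl p P (sigmaCore M)) (h1 : P ≠ ⊥) : 𝐍(P) ≤ M := by
  have hs : p ∈ sigma M := (Msigma_pi M).mem Fact.out (hP.dvd_card' h1)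
  exact norm_sigma_Sylow hs (hP.of_Hall (Msigma_Hall hM) hs)

theorem typePWith_D (h1 : TypeP1 M) (h : IsTypePWith M W₁ V W₂) : PiGrp (DD G) V :=
  (Msigma_D M).of_le ((SD_right (typePWith_sd h)).trans h1.der_eq.ge)

theorem typePWith_norm_le (h1 : TypeP1 M) (h : IsTypePWith M W₁ V W₂) (hV : V ≠ ⊥) : 𝐍(V) ≤ M := by
  have hsd := typePWith_sd h
  obtain ⟨X, hX, hp⟩ := exists_prime_le hV
  haveI := Fact.mk hp
  have hH : Hall {q | q ∣ Nat.card (fittingHallOf M)}ᶜ V ⁅M, M⁆ := Hall.of_sd_right hsd (by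
    rw [compl_compl]; exact (Fcore_Hall M).of_le hsd.left_le (der_le M))
  have hP : Syl (Nat.card X) 𝐎({Nat.card X}, V) V := nil_pcore_Hall h.U_nilpotent _
  refine (norm_pcore le_rfl _).trans
    (norm_sylow_Msigma_le (p := Nat.card X) h1.1.1 ?_ (hP.ne_bot' (card_dvd hX)))
  rw [h1.der_eq]
  exact hP.of_Hall hH (hH.pi.mem hp (card_dvd hX))

theorem Fitting_TI_of_P2 (hM : TypeP2 M) : NormedTI ((𝐅(M) : Set G) \ {1}) M := by
  by_contra h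
  rcases (nonTI_Fitting_facts hM.1.1 h).1 with h | h
  · exact h.not_typeP hM.1
  · exact hM.2 h

theorem Fitting_TI_of_ne (hM : Mx M) (hne : fittingHallOf M ≠ sigmaCore M) :
    NormedTI ((𝐅(M) : Set G) \ {1}) M := by
  by_contra h
  exact hne (nonTI_Fitting_facts hM h).2.1

theorem TypeP.Fcore_der (hM : TypeP M) : fittingHallOf ⁅M, M⁆ = fittingHallOf M :=
  let ⟨_, hK⟩ := Hall.exists (kappa M) (mmax_sol hM.1)
  le_antisymm (Fcore_le_Fcore_of_Hall (hM.der_sd hK).2 (Nml.der_self M).norm)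
    (Fcore_le_Fcore_of_le (Fitting_structure hM.1).2.2.1.1 (der_le M))

theorem TypeP2.der_isOfTypeF (hM : TypeP2 M) : IsOfTypeF ↥⁅M, M⁆ := by
  obtain ⟨K, hK⟩ := Hall.exists (kappa M) (mmax_sol hM.1.1)
  obtain ⟨U, hU⟩ := ex_kappa_compl hM.1.1 hK
  obtain ⟨hK1, hU1⟩ := (typeP2_iff hM.1.1 hU).1 hM
  obtain ⟨⟨hsd, -⟩, hd, -, ⟨U₁, h₁, hab, hc⟩, U₀, h₀, he, hreg⟩ := kappa_structure hM.1.1 hU
  have e := hM.1.Fcore_der.trans (Fcore_eq_of_notP1 (Or.inr hM))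
  rw [(hd hK1).1] at hsd
  exact isOfTypeF_of_data (sub_mmax_sol hM.1.1 (der_le M)) (mFT_odd _) (e ▸ Msigma_ne_bot hM.1.1)
    (e ▸ hsd) hU1 h₁ hab (e ▸ hc) h₀ he (e ▸ hreg)

/-- All the facts in the definition of type II, for given data. -/
theorem TypeP2.typeII_facts (hM : TypeP2 M) (h : IsTypePWith M W₁ V W₂) : V ≠ ⊥ ∧ (Nat.card W₁).Prime ∧
    IsTISubset (𝐅(M) : Set G) ∧ IsMulCommutative V ∧ ¬ (𝐍(V) ≤ M ∧ PiGrp (DD G) V) ∧ IsOfTypeF ↥⁅M, M⁆ ∧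
    fittingHallOf ⁅M, M⁆ = fittingHallOf M := by
  have hU := hM.kappaCompl h
  obtain ⟨hK1, hU1⟩ := (typeP2_iff hM.1.1 hU).1 hM
  exact ⟨hU1, (Ptype_structure_g hM hU.hallK).2.1, (isTISubset_iff_normedTI (norm_Fitting_eq hM.1.1)
    (mmax_Fitting_ne_bot hM.1.1)).2 (Fitting_TI_of_P2 hM), ((kappa_structure hM.1.1 hU).2.1 hK1).2,
    fun hh => hM.not_norm_le hU hh.2 hh.1, hM.der_isOfTypeF, hM.1.Fcore_der⟩

/-- All the facts common to the definitions of types III and IV, for given data. -/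
theorem typeIII_IV_facts (hM : Mx M) (hne : fittingHallOf M ≠ sigmaCore M)
    (h : IsTypePWith M W₁ V W₂) : V ≠ ⊥ ∧ (Nat.card W₁).Prime ∧ IsTISubset (𝐅(M) : Set G) ∧ 𝐍(V) ≤ M ∧ PiGrp (DD G) V := by
  have hV : V ≠ ⊥ := fun e => hne ((typePWith_eq_bot_iff hM h).1 e).2
  exact ⟨hV, (Fcore_structure_abc hM (of_typePWith hM h).2.1 hne).2.1.1,
    (isTISubset_iff_normedTI (norm_Fitting_eq hM) (mmax_Fitting_ne_bot hM)).2 (Fitting_TI_of_ne hM hne),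
    typePWith_norm_le (typeP1_of_Fcore_ne hM hne) h hV, typePWith_D (typeP1_of_Fcore_ne hM hne) h⟩

/-- The trichotomy of type V, for given data. -/
theorem typeV_facts (h1 : TypeP1 M) (e : fittingHallOf M = sigmaCore M) (hK : Hall (kappa M) K M) :
    NormedTI ((fittingHallOf M : Set G) \ {1}) M ∨
    (∃ p : ℕ, p.Prime ∧ p ∣ Nat.card (fittingHallOf M) ∧ Nat.card K ∣ p - 1 ∧
      IsCyclic 𝐎({p}ᶜ, fittingHallOf M)) ∨
    (∃ p : ℕ, p.Prime ∧ p ∣ Nat.card (fittingHallOf M) ∧ Nat.card 𝐎({p}, fittingHallOf M) = p ^ 3 ∧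
      Nat.card K ∣ p + 1 ∧ IsCyclic 𝐎({p}ᶜ, fittingHallOf M)) := by
  have hM := h1.1.1
  by_cases h : NormedTI ((fittingHallOf M : Set G) \ {1}) M
  · exact Or.inl h
  rw [normedTI_sharp_iff (Fcore_nml M).norm (Fcore_ne_bot hM)] at h
  push Not at h
  obtain ⟨g, hg, hX⟩ := h
  obtain ⟨-, -, -, -, h⟩ := nonTI_Fitting_structure hM hg (ne_bot_mono hX
    (inf_le_inf (Fcore_sub_Fitting M) (S14.conj_mono g (Fcore_sub_Fitting M))))
  have hsd : SD (fittingHallOf M) K M := e ▸ (P1type_structure h1 hK).1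
  rcases h with h | ⟨p, hp, -, hs, -, -, hc, h | h⟩
  · exact absurd h1.1 h.1.not_typeP
  · have hd : p ∣ Nat.card (fittingHallOf M) := e ▸ S14.sigma_dvd_Ms hM hs
    refine Or.inr (Or.inl ⟨p, hp, hd, ?_, hc⟩)
    obtain ⟨w, hw, rfl⟩ := cyclic_iff.1 (kappa_Hall_cyclic hM hK)
    rw [Nat.card_zpowers, orderOf_dvd_iff_pow_eq_one]
    exact mem_bot.1 (hsd.inf ▸ (⟨h p hp hd w (hK.le hw), pow_mem hw _⟩ : _ ∈ fittingHallOf M ⊓ zpowers w))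
  · exact Or.inr (Or.inr ⟨p, hp, e ▸ S14.sigma_dvd_Ms hM hs, h.1, hsd.relIndex_left ▸ h.2.2, hc⟩)

theorem isOfTypeII_iff (hM : Mx M) : IsOfTypeII M ↔ TypeP2 M := by
  refine ⟨fun ⟨_, _, _, h, hV, _, _, _, hN, _⟩ => ⟨(of_typePWith hM h).1, fun h1 =>
    hN ⟨typePWith_norm_le h1 h hV, typePWith_D h1 h⟩⟩, fun h2 => ?_⟩
  obtain ⟨W₁, V, W₂, h⟩ := (isOfTypeP_iff hM).2 h2.1
  exact ⟨W₁, V, W₂, h, h2.typeII_facts h⟩

theorem Fcore_ne_of_norm_le (hM : Mx M) (h : IsTypePWith M W₁ V W₂) (hV : V ≠ ⊥) (hN : 𝐍(V) ≤ M)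
    (hD : PiGrp (DD G) V := by dd) :
    fittingHallOf M ≠ sigmaCore M := fun e => by
  by_cases h1 : TypeP1 M
  · exact hV ((typePWith_eq_bot_iff hM h).2 ⟨h1, e⟩)
  · have h2 : TypeP2 M := ⟨(of_typePWith hM h).1, h1⟩
    exact h2.not_norm_le (h2.kappaCompl h) hD hN

theorem isOfTypeIII_or_IV_iff (hM : Mx M) :
    IsOfTypeIII M ∨ IsOfTypeIV M ↔ fittingHallOf M ≠ sigmaCore M := by
  constructor
  · rintro (⟨_, _, _, h, hV, _, _, _, hN⟩ | ⟨_, _, _, h, hV, _, _, _, hN⟩) <;>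
      exact Fcore_ne_of_norm_le hM h hV hN.1 hN.2
  · intro hne
    obtain ⟨W₁, V, W₂, h⟩ := (isOfTypeP_iff hM).2 (typeP1_of_Fcore_ne hM hne).1
    obtain ⟨h1, h2, h3, h4⟩ := typeIII_IV_facts hM hne h
    by_cases hab : IsMulCommutative V
    · exact Or.inl ⟨W₁, V, W₂, h, h1, h2, h3, hab, h4⟩
    · exact Or.inr ⟨W₁, V, W₂, h, h1, h2, h3, hab, h4⟩

omit [Sz G] in
theorem cyclic_p'core_iff {p : ℕ} (hp : p.Prime) (H : Subgroup G) :
    IsCyclic 𝐎({p}ᶜ, H) ↔ IsCyclic (pPrimeCore p H) := by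
  haveI := Fact.mk hp
  rw [pcore_p'_eq]
  exact (equivMapOfInjective _ _ H.subtype_injective).isCyclic.symm

omit [Sz G] in
theorem card_pcore_eq {p : ℕ} (hp : p.Prime) (H : Subgroup G) :
    Nat.card 𝐎({p}, H) = Nat.card (pCore p H) := by
  haveI := Fact.mk hp
  rw [pcore_p_eq, card_map_of_injective H.subtype_injective]

theorem isOfTypeV_iff (hM : Mx M) : IsOfTypeV M ↔ TypeP1 M ∧ fittingHallOf M = sigmaCore M := by
  refine ⟨fun ⟨_, _, _, h, hV, _⟩ => (typePWith_eq_bot_iff hM h).1 hV, fun ⟨h1, e⟩ => ?_⟩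
  obtain ⟨W₁, V, W₂, h⟩ := (isOfTypeP_iff hM).2 h1.1
  refine ⟨W₁, V, W₂, h, (typePWith_eq_bot_iff hM h).2 ⟨h1, e⟩, ?_⟩
  rcases typeV_facts h1 e (of_typePWith hM h).2.1 with h | ⟨p, hp, a, b, c⟩ | ⟨p, hp, a, b, c, d⟩
  · exact Or.inl ((isTISubset_iff_normedTI (norm_Fcore_eq hM) (Fcore_ne_bot hM)).2 h)
  · exact Or.inr (Or.inl ⟨p, hp, a, b, (cyclic_p'core_iff hp _).1 c⟩)
  · exact Or.inr (Or.inr ⟨p, hp, a, (card_pcore_eq hp _).symm.trans b, c, (cyclic_p'core_iff hp _).1 d⟩)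

theorem typeCore_eq_Msigma (hM : Mx M) : typeCore M = sigmaCore M := by
  rw [typeCore]
  split_ifs with h
  · exact (typeP1_of_Fcore_ne hM ((isOfTypeIII_or_IV_iff hM).1 h)).der_eq.symm
  · exact not_not.1 (mt (isOfTypeIII_or_IV_iff hM).2 h)

end Cfsg.Lib.BG.Z
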